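import Mathlib
import Cfsg.Agent.Lib.Linalg.SemisimpleClasses

/-!
# Determinants of the centralizer on a block of the rational canonical form

For a monic irreducible `q` over a finite field and `t ≠ 0` there is a multiplication on `F[X]/(q^j)`
with determinant `t ^ j`; hence the centralizer of an endomorphism with an elementary divisor `q ^ j`
contains elements of determinant `t ^ j`.
-/

set_option autoImplicit false

open Polynomial Module
open Cfsg.Agent.Lib.Linalg.RCF Cfsg.Agent.Lib.Linalg.RCFType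

namespace Cfsg.Agent.Lib.ClassNum.BlockDet

universe u v

variable {F : Type u} [Field F]

/-- Intertwined endomorphisms have the same determinant. -/
theorem det_of_intertwine {M N : Type*} [AddCommGroup M] [Module F M] [AddCommGroup N] [Module F N]
    (E : M ≃ₗ[F] N) (f : M →ₗ[F] M) (g : N →ₗ[F] N) (h : ∀ x, g (E x) = E (f x)) :
    LinearMap.det g = LinearMap.det f := by
  have : g = (E : M →ₗ[F] N) ∘ₗ f ∘ₗ (E.symm : N →ₗ[F] M) := by
    refine LinearMap.ext fun x => ?_
    obtain ⟨y, rfl⟩ := E.surjective x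
    simp [h]
  rw [this, LinearMap.det_conj]

/-- Multiplicativity of the determinant of a multiplication along `F[X]/(a b)`. -/
theorem det_mulF_mul {a b : F[X]} (ha : a ≠ 0) (hb : b ≠ 0) (u : F[X]) :
    LinearMap.det (mulF (Q (a * b)) u) =
      LinearMap.det (mulF (Q a) u) * LinearMap.det (mulF (Q b) u) := by
  have hfa : FiniteDimensional F (Q a) := Q_finite_of_ne ha
  have hfb : FiniteDimensional F (Q b) := Q_finite_of_ne hb
  have hfab : FiniteDimensional F (Q (a * b)) := Q_finite_of_ne (mul_ne_zero ha hb)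
  have hle : Submodule.span F[X] {b} ≤
      (Submodule.span F[X] {a * b}).comap (LinearMap.mulLeft F[X] a) := by
    rw [Submodule.span_singleton_le_iff_mem, Submodule.mem_comap, LinearMap.mulLeft_apply]
    exact Submodule.mem_span_singleton_self _
  let ψ₀ : Q b →ₗ[F[X]] Q (a * b) := Submodule.mapQ _ _ (LinearMap.mulLeft F[X] a) hle
  let ψ : Q b →ₗ[F] Q (a * b) := ψ₀.restrictScalars F
  have hψ : ∀ y : F[X], ψ (Submodule.Quotient.mk y) = Submodule.Quotient.mk (a * y) := fun y => rfl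
  have hinj : Function.Injective ψ := by
    rw [← LinearMap.ker_eq_bot, LinearMap.ker_eq_bot']
    intro x hx
    obtain ⟨y, rfl⟩ := Submodule.Quotient.mk_surjective _ x
    rw [hψ, Submodule.Quotient.mk_eq_zero, Submodule.mem_span_singleton] at hx
    obtain ⟨c, hc⟩ := hx
    rw [Submodule.Quotient.mk_eq_zero, Submodule.mem_span_singleton]
    refine ⟨c, ?_⟩
    rw [smul_eq_mul] at hc ⊢
    apply mul_left_cancel₀ ha
    rw [← hc]
    ring
  have hle2 : Submodule.span F[X] {a * b} ≤ (Submodule.span F[X] {a}).comap LinearMap.id := by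
    rw [Submodule.span_singleton_le_iff_mem, Submodule.mem_comap, LinearMap.id_apply,
      Submodule.mem_span_singleton]
    exact ⟨b, by rw [smul_eq_mul, mul_comm]⟩
  let π₀ : Q (a * b) →ₗ[F[X]] Q a := Submodule.mapQ _ _ LinearMap.id hle2
  let π : Q (a * b) →ₗ[F] Q a := π₀.restrictScalars F
  have hπ : ∀ y : F[X], π (Submodule.Quotient.mk y) = Submodule.Quotient.mk y := fun y => rfl
  have hsurj : Function.Surjective π := by
    intro x
    obtain ⟨y, rfl⟩ := Submodule.Quotient.mk_surjective _ x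
    exact ⟨Submodule.Quotient.mk y, hπ y⟩
  set W : Submodule F (Q (a * b)) := LinearMap.range ψ with hW
  have hker : W = LinearMap.ker π := by
    apply le_antisymm
    · rintro _ ⟨x, rfl⟩
      obtain ⟨y, rfl⟩ := Submodule.Quotient.mk_surjective _ x
      rw [LinearMap.mem_ker, hψ, hπ, Submodule.Quotient.mk_eq_zero, Submodule.mem_span_singleton]
      exact ⟨y, by rw [smul_eq_mul, mul_comm]⟩
    · intro x hx
      obtain ⟨y, rfl⟩ := Submodule.Quotient.mk_surjective _ x
      rw [LinearMap.mem_ker, hπ, Submodule.Quotient.mk_eq_zero, Submodule.mem_span_singleton] at hx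
      obtain ⟨c, hc⟩ := hx
      refine ⟨Submodule.Quotient.mk c, ?_⟩
      rw [hψ, ← hc, smul_eq_mul, mul_comm a c]
  set e : Q (a * b) →ₗ[F] Q (a * b) := mulF (Q (a * b)) u with he
  have hψe : ∀ x, e (ψ x) = ψ (mulF (Q b) u x) := by
    intro x
    obtain ⟨y, rfl⟩ := Submodule.Quotient.mk_surjective _ x
    rw [he, mulF_apply, mulF_apply, ← Submodule.Quotient.mk_smul, hψ, hψ, ← Submodule.Quotient.mk_smul]
    congr 1
    rw [smul_eq_mul, smul_eq_mul]
    ring
  have hπe : ∀ x, π (e x) = mulF (Q a) u (π x) := by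
    intro x
    obtain ⟨y, rfl⟩ := Submodule.Quotient.mk_surjective _ x
    rw [he, mulF_apply, mulF_apply, ← Submodule.Quotient.mk_smul, hπ, hπ, ← Submodule.Quotient.mk_smul]
  have hinv : W ≤ W.comap e := by
    rintro _ ⟨x, rfl⟩
    rw [Submodule.mem_comap, hψe]
    exact ⟨_, rfl⟩
  have h1 := LinearMap.det_eq_det_mul_det W e hinv
  -- the restriction
  let E₁ : Q b ≃ₗ[F] W := LinearEquiv.ofInjective ψ hinj
  have hr : LinearMap.det (e.restrict hinv) = LinearMap.det (mulF (Q b) u) := by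
    refine det_of_intertwine E₁ _ _ fun y => ?_
    apply Subtype.ext
    rw [LinearMap.restrict_coe_apply]
    exact hψe y
  -- the quotient
  let E₂ : (Q (a * b) ⧸ W) ≃ₗ[F] Q a :=
    (Submodule.quotEquivOfEq W (LinearMap.ker π) hker).trans (π.quotKerEquivOfSurjective hsurj)
  have hE₂ : ∀ x, E₂ (Submodule.Quotient.mk x) = π x := fun x => rfl
  have hq : LinearMap.det (W.mapQ W e hinv) = LinearMap.det (mulF (Q a) u) := by
    symm
    refine det_of_intertwine E₂ _ _ fun x => ?_
    obtain ⟨y, rfl⟩ := Submodule.Quotient.mk_surjective _ x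
    rw [Submodule.mapQ_apply, hE₂, hE₂, hπe]
  rw [h1, hr, hq, mul_comm]

/-- The determinant of a multiplication on `F[X]/(q^j)`. -/
theorem det_mulF_pow {q : F[X]} (hq : q ≠ 0) (u : F[X]) (j : ℕ) :
    LinearMap.det (mulF (Q (q ^ j)) u) = LinearMap.det (mulF (Q q) u) ^ j := by
  induction j with
  | zero =>
    rw [pow_zero, pow_zero]
    have h0 : finrank F (Q (1 : F[X])) = 0 := by
      rw [finrank_Q, natDegree_one]
    exact LinearMap.det_eq_one_of_finrank_eq_zero h0 _
  | succ j ih =>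
    rw [pow_succ' q j, det_mulF_mul hq (pow_ne_zero _ hq), ih, pow_succ']

/-- A multiplication on `F[X]/(q^j)` of determinant `t ^ j`. -/
theorem exists_det_mulF_pow_eq [Finite F] {q : F[X]} (hq : Irreducible q) (hqm : q.Monic) (t : F) (j : ℕ) :
    ∃ u : F[X], LinearMap.det (mulF (Q (q ^ j)) u) = t ^ j := by
  obtain ⟨u, hu⟩ := Cfsg.Agent.Lib.Linalg.SemisimpleClasses.exists_det_mulF_eq hq hqm rfl t
  exact ⟨u, by rw [det_mulF_pow hq.ne_zero, hu]⟩

open scoped Classical in
/-- The centralizer of an endomorphism with an elementary divisor `(q, j)` contains elements of determinant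
`t ^ j`. -/
theorem exists_commuting_det_block [Finite F] {V : Type v} [AddCommGroup V] [Module F V]
    [FiniteDimensional F V] (T : V →ₗ[F] V) {a₀ : F[X] × ℕ} (ha₀ : a₀ ∈ typeOf T) {t : F} (ht : t ≠ 0) :
    ∃ C : V ≃ₗ[F] V, (∀ v, C (T v) = T (C v)) ∧ LinearMap.det (C : V →ₗ[F] V) = t ^ a₀.2 := by
  obtain ⟨m, hm⟩ := exists_model_typeOf T
  let x₀ : typeOf T := Multiset.mkToType _ a₀ ⟨0, Multiset.count_pos.mpr ha₀⟩
  have hadm : ∀ x : typeOf T, Adm (x : F[X] × ℕ) := fun x => typeOf_adm T x.1 Multiset.coe_mem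
  have hfin : ∀ x : typeOf T, FiniteDimensional F (Q ((x : F[X] × ℕ).1 ^ (x : F[X] × ℕ).2)) := fun x =>
    Q_finite_of_ne (pow_ne_zero _ (hadm x).2.1.ne_zero)
  obtain ⟨u, hu⟩ := exists_det_mulF_pow_eq (hadm x₀).2.1 (hadm x₀).1 t (x₀ : F[X] × ℕ).2
  let w : typeOf T → F[X] := Function.update (fun _ => (1 : F[X])) x₀ u
  let C₀ : ModelOf (typeOf T) →ₗ[F] ModelOf (typeOf T) :=
    LinearMap.pi fun x => mulF (Q ((x : F[X] × ℕ).1 ^ (x : F[X] × ℕ).2)) (w x) ∘ₗ LinearMap.proj x
  have hdet₀ : LinearMap.det C₀ = t ^ (x₀ : F[X] × ℕ).2 := by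
    rw [det_pi_diag, Finset.prod_eq_single x₀]
    · have hw : w x₀ = u := Function.update_self _ _ _
      rw [hw]
      exact hu
    · intro x _ hx
      have hw : w x = 1 := by
        change Function.update (fun _ => (1 : F[X])) x₀ u x = 1
        rw [Function.update_of_ne hx]
      rw [hw]
      have h1 : mulF (Q ((x : F[X] × ℕ).1 ^ (x : F[X] × ℕ).2)) (1 : F[X]) = LinearMap.id := by
        refine LinearMap.ext fun y => ?_
        simp
      rw [h1, LinearMap.det_id]
    · simp
  have hC₀comm : ∀ y, C₀ ((X : F[X]) • y) = (X : F[X]) • C₀ y := by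
    intro y
    funext x
    change (w x) • ((X : F[X]) • y x) = (X : F[X]) • ((w x) • y x)
    rw [smul_comm]
  let C₁ : V →ₗ[F] V := (m.symm : _ →ₗ[F] V) ∘ₗ C₀ ∘ₗ (m : V →ₗ[F] _)
  have hdet₁ : LinearMap.det C₁ = t ^ (x₀ : F[X] × ℕ).2 := by
    rw [← hdet₀]
    have := LinearMap.det_conj C₀ m.symm
    rw [LinearEquiv.symm_symm] at this
    exact this
  have hne : LinearMap.det C₁ ≠ 0 := hdet₁ ▸ pow_ne_zero _ ht
  refine ⟨LinearMap.equivOfDetNeZero C₁ hne, fun v => ?_, ?_⟩
  · change C₁ (T v) = T (C₁ v)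
    apply m.injective
    rw [hm]
    change m (m.symm (C₀ (m (T v)))) = (X : F[X]) • m (m.symm (C₀ (m v)))
    rw [LinearEquiv.apply_symm_apply, LinearEquiv.apply_symm_apply, hm, hC₀comm]
  · have hx₀ : (x₀ : F[X] × ℕ) = a₀ := rfl
    rw [← hx₀, ← hdet₁]
    congr 1

end Cfsg.Agent.Lib.ClassNum.BlockDet
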