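import Mathlib

/-!
# Classes of `G / Z(G)` as orbits of `Z(G)` on the classes of `G`

The centre acts on conjugacy classes by multiplication; classes of the central quotient are the orbits, so
Burnside's lemma gives `|Z| k(G/Z) = ∑_{z ∈ Z} #{C : z C = C}`.
-/

set_option autoImplicit false

namespace Cfsg.Agent.Lib.ClassNum.CenterClasses

universe u

variable {G : Type u} [Group G]

/-- Multiplication of a class by a central element. -/
def cmul (z : Subgroup.center G) (C : ConjClasses G) : ConjClasses G :=
  Quotient.liftOn C (fun x => ConjClasses.mk ((z : G) * x)) (by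
    intro a b hab
    apply ConjClasses.mk_eq_mk_iff_isConj.mpr
    obtain ⟨c, rfl⟩ := isConj_iff.mp (show IsConj a b from hab)
    rw [isConj_iff]
    refine ⟨c, ?_⟩
    have hz : ∀ y : G, y * (z : G) = (z : G) * y := fun y => (Subgroup.mem_center_iff.mp z.2 y)
    rw [← mul_assoc c (z : G) a, hz c]
    simp only [mul_assoc])

@[simp] theorem cmul_mk (z : Subgroup.center G) (x : G) :
    cmul z (ConjClasses.mk x) = ConjClasses.mk ((z : G) * x) := rfl

/-- The action of the centre on the classes. -/
instance centerAct : MulAction (Subgroup.center G) (ConjClasses G) where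
  smul := cmul
  one_smul C := by
    obtain ⟨x, rfl⟩ := ConjClasses.mk_surjective C
    change cmul 1 (ConjClasses.mk x) = _
    simp
  mul_smul a b C := by
    obtain ⟨x, rfl⟩ := ConjClasses.mk_surjective C
    change cmul (a * b) (ConjClasses.mk x) = cmul a (cmul b (ConjClasses.mk x))
    simp [mul_assoc]

theorem smul_mk (z : Subgroup.center G) (x : G) :
    z • ConjClasses.mk x = ConjClasses.mk ((z : G) * x) := rfl

/-- Orbits of the centre on classes are the classes of the central quotient. -/
noncomputable def orbitEquiv :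
    MulAction.orbitRel.Quotient (Subgroup.center G) (ConjClasses G) ≃ ConjClasses (G ⧸ Subgroup.center G) := by
  refine Equiv.ofBijective (Quotient.lift (ConjClasses.map (QuotientGroup.mk' (Subgroup.center G))) ?_) ⟨?_, ?_⟩
  · rintro a b hab
    obtain ⟨z, rfl⟩ := MulAction.orbitRel_apply.mp hab
    obtain ⟨x, rfl⟩ := ConjClasses.mk_surjective b
    change ConjClasses.map _ (ConjClasses.mk ((z : G) * x)) = ConjClasses.map _ (ConjClasses.mk x)
    simp only [ConjClasses.map, ConjClasses.mk]
    apply Quotient.sound
    change IsConj _ _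
    have h1 : (QuotientGroup.mk' (Subgroup.center G)) ((z : G) * x) = (QuotientGroup.mk' (Subgroup.center G)) x := by
      rw [map_mul]
      have : (QuotientGroup.mk' (Subgroup.center G)) (z : G) = 1 :=
        (QuotientGroup.eq_one_iff _).mpr z.2
      rw [this, one_mul]
    rw [h1]
  · intro a b
    refine Quotient.inductionOn₂ a b ?_
    intro A B hAB
    obtain ⟨x, rfl⟩ := ConjClasses.mk_surjective A
    obtain ⟨y, rfl⟩ := ConjClasses.mk_surjective B
    have h : IsConj ((QuotientGroup.mk' (Subgroup.center G)) x) ((QuotientGroup.mk' (Subgroup.center G)) y) :=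
      ConjClasses.mk_eq_mk_iff_isConj.mp hAB
    obtain ⟨c, hc⟩ := isConj_iff.mp h
    obtain ⟨g, rfl⟩ := QuotientGroup.mk_surjective c
    have h2 : (QuotientGroup.mk (g * x * g⁻¹) : G ⧸ Subgroup.center G) = QuotientGroup.mk y := hc
    rw [QuotientGroup.eq] at h2
    -- `(g x g⁻¹)⁻¹ y ∈ Z`
    apply Quotient.sound
    apply MulAction.orbitRel_apply.mpr
    refine ⟨(⟨_, h2⟩ : Subgroup.center G)⁻¹, ?_⟩
    change ConjClasses.mk (((g * x * g⁻¹)⁻¹ * y)⁻¹ * y) = ConjClasses.mk x
    apply ConjClasses.mk_eq_mk_iff_isConj.mpr
    rw [isConj_iff]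
    exact ⟨g⁻¹ * y, by group⟩
  · intro C
    obtain ⟨C', rfl⟩ := ConjClasses.map_surjective (QuotientGroup.mk'_surjective (Subgroup.center G)) C
    exact ⟨Quotient.mk _ C', rfl⟩

open scoped Classical in
/-- Burnside's lemma for the action of the centre on classes. -/
theorem card_center_mul_classes [Finite G] [Fintype (Subgroup.center G)] :
    Nat.card (Subgroup.center G) * Nat.card (ConjClasses (G ⧸ Subgroup.center G)) =
      ∑ z : Subgroup.center G, Nat.card {C : ConjClasses G // z • C = C} := by
  have : Fintype (ConjClasses G) := Fintype.ofFinite _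
  have : Fintype (MulAction.orbitRel.Quotient (Subgroup.center G) (ConjClasses G)) := Fintype.ofFinite _
  have hB := MulAction.sum_card_fixedBy_eq_card_orbits_mul_card_group (Subgroup.center G) (ConjClasses G)
  rw [← Nat.card_congr orbitEquiv, Nat.card_eq_fintype_card, Nat.card_eq_fintype_card, mul_comm, ← hB]
  refine Finset.sum_congr rfl fun z _ => ?_
  rw [Nat.card_eq_fintype_card]
  exact Fintype.card_congr (Equiv.refl _)

end Cfsg.Agent.Lib.ClassNum.CenterClasses
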