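import Mathlib
import Cfsg.Agent.Lib.ClassNum.BlockDet

/-!
# How a conjugacy class of `GL` splits in `SL`

The classes of `SL ι F` of a given type `τ` inject into `Fˣ ⧸ H`, where `H` is the group of determinants of
the centralizer in `GL`; since `H` contains the `j`-th powers for all elementary divisors `(f, j)` in `τ`, the
index of `H` divides `gcd (q - 1, all j)`.
-/

set_option autoImplicit false

open Polynomial Module
open Cfsg.Agent.Lib.Linalg.RCF Cfsg.Agent.Lib.Linalg.RCFType

namespace Cfsg.Agent.Lib.ClassNum.SLFiber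

universe u v

variable {F : Type u} [Field F] [Finite F]

/-- A subgroup of `Fˣ` containing all `j`-th powers has index dividing `j`. -/
theorem index_dvd_of_pow_mem (H : Subgroup Fˣ) (j : ℕ) (hj : ∀ t : Fˣ, t ^ j ∈ H) : H.index ∣ j := by
  obtain ⟨ζ, hζ⟩ := IsCyclic.exists_generator (α := Fˣ)
  have hgen : ∀ x : Fˣ ⧸ H, x ∈ Subgroup.zpowers (QuotientGroup.mk ζ : Fˣ ⧸ H) := by
    intro x
    obtain ⟨y, rfl⟩ := QuotientGroup.mk_surjective x
    obtain ⟨k, rfl⟩ := Subgroup.mem_zpowers_iff.mp (hζ y)
    exact ⟨k, by simp⟩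
  have h1 := orderOf_eq_card_of_forall_mem_zpowers hgen
  have h2 : H.index = orderOf (QuotientGroup.mk ζ : Fˣ ⧸ H) := h1.symm
  rw [h2]
  apply orderOf_dvd_of_pow_eq_one
  rw [← QuotientGroup.mk_pow, QuotientGroup.eq_one_iff]
  exact hj ζ

section Det

variable {V : Type v} [AddCommGroup V] [Module F V] [FiniteDimensional F V]

/-- The group of determinants of the centralizer of `T`. -/
def detCent (T : V →ₗ[F] V) : Subgroup Fˣ where
  carrier := {t | ∃ c : V ≃ₗ[F] V, (∀ v, c (T v) = T (c v)) ∧ LinearEquiv.det c = t}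
  one_mem' := ⟨LinearEquiv.refl F V, fun _ => rfl, by
    have : LinearEquiv.refl F V = 1 := rfl
    rw [this, map_one]⟩
  mul_mem' := by
    rintro _ _ ⟨c, hc, rfl⟩ ⟨d, hd, rfl⟩
    refine ⟨c * d, fun v => ?_, map_mul _ _ _⟩
    change c (d (T v)) = T (c (d v))
    rw [hd, hc]
  inv_mem' := by
    rintro _ ⟨c, hc, rfl⟩
    refine ⟨c⁻¹, fun v => ?_, map_inv _ _⟩
    change c.symm (T v) = T (c.symm v)
    apply c.injective
    rw [LinearEquiv.apply_symm_apply, hc, LinearEquiv.apply_symm_apply]

/-- The index of the determinants of the centralizer divides all exponents. -/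
theorem index_detCent_dvd (T : V →ₗ[F] V) {a : F[X] × ℕ} (ha : a ∈ typeOf T) :
    (detCent T).index ∣ a.2 := by
  apply index_dvd_of_pow_mem
  intro t
  obtain ⟨C, hC, hd⟩ := Cfsg.Agent.Lib.ClassNum.BlockDet.exists_commuting_det_block T ha t.ne_zero
  refine ⟨C, hC, ?_⟩
  apply Units.ext
  rw [LinearEquiv.coe_det, hd, Units.val_pow_eq_pow_val]

end Det

section SL

variable {ι : Type*} [Fintype ι] [DecidableEq ι]

open Matrix in
/-- The type of a conjugacy class of `SL`. -/
noncomputable def typ (C : ConjClasses (SpecialLinearGroup ι F)) : Multiset (F[X] × ℕ) :=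
  matType ((Quotient.out C : SpecialLinearGroup ι F) : Matrix ι ι F)

open Matrix in
theorem matType_eq_of_isConj {x y : SpecialLinearGroup ι F} (h : IsConj x y) :
    matType (x : Matrix ι ι F) = matType (y : Matrix ι ι F) := by
  have h1 : IsConj (SpecialLinearGroup.toGL x) (SpecialLinearGroup.toGL y) :=
    SpecialLinearGroup.toGL.map_isConj h
  have h2 := isConj_iff_matType_eq.mp h1
  simpa only [SpecialLinearGroup.coe_GL_coe_matrix] using h2

open Matrix in
theorem typ_mk (x : SpecialLinearGroup ι F) : typ (ConjClasses.mk x) = matType (x : Matrix ι ι F) := by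
  apply matType_eq_of_isConj
  exact ConjClasses.mk_eq_mk_iff_isConj.mp (Quotient.out_eq (ConjClasses.mk x))

open Matrix in
/-- Classes of `SL` of a given type inject into the quotient by the determinants of the centralizer. -/
theorem card_fiber_le_index (x : SpecialLinearGroup ι F) :
    Nat.card {C : ConjClasses (SpecialLinearGroup ι F) // typ C = matType (x : Matrix ι ι F)} ≤
      (detCent (Matrix.toLin' (x : Matrix ι ι F))).index := by
  classical
  set T := Matrix.toLin' (x : Matrix ι ι F) with hT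
  set H := detCent T with hH
  have hP : ∀ C : {C : ConjClasses (SpecialLinearGroup ι F) // typ C = matType (x : Matrix ι ι F)},
      ∃ P : (ι → F) ≃ₗ[F] (ι → F), ∀ v, P (T v) =
        Matrix.toLin' ((Quotient.out C.1 : SpecialLinearGroup ι F) : Matrix ι ι F) (P v) := by
    intro C
    apply (exists_conj_iff_typeOf_eq _ _).mpr
    exact C.2.symm
  choose P hP using hP
  have hH1 : H.index = Nat.card (Fˣ ⧸ H) := rfl
  rw [hH1]
  refine Nat.card_le_card_of_injective (fun C => (QuotientGroup.mk (LinearEquiv.det (P C)) : Fˣ ⧸ H)) ?_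
  intro C D hCD
  rw [QuotientGroup.eq] at hCD
  obtain ⟨c, hc, hcd⟩ := hCD
  set y : SpecialLinearGroup ι F := Quotient.out C.1 with hy
  set z : SpecialLinearGroup ι F := Quotient.out D.1 with hz
  let Q : (ι → F) ≃ₗ[F] (ι → F) := (P C).symm ≪≫ₗ c.symm ≪≫ₗ P D
  have hQd : LinearMap.det (Q : (ι → F) →ₗ[F] (ι → F)) = 1 := by
    have h1 : Q = P D * c⁻¹ * (P C)⁻¹ := by
      apply LinearEquiv.ext
      intro v
      rfl
    have h2 : LinearEquiv.det Q = 1 := by
      rw [h1, map_mul, map_mul, map_inv, map_inv, hcd]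
      simp
    have h3 := LinearEquiv.coe_det Q
    rw [h2] at h3
    rw [← h3]
    rfl
  have hconj : IsConj y z := by
    refine Cfsg.Agent.Lib.Linalg.Bridge.isConj_SL_of_equiv Q hQd fun v => ?_
    obtain ⟨u, rfl⟩ := (P C).surjective v
    have h1 := hP C u
    have h2 : (y : Matrix ι ι F).mulVec (P C u) = P C (T u) := by
      rw [h1]
      rfl
    rw [h2]
    have h3 : Q (P C (T u)) = P D (c.symm (T u)) := by
      change P D (c.symm ((P C).symm (P C (T u)))) = _
      rw [LinearEquiv.symm_apply_apply]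
    have h4 : Q (P C u) = P D (c.symm u) := by
      change P D (c.symm ((P C).symm (P C u))) = _
      rw [LinearEquiv.symm_apply_apply]
    rw [h3, h4]
    have h5 : c.symm (T u) = T (c.symm u) := by
      apply c.injective
      rw [LinearEquiv.apply_symm_apply, hc, LinearEquiv.apply_symm_apply]
    rw [h5, hP D]
    rfl
  apply Subtype.ext
  have h6 : (ConjClasses.mk y) = ConjClasses.mk z := ConjClasses.mk_eq_mk_iff_isConj.mpr hconj
  have h7 : ConjClasses.mk y = C.1 := Quotient.out_eq C.1
  have h8 : ConjClasses.mk z = D.1 := Quotient.out_eq D.1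
  rw [← h7, ← h8, h6]

end SL

end Cfsg.Agent.Lib.ClassNum.SLFiber
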