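import Mathlib
import Cfsg.Agent.S2478

/-!
# Types as families of polynomials

A type `τ` (multiset of elementary divisors) is the same as the family of polynomials `hPart j τ`, indexed by the
exponents `j`; this is what lets us rescale constant terms.
-/

set_option autoImplicit false

open Polynomial Module UniqueFactorizationMonoid
open Cfsg.Agent.Lib.Linalg.RCF Cfsg.Agent.Lib.Linalg.RCFType Cfsg.Agent.S2478
open scoped Classical

namespace Cfsg.Agent.Lib.ClassNum.TypeFam

universe u

variable {F : Type u} [Field F]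

/-- The exponents occurring in a type. -/
noncomputable def expo (τ : Multiset (F[X] × ℕ)) : Finset ℕ := (τ.map Prod.snd).toFinset

theorem mem_expo {τ : Multiset (F[X] × ℕ)} {j : ℕ} : j ∈ expo τ ↔ ∃ a ∈ τ, a.2 = j := by
  simp [expo]

/-- The type with given families of polynomials. -/
noncomputable def ofFam (J : Finset ℕ) (p : ℕ → F[X]) : Multiset (F[X] × ℕ) :=
  J.sum fun j => (normalizedFactors (p j)).map fun f => (f, j)

theorem mem_ofFam {J : Finset ℕ} {p : ℕ → F[X]} {a : F[X] × ℕ} :
    a ∈ ofFam J p ↔ a.2 ∈ J ∧ a.1 ∈ normalizedFactors (p a.2) := by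
  unfold ofFam
  rw [Multiset.mem_sum]
  constructor
  · rintro ⟨j, hj, ha⟩
    obtain ⟨f, hf, rfl⟩ := Multiset.mem_map.mp ha
    exact ⟨hj, hf⟩
  · rintro ⟨hj, hf⟩
    exact ⟨a.2, hj, Multiset.mem_map.mpr ⟨a.1, hf, rfl⟩⟩

theorem filter_ofFam (J : Finset ℕ) (p : ℕ → F[X]) (j : ℕ) (hj : j ∈ J) :
    (ofFam J p).filter (fun a => a.2 = j) = (normalizedFactors (p j)).map fun f => (f, j) := by
  ext a
  rw [Multiset.count_filter]
  split_ifs with h
  · unfold ofFam
    rw [Multiset.count_sum', Finset.sum_eq_single j]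
    · intro k _ hk
      rw [Multiset.count_eq_zero]
      intro ha
      obtain ⟨f, _, rfl⟩ := Multiset.mem_map.mp ha
      exact hk h
    · intro hj'
      exact absurd hj hj'
  · symm
    rw [Multiset.count_eq_zero]
    intro ha
    obtain ⟨f, _, rfl⟩ := Multiset.mem_map.mp ha
    exact h rfl

theorem hPart_ofFam {J : Finset ℕ} {p : ℕ → F[X]} {j : ℕ} (hj : j ∈ J) (hm : (p j).Monic) :
    hPart j (ofFam J p) = p j := by
  unfold hPart
  rw [filter_ofFam J p j hj, Multiset.map_map]
  simp only [Function.comp, Multiset.map_id']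
  rw [prod_normalizedFactors_eq hm.ne_zero, hm.normalize_eq_self]

theorem expo_ofFam {J : Finset ℕ} {p : ℕ → F[X]} (h : ∀ j ∈ J, (p j).Monic ∧ 0 < (p j).natDegree) :
    expo (ofFam J p) = J := by
  ext j
  rw [mem_expo]
  constructor
  · rintro ⟨a, ha, rfl⟩
    exact (mem_ofFam.mp ha).1
  · intro hj
    obtain ⟨hm, hd⟩ := h j hj
    have hnu : ¬ IsUnit (p j) := fun hu => by
      have := Polynomial.natDegree_eq_zero_of_isUnit hu
      omega
    obtain ⟨f, hf⟩ := exists_mem_normalizedFactors hm.ne_zero hnu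
    exact ⟨(f, j), mem_ofFam.mpr ⟨hj, hf⟩, rfl⟩

/-- The total size of a type. -/
noncomputable def tsize (τ : Multiset (F[X] × ℕ)) : ℕ := (τ.map fun a => a.2 * a.1.natDegree).sum

/-- The product of the constant terms of the elementary divisors of a type. -/
noncomputable def constProd (τ : Multiset (F[X] × ℕ)) : F := (τ.map fun a => a.1.coeff 0 ^ a.2).prod

theorem tsize_ofFam (J : Finset ℕ) (p : ℕ → F[X]) (h : ∀ j ∈ J, (p j).Monic) :
    tsize (ofFam J p) = ∑ j ∈ J, j * (p j).natDegree := by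
  unfold tsize ofFam
  induction J using Finset.induction_on with
  | empty => simp
  | insert j J hj ih =>
    rw [Finset.sum_insert hj, Finset.sum_insert hj, Multiset.map_add, Multiset.sum_add,
      ih (fun k hk => h k (Finset.mem_insert_of_mem hk))]
    congr 1
    have hm := h j (Finset.mem_insert_self j J)
    rw [Multiset.map_map]
    simp only [Function.comp]
    rw [Multiset.sum_map_mul_left]
    congr 1
    have h1 : ∀ f ∈ normalizedFactors (p j), f.Monic := by
      intro f hf
      rw [← normalize_normalized_factor f hf]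
      exact monic_normalize (irreducible_of_normalized_factor f hf).ne_zero
    have h2 := natDegree_multiset_prod_of_monic (normalizedFactors (p j)) h1
    rw [prod_normalizedFactors_eq hm.ne_zero, hm.normalize_eq_self] at h2
    exact h2.symm

theorem coeff_zero_multiset_prod (s : Multiset F[X]) :
    s.prod.coeff 0 = (s.map fun f => f.coeff 0).prod := by
  simp only [Polynomial.coeff_zero_eq_eval_zero]
  rw [Polynomial.eval_multiset_prod]

theorem constProd_ofFam (J : Finset ℕ) (p : ℕ → F[X]) (h : ∀ j ∈ J, (p j).Monic) :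
    constProd (ofFam J p) = ∏ j ∈ J, (p j).coeff 0 ^ j := by
  unfold constProd ofFam
  induction J using Finset.induction_on with
  | empty => simp
  | insert j J hj ih =>
    rw [Finset.sum_insert hj, Finset.prod_insert hj, Multiset.map_add, Multiset.prod_add,
      ih (fun k hk => h k (Finset.mem_insert_of_mem hk))]
    congr 1
    have hm := h j (Finset.mem_insert_self j J)
    rw [Multiset.map_map]
    simp only [Function.comp]
    rw [Multiset.prod_map_pow]
    congr 1
    rw [← coeff_zero_multiset_prod, prod_normalizedFactors_eq hm.ne_zero, hm.normalize_eq_self]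

/-- A type is recovered from its family. -/
theorem ofFam_hPart (τ : Multiset (F[X] × ℕ)) (h : ∀ a ∈ τ, Adm a) :
    ofFam (expo τ) (fun j => hPart j τ) = τ := by
  ext a
  unfold ofFam
  rw [Multiset.count_sum']
  have h1 : ∀ j ∈ expo τ, Multiset.count a ((normalizedFactors (hPart j τ)).map fun f => (f, j)) =
      if a.2 = j then Multiset.count a τ else 0 := by
    intro j _
    rw [← filter_eq_of_hPart j τ h, Multiset.count_filter]
  rw [Finset.sum_congr rfl h1, Finset.sum_ite_eq]
  split_ifs with h2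
  · rfl
  · symm
    rw [Multiset.count_eq_zero]
    intro ha
    exact h2 (mem_expo.mpr ⟨a, ha, rfl⟩)

theorem tsize_eq (τ : Multiset (F[X] × ℕ)) (h : ∀ a ∈ τ, Adm a) :
    tsize τ = ∑ j ∈ expo τ, j * (hPart j τ).natDegree := by
  conv_lhs => rw [← ofFam_hPart τ h]
  exact tsize_ofFam _ _ fun j _ => hPart_monic j τ h

theorem constProd_eq (τ : Multiset (F[X] × ℕ)) (h : ∀ a ∈ τ, Adm a) :
    constProd τ = ∏ j ∈ expo τ, (hPart j τ).coeff 0 ^ j := by
  conv_lhs => rw [← ofFam_hPart τ h]
  exact constProd_ofFam _ _ fun j _ => hPart_monic j τ h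

theorem natDegree_hPart_pos {τ : Multiset (F[X] × ℕ)} (h : ∀ a ∈ τ, Adm a) {j : ℕ} (hj : j ∈ expo τ) :
    0 < (hPart j τ).natDegree := by
  obtain ⟨a, ha, rfl⟩ := mem_expo.mp hj
  rw [hPart_natDegree _ τ h]
  have h1 : a.1.natDegree ≤ ((τ.filter fun b => b.2 = a.2).map fun b => b.1.natDegree).sum :=
    Multiset.single_le_sum (fun _ _ => Nat.zero_le _) _
      (Multiset.mem_map_of_mem _ (Multiset.mem_filter.mpr ⟨ha, rfl⟩))
  have h2 := (h a ha).2.1.natDegree_pos
  omega

/-- Rescaling the constant term. -/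
noncomputable def sc (c : F) (h : F[X]) : F[X] := h + C ((c - 1) * h.coeff 0)

theorem sc_monic {c : F} {h : F[X]} (hm : h.Monic) (hd : 0 < h.natDegree) : (sc c h).Monic := by
  apply hm.add_of_left
  refine lt_of_le_of_lt (degree_C_le) ?_
  rw [← natDegree_pos_iff_degree_pos]
  exact hd

theorem sc_natDegree {c : F} {h : F[X]} : (sc c h).natDegree = h.natDegree :=
  natDegree_add_C

theorem sc_coeff_zero (c : F) (h : F[X]) : (sc c h).coeff 0 = c * h.coeff 0 := by
  unfold sc
  rw [coeff_add, coeff_C_zero]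
  ring

theorem sc_inj {c : F} (hc : c ≠ 0) {h h' : F[X]} (heq : sc c h = sc c h') : h = h' := by
  have h0 : h.coeff 0 = h'.coeff 0 := by
    have := congrArg (fun f => f.coeff 0) heq
    simp only [sc_coeff_zero] at this
    exact mul_left_cancel₀ hc this
  unfold sc at heq
  rw [h0] at heq
  exact add_right_cancel heq

/-- Rescaling a type: multiply the constant term of the `j`-part by `a j`. -/
noncomputable def scal (a : ℕ → F) (τ : Multiset (F[X] × ℕ)) : Multiset (F[X] × ℕ) :=
  ofFam (expo τ) (fun j => sc (a j) (hPart j τ))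

theorem scal_family {τ : Multiset (F[X] × ℕ)} (h : ∀ a ∈ τ, Adm a) (a : ℕ → F) :
    ∀ j ∈ expo τ, (sc (a j) (hPart j τ)).Monic ∧ 0 < (sc (a j) (hPart j τ)).natDegree := by
  intro j hj
  have hd := natDegree_hPart_pos h hj
  exact ⟨sc_monic (hPart_monic j τ h) hd, by rw [sc_natDegree]; exact hd⟩

theorem expo_scal {τ : Multiset (F[X] × ℕ)} (h : ∀ a ∈ τ, Adm a) (a : ℕ → F) :
    expo (scal a τ) = expo τ := expo_ofFam (scal_family h a)

theorem hPart_scal {τ : Multiset (F[X] × ℕ)} (h : ∀ a ∈ τ, Adm a) (a : ℕ → F) {j : ℕ} (hj : j ∈ expo τ) :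
    hPart j (scal a τ) = sc (a j) (hPart j τ) :=
  hPart_ofFam hj (scal_family h a j hj).1

theorem tsize_scal {τ : Multiset (F[X] × ℕ)} (h : ∀ a ∈ τ, Adm a) (a : ℕ → F) :
    tsize (scal a τ) = tsize τ := by
  unfold scal
  rw [tsize_ofFam _ _ fun j hj => (scal_family h a j hj).1, tsize_eq τ h]
  exact Finset.sum_congr rfl fun j _ => by rw [sc_natDegree]

theorem constProd_scal {τ : Multiset (F[X] × ℕ)} (h : ∀ a ∈ τ, Adm a) (a : ℕ → F) :
    constProd (scal a τ) = (∏ j ∈ expo τ, a j ^ j) * constProd τ := by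
  unfold scal
  rw [constProd_ofFam _ _ fun j hj => (scal_family h a j hj).1, constProd_eq τ h,
    ← Finset.prod_mul_distrib]
  exact Finset.prod_congr rfl fun j _ => by rw [sc_coeff_zero, mul_pow]

theorem adm_scal {τ : Multiset (F[X] × ℕ)} (h : ∀ a ∈ τ, Adm a ∧ a.1 ≠ X) (a : ℕ → F)
    (ha : ∀ j, a j ≠ 0) : ∀ b ∈ scal a τ, Adm b ∧ b.1 ≠ X := by
  intro b hb
  have h' : ∀ a ∈ τ, Adm a := fun a ha => (h a ha).1
  obtain ⟨hj, hf⟩ := mem_ofFam.mp hb
  obtain ⟨a₀, ha₀, h2⟩ := mem_expo.mp hj
  refine ⟨⟨?_, irreducible_of_normalized_factor _ hf, ?_⟩, ?_⟩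
  · rw [← normalize_normalized_factor _ hf]
    exact monic_normalize (irreducible_of_normalized_factor _ hf).ne_zero
  · rw [← h2]
    exact (h' a₀ ha₀).2.2
  · intro hX
    have hd : (X : F[X]) ∣ sc (a b.2) (hPart b.2 τ) := by
      rw [← hX]
      exact dvd_of_mem_normalizedFactors hf
    rw [X_dvd_iff, sc_coeff_zero] at hd
    exact mul_ne_zero (ha _) (hPart_coeff _ _ h) hd

/-- Equal scaling of types with the same exponents recovers them. -/
theorem scal_inj {τ τ' : Multiset (F[X] × ℕ)} (h : ∀ a ∈ τ, Adm a) (h' : ∀ a ∈ τ', Adm a)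
    (hJ : expo τ = expo τ') (a : ℕ → F) (ha : ∀ j, a j ≠ 0) (heq : scal a τ = scal a τ') : τ = τ' := by
  have h1 : ∀ j ∈ expo τ, hPart j τ = hPart j τ' := by
    intro j hj
    have h2 := hPart_scal h a hj
    have h3 := hPart_scal h' a (hJ ▸ hj)
    rw [heq] at h2
    rw [h2] at h3
    exact sc_inj (ha j) h3
  rw [← ofFam_hPart τ h, ← ofFam_hPart τ' h', ← hJ]
  unfold ofFam
  exact Finset.sum_congr rfl fun j hj => by simp only [h1 j hj]

end Cfsg.Agent.Lib.ClassNum.TypeFam
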