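import Mathlib
import Cfsg.Agent.Lib.ClassNum.TypeFam
import Cfsg.Agent.Lib.ClassNum.SLFiber

/-!
# Counting classes of `SL` by types

`k(SL_n(q)) ≤ ∑ e(τ)` over types `τ` of determinant one, where `e(τ) = gcd (q-1, exponents)`, and
`(q - 1) ∑_{det τ = 1} e(τ) ≤ ∑_τ e(τ)²`, by rescaling constant terms.
-/

set_option autoImplicit false

open Polynomial Module
open Cfsg.Agent.Lib.Linalg.RCF Cfsg.Agent.Lib.Linalg.RCFType Cfsg.Agent.S2478
open Cfsg.Agent.Lib.ClassNum.TypeFam Cfsg.Agent.Lib.ClassNum.SLFiber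
open scoped Classical

namespace Cfsg.Agent.Lib.ClassNum.SLCount

universe u

/-- The gcd of `q - 1` and a set of exponents. -/
def eJ (q : ℕ) (J : Finset ℕ) : ℕ := Nat.gcd (q - 1) (J.gcd id)

theorem eJ_dvd_left (q : ℕ) (J : Finset ℕ) : eJ q J ∣ q - 1 := Nat.gcd_dvd_left _ _

theorem eJ_dvd_of_mem {q : ℕ} {J : Finset ℕ} {j : ℕ} (hj : j ∈ J) : eJ q J ∣ j :=
  (Nat.gcd_dvd_right _ _).trans (Finset.gcd_dvd hj)

theorem dvd_eJ {q : ℕ} {J : Finset ℕ} {r : ℕ} (h1 : r ∣ q - 1) (h2 : ∀ j ∈ J, r ∣ j) : r ∣ eJ q J :=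
  Nat.dvd_gcd h1 (Finset.dvd_gcd h2)

theorem eJ_pos {q : ℕ} (hq : 2 ≤ q) (J : Finset ℕ) : 0 < eJ q J :=
  Nat.gcd_pos_of_pos_left _ (by omega)

variable {F : Type u} [Field F] [Fintype F]

theorem mem_S_of_isGLType {n : ℕ} {τ : Multiset (F[X] × ℕ)} (h : IsGLType (Fin n) F τ) :
    (∀ a ∈ τ, (Adm a ∧ a.1 ≠ X) ∧ a.2 ≤ n) ∧ (τ.map fun a => a.2 * a.1.natDegree).sum = n := by
  have h3 := h.2
  rw [Fintype.card_fin] at h3
  refine ⟨fun a ha => ⟨h.1 a ha, ?_⟩, h3⟩
  have h4 : a.2 * a.1.natDegree ≤ (τ.map fun a => a.2 * a.1.natDegree).sum :=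
    Multiset.single_le_sum (fun _ _ => Nat.zero_le _) _ (Multiset.mem_map_of_mem _ ha)
  have h5 : 0 < a.1.natDegree := (h.1 a ha).1.2.1.natDegree_pos
  rw [h3] at h4
  nlinarith

open Matrix in
theorem mem_S_matType {n : ℕ} (x : SpecialLinearGroup (Fin n) F) :
    (∀ a ∈ matType (x : Matrix (Fin n) (Fin n) F), (Adm a ∧ a.1 ≠ X) ∧ a.2 ≤ n) ∧
      ((matType (x : Matrix (Fin n) (Fin n) F)).map fun a => a.2 * a.1.natDegree).sum = n := by
  have := isGLType_matType (SpecialLinearGroup.toGL x)
  rw [SpecialLinearGroup.coe_GL_coe_matrix] at this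
  exact mem_S_of_isGLType this

open Matrix in
theorem constProd_matType {n : ℕ} (x : SpecialLinearGroup (Fin n) F) :
    constProd (matType (x : Matrix (Fin n) (Fin n) F)) = (-1) ^ n := by
  have h1 := Matrix.det_eq_sign_charpoly_coeff (x : Matrix (Fin n) (Fin n) F)
  rw [Matrix.SpecialLinearGroup.det_coe, Fintype.card_fin, charpoly_eq_prod_matType,
    Cfsg.Agent.Lib.ClassNum.TypeFam.coeff_zero_multiset_prod, Multiset.map_map] at h1
  have h2 : (((matType (x : Matrix (Fin n) (Fin n) F)).map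
      ((fun f : F[X] => f.coeff 0) ∘ fun a : F[X] × ℕ => a.1 ^ a.2)).prod) =
      constProd (matType (x : Matrix (Fin n) (Fin n) F)) := by
    unfold constProd
    congr 1
    refine Multiset.map_congr rfl fun a _ => ?_
    simp only [Function.comp, Polynomial.coeff_zero_eq_eval_zero, Polynomial.eval_pow]
  rw [h2] at h1
  have h3 : ((-1 : F) ^ n) * (-1) ^ n = 1 := by
    rw [← mul_pow]; simp
  calc constProd (matType (x : Matrix (Fin n) (Fin n) F))
      = ((-1 : F) ^ n * (-1) ^ n) * constProd (matType (x : Matrix (Fin n) (Fin n) F)) := by rw [h3, one_mul]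
    _ = (-1) ^ n * ((-1) ^ n * constProd (matType (x : Matrix (Fin n) (Fin n) F))) := by ring
    _ = (-1) ^ n := by rw [← h1, mul_one]

theorem card_units_eq : Nat.card Fˣ = Fintype.card F - 1 := by
  rw [Nat.card_eq_fintype_card, Fintype.card_units]

open Matrix in
/-- The number of classes of `SL` of a given type is at most `e(τ)`. -/
theorem card_fiber_le_eJ {n : ℕ} (x : SpecialLinearGroup (Fin n) F) :
    Nat.card {C : ConjClasses (SpecialLinearGroup (Fin n) F) // typ C = matType (x : Matrix (Fin n) (Fin n) F)} ≤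
      eJ (Fintype.card F) (expo (matType (x : Matrix (Fin n) (Fin n) F))) := by
  refine (card_fiber_le_index x).trans (Nat.le_of_dvd (eJ_pos Fintype.one_lt_card _) ?_)
  apply dvd_eJ
  · rw [← card_units_eq]
    exact Subgroup.index_dvd_card _
  · intro j hj
    obtain ⟨a, ha, rfl⟩ := mem_expo.mp hj
    exact index_detCent_dvd _ ha

section Sum

variable {n : ℕ} [Fintype (S F n n)]

open Matrix in
/-- The type of a class, as an element of `S F n n`. -/
noncomputable def tp (C : ConjClasses (SpecialLinearGroup (Fin n) F)) : S F n n :=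
  ⟨typ C, mem_S_matType (Quotient.out C)⟩

open Matrix in
/-- The number of classes of `SL` is bounded by a sum over types. -/
theorem card_classes_le :
    Nat.card (ConjClasses (SpecialLinearGroup (Fin n) F)) ≤
      ∑ τ : S F n n, if constProd τ.1 = (-1) ^ n then eJ (Fintype.card F) (expo τ.1) else 0 := by
  rw [Nat.card_congr (Equiv.sigmaFiberEquiv (tp (n := n) (F := F))).symm, Nat.card_sigma]
  apply Finset.sum_le_sum
  intro τ _
  by_cases hne : ∃ C, tp (n := n) (F := F) C = τ
  · obtain ⟨C, rfl⟩ := hne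
    set x : SpecialLinearGroup (Fin n) F := Quotient.out C with hx
    have h1 : (tp C).1 = matType (x : Matrix (Fin n) (Fin n) F) := rfl
    rw [h1, if_pos (constProd_matType x)]
    refine le_trans ?_ (card_fiber_le_eJ x)
    apply Nat.card_le_card_of_injective
      (fun D : {D // tp D = tp C} => (⟨D.1, by rw [← h1]; exact congrArg Subtype.val D.2⟩ :
        {D // typ D = matType (x : Matrix (Fin n) (Fin n) F)}))
    intro a b hab
    apply Subtype.ext
    exact congrArg (fun z : {D : ConjClasses (SpecialLinearGroup (Fin n) F) //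
      typ D = matType (x : Matrix (Fin n) (Fin n) F)} => z.1) hab
  · have : IsEmpty {C // tp (n := n) (F := F) C = τ} := ⟨fun C => hne ⟨C.1, C.2⟩⟩
    rw [Nat.card_of_isEmpty]
    exact Nat.zero_le _

end Sum

section Scale

/-- The map on scaling functions. -/
def rho (J : Finset ℕ) : (ℕ → Fˣ) →* Fˣ where
  toFun a := ∏ j ∈ J, a j ^ j
  map_one' := by simp
  map_mul' a b := by simp [Finset.prod_mul_distrib, mul_pow]

theorem index_range_rho_dvd (J : Finset ℕ) : (rho (F := F) J).range.index ∣ eJ (Fintype.card F) J := by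
  apply dvd_eJ
  · rw [← card_units_eq]
    exact Subgroup.index_dvd_card _
  · intro j hj
    apply index_dvd_of_pow_mem
    intro t
    refine ⟨Function.update 1 j t, ?_⟩
    change ∏ k ∈ J, (Function.update (1 : ℕ → Fˣ) j t k) ^ k = t ^ j
    rw [Finset.prod_eq_single j]
    · rw [Function.update_self]
    · intro k _ hk
      rw [Function.update_of_ne hk]
      simp
    · intro hj'
      exact absurd hj hj'

variable {n : ℕ}

/-- Scaling on `S F n n`. -/
noncomputable def scalU (a : ℕ → Fˣ) (τ : S F n n) : S F n n :=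
  ⟨scal (fun j => (a j : F)) τ.1, by
    have hadm : ∀ b ∈ τ.1, Adm b := fun b hb => (τ.2.1 b hb).1.1
    refine ⟨fun b hb => ⟨adm_scal (fun c hc => (τ.2.1 c hc).1) _ (fun j => (a j).ne_zero) b hb, ?_⟩, ?_⟩
    · have h1 : b.2 ∈ expo (scal (fun j => (a j : F)) τ.1) := mem_expo.mpr ⟨b, hb, rfl⟩
      rw [expo_scal hadm] at h1
      obtain ⟨c, hc, h2⟩ := mem_expo.mp h1
      rw [← h2]
      exact (τ.2.1 c hc).2
    · have := tsize_scal hadm (fun j => (a j : F))
      unfold tsize at this
      rw [this]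
      exact τ.2.2⟩

variable [Fintype (S F n n)]

/-- The main uniformity count for a fixed set of exponents. -/
theorem key_count (J : Finset ℕ) {c₀ : F} (hc₀ : c₀ ≠ 0) :
    (Fintype.card F - 1) * (Finset.univ.filter fun τ : S F n n => constProd τ.1 = c₀ ∧ expo τ.1 = J).card ≤
      eJ (Fintype.card F) J * (Finset.univ.filter fun τ : S F n n => expo τ.1 = J).card := by
  set A := Finset.univ.filter fun τ : S F n n => constProd τ.1 = c₀ ∧ expo τ.1 = J with hA
  set B := Finset.univ.filter fun τ : S F n n => expo τ.1 = J with hB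
  set D := (rho (F := F) J).range with hD
  have hs : ∀ c : D, ∃ a : ℕ → Fˣ, rho J a = c := fun c => c.2
  choose s hs using hs
  have hcard : A.card * Nat.card D ≤ B.card := by
    rw [Nat.card_eq_fintype_card, ← Finset.card_univ, ← Finset.card_product]
    refine Finset.card_le_card_of_injOn (fun x => scalU (s x.2) x.1) ?_ ?_
    · rintro ⟨τ, c⟩ hx
      have h1 : τ ∈ A := (Finset.mem_product.mp hx).1
      have h2 := (Finset.mem_filter.mp h1).2.2
      refine Finset.mem_coe.mpr (Finset.mem_filter.mpr ⟨Finset.mem_univ _, ?_⟩)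
      change expo (scal _ τ.1) = J
      rw [expo_scal (fun b hb => (τ.2.1 b hb).1.1), h2]
    · rintro ⟨τ, c⟩ hx ⟨τ', c'⟩ hx' heq
      have h1 : τ ∈ A := (Finset.mem_product.mp hx).1
      have h1' : τ' ∈ A := (Finset.mem_product.mp hx').1
      obtain ⟨h2, h3⟩ := (Finset.mem_filter.mp h1).2
      obtain ⟨h2', h3'⟩ := (Finset.mem_filter.mp h1').2
      have hval : scal (fun j => (s c j : F)) τ.1 = scal (fun j => (s c' j : F)) τ'.1 :=
        congrArg Subtype.val heq
      have hadm : ∀ b ∈ τ.1, Adm b := fun b hb => (τ.2.1 b hb).1.1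
      have hadm' : ∀ b ∈ τ'.1, Adm b := fun b hb => (τ'.2.1 b hb).1.1
      have hp : ∀ (e : D) (σ : S F n n), expo σ.1 = J → constProd σ.1 = c₀ →
          constProd (scal (fun j => (s e j : F)) σ.1) = (e : Fˣ) * c₀ := by
        intro e σ h4 h5
        rw [constProd_scal (fun b hb => (σ.2.1 b hb).1.1), h4, h5]
        congr 1
        have := congrArg (Units.val) (hs e)
        rw [← this]
        change _ = ((∏ j ∈ J, s e j ^ j : Fˣ) : F)
        rw [Units.coe_prod]
        simp
      have h5 : ((c : Fˣ) : F) * c₀ = ((c' : Fˣ) : F) * c₀ := by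
        rw [← hp c τ h3 h2, ← hp c' τ' h3' h2', hval]
      have h6 : c = c' := by
        apply Subtype.ext
        apply Units.ext
        exact mul_right_cancel₀ hc₀ h5
      subst h6
      have h7 : τ.1 = τ'.1 := scal_inj hadm hadm' (h3.trans h3'.symm) _
        (fun j => (s c j).ne_zero) hval
      have h8 : τ = τ' := Subtype.ext h7
      rw [h8]
  have h1 : Fintype.card F - 1 = D.index * Nat.card D := by
    rw [← card_units_eq, Subgroup.index_mul_card]
  have h2 : D.index ≤ eJ (Fintype.card F) J :=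
    Nat.le_of_dvd (eJ_pos Fintype.one_lt_card _) (index_range_rho_dvd J)
  calc (Fintype.card F - 1) * A.card = D.index * (A.card * Nat.card D) := by rw [h1]; ring
    _ ≤ eJ (Fintype.card F) J * B.card := Nat.mul_le_mul h2 hcard

/-- Summing over all sets of exponents. -/
theorem sum_le_sum_sq {c₀ : F} (hc₀ : c₀ ≠ 0) :
    (Fintype.card F - 1) * (∑ τ : S F n n, if constProd τ.1 = c₀ then eJ (Fintype.card F) (expo τ.1) else 0) ≤
      ∑ τ : S F n n, eJ (Fintype.card F) (expo τ.1) ^ 2 := by
  set q := Fintype.card F with hq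
  set Js := Finset.univ.image fun τ : S F n n => expo τ.1 with hJs
  have hmaps : ∀ τ ∈ (Finset.univ : Finset (S F n n)), expo τ.1 ∈ Js := fun τ _ =>
    Finset.mem_image_of_mem _ (Finset.mem_univ _)
  rw [← Finset.sum_fiberwise_of_maps_to hmaps, ← Finset.sum_fiberwise_of_maps_to hmaps (fun τ : S F n n => eJ q (expo τ.1) ^ 2),
    Finset.mul_sum]
  apply Finset.sum_le_sum
  intro J _
  have h1 : (∑ τ ∈ Finset.univ.filter (fun τ : S F n n => expo τ.1 = J),
      if constProd τ.1 = c₀ then eJ q (expo τ.1) else 0) =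
      eJ q J * (Finset.univ.filter fun τ : S F n n => constProd τ.1 = c₀ ∧ expo τ.1 = J).card := by
    have h2 : (Finset.univ.filter fun τ : S F n n => constProd τ.1 = c₀ ∧ expo τ.1 = J) =
        (Finset.univ.filter fun τ : S F n n => expo τ.1 = J).filter fun τ => constProd τ.1 = c₀ := by
      ext τ
      simp [and_comm]
    rw [h2, Finset.sum_ite, Finset.sum_const_zero, add_zero, Finset.sum_congr rfl (g := fun _ => eJ q J),
      Finset.sum_const, smul_eq_mul, mul_comm]
    intro τ hτ
    rw [(Finset.mem_filter.mp (Finset.mem_filter.mp hτ).1).2]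
  have h3 : (∑ τ ∈ Finset.univ.filter (fun τ : S F n n => expo τ.1 = J), eJ q (expo τ.1) ^ 2) =
      eJ q J ^ 2 * (Finset.univ.filter fun τ : S F n n => expo τ.1 = J).card := by
    rw [Finset.sum_congr rfl (g := fun _ => eJ q J ^ 2), Finset.sum_const, smul_eq_mul, mul_comm]
    intro τ hτ
    rw [(Finset.mem_filter.mp hτ).2]
  rw [h1, h3]
  have h4 := key_count (n := n) J hc₀
  calc (q - 1) * (eJ q J * _) = eJ q J * ((q - 1) * _) := by ring
    _ ≤ eJ q J * (eJ q J * _) := Nat.mul_le_mul_left _ h4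
    _ = _ := by ring

end Scale

end Cfsg.Agent.Lib.ClassNum.SLCount
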