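import Mathlib
import Cfsg.Agent.Lib.ClassNum.SLCount

/-!
# Bounds on the number of types; the class number of `SL`
-/

set_option autoImplicit false

open Polynomial Module
open Cfsg.Agent.Lib.Linalg.RCF Cfsg.Agent.Lib.Linalg.RCFType Cfsg.Agent.S2478
open Cfsg.Agent.Lib.ClassNum.TypeFam Cfsg.Agent.Lib.ClassNum.SLFiber Cfsg.Agent.Lib.ClassNum.SLCount
open scoped Classical

namespace Cfsg.Agent.Lib.ClassNum.SLBound

universe u

variable {F : Type u} [Field F] [Fintype F]

/-- The number of types of size `m`. -/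
noncomputable abbrev kT (F : Type u) [Field F] (m : ℕ) : ℕ := Nat.card (S F m m)

theorem kT_le_pow (m : ℕ) : kT F m ≤ Fintype.card F ^ m := (bound (F := F) m m).2.1

theorem card_S_zero_zero : Nat.card (S F 0 0) ≤ 1 := by
  have := finite_S_zero (F := F) 0
  exact Finite.card_le_one_iff_subsingleton.mpr this

theorem card_S_zero_pos' {m : ℕ} (hm : 1 ≤ m) : Nat.card (S F 0 m) = 0 := by
  have := card_S_zero_pos (F := F) hm
  exact Nat.card_of_isEmpty

theorem hfin (J m : ℕ) : Finite (S F J m) := (bound (F := F) J m).1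

theorem card_S_one_le (m : ℕ) : Nat.card (S F 1 m) ≤ Nat.card (Mon F m) := by
  have h := (step_inj (F := F) 0 m (hfin 0)).2
  refine h.trans ?_
  simp only [zero_add, Nat.div_one, one_mul]
  rw [Finset.sum_eq_single m]
  · rw [Nat.sub_self]
    exact (Nat.mul_le_mul_left _ card_S_zero_zero).trans (by simp)
  · intro d hd hne
    have h1 := Finset.mem_range.mp hd
    rw [card_S_zero_pos' (by omega), mul_zero]
  · intro hm
    exact absurd (Finset.mem_range.mpr (Nat.lt_succ_self m)) hm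

theorem card_S_one_zero : Nat.card (S F 1 0) ≤ 1 :=
  (card_S_one_le 0).trans (le_of_eq card_Mon_zero)

theorem kT_one : kT F 1 ≤ Fintype.card F - 1 := by
  have := card_S_one_le (F := F) 1
  rw [card_Mon_succ] at this
  simpa using this

theorem kT_two : kT F 2 + 1 ≤ Fintype.card F ^ 2 := by
  have hq : 2 ≤ Fintype.card F := Fintype.one_lt_card
  obtain ⟨r, hr⟩ : ∃ r, Fintype.card F = r + 1 := ⟨Fintype.card F - 1, by omega⟩
  have h : Nat.card (S F 2 2) ≤ Nat.card (Mon F 0) * Nat.card (S F 1 2) +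
      Nat.card (Mon F 1) * Nat.card (S F 1 0) := by
    have h := (step_inj (F := F) 1 2 (hfin 1)).2
    rw [show 2 / (1 + 1) + 1 = 2 from rfl, Finset.sum_range_succ, Finset.sum_range_one] at h
    exact h
  have h1 : Nat.card (S F 1 2) ≤ r * (r + 1) := by
    have := card_S_one_le (F := F) 2
    rw [card_Mon_succ, hr] at this
    simpa using this
  have h2 := card_S_one_zero (F := F)
  have h3 : Nat.card (Mon F 1) = r := by
    rw [card_Mon_succ, hr]; simp
  rw [card_Mon_zero, one_mul, h3] at h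
  have h4 : r * Nat.card (S F 1 0) ≤ r * 1 := Nat.mul_le_mul_left _ h2
  have h5 : kT F 2 ≤ r * (r + 1) + r * 1 := h.trans (Nat.add_le_add h1 h4)
  rw [hr]
  nlinarith

theorem kT_three : kT F 3 + Fintype.card F ≤ Fintype.card F ^ 3 := by
  have hq : 2 ≤ Fintype.card F := Fintype.one_lt_card
  obtain ⟨r, hr⟩ : ∃ r, Fintype.card F = r + 1 := ⟨Fintype.card F - 1, by omega⟩
  have h : Nat.card (S F 3 3) ≤ Nat.card (Mon F 0) * Nat.card (S F 2 3) +
      Nat.card (Mon F 1) * Nat.card (S F 2 0) := by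
    have h := (step_inj (F := F) 2 3 (hfin 2)).2
    rw [show 3 / (2 + 1) + 1 = 2 from rfl, Finset.sum_range_succ, Finset.sum_range_one] at h
    exact h
  have h' : Nat.card (S F 2 3) ≤ Nat.card (Mon F 0) * Nat.card (S F 1 3) +
      Nat.card (Mon F 1) * Nat.card (S F 1 1) := by
    have h := (step_inj (F := F) 1 3 (hfin 1)).2
    rw [show 3 / (1 + 1) + 1 = 2 from rfl, Finset.sum_range_succ, Finset.sum_range_one] at h
    exact h
  have h'' : Nat.card (S F 2 0) ≤ Nat.card (Mon F 0) * Nat.card (S F 1 0) := by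
    have h := (step_inj (F := F) 1 0 (hfin 1)).2
    rw [show 0 / (1 + 1) + 1 = 1 from rfl, Finset.sum_range_one] at h
    exact h
  have h3 : Nat.card (Mon F 1) = r := by
    rw [card_Mon_succ, hr]; simp
  rw [card_Mon_zero, one_mul] at h h' h''
  rw [h3] at h h'
  have e1 : Nat.card (S F 1 3) ≤ r * (r + 1) ^ 2 := by
    have := card_S_one_le (F := F) 3
    rw [card_Mon_succ, hr] at this
    simpa using this
  have e2 : Nat.card (S F 1 1) ≤ r := by
    have := card_S_one_le (F := F) 1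
    rw [h3] at this
    exact this
  have e3 := card_S_one_zero (F := F)
  have a1 : Nat.card (S F 2 0) ≤ 1 := h''.trans e3
  have a3 : r * Nat.card (S F 2 0) ≤ r * 1 := Nat.mul_le_mul_left _ a1
  have a4 : r * Nat.card (S F 1 1) ≤ r * r := Nat.mul_le_mul_left _ e2
  have a5 : kT F 3 ≤ r * (r + 1) ^ 2 + r * r + r * 1 := by
    refine h.trans (Nat.add_le_add ?_ a3)
    exact h'.trans (Nat.add_le_add e1 a4)
  rw [hr]
  nlinarith

section Divide

/-- Dividing all exponents by `D`. -/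
noncomputable def divTy (D : ℕ) (τ : Multiset (F[X] × ℕ)) : Multiset (F[X] × ℕ) :=
  τ.map fun a => (a.1, a.2 / D)

/-- Types all of whose exponents are divisible by `D` are types of size `n / D`. -/
theorem card_filter_dvd_le {n D : ℕ} (hD : 0 < D) (hDn : D ∣ n) [Fintype (S F n n)] :
    (Finset.univ.filter fun τ : S F n n => ∀ a ∈ τ.1, D ∣ a.2).card ≤ kT F (n / D) := by
  have := hfin (F := F) (n / D) (n / D)
  have hφ : ∀ τ : {τ : S F n n // ∀ a ∈ τ.1, D ∣ a.2},
      (∀ a ∈ divTy D τ.1.1, (Adm a ∧ a.1 ≠ X) ∧ a.2 ≤ n / D) ∧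
        ((divTy D τ.1.1).map fun a => a.2 * a.1.natDegree).sum = n / D := by
    rintro ⟨⟨τ, hτ, hs⟩, hd⟩
    constructor
    · intro b hb
      obtain ⟨a, ha, rfl⟩ := Multiset.mem_map.mp hb
      obtain ⟨⟨⟨h1, h2, h3⟩, h4⟩, h5⟩ := hτ a ha
      refine ⟨⟨⟨h1, h2, Nat.div_pos (Nat.le_of_dvd h3 (hd a ha)) hD⟩, h4⟩, Nat.div_le_div_right h5⟩
    · change (Multiset.map _ (divTy D τ)).sum = _
      apply Nat.eq_div_of_mul_eq_right hD.ne'
      unfold divTy
      rw [Multiset.map_map, ← Multiset.sum_map_mul_left, ← hs]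
      congr 1
      refine Multiset.map_congr rfl fun a ha => ?_
      simp only [Function.comp]
      rw [← mul_assoc, Nat.mul_div_cancel' (hd a ha)]
  rw [← Fintype.card_subtype, ← Nat.card_eq_fintype_card]
  refine Nat.card_le_card_of_injective (fun τ => (⟨divTy D τ.1.1, hφ τ⟩ : S F (n / D) (n / D))) ?_
  rintro ⟨⟨τ, hτ⟩, hd⟩ ⟨⟨τ', hτ'⟩, hd'⟩ heq
  have h1 : divTy D τ = divTy D τ' := congrArg (fun z : S F (n / D) (n / D) => z.1) heq
  have h2 : ∀ σ : Multiset (F[X] × ℕ), (∀ a ∈ σ, D ∣ a.2) →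
      (divTy D σ).map (fun a => (a.1, a.2 * D)) = σ := by
    intro σ hσ
    unfold divTy
    rw [Multiset.map_map]
    conv_rhs => rw [← Multiset.map_id σ]
    refine Multiset.map_congr rfl fun a ha => ?_
    simp only [Function.comp, id]
    rw [Nat.div_mul_cancel (hσ a ha)]
  apply Subtype.ext
  apply Subtype.ext
  change τ = τ'
  rw [← h2 τ hd, ← h2 τ' hd', h1]

end Divide

section Sum

variable {n : ℕ} [Fintype (S F n n)]

/-- The divisors relevant to the sum. -/
def Ds (n q : ℕ) : Finset ℕ := (Nat.divisors (Nat.gcd n (q - 1))).filter fun D => 2 ≤ D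

theorem mem_Ds {n q D : ℕ} (hq : 2 ≤ q) : D ∈ Ds n q ↔ D ∣ n ∧ D ∣ q - 1 ∧ 2 ≤ D := by
  unfold Ds
  rw [Finset.mem_filter, Nat.mem_divisors, Nat.dvd_gcd_iff]
  have : Nat.gcd n (q - 1) ≠ 0 := (Nat.gcd_pos_of_pos_right _ (by omega)).ne'
  tauto

/-- The sum of squares is bounded by the numbers of types. -/
theorem sum_sq_le (hn : 1 ≤ n) :
    ∑ τ : S F n n, eJ (Fintype.card F) (expo τ.1) ^ 2 ≤
      kT F n + ∑ D ∈ Ds n (Fintype.card F), (D ^ 2 - 1) * kT F (n / D) := by
  set q := Fintype.card F with hq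
  have hq2 : 2 ≤ q := Fintype.one_lt_card
  have hpt : ∀ τ : S F n n, eJ q (expo τ.1) ^ 2 ≤
      1 + ∑ D ∈ Ds n q, (D ^ 2 - 1) * (if ∀ a ∈ τ.1, D ∣ a.2 then 1 else 0) := by
    intro τ
    set e := eJ q (expo τ.1) with he
    have he0 : 0 < e := eJ_pos hq2 _
    by_cases he1 : e = 1
    · rw [he1]
      simp
    have he2 : 2 ≤ e := by omega
    have hall : ∀ a ∈ τ.1, e ∣ a.2 := fun a ha => eJ_dvd_of_mem (mem_expo.mpr ⟨a, ha, rfl⟩)
    have hen : e ∣ n := by
      rw [← τ.2.2]
      apply Multiset.dvd_sum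
      intro x hx
      obtain ⟨a, ha, rfl⟩ := Multiset.mem_map.mp hx
      exact (hall a ha).mul_right _
    have hmem : e ∈ Ds n q := (mem_Ds hq2).mpr ⟨hen, eJ_dvd_left _ _, he2⟩
    have h1 := Finset.single_le_sum (f := fun D => (D ^ 2 - 1) * (if ∀ a ∈ τ.1, D ∣ a.2 then 1 else 0))
      (fun _ _ => Nat.zero_le _) hmem
    simp only [if_pos hall, mul_one] at h1
    have h2 : 1 ≤ e ^ 2 := Nat.one_le_pow _ _ he0
    omega
  refine (Finset.sum_le_sum fun τ _ => hpt τ).trans ?_
  rw [Finset.sum_add_distrib, Finset.sum_const, Finset.card_univ, smul_eq_mul, mul_one,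
    ← Nat.card_eq_fintype_card, Finset.sum_comm]
  apply Nat.add_le_add_left
  apply Finset.sum_le_sum
  intro D hD
  obtain ⟨h1, h2, h3⟩ := (mem_Ds hq2).mp hD
  rw [← Finset.mul_sum]
  apply Nat.mul_le_mul_left
  rw [← Finset.card_filter]
  exact card_filter_dvd_le (by omega) h1

open Matrix in
/-- The main inequality for the class number of `SL`. -/
theorem main_ineq (hn : 1 ≤ n) :
    (Fintype.card F - 1) * Nat.card (ConjClasses (SpecialLinearGroup (Fin n) F)) ≤
      kT F n + ∑ D ∈ Ds n (Fintype.card F), (D ^ 2 - 1) * kT F (n / D) := by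
  have h1 := card_classes_le (F := F) (n := n)
  have h2 := sum_le_sum_sq (F := F) (n := n) (c₀ := (-1) ^ n) (pow_ne_zero _ (by simp))
  exact (Nat.mul_le_mul_left _ h1).trans (h2.trans (sum_sq_le hn))

end Sum

end Cfsg.Agent.Lib.ClassNum.SLBound
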