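import Mathlib
import Cfsg.Agent.Lib.Linalg.RCFType

/-!
# The type of a scalar multiple

The elementary divisors of `a • T` are the `(f.scaleRoots a, j)` for the elementary divisors `(f, j)` of `T`.
-/

set_option autoImplicit false

open Polynomial Module
open Cfsg.Agent.Lib.Linalg.RCF

namespace Cfsg.Agent.Lib.ClassNum.ScaleType

universe u v

variable {F : Type u} [Field F]

/-- The substitution `X ↦ a⁻¹ X`. -/
noncomputable def sbs (a : F) (ha : a ≠ 0) : F[X] ≃ₐ[F] F[X] :=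
  AlgEquiv.ofAlgHom (aeval (C a⁻¹ * X)) (aeval (C a * X))
    (by
      apply Polynomial.algHom_ext
      simp only [AlgHom.comp_apply, aeval_X, map_mul, aeval_C, AlgHom.coe_id, id]
      rw [← mul_assoc]
      have : (algebraMap F F[X]) a * C a⁻¹ = 1 := by
        rw [algebraMap_eq, ← C_mul, mul_inv_cancel₀ ha, C_1]
      rw [this, one_mul])
    (by
      apply Polynomial.algHom_ext
      simp only [AlgHom.comp_apply, aeval_X, map_mul, aeval_C, AlgHom.coe_id, id]
      rw [← mul_assoc]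
      have : (algebraMap F F[X]) a⁻¹ * C a = 1 := by
        rw [algebraMap_eq, ← C_mul, inv_mul_cancel₀ ha, C_1]
      rw [this, one_mul])

theorem sbs_apply (a : F) (ha : a ≠ 0) (p : F[X]) : sbs a ha p = p.comp (C a⁻¹ * X) := by
  change aeval (C a⁻¹ * X) p = _
  rw [aeval_def, algebraMap_eq]
  rfl

theorem sbs_scale (a : F) (ha : a ≠ 0) (p : F[X]) : sbs a ha ((C a * X) * p) = X * sbs a ha p := by
  rw [map_mul]
  congr 1
  rw [sbs_apply]
  simp only [mul_comp, C_comp, X_comp]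
  rw [← mul_assoc, ← C_mul, mul_inv_cancel₀ ha, C_1, one_mul]

theorem sbs_eq_scaleRoots (a : F) (ha : a ≠ 0) (f : F[X]) :
    sbs a ha f = C (a⁻¹ ^ f.natDegree) * f.scaleRoots a := by
  ext i
  rw [sbs_apply, comp_C_mul_X_coeff, coeff_C_mul, coeff_scaleRoots]
  by_cases hi : i ≤ f.natDegree
  · have h1 : a⁻¹ ^ f.natDegree * a ^ (f.natDegree - i) = a⁻¹ ^ i := by
      have h2 : a⁻¹ ^ f.natDegree = a⁻¹ ^ (f.natDegree - i) * a⁻¹ ^ i := by
        rw [← pow_add]; congr 1; omega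
      rw [h2, mul_right_comm, ← mul_pow, inv_mul_cancel₀ ha, one_pow, one_mul]
    calc f.coeff i * a⁻¹ ^ i = f.coeff i * (a⁻¹ ^ f.natDegree * a ^ (f.natDegree - i)) := by rw [h1]
      _ = _ := by ring
  · have : f.coeff i = 0 := coeff_eq_zero_of_natDegree_lt (by omega)
    rw [this]; simp

theorem irreducible_scaleRoots {f : F[X]} (hf : Irreducible f) {a : F} (ha : a ≠ 0) :
    Irreducible (f.scaleRoots a) := by
  have h1 : Irreducible (sbs a ha f) := (MulEquiv.irreducible_iff (sbs a ha)).mpr hf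
  rw [sbs_eq_scaleRoots] at h1
  have hu : IsUnit (C (a⁻¹ ^ f.natDegree)) :=
    isUnit_C.mpr (isUnit_iff_ne_zero.mpr (pow_ne_zero _ (inv_ne_zero ha)))
  exact (irreducible_isUnit_mul hu).mp h1

/-- The quotient equivalence induced by the substitution. -/
noncomputable def qEquiv (a : F) (ha : a ≠ 0) (h h' : F[X]) (c : F) (hc : c ≠ 0)
    (hh : sbs a ha h = C c * h') : Q h ≃ₗ[F] Q h' :=
  (Submodule.Quotient.restrictScalarsEquiv F (Submodule.span F[X] {h})).symm ≪≫ₗ
    Submodule.Quotient.equiv _ _ (sbs a ha).toLinearEquiv (by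
      ext y
      simp only [Submodule.mem_map, Submodule.restrictScalars_mem, Submodule.mem_span_singleton]
      constructor
      · rintro ⟨x, ⟨u, rfl⟩, rfl⟩
        refine ⟨sbs a ha u * C c, ?_⟩
        change _ = sbs a ha (u • h)
        rw [smul_eq_mul, smul_eq_mul, map_mul, hh]
        ring
      · rintro ⟨u, rfl⟩
        refine ⟨(sbs a ha).symm (u * C c⁻¹) * h, ⟨_, rfl⟩, ?_⟩
        change sbs a ha _ = _
        rw [map_mul, AlgEquiv.apply_symm_apply, hh, smul_eq_mul, mul_assoc, ← mul_assoc (C c⁻¹),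
          ← C_mul, inv_mul_cancel₀ hc, C_1, one_mul]) ≪≫ₗ
    Submodule.Quotient.restrictScalarsEquiv F (Submodule.span F[X] {h'})

theorem qEquiv_mk (a : F) (ha : a ≠ 0) (h h' : F[X]) (c : F) (hc : c ≠ 0)
    (hh : sbs a ha h = C c * h') (p : F[X]) :
    qEquiv a ha h h' c hc hh (Submodule.Quotient.mk p) = Submodule.Quotient.mk (sbs a ha p) := rfl

theorem qEquiv_smul (a : F) (ha : a ≠ 0) (h h' : F[X]) (c : F) (hc : c ≠ 0)
    (hh : sbs a ha h = C c * h') (y : Q h) :
    qEquiv a ha h h' c hc hh (a • ((X : F[X]) • y)) = (X : F[X]) • qEquiv a ha h h' c hc hh y := by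
  obtain ⟨p, rfl⟩ := Submodule.Quotient.mk_surjective _ y
  have h1 : a • ((X : F[X]) • (Submodule.Quotient.mk p : Q h)) = Submodule.Quotient.mk ((C a * X) * p) := by
    rw [← Submodule.Quotient.mk_smul, ← Submodule.Quotient.mk_smul]
    congr 1
    rw [smul_eq_mul, smul_eq_C_mul, mul_assoc]
  rw [h1, qEquiv_mk, qEquiv_mk, sbs_scale, ← Submodule.Quotient.mk_smul, smul_eq_mul]

section Ty

variable {V : Type v} [AddCommGroup V] [Module F V] [FiniteDimensional F V]

open scoped Classical in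
/-- The type of a scalar multiple. -/
theorem typeOf_smul (T : V →ₗ[F] V) {a : F} (ha : a ≠ 0) :
    typeOf (a • T) = (typeOf T).map fun b => (b.1.scaleRoots a, b.2) := by
  obtain ⟨m, hm⟩ := exists_model_typeOf T
  let c : typeOf T → F[X] × ℕ := fun x => ((x : F[X] × ℕ).1.scaleRoots a, (x : F[X] × ℕ).2)
  have hadm0 : ∀ x : typeOf T, Adm (x : F[X] × ℕ) := fun x => typeOf_adm T x.1 Multiset.coe_mem
  have hadm : ∀ x, Adm (c x) := fun x =>
    ⟨(monic_scaleRoots_iff a).mpr (hadm0 x).1, irreducible_scaleRoots (hadm0 x).2.1 ha, (hadm0 x).2.2⟩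
  have hh : ∀ x : typeOf T, sbs a ha ((x : F[X] × ℕ).1 ^ (x : F[X] × ℕ).2) =
      C ((a⁻¹ ^ (x : F[X] × ℕ).1.natDegree) ^ (x : F[X] × ℕ).2) *
        ((x : F[X] × ℕ).1.scaleRoots a) ^ (x : F[X] × ℕ).2 := by
    intro x
    rw [map_pow, sbs_eq_scaleRoots, mul_pow, ← C_pow]
  let E : ∀ x : typeOf T, Q ((x : F[X] × ℕ).1 ^ (x : F[X] × ℕ).2) ≃ₗ[F] Q ((c x).1 ^ (c x).2) := fun x =>
    qEquiv a ha _ _ _ (pow_ne_zero _ (pow_ne_zero _ (inv_ne_zero ha))) (hh x)
  let g : V ≃ₗ[F] Model c := m ≪≫ₗ LinearEquiv.piCongrRight E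
  have hg : ∀ v, g ((a • T) v) = (X : F[X]) • g v := by
    intro v
    funext x
    change E x (m ((a • T) v) x) = (X : F[X]) • E x (m v x)
    have h1 : m ((a • T) v) x = a • ((X : F[X]) • (m v x)) := by
      rw [LinearMap.smul_apply, map_smul, hm]
      rfl
    rw [h1]
    exact qEquiv_smul a ha _ _ _ _ _ _
  have h2 := typeOf_eq_of_model hadm (a • T) g hg
  rw [h2]
  conv_rhs => rw [← Multiset.map_univ_coe (typeOf T), Multiset.map_map]
  rfl

end Ty

end Cfsg.Agent.Lib.ClassNum.ScaleType
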