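import Mathlib
import Cfsg.Agent.Lib.ClassNum.ScaleType
import Cfsg.Agent.Lib.ClassNum.SLBound

/-!
# Types fixed by a scalar

If the type `τ` of size `n` is fixed by a scalar `a` of order `r`, then all polynomials `hPart j τ` are polynomials in
`X ^ r`; contracting them gives a type of size `n / r` with the same exponents and the same product of constant terms.
The number of classes of `SL_n(q)` fixed by the central element `a` is therefore controlled by types of size `n / r`.
-/

set_option autoImplicit false

open Polynomial Module UniqueFactorizationMonoid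
open Cfsg.Agent.Lib.Linalg.RCF Cfsg.Agent.Lib.Linalg.RCFType Cfsg.Agent.S2478
open Cfsg.Agent.Lib.ClassNum.TypeFam Cfsg.Agent.Lib.ClassNum.SLFiber Cfsg.Agent.Lib.ClassNum.SLCount
open Cfsg.Agent.Lib.ClassNum.SLBound Cfsg.Agent.Lib.ClassNum.ScaleType
open scoped Classical

namespace Cfsg.Agent.Lib.ClassNum.InvTypes

universe u

variable {F : Type u} [Field F]

/-- The scaling action on types. -/
noncomputable def actT (a : F) (τ : Multiset (F[X] × ℕ)) : Multiset (F[X] × ℕ) :=
  τ.map fun b => (b.1.scaleRoots a, b.2)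

theorem multiset_prod_scaleRoots (s : Multiset F[X]) (a : F) :
    s.prod.scaleRoots a = (s.map fun f => f.scaleRoots a).prod := by
  induction s using Multiset.induction_on with
  | empty => simp
  | cons f s ih =>
    rw [Multiset.prod_cons, Multiset.map_cons, Multiset.prod_cons, mul_scaleRoots_of_noZeroDivisors, ih]

theorem hPart_actT (a : F) (j : ℕ) (τ : Multiset (F[X] × ℕ)) :
    hPart j (actT a τ) = (hPart j τ).scaleRoots a := by
  unfold hPart actT
  rw [multiset_prod_scaleRoots, Multiset.filter_map, Multiset.map_map, Multiset.map_map]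
  congr 2

/-- Coefficients of a scalar-invariant polynomial. -/
theorem dvd_of_inv {h : F[X]} {a : F} (hinv : h.scaleRoots a = h) (h0 : h.coeff 0 ≠ 0) :
    orderOf a ∣ h.natDegree ∧ ∀ i, h.coeff i ≠ 0 → orderOf a ∣ i := by
  have h1 : ∀ i, h.coeff i ≠ 0 → a ^ (h.natDegree - i) = 1 := by
    intro i hi
    have h2 := congrArg (fun p => p.coeff i) hinv
    simp only [coeff_scaleRoots] at h2
    exact mul_left_cancel₀ hi (by rw [h2, mul_one])
  have h3 : orderOf a ∣ h.natDegree := by
    have := orderOf_dvd_of_pow_eq_one (h1 0 h0)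
    simpa using this
  refine ⟨h3, fun i hi => ?_⟩
  have h4 := orderOf_dvd_of_pow_eq_one (h1 i hi)
  have h5 : i ≤ h.natDegree := le_natDegree_of_ne_zero hi
  exact (Nat.dvd_sub_iff_right h5 h3).mp h4

theorem expand_contract_of_inv {h : F[X]} {a : F} (hinv : h.scaleRoots a = h) (h0 : h.coeff 0 ≠ 0)
    (hr : 0 < orderOf a) : expand F (orderOf a) (contract (orderOf a) h) = h := by
  ext i
  rw [coeff_expand hr]
  split_ifs with hd
  · rw [coeff_contract hr.ne', Nat.div_mul_cancel hd]
  · by_contra hne
    exact hd ((dvd_of_inv hinv h0).2 i (fun h' => hne h'.symm))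

/-- The contraction of a type. -/
noncomputable def contractT (r : ℕ) (τ : Multiset (F[X] × ℕ)) : Multiset (F[X] × ℕ) :=
  ofFam (expo τ) fun j => contract r (hPart j τ)

/-- An invariant type of size `n` contracts to a type of size `n / r`. -/
structure InvT (a : F) (τ : Multiset (F[X] × ℕ)) : Prop where
  adm : ∀ b ∈ τ, Adm b ∧ b.1 ≠ X
  inv : actT a τ = τ

namespace InvT

variable {a : F} {τ : Multiset (F[X] × ℕ)} (H : InvT a τ) (hr : 0 < orderOf a)

include H

theorem adm' : ∀ b ∈ τ, Adm b := fun b hb => (H.adm b hb).1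

theorem hpart_inv (j : ℕ) : (hPart j τ).scaleRoots a = hPart j τ := by
  rw [← hPart_actT, H.inv]

theorem expand_eq (hr : 0 < orderOf a) (j : ℕ) :
    expand F (orderOf a) (contract (orderOf a) (hPart j τ)) = hPart j τ :=
  expand_contract_of_inv (H.hpart_inv j) (hPart_coeff j τ H.adm) hr

theorem contract_monic (hr : 0 < orderOf a) (j : ℕ) : (contract (orderOf a) (hPart j τ)).Monic := by
  have h1 := hPart_monic j τ H.adm'
  rw [← H.expand_eq hr j] at h1
  exact (monic_expand_iff hr).mp h1

theorem contract_natDegree (hr : 0 < orderOf a) (j : ℕ) :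
    (contract (orderOf a) (hPart j τ)).natDegree * orderOf a = (hPart j τ).natDegree := by
  conv_rhs => rw [← H.expand_eq hr j]
  rw [natDegree_expand]

theorem contract_coeff (hr : 0 < orderOf a) (j : ℕ) :
    (contract (orderOf a) (hPart j τ)).coeff 0 = (hPart j τ).coeff 0 := by
  rw [coeff_contract hr.ne', zero_mul]

theorem contract_natDegree_pos (hr : 0 < orderOf a) {j : ℕ} (hj : j ∈ expo τ) :
    0 < (contract (orderOf a) (hPart j τ)).natDegree := by
  have h1 := H.contract_natDegree hr j
  have h2 := natDegree_hPart_pos H.adm' hj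
  by_contra h3
  rw [Nat.not_lt, Nat.le_zero] at h3
  rw [h3, zero_mul] at h1
  omega

theorem expo_contractT (hr : 0 < orderOf a) : expo (contractT (orderOf a) τ) = expo τ :=
  expo_ofFam fun _ hj => ⟨H.contract_monic hr _, H.contract_natDegree_pos hr hj⟩

theorem constProd_contractT (hr : 0 < orderOf a) : constProd (contractT (orderOf a) τ) = constProd τ := by
  unfold contractT
  rw [constProd_ofFam _ _ fun j _ => H.contract_monic hr j, constProd_eq τ H.adm']
  exact Finset.prod_congr rfl fun j _ => by rw [H.contract_coeff hr]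

theorem tsize_contractT (hr : 0 < orderOf a) :
    orderOf a * tsize (contractT (orderOf a) τ) = tsize τ := by
  unfold contractT
  rw [tsize_ofFam _ _ fun j _ => H.contract_monic hr j, tsize_eq τ H.adm', Finset.mul_sum]
  refine Finset.sum_congr rfl fun j _ => ?_
  rw [← H.contract_natDegree hr j]
  ring

theorem adm_contractT (hr : 0 < orderOf a) : ∀ b ∈ contractT (orderOf a) τ, Adm b ∧ b.1 ≠ X := by
  intro b hb
  obtain ⟨hj, hf⟩ := mem_ofFam.mp hb
  obtain ⟨a₀, ha₀, h2⟩ := mem_expo.mp hj
  refine ⟨⟨?_, irreducible_of_normalized_factor _ hf, ?_⟩, ?_⟩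
  · rw [← normalize_normalized_factor _ hf]
    exact monic_normalize (irreducible_of_normalized_factor _ hf).ne_zero
  · rw [← h2]
    exact (H.adm' a₀ ha₀).2.2
  · intro hX
    have hd : (X : F[X]) ∣ contract (orderOf a) (hPart b.2 τ) := by
      rw [← hX]
      exact dvd_of_mem_normalizedFactors hf
    rw [X_dvd_iff, H.contract_coeff hr] at hd
    exact hPart_coeff _ _ H.adm hd

end InvT

/-- Contraction is injective on invariant types. -/
theorem contractT_inj {a : F} {τ τ' : Multiset (F[X] × ℕ)} (H : InvT a τ) (H' : InvT a τ') (hr : 0 < orderOf a)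
    (heq : contractT (orderOf a) τ = contractT (orderOf a) τ') : τ = τ' := by
  have h1 : expo τ = expo τ' := by
    rw [← H.expo_contractT hr, ← H'.expo_contractT hr, heq]
  have h2 : ∀ j ∈ expo τ, hPart j τ = hPart j τ' := by
    intro j hj
    have h3 : hPart j (contractT (orderOf a) τ) = contract (orderOf a) (hPart j τ) :=
      hPart_ofFam hj (H.contract_monic hr j)
    have h4 : hPart j (contractT (orderOf a) τ') = contract (orderOf a) (hPart j τ') :=
      hPart_ofFam (h1 ▸ hj) (H'.contract_monic hr j)
    rw [heq, h4] at h3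
    rw [← H.expand_eq hr j, ← H'.expand_eq hr j, h3]
  rw [← ofFam_hPart τ H.adm', ← ofFam_hPart τ' H'.adm', ← h1]
  unfold ofFam
  exact Finset.sum_congr rfl fun j hj => by simp only [h2 j hj]

theorem le_of_mem_tsize {τ : Multiset (F[X] × ℕ)} (hadm : ∀ b ∈ τ, Adm b) {b : F[X] × ℕ} (hb : b ∈ τ) :
    b.2 ≤ tsize τ := by
  have h4 : b.2 * b.1.natDegree ≤ tsize τ :=
    Multiset.single_le_sum (fun _ _ => Nat.zero_le _) _ (Multiset.mem_map_of_mem _ hb)
  have h5 : 0 < b.1.natDegree := (hadm b hb).2.1.natDegree_pos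
  nlinarith

end Cfsg.Agent.Lib.ClassNum.InvTypes
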