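import Mathlib
import Cfsg.Agent.Lib.ClassNum.InvTypes
import Cfsg.Agent.Lib.ClassNum.CenterClasses

/-!
# Classes of `SL_n(q)` fixed by a central element

`(q - 1) #{C : z C = C} ≤ kT m + ∑_{D} (D² - 1) kT (m / D)` where `m = n / r`, `r` the order of the scalar `z`.
-/

set_option autoImplicit false

open Polynomial Module
open Cfsg.Agent.Lib.Linalg.RCF Cfsg.Agent.Lib.Linalg.RCFType Cfsg.Agent.S2478
open Cfsg.Agent.Lib.ClassNum.TypeFam Cfsg.Agent.Lib.ClassNum.SLFiber Cfsg.Agent.Lib.ClassNum.SLCount
open Cfsg.Agent.Lib.ClassNum.SLBound Cfsg.Agent.Lib.ClassNum.ScaleType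
open Cfsg.Agent.Lib.ClassNum.InvTypes Cfsg.Agent.Lib.ClassNum.CenterClasses
open scoped Classical

namespace Cfsg.Agent.Lib.ClassNum.FixBound

universe u

variable {F : Type u} [Field F] [Fintype F] {n : ℕ}

open Matrix

/-- The bounding number. -/
noncomputable def B (F : Type u) [Field F] [Fintype F] (m : ℕ) : ℕ :=
  kT F m + ∑ D ∈ Ds m (Fintype.card F), (D ^ 2 - 1) * kT F (m / D)

theorem matType_smul {M : Matrix (Fin n) (Fin n) F} {a : F} (ha : a ≠ 0) :
    matType (a • M) = actT a (matType M) := by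
  unfold matType actT
  rw [← typeOf_smul _ ha, map_smul]

/-- A fixed class has an invariant type. -/
theorem actT_typ {z : Subgroup.center (SpecialLinearGroup (Fin n) F)} {a : F} (ha : a ≠ 0)
    (hz : ((z : SpecialLinearGroup (Fin n) F) : Matrix (Fin n) (Fin n) F) = scalar (Fin n) a)
    {C : ConjClasses (SpecialLinearGroup (Fin n) F)} (hC : z • C = C) : actT a (typ C) = typ C := by
  set x : SpecialLinearGroup (Fin n) F := Quotient.out C with hx
  have h1 : ConjClasses.mk x = C := Quotient.out_eq C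
  have h2 : ConjClasses.mk ((z : SpecialLinearGroup (Fin n) F) * x) = ConjClasses.mk x := by
    rw [← smul_mk, h1, hC]
  have h3 := matType_eq_of_isConj (ConjClasses.mk_eq_mk_iff_isConj.mp h2)
  have h4 : (((z : SpecialLinearGroup (Fin n) F) * x : SpecialLinearGroup (Fin n) F) : Matrix (Fin n) (Fin n) F) =
      a • (x : Matrix (Fin n) (Fin n) F) := by
    change ((z : SpecialLinearGroup (Fin n) F) : Matrix (Fin n) (Fin n) F) * (x : Matrix (Fin n) (Fin n) F) = _
    rw [hz]
    simp [Matrix.scalar_apply, Matrix.smul_eq_diagonal_mul]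
  rw [h4, matType_smul ha] at h3
  exact h3

variable (z : Subgroup.center (SpecialLinearGroup (Fin n) F))

/-- The main estimate. -/
theorem fix_bound (hn : 1 ≤ n) {a : F} (ha : a ^ n = 1)
    (hz : ((z : SpecialLinearGroup (Fin n) F) : Matrix (Fin n) (Fin n) F) = scalar (Fin n) a) :
    (Fintype.card F - 1) * Nat.card {C : ConjClasses (SpecialLinearGroup (Fin n) F) // z • C = C} ≤
      B F (n / orderOf a) := by
  have ha0 : a ≠ 0 := by
    rintro rfl
    rw [zero_pow (by omega)] at ha
    exact zero_ne_one ha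
  have hr : 0 < orderOf a := orderOf_pos_iff.mpr (isOfFinOrder_iff_pow_eq_one.mpr ⟨n, by omega, ha⟩)
  have hrn : orderOf a ∣ n := orderOf_dvd_of_pow_eq_one ha
  set r := orderOf a with hrdef
  set m := n / r with hm
  have hrm : r * m = n := Nat.mul_div_cancel' hrn
  have hm1 : 1 ≤ m := Nat.div_pos (Nat.le_of_dvd (by omega) hrn) hr
  have := hfin (F := F) n n
  have := hfin (F := F) m m
  letI : Fintype (S F n n) := Fintype.ofFinite _
  letI : Fintype (S F m m) := Fintype.ofFinite _
  let P : S F n n → Prop := fun τ => actT a τ.1 = τ.1 ∧ constProd τ.1 = (-1) ^ n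
  letI : Fintype {τ : S F n n // P τ} := Fintype.ofFinite _
  -- types of fixed classes
  have hP : ∀ C : {C : ConjClasses (SpecialLinearGroup (Fin n) F) // z • C = C}, P (tp C.1) := fun C =>
    ⟨actT_typ ha0 hz C.2, constProd_matType (Quotient.out C.1)⟩
  let tpf : {C : ConjClasses (SpecialLinearGroup (Fin n) F) // z • C = C} → {τ : S F n n // P τ} :=
    fun C => ⟨tp C.1, hP C⟩
  have h1 : Nat.card {C : ConjClasses (SpecialLinearGroup (Fin n) F) // z • C = C} ≤
      ∑ τ : {τ : S F n n // P τ}, eJ (Fintype.card F) (expo τ.1.1) := by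
    rw [Nat.card_congr (Equiv.sigmaFiberEquiv tpf).symm, Nat.card_sigma]
    apply Finset.sum_le_sum
    intro τ _
    by_cases hne : ∃ C, tpf C = τ
    · obtain ⟨C, rfl⟩ := hne
      set x : SpecialLinearGroup (Fin n) F := Quotient.out C.1 with hx
      have h2 : (tpf C).1.1 = matType (x : Matrix (Fin n) (Fin n) F) := rfl
      rw [h2]
      refine le_trans ?_ (card_fiber_le_eJ x)
      apply Nat.card_le_card_of_injective
        (fun D : {D // tpf D = tpf C} => (⟨D.1.1, by
          rw [← h2]
          exact congrArg (fun y : {τ : S F n n // P τ} => y.1.1) D.2⟩ :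
          {D // typ D = matType (x : Matrix (Fin n) (Fin n) F)}))
      intro u v huv
      apply Subtype.ext
      apply Subtype.ext
      exact congrArg (fun w : {D : ConjClasses (SpecialLinearGroup (Fin n) F) //
        typ D = matType (x : Matrix (Fin n) (Fin n) F)} => w.1) huv
    · have : IsEmpty {C // tpf C = τ} := ⟨fun C => hne ⟨C.1, C.2⟩⟩
      rw [Nat.card_of_isEmpty]
      exact Nat.zero_le _
  -- contraction
  have hInv : ∀ τ : {τ : S F n n // P τ}, InvT a τ.1.1 := fun τ =>
    ⟨fun b hb => (τ.1.2.1 b hb).1, τ.2.1⟩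
  have hΨ : ∀ τ : {τ : S F n n // P τ},
      (∀ b ∈ contractT r τ.1.1, (Adm b ∧ b.1 ≠ X) ∧ b.2 ≤ m) ∧
        ((contractT r τ.1.1).map fun b => b.2 * b.1.natDegree).sum = m := by
    intro τ
    have H := hInv τ
    have hsz : tsize (contractT r τ.1.1) = m := by
      have h3 := H.tsize_contractT hr
      have h4 : tsize τ.1.1 = n := τ.1.2.2
      have h5 : r * tsize (contractT r τ.1.1) = r * m := by
        rw [hrm]
        exact h3.trans h4
      exact Nat.eq_of_mul_eq_mul_left hr h5
    refine ⟨fun b hb => ⟨H.adm_contractT hr b hb, ?_⟩, hsz⟩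
    rw [← hsz]
    exact le_of_mem_tsize (fun c hc => (H.adm_contractT hr c hc).1) hb
  let Ψ : {τ : S F n n // P τ} → S F m m := fun τ => ⟨contractT r τ.1.1, hΨ τ⟩
  have hΨinj : Function.Injective Ψ := by
    intro τ τ' heq
    have h3 : contractT r τ.1.1 = contractT r τ'.1.1 := congrArg (fun y : S F m m => y.1) heq
    have h4 := contractT_inj (hInv τ) (hInv τ') hr h3
    apply Subtype.ext
    apply Subtype.ext
    exact h4
  have h2 : ∑ τ : {τ : S F n n // P τ}, eJ (Fintype.card F) (expo τ.1.1) ≤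
      ∑ y : S F m m, if constProd y.1 = (-1) ^ n then eJ (Fintype.card F) (expo y.1) else 0 := by
    have h3 : ∑ τ : {τ : S F n n // P τ}, eJ (Fintype.card F) (expo τ.1.1) =
        ∑ y ∈ Finset.univ.image Ψ, eJ (Fintype.card F) (expo y.1) := by
      rw [Finset.sum_image (fun u _ v _ huv => hΨinj huv)]
      refine Finset.sum_congr rfl fun τ _ => ?_
      have := (hInv τ).expo_contractT hr
      change _ = eJ _ (expo (contractT r τ.1.1))
      rw [this]
    rw [h3]
    have h4 : ∑ y ∈ Finset.univ.image Ψ, eJ (Fintype.card F) (expo y.1) =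
        ∑ y ∈ Finset.univ.image Ψ, if constProd y.1 = (-1) ^ n then eJ (Fintype.card F) (expo y.1) else 0 := by
      refine Finset.sum_congr rfl fun y hy => ?_
      obtain ⟨τ, -, rfl⟩ := Finset.mem_image.mp hy
      have h5 : constProd (Ψ τ).1 = (-1) ^ n := by
        change constProd (contractT r τ.1.1) = _
        rw [(hInv τ).constProd_contractT hr]
        exact τ.2.2
      rw [if_pos h5]
    rw [h4]
    exact Finset.sum_le_sum_of_subset (Finset.subset_univ _)
  have h3 := sum_le_sum_sq (F := F) (n := m) (c₀ := (-1) ^ n) (pow_ne_zero _ (by simp))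
  have h4 := sum_sq_le (F := F) (n := m) hm1
  calc (Fintype.card F - 1) * _ ≤ (Fintype.card F - 1) *
        ∑ y : S F m m, if constProd y.1 = (-1) ^ n then eJ (Fintype.card F) (expo y.1) else 0 :=
        Nat.mul_le_mul_left _ (h1.trans h2)
    _ ≤ _ := h3.trans h4

end Cfsg.Agent.Lib.ClassNum.FixBound
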