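import Mathlib
import Cfsg.Agent.Lib.Classical.Herm.TwoForms
import Cfsg.Agent.Lib.Linalg.RCFType

/-!
# Isometries of alternating forms: triples, isomorphism and classification bounds

`Trip F` is a nondegenerate alternating form with an isometry. `Cl τ N` says that the triples of type `τ` fall
into at most `N` isomorphism classes.
-/

set_option autoImplicit false
set_option linter.unusedSectionVars false
set_option linter.unusedVariables false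

open Polynomial Module
open Cfsg.Agent.Lib.Linalg.RCF Cfsg.Agent.Lib.Linalg.RCFType
open Cfsg.Agent.Lib.Classical.Herm.TwoForms

namespace Cfsg.Agent.Lib.ClassNum.SpTrip

universe u

variable {F : Type u} [Field F]

/-- An isometric endomorphism of a nondegenerate alternating form. -/
structure Trip (F : Type u) [Field F] where
  V : Type u
  [acg : AddCommGroup V]
  [mod : Module F V]
  [fd : FiniteDimensional F V]
  B : LinearMap.BilinForm F V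
  g : V →ₗ[F] V
  alt : B.IsAlt
  nd : ∀ x, (∀ y, B x y = 0) → x = 0
  isom : ∀ x y, B (g x) (g y) = B x y

attribute [instance] Trip.acg Trip.mod Trip.fd

/-- Isomorphism of triples. -/
def IsoT (T₁ T₂ : Trip F) : Prop :=
  ∃ ψ : T₁.V ≃ₗ[F] T₂.V, (∀ x, ψ (T₁.g x) = T₂.g (ψ x)) ∧ ∀ x y, T₂.B (ψ x) (ψ y) = T₁.B x y

theorem IsoT.refl (T : Trip F) : IsoT T T := ⟨LinearEquiv.refl F T.V, fun _ => rfl, fun _ _ => rfl⟩

theorem IsoT.symm {T₁ T₂ : Trip F} (h : IsoT T₁ T₂) : IsoT T₂ T₁ := by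
  obtain ⟨ψ, h1, h2⟩ := h
  refine ⟨ψ.symm, fun x => ?_, fun x y => ?_⟩
  · apply ψ.injective
    rw [h1, LinearEquiv.apply_symm_apply, LinearEquiv.apply_symm_apply]
  · rw [← h2, LinearEquiv.apply_symm_apply, LinearEquiv.apply_symm_apply]

theorem IsoT.trans {T₁ T₂ T₃ : Trip F} (h : IsoT T₁ T₂) (h' : IsoT T₂ T₃) : IsoT T₁ T₃ := by
  obtain ⟨ψ, h1, h2⟩ := h
  obtain ⟨ψ', h1', h2'⟩ := h'
  refine ⟨ψ.trans ψ', fun x => ?_, fun x y => ?_⟩
  · simp only [LinearEquiv.trans_apply]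
    rw [h1, h1']
  · simp only [LinearEquiv.trans_apply]
    rw [h2', h2]

/-- The triples of type `τ` fall into at most `N` isomorphism classes. -/
def Cl (τ : Multiset (F[X] × ℕ)) (N : ℕ) : Prop :=
  ∃ f : Trip F → Fin N, ∀ T₁ T₂ : Trip F, typeOf T₁.g = τ → typeOf T₂.g = τ → f T₁ = f T₂ → IsoT T₁ T₂

namespace Trip

theorem skew (T : Trip F) (x y : T.V) : T.B x y = - T.B y x := (T.alt.neg_eq y x).symm

theorem injective_g (T : Trip F) : Function.Injective T.g := by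
  rw [injective_iff_map_eq_zero]
  intro x hx
  apply T.nd
  intro y
  rw [← T.isom, hx, map_zero, LinearMap.zero_apply]

/-- The isometry as a linear equivalence. -/
noncomputable def gE (T : Trip F) : T.V ≃ₗ[F] T.V := LinearEquiv.ofInjectiveEndo T.g T.injective_g

@[simp] theorem gE_apply (T : Trip F) (x : T.V) : T.gE x = T.g x := rfl

/-- Subtriples. -/
def sub (T : Trip F) (A : Submodule F T.V) (hA : ∀ x ∈ A, T.g x ∈ A) (hn : ∀ x ∈ A, (∀ y ∈ A, T.B x y = 0) → x = 0) :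
    Trip F where
  V := A
  B := T.B.restrict A
  g := T.g.restrict hA
  alt := fun x => T.alt x
  nd := fun x hx => Subtype.ext (hn x x.2 (fun y hy => hx ⟨y, hy⟩))
  isom := fun x y => T.isom x y

/-- Nondegeneracy on the summands of an orthogonal decomposition. -/
theorem nondeg_left (T : Trip F) {A C : Submodule F T.V} (hc : IsCompl A C) (ho : ∀ a ∈ A, ∀ c ∈ C, T.B a c = 0) :
    ∀ x ∈ A, (∀ y ∈ A, T.B x y = 0) → x = 0 := by
  intro x hx h
  apply T.nd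
  intro y
  have hy : y ∈ A ⊔ C := by
    rw [hc.sup_eq_top]
    trivial
  obtain ⟨a, ha, c, hc', rfl⟩ := Submodule.mem_sup.mp hy
  rw [map_add, h a ha, ho x hx c hc', add_zero]

theorem nondeg_right (T : Trip F) {A C : Submodule F T.V} (hc : IsCompl A C) (ho : ∀ a ∈ A, ∀ c ∈ C, T.B a c = 0) :
    ∀ x ∈ C, (∀ y ∈ C, T.B x y = 0) → x = 0 := by
  intro x hx h
  apply T.nd
  intro y
  have hy : y ∈ A ⊔ C := by
    rw [hc.sup_eq_top]
    trivial
  obtain ⟨a, ha, c, hc', rfl⟩ := Submodule.mem_sup.mp hy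
  rw [map_add, h c hc', add_zero, T.skew, ho a ha x hx, neg_zero]

end Trip

/-- Gluing isomorphisms along orthogonal decompositions. -/
theorem glue {T₁ T₂ : Trip F} {A₁ C₁ : Submodule F T₁.V} {A₂ C₂ : Submodule F T₂.V} (hc₁ : IsCompl A₁ C₁)
    (hc₂ : IsCompl A₂ C₂) (hA₁ : ∀ x ∈ A₁, T₁.g x ∈ A₁) (hC₁ : ∀ x ∈ C₁, T₁.g x ∈ C₁)
    (hA₂ : ∀ x ∈ A₂, T₂.g x ∈ A₂) (hC₂ : ∀ x ∈ C₂, T₂.g x ∈ C₂)
    (ho₁ : ∀ a ∈ A₁, ∀ c ∈ C₁, T₁.B a c = 0) (ho₂ : ∀ a ∈ A₂, ∀ c ∈ C₂, T₂.B a c = 0)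
    (hA : IsoT (T₁.sub A₁ hA₁ (T₁.nondeg_left hc₁ ho₁)) (T₂.sub A₂ hA₂ (T₂.nondeg_left hc₂ ho₂)))
    (hC : IsoT (T₁.sub C₁ hC₁ (T₁.nondeg_right hc₁ ho₁)) (T₂.sub C₂ hC₂ (T₂.nondeg_right hc₂ ho₂))) :
    IsoT T₁ T₂ := by
  obtain ⟨ψA, hA1, hA2⟩ : ∃ ψA : A₁ ≃ₗ[F] A₂, (∀ x : A₁, ((ψA ⟨T₁.g x, hA₁ x x.2⟩ : A₂) : T₂.V) = T₂.g (ψA x : A₂)) ∧
      ∀ x y : A₁, T₂.B (ψA x : A₂) (ψA y : A₂) = T₁.B x y := by
    obtain ⟨ψA, hA1, hA2⟩ := hA
    exact ⟨ψA, fun x => congrArg Subtype.val (hA1 x), hA2⟩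
  obtain ⟨ψC, hC1, hC2⟩ : ∃ ψC : C₁ ≃ₗ[F] C₂, (∀ x : C₁, ((ψC ⟨T₁.g x, hC₁ x x.2⟩ : C₂) : T₂.V) = T₂.g (ψC x : C₂)) ∧
      ∀ x y : C₁, T₂.B (ψC x : C₂) (ψC y : C₂) = T₁.B x y := by
    obtain ⟨ψC, hC1, hC2⟩ := hC
    exact ⟨ψC, fun x => congrArg Subtype.val (hC1 x), hC2⟩
  let e₁ : (A₁ × C₁) ≃ₗ[F] T₁.V := Submodule.prodEquivOfIsCompl A₁ C₁ hc₁
  let e₂ : (A₂ × C₂) ≃ₗ[F] T₂.V := Submodule.prodEquivOfIsCompl A₂ C₂ hc₂
  have he₁ : ∀ a b, e₁ (a, b) = (a : T₁.V) + b := fun a b => by simp [e₁]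
  have he₂ : ∀ a b, e₂ (a, b) = (a : T₂.V) + b := fun a b => by simp [e₂]
  have hsurj : ∀ v : T₁.V, ∃ (a : A₁) (b : C₁), v = a + b := by
    intro v
    obtain ⟨⟨a, b⟩, hab⟩ := e₁.surjective v
    exact ⟨a, b, by rw [← hab, he₁]⟩
  let ψ : T₁.V ≃ₗ[F] T₂.V := e₁.symm.trans ((ψA.prodCongr ψC).trans e₂)
  have hψ : ∀ (a : A₁) (b : C₁), ψ ((a : T₁.V) + b) = ((ψA a : A₂) : T₂.V) + (ψC b : C₂) := by
    intro a b
    have : (a : T₁.V) + b = e₁ (a, b) := (he₁ a b).symm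
    simp only [ψ, LinearEquiv.trans_apply]
    rw [this, LinearEquiv.symm_apply_apply]
    simp [he₂]
  refine ⟨ψ, fun x => ?_, fun x y => ?_⟩
  · obtain ⟨a, b, rfl⟩ := hsurj x
    rw [map_add]
    have h0 := hψ ⟨T₁.g a, hA₁ a a.2⟩ ⟨T₁.g b, hC₁ b b.2⟩
    simp only at h0
    rw [h0, hψ, map_add, hA1, hC1]
  · obtain ⟨a, b, rfl⟩ := hsurj x
    obtain ⟨a', b', rfl⟩ := hsurj y
    rw [hψ, hψ]
    have ha := hA2 a a'
    have hb := hC2 b b'
    simp only [map_add, LinearMap.add_apply]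
    have e1 : T₂.B ((ψA a : A₂) : T₂.V) ((ψC b' : C₂) : T₂.V) = 0 := ho₂ _ (ψA a).2 _ (ψC b').2
    have e2 : T₂.B ((ψC b : C₂) : T₂.V) ((ψA a' : A₂) : T₂.V) = 0 := by
      rw [T₂.skew, ho₂ _ (ψA a').2 _ (ψC b).2, neg_zero]
    have e3 : T₁.B (a : T₁.V) (b' : T₁.V) = 0 := ho₁ _ a.2 _ b'.2
    have e4 : T₁.B (b : T₁.V) (a' : T₁.V) = 0 := by
      rw [T₁.skew, ho₁ _ a'.2 _ b.2, neg_zero]
    rw [e1, e2, e3, e4, ha, hb]

section TypeAdd

variable {V : Type*} [AddCommGroup V] [Module F V] [FiniteDimensional F V]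

/-- Additivity of the type on a decomposition. -/
theorem typeOf_of_isCompl (T : V →ₗ[F] V) {A C : Submodule F V} (hc : IsCompl A C) (hA : ∀ x ∈ A, T x ∈ A)
    (hC : ∀ x ∈ C, T x ∈ C) : typeOf T = typeOf (T.restrict hA) + typeOf (T.restrict hC) := by
  classical
  obtain ⟨τ₁, hτ₁, m₁, hm₁⟩ : ∃ τ₁, τ₁ = typeOf (T.restrict hA) ∧
      ∃ m₁ : A ≃ₗ[F] ModelOf τ₁, ∀ v, m₁ ((T.restrict hA) v) = (X : F[X]) • m₁ v :=
    ⟨_, rfl, exists_model_typeOf _⟩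
  obtain ⟨τ₂, hτ₂, m₂, hm₂⟩ : ∃ τ₂, τ₂ = typeOf (T.restrict hC) ∧
      ∃ m₂ : C ≃ₗ[F] ModelOf τ₂, ∀ v, m₂ ((T.restrict hC) v) = (X : F[X]) • m₂ v :=
    ⟨_, rfl, exists_model_typeOf _⟩
  have adm₁ : ∀ a ∈ τ₁, Adm a := by
    rw [hτ₁]
    exact typeOf_adm _
  have adm₂ : ∀ a ∈ τ₂, Adm a := by
    rw [hτ₂]
    exact typeOf_adm _
  let c : τ₁ ⊕ τ₂ → F[X] × ℕ := Sum.elim (fun x => (x : F[X] × ℕ)) (fun x => (x : F[X] × ℕ))
  have hcc : ∀ i, Adm (c i) := by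
    rintro (x | x)
    · exact adm₁ x.1 Multiset.coe_mem
    · exact adm₂ x.1 Multiset.coe_mem
  let e₀ : V ≃ₗ[F] (A × C) := (Submodule.prodEquivOfIsCompl A C hc).symm
  have he₀ : ∀ (a : A) (b : C), e₀ ((a : V) + b) = (a, b) := by
    intro a b
    apply (Submodule.prodEquivOfIsCompl A C hc).injective
    simp [e₀]
  have hsurj : ∀ v : V, ∃ (a : A) (b : C), v = a + b := by
    intro v
    obtain ⟨⟨a, b⟩, hab⟩ := (Submodule.prodEquivOfIsCompl A C hc).surjective v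
    exact ⟨a, b, by rw [← hab]; simp⟩
  let e₁ : V ≃ₗ[F] ((ModelOf τ₁) × (ModelOf τ₂)) := e₀ ≪≫ₗ m₁.prodCongr m₂
  let e₂ : ((ModelOf τ₁) × (ModelOf τ₂)) ≃ₗ[F] Model c :=
    (LinearEquiv.sumPiEquivProdPi F τ₁ τ₂ (fun i => Q ((c i).1 ^ (c i).2))).symm
  have h := typeOf_eq_of_model hcc T (e₁ ≪≫ₗ e₂) (fun v => by
    obtain ⟨a, b, rfl⟩ := hsurj v
    have h1 : T ((a : V) + b) = (((T.restrict hA) a : A) : V) + ((T.restrict hC) b : C) := by
      rw [map_add]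
      rfl
    have h2 : e₁ ((a : V) + b) = (m₁ a, m₂ b) := by
      show (m₁.prodCongr m₂) (e₀ ((a : V) + b)) = _
      rw [he₀]
      rfl
    have h3 : e₁ (T ((a : V) + b)) = (m₁ ((T.restrict hA) a), m₂ ((T.restrict hC) b)) := by
      rw [h1]
      show (m₁.prodCongr m₂) (e₀ _) = _
      rw [he₀]
      rfl
    funext i
    rcases i with x | x
    · show (e₁ (T ((a : V) + b))).1 x = (X : F[X]) • (e₁ ((a : V) + b)).1 x
      rw [h2, h3]
      show m₁ ((T.restrict hA) a) x = (X : F[X]) • m₁ a x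
      rw [hm₁]
      rfl
    · show (e₁ (T ((a : V) + b))).2 x = (X : F[X]) • (e₁ ((a : V) + b)).2 x
      rw [h2, h3]
      show m₂ ((T.restrict hC) b) x = (X : F[X]) • m₂ b x
      rw [hm₂]
      rfl)
  rw [← hτ₁, ← hτ₂, h]
  have h2 : (Finset.univ : Finset (τ₁ ⊕ τ₂)).val =
      (Finset.univ : Finset τ₁).val.map Sum.inl + (Finset.univ : Finset τ₂).val.map Sum.inr := by
    rw [← Finset.univ_disjSum_univ]
    rfl
  rw [h2, Multiset.map_add, Multiset.map_map, Multiset.map_map]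
  congr 1
  · exact Multiset.map_univ_coe τ₁
  · exact Multiset.map_univ_coe τ₂

end TypeAdd

section Ratio

variable {V : Type*} [AddCommGroup V] [Module F V] [FiniteDimensional F V]

/-- Two forms are related by a `c` commuting with `g`. -/
def GoodL (B₁ B₂ : LinearMap.BilinForm F V) (g : V →ₗ[F] V) : Prop :=
  ∃ c : V ≃ₗ[F] V, (∀ x, c (g x) = g (c x)) ∧ ∀ x y, B₁ (c x) (c y) = B₂ x y

/-- If `B₂ = B₁ (Z ·, ·)` with `Z - 1` nilpotent, in odd characteristic, then the forms are related. -/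
theorem good_of_unip_ratio [Finite F] (h2 : (2 : F) ≠ 0) {ε : F} (hε : ε * ε = 1) {B₁ B₂ : LinearMap.BilinForm F V}
    (hs₁ : ∀ x y, B₁ x y = ε * B₁ y x) (hs₂ : ∀ x y, B₂ x y = ε * B₂ y x)
    (hn₂ : ∀ x, (∀ y, B₂ x y = 0) → x = 0) (g : V →ₗ[F] V) (Z : Module.End F V)
    (hZ : ∀ x y, B₁ (Z x) y = B₂ x y) (hZg : ∀ x, Z (g x) = g (Z x)) (hnil : IsNilpotent (Z - 1)) :
    GoodL B₁ B₂ g := by
  classical
  by_cases hV : Subsingleton V
  · refine ⟨LinearEquiv.refl F V, fun x => Subsingleton.elim _ _, fun x y => ?_⟩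
    have hx : x = 0 := Subsingleton.elim _ _
    subst hx
    simp
  rw [not_subsingleton_iff_nontrivial] at hV
  obtain ⟨M, hM⟩ := hnil
  let p := ringChar F
  haveI : CharP F p := ringChar.charP F
  haveI : Fact p.Prime := ⟨CharP.char_is_prime F p⟩
  have hp2 : p ≠ 2 := by
    intro h
    apply h2
    have : ((2 : ℕ) : F) = 0 := by
      rw [← h]
      exact CharP.cast_eq_zero F p
    simpa using this
  have hpodd : Odd p := (Fact.out : p.Prime).odd_of_ne_two hp2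
  haveI : CharP (Module.End F V) p :=
    charP_of_injective_algebraMap (algebraMap F (Module.End F V)).injective p
  have hle : M ≤ p ^ M := (Nat.lt_pow_self (Fact.out : p.Prime).one_lt).le
  have hZp : Z ^ (p ^ M) = 1 := by
    have h1 : Z = 1 + (Z - 1) := by abel
    have h3 : Commute (1 : Module.End F V) (Z - 1) := Commute.one_left _
    calc Z ^ (p ^ M) = (1 + (Z - 1)) ^ (p ^ M) := by rw [← h1]
      _ = 1 ^ (p ^ M) + (Z - 1) ^ (p ^ M) := add_pow_char_pow_of_commute _ _ h3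
      _ = 1 := by rw [one_pow, pow_eq_zero_of_le hle hM, add_zero]
  obtain ⟨s, hs⟩ : ∃ s, 2 * s = p ^ M + 1 := by
    have : Even (p ^ M + 1) := (hpodd.pow).add_one
    obtain ⟨s, hs⟩ := this
    exact ⟨s, by omega⟩
  have hadj1 : ∀ x y, B₁ (Z x) y = B₁ x (Z y) := by
    intro x y
    rw [hZ, hs₂, ← hZ y x, hs₁ (Z y) x, ← mul_assoc, hε, one_mul]
  have hadj : ∀ (j : ℕ) (x y : V), B₁ ((Z ^ j) x) y = B₁ x ((Z ^ j) y) := by
    intro j
    induction j with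
    | zero => intro x y; simp
    | succ j ih =>
      intro x y
      rw [pow_succ', Module.End.mul_apply, hadj1, ih, ← Module.End.mul_apply, ← pow_succ']
      rw [pow_succ, Module.End.mul_apply]
  have hcomm : ∀ (j : ℕ) (x : V), (Z ^ j) (g x) = g ((Z ^ j) x) := by
    intro j
    induction j with
    | zero => intro x; simp
    | succ j ih =>
      intro x
      rw [pow_succ, Module.End.mul_apply, hZg, ih, Module.End.mul_apply]
  have hkey : ∀ x y, B₁ ((Z ^ s) x) ((Z ^ s) y) = B₂ x y := by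
    intro x y
    rw [← hadj s, ← Module.End.mul_apply, ← pow_add, ← two_mul, hs, pow_succ, hZp, one_mul, hZ]
  have hinj : Function.Injective (Z ^ s) := by
    rw [injective_iff_map_eq_zero]
    intro x hx
    apply hn₂
    intro y
    rw [← hkey, hx, map_zero, LinearMap.zero_apply]
  refine ⟨LinearEquiv.ofInjectiveEndo (Z ^ s) hinj, fun x => hcomm s x, fun x y => hkey x y⟩

/-- The operator `Z` with `B₁ (Z x) y = B₂ x y`. -/
theorem exists_ratio {B₁ : LinearMap.BilinForm F V} (B₂ : LinearMap.BilinForm F V)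
    (hn₁ : ∀ x, (∀ y, B₁ x y = 0) → x = 0) :
    ∃ Z : Module.End F V, ∀ x y, B₁ (Z x) y = B₂ x y := by
  have hinj : Function.Injective (B₁ : V →ₗ[F] Module.Dual F V) := by
    rw [← LinearMap.ker_eq_bot, LinearMap.ker_eq_bot']
    intro x hx
    exact hn₁ x (fun y => by simp [hx])
  let Φ : V ≃ₗ[F] Module.Dual F V :=
    LinearMap.linearEquivOfInjective (B₁ : V →ₗ[F] Module.Dual F V) hinj
      (Subspace.dual_finrank_eq).symm
  have hΦ : ∀ x y, Φ x y = B₁ x y := fun x y => rfl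
  refine ⟨Φ.symm.toLinearMap ∘ₗ (B₂ : V →ₗ[F] Module.Dual F V), fun x y => ?_⟩
  simp only [LinearMap.comp_apply, LinearEquiv.coe_coe]
  rw [← hΦ, LinearEquiv.apply_symm_apply]

end Ratio

end Cfsg.Agent.Lib.ClassNum.SpTrip
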