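import Mathlib
import Cfsg.Agent.Lib.ClassNum.SpTrip

/-!
# Homogeneous unipotent pieces of symplectic isometries

`IsoN B N s`: the map `s + N` preserves `B`.  A form is pinned down, up to the centraliser of `s + N`, by
the form `B (N^K' u) v` when `N` is "free" of height `K' + 1`.  The coordinate model is `Fin (K'+1) → Y`.
-/

set_option autoImplicit false
set_option linter.unusedSectionVars false
set_option linter.unusedVariables false

open Polynomial Module
open Cfsg.Agent.Lib.Linalg.RCF Cfsg.Agent.Lib.Linalg.RCFType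
open Cfsg.Agent.Lib.Classical.Herm.TwoForms
open Cfsg.Agent.Lib.ClassNum.SpTrip

namespace Cfsg.Agent.Lib.ClassNum.SpModel

universe u

variable {F : Type u} [Field F]

section Adj

variable {V : Type*} [AddCommGroup V] [Module F V]

/-- The map `s + N` preserves `B`. -/
def IsoN (B : LinearMap.BilinForm F V) (N : Module.End F V) (s : F) : Prop :=
  ∀ u v, B (s • u + N u) (s • v + N v) = B u v

variable {B : LinearMap.BilinForm F V} {N : Module.End F V} {s : F}

theorem star (hs : s * s = 1) (h : IsoN B N s) (u v : V) :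
    B (N u) v + B u (N v) = - (s * B (N u) (N v)) := by
  have h1 := h u v
  simp only [map_add, map_smul, LinearMap.add_apply, LinearMap.smul_apply, smul_eq_mul] at h1
  linear_combination s * h1 - (B (N u) v + B u (N v) + s * B u v) * hs

theorem orth_of_pow (hs : s * s = 1) (h : IsoN B N s) :
    ∀ (j : ℕ) (u v : V), (N ^ j) u = 0 → B u ((N ^ j) v) = 0 := by
  intro j
  induction j with
  | zero =>
    intro u v hu
    have : u = 0 := by simpa using hu
    subst this
    simp
  | succ j ih =>
    intro u v hu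
    have h1 := star hs h u ((N ^ j) v)
    have h2 : (N ^ j) (N u) = 0 := by
      rw [← Module.End.mul_apply, ← pow_succ]
      exact hu
    have h3 := ih (N u) v h2
    have h4 := ih (N u) (N v) h2
    have h5 : N ((N ^ j) v) = (N ^ (j + 1)) v := by
      rw [pow_succ', Module.End.mul_apply]
    have h6 : (N ^ j) (N v) = N ((N ^ j) v) := by
      rw [← Module.End.mul_apply, ← pow_succ, pow_succ', Module.End.mul_apply]
    rw [h6] at h4
    rw [h3, h4, h5] at h1
    simpa using h1

theorem beta_sign (hs : s * s = 1) (h : IsoN B N s) {K' : ℕ} (hN : N ^ (K' + 1) = 0) (u v : V) :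
    ∀ b a : ℕ, a + b = K' → B ((N ^ a) u) ((N ^ b) v) = (-1) ^ b * B ((N ^ K') u) v := by
  intro b
  induction b with
  | zero =>
    intro a ha
    have : a = K' := by omega
    subst this
    simp
  | succ b ih =>
    intro a ha
    have h1 := star hs h ((N ^ a) u) ((N ^ b) v)
    have h2 : N ((N ^ a) u) = (N ^ (a + 1)) u := by
      rw [pow_succ', Module.End.mul_apply]
    have h3 : N ((N ^ b) v) = (N ^ (b + 1)) v := by
      rw [pow_succ', Module.End.mul_apply]
    rw [h2, h3] at h1
    have h4 : B ((N ^ (a + 1)) u) ((N ^ (b + 1)) v) = 0 := by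
      apply orth_of_pow hs h
      rw [← Module.End.mul_apply, ← pow_add, show b + 1 + (a + 1) = K' + 1 by omega, hN]
      rfl
    rw [h4, mul_zero, neg_zero, ih (a + 1) (by omega)] at h1
    have h5 : (-1 : F) ^ (b + 1) = - (-1) ^ b := by ring
    rw [h5]
    linear_combination h1
 
end Adj

section Good

variable {V : Type*} [AddCommGroup V] [Module F V] [FiniteDimensional F V]

/-- Forms with the same top form differ by an element of the centraliser. -/
theorem good_of_beta_eq [Finite F] {s : F} (h2 : (2 : F) ≠ 0) (hs : s * s = 1) {B₁ B₂ : LinearMap.BilinForm F V}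
    (hA₁ : B₁.IsAlt) (hA₂ : B₂.IsAlt) (hn₁ : ∀ x, (∀ y, B₁ x y = 0) → x = 0)
    (hn₂ : ∀ x, (∀ y, B₂ x y = 0) → x = 0) {N : Module.End F V} {K' : ℕ} (hN : N ^ (K' + 1) = 0)
    (hker : ∀ u, (N ^ K') u = 0 → ∃ v, u = N v) (hi₁ : IsoN B₁ N s) (hi₂ : IsoN B₂ N s)
    (hβ : ∀ u v, B₁ ((N ^ K') u) v = B₂ ((N ^ K') u) v) :
    GoodL B₁ B₂ (s • 1 + N) := by
  obtain ⟨Z, hZ⟩ := exists_ratio B₂ hn₁
  let g : Module.End F V := s • 1 + N
  have hgx : ∀ x, g x = s • x + N x := fun x => by simp [g]
  have hiso₁ : ∀ x y, B₁ (g x) (g y) = B₁ x y := fun x y => by rw [hgx, hgx]; exact hi₁ x y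
  have hiso₂ : ∀ x y, B₂ (g x) (g y) = B₂ x y := fun x y => by rw [hgx, hgx]; exact hi₂ x y
  have hginj : Function.Injective g := by
    rw [injective_iff_map_eq_zero]
    intro x hx
    apply hn₁
    intro y
    rw [← hiso₁, hx, map_zero, LinearMap.zero_apply]
  have hgsurj : Function.Surjective g := LinearMap.injective_iff_surjective.mp hginj
  have hZg : ∀ x, Z (g x) = g (Z x) := by
    intro x
    have : Z (g x) - g (Z x) = 0 := by
      apply hn₁
      intro y
      obtain ⟨y', rfl⟩ := hgsurj y
      rw [map_sub, LinearMap.sub_apply, hZ, hiso₁, hiso₂, hZ, sub_self]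
    exact sub_eq_zero.mp this
  have hZN : ∀ x, Z (N x) = N (Z x) := by
    intro x
    have := hZg x
    rw [hgx, hgx, map_add, map_smul] at this
    exact add_left_cancel this
  let b : Module.End F V := Z - 1
  have hb : ∀ x, b x = Z x - x := fun x => by simp [b]
  have hbN : ∀ x, b (N x) = N (b x) := by
    intro x
    rw [hb, hb, map_sub, hZN]
  have hbNj : ∀ (j : ℕ) (x : V), b ((N ^ j) x) = (N ^ j) (b x) := by
    intro j
    induction j with
    | zero => intro x; simp
    | succ j ih =>
      intro x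
      rw [pow_succ, Module.End.mul_apply, ih, hbN, Module.End.mul_apply]
  have hbtop : ∀ x, b ((N ^ K') x) = 0 := by
    intro x
    apply hn₁
    intro y
    rw [hb, map_sub, LinearMap.sub_apply, hZ, hβ, sub_self]
  have hpow : ∀ (j : ℕ) (u : V), ∃ w, (b ^ j) u = (N ^ j) w := by
    intro j
    induction j with
    | zero => intro u; exact ⟨u, by simp⟩
    | succ j ih =>
      intro u
      obtain ⟨w, hw⟩ := ih u
      have h3 : (N ^ K') (b w) = 0 := by rw [← hbNj, hbtop]
      obtain ⟨w', hw'⟩ := hker _ h3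
      refine ⟨w', ?_⟩
      rw [pow_succ', Module.End.mul_apply, hw, hbNj, hw', ← Module.End.mul_apply, ← pow_succ]
  have hnil : IsNilpotent (Z - 1 : Module.End F V) := by
    refine ⟨K' + 1, ?_⟩
    ext u
    obtain ⟨w, hw⟩ := hpow (K' + 1) u
    change (b ^ (K' + 1)) u = 0
    rw [hw, hN]
    rfl
  exact good_of_unip_ratio h2 (by ring : (-1 : F) * (-1) = 1) (alt_sign hA₁) (alt_sign hA₂) hn₂ g Z hZ hZg hnil

end Good

section Model

variable {Y : Type u} [AddCommGroup Y] [Module F Y]

/-- The shift on `Fin (K'+1) → Y`. -/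
def shift (F : Type u) [Field F] (K' : ℕ) (Y : Type u) [AddCommGroup Y] [Module F Y] :
    Module.End F (Fin (K' + 1) → Y) where
  toFun u := Fin.cons (0 : Y) (fun a : Fin K' => u a.castSucc)
  map_add' u v := by
    funext a
    refine Fin.cases ?_ (fun a => ?_) a <;> simp
  map_smul' c u := by
    funext a
    refine Fin.cases ?_ (fun a => ?_) a <;> simp

variable {K' : ℕ}

@[simp] theorem shift_zero (u : Fin (K' + 1) → Y) : shift F K' Y u 0 = 0 := rfl

@[simp] theorem shift_succ (u : Fin (K' + 1) → Y) (a : Fin K') : shift F K' Y u a.succ = u a.castSucc := rfl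

theorem shift_pow (j : ℕ) (u : Fin (K' + 1) → Y) (a : Fin (K' + 1)) :
    ((shift F K' Y) ^ j) u a = if h : j ≤ a.val then u ⟨a.val - j, by omega⟩ else 0 := by
  induction j generalizing a with
  | zero => simp
  | succ j ih =>
    rw [pow_succ', Module.End.mul_apply]
    refine Fin.cases ?_ (fun a => ?_) a
    · simp
    · rw [shift_succ, ih]
      have h1 : (a.castSucc).val = a.val := rfl
      have h2 : (a.succ).val = a.val + 1 := rfl
      by_cases h : j ≤ a.val
      · rw [dif_pos (by rw [h1]; exact h), dif_pos (by rw [h2]; omega)]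
        congr 1
        apply Fin.ext
        simp
      · rw [dif_neg (by rw [h1]; exact h), dif_neg (by rw [h2]; omega)]

theorem shift_pow_top : (shift F K' Y) ^ (K' + 1) = 0 := by
  apply LinearMap.ext
  intro u
  funext a
  rw [shift_pow, dif_neg (by have := a.2; omega)]
  rfl

theorem exists_shift (u : Fin (K' + 1) → Y) (h0 : u 0 = 0) : ∃ v, u = shift F K' Y v := by
  refine ⟨fun a => if h : a.val < K' then u ⟨a.val + 1, by omega⟩ else 0, ?_⟩
  funext a
  refine Fin.cases ?_ (fun a => ?_) a
  · rw [h0]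
    rfl
  · rw [shift_succ]
    have h1 : (a.castSucc).val = a.val := rfl
    simp only [h1, dif_pos a.2]
    rfl

theorem shift_pow_ker (u : Fin (K' + 1) → Y) (h : ((shift F K' Y) ^ K') u = 0) : ∃ v, u = shift F K' Y v := by
  apply exists_shift (F := F)
  have := congrFun h (Fin.last K')
  rw [shift_pow, dif_pos (by simp)] at this
  have h1 : (⟨(Fin.last K').val - K', by simp⟩ : Fin (K' + 1)) = 0 := by
    apply Fin.ext
    simp
  rwa [h1] at this

theorem exists_single_shift [DecidableEq (Fin (K' + 1))] (u : Fin (K' + 1) → Y) :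
    ∃ v, u = Pi.single 0 (u 0) + shift F K' Y v := by
  obtain ⟨v, hv⟩ := exists_shift (F := F) (u - Pi.single 0 (u 0)) (by simp)
  exact ⟨v, by rw [← hv]; abel⟩

/-- The coordinatewise extension of a linear equivalence. -/
def mapY (φ : Y ≃ₗ[F] Y) : (Fin (K' + 1) → Y) ≃ₗ[F] (Fin (K' + 1) → Y) :=
  LinearEquiv.piCongrRight (fun _ => φ)

@[simp] theorem mapY_apply (φ : Y ≃ₗ[F] Y) (u : Fin (K' + 1) → Y) (a : Fin (K' + 1)) :
    mapY φ u a = φ (u a) := rfl

theorem mapY_shift (φ : Y ≃ₗ[F] Y) (u : Fin (K' + 1) → Y) : mapY φ (shift F K' Y u) = shift F K' Y (mapY φ u) := by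
  funext a
  refine Fin.cases ?_ (fun a => ?_) a
  · simp
  · simp

/-- The top form depends only on the zeroth coordinates. -/
theorem top_reduce {s : F} (hs : s * s = 1) {B : LinearMap.BilinForm F (Fin (K' + 1) → Y)}
    (hi : IsoN B (shift F K' Y) s) (u v : Fin (K' + 1) → Y) :
    B (((shift F K' Y) ^ K') u) v =
      B (((shift F K' Y) ^ K') (Pi.single 0 (u 0))) (Pi.single 0 (v 0)) := by
  classical
  obtain ⟨u', hu'⟩ := exists_single_shift (F := F) u
  obtain ⟨v', hv'⟩ := exists_single_shift (F := F) v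
  have h1 : ((shift F K' Y) ^ K') u = ((shift F K' Y) ^ K') (Pi.single 0 (u 0)) := by
    conv_lhs => rw [hu', map_add, ← Module.End.mul_apply, ← pow_succ, shift_pow_top]
    simp
  rw [h1]
  conv_lhs => rw [hv', map_add]
  have h2 := orth_of_pow hs hi 1 (((shift F K' Y) ^ K') (Pi.single 0 (u 0))) v' (by
    rw [pow_one, ← Module.End.mul_apply, ← pow_succ', shift_pow_top]
    rfl)
  rw [pow_one] at h2
  rw [h2, add_zero]

/-- The pure part of the structure theory. -/
theorem type_eq_replicate {τ : Multiset (F[X] × ℕ)} {p : F[X]} {m : ℕ}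
    (hτ : ∀ a ∈ τ, a.1 = p ∧ 1 ≤ a.2 ∧ a.2 ≤ K' + 1) (hsum : (τ.map fun a => a.2).sum = (K' + 1) * m)
    (hrk : (τ.map fun a => a.2 - K').sum = m) : τ = Multiset.replicate m (p, K' + 1) := by
  have hle : ∀ τ' : Multiset (F[X] × ℕ), (∀ a ∈ τ', a.1 = p ∧ 1 ≤ a.2 ∧ a.2 ≤ K' + 1) →
      (K' + 1) * (τ'.map fun a => a.2 - K').sum ≤ (τ'.map fun a => a.2).sum ∧
      ((K' + 1) * (τ'.map fun a => a.2 - K').sum = (τ'.map fun a => a.2).sum →
        ∀ a ∈ τ', a.2 = K' + 1 ∧ a.2 - K' = 1) := by
    intro τ'
    induction τ' using Multiset.induction_on with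
    | empty => simp
    | cons a t ih =>
      intro h
      have ha := h a (Multiset.mem_cons_self a t)
      obtain ⟨h1, h2⟩ := ih (fun b hb => h b (Multiset.mem_cons_of_mem hb))
      simp only [Multiset.map_cons, Multiset.sum_cons, mul_add]
      have h3 : (K' + 1) * (a.2 - K') ≤ a.2 := by
        by_cases hc : a.2 = K' + 1
        · rw [hc]
          simp
        · have : a.2 - K' = 0 := by omega
          rw [this]
          simp
      refine ⟨by omega, fun heq b hb => ?_⟩
      rcases Multiset.mem_cons.mp hb with rfl | hb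
      · by_cases hc : b.2 = K' + 1
        · exact ⟨hc, by omega⟩
        · have h4 : b.2 - K' = 0 := by omega
          rw [h4] at heq h3
          omega
      · exact h2 (by omega) b hb
  obtain ⟨-, h2⟩ := hle τ hτ
  have h3 := h2 (by rw [hsum, hrk])
  rw [Multiset.eq_replicate]
  constructor
  · rw [← hrk]
    have : (τ.map fun a => a.2 - K') = (τ.map fun _ => 1) := by
      apply Multiset.map_congr rfl
      intro a ha
      exact (h3 a ha).2
    rw [this]
    simp
  · intro b hb
    exact Prod.ext (hτ b hb).1 (h3 b hb).1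

end Model

section ModelType

variable {V : Type*} [AddCommGroup V] [Module F V] [FiniteDimensional F V]

theorem aeval_add_smul (s : F) (N : Module.End F V) (k : ℕ) :
    aeval (s • (1 : Module.End F V) + N) ((X - C s : F[X]) ^ k) = N ^ k := by
  rw [map_pow, map_sub, aeval_X, aeval_C, Algebra.algebraMap_eq_smul_one, add_sub_cancel_left]

/-- A type annihilated by a power of `X - s` only involves `X - s`. -/
theorem mem_type_of_nil (T : V →ₗ[F] V) (s : F) (K : ℕ) (h : aeval T ((X - C s : F[X]) ^ K) = 0) :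
    ∀ a ∈ typeOf T, a.1 = X - C s ∧ 1 ≤ a.2 ∧ a.2 ≤ K := by
  intro a ha
  have had := typeOf_adm T a ha
  have hd := (aeval_eq_zero_iff T _).mp h a ha
  obtain ⟨hm, hi, hp⟩ := had
  have h1 : a.1 ∣ (X - C s : F[X]) ^ K := (dvd_pow_self _ hp.ne').trans hd
  have h2 : a.1 ∣ (X - C s : F[X]) := hi.prime.dvd_of_dvd_pow h1
  have h3 : Associated a.1 (X - C s : F[X]) :=
    hi.associated_of_dvd (irreducible_X_sub_C s) h2
  have h4 : a.1 = X - C s := eq_of_monic_of_associated hm (monic_X_sub_C s) h3
  refine ⟨h4, hp, ?_⟩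
  rw [h4] at hd
  exact (pow_dvd_pow_iff (X_sub_C_ne_zero s) (not_isUnit_X_sub_C s)).mp hd

theorem type_dim (T : V →ₗ[F] V) (s : F) (h : ∀ a ∈ typeOf T, a.1 = X - C s) :
    finrank F V = ((typeOf T).map fun a => a.2).sum := by
  rw [finrank_eq_sum_typeOf]
  congr 1
  apply Multiset.map_congr rfl
  intro a ha
  rw [h a ha, natDegree_X_sub_C, mul_one]

open scoped _root_.Classical in
theorem finrank_range_aeval_type' (T : V →ₗ[F] V) {p : F[X]} (hpm : p.Monic) (hpi : Irreducible p) (k : ℕ) :
    finrank F (LinearMap.range (aeval T (p ^ k))) =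
      ((typeOf T).map fun a => if a.1 = p then p.natDegree * (a.2 - k) else a.1.natDegree * a.2).sum := by
  obtain ⟨m, hm⟩ := exists_model_typeOf T
  rw [finrank_range_aeval_eq_of_intertwine T m hm,
    finrank_range_mulF_model (fun x : typeOf T => typeOf_adm T x.1 Multiset.coe_mem) hpm hpi k]
  conv_rhs => rw [← Multiset.map_univ_coe (typeOf T), Multiset.map_map]
  rfl

theorem type_rank (T : V →ₗ[F] V) (s : F) (h : ∀ a ∈ typeOf T, a.1 = X - C s) (k : ℕ) :
    finrank F (LinearMap.range (aeval T ((X - C s : F[X]) ^ k))) = ((typeOf T).map fun a => a.2 - k).sum := by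
  rw [finrank_range_aeval_type' T (monic_X_sub_C s) (irreducible_X_sub_C s) k]
  congr 1
  apply Multiset.map_congr rfl
  intro a ha
  rw [if_pos (h a ha), natDegree_X_sub_C, one_mul]

end ModelType

section ModelType2

variable {Y : Type u} [AddCommGroup Y] [Module F Y] [FiniteDimensional F Y] {K' : ℕ}

theorem shift_pow_last (u : Fin (K' + 1) → Y) :
    ((shift F K' Y) ^ K') u = Pi.single (Fin.last K') (u 0) := by
  funext a
  rw [shift_pow]
  by_cases h : a = Fin.last K'
  · subst h
    rw [dif_pos (by simp), Pi.single_eq_same]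
    congr 1
    apply Fin.ext
    simp
  · have h1 : ¬ K' ≤ a.val := by
      intro h2
      apply h
      apply Fin.ext
      have := a.2
      simp only [Fin.val_last]
      omega
    rw [dif_neg h1, Pi.single_eq_of_ne h]

theorem finrank_range_shift : finrank F (LinearMap.range ((shift F K' Y) ^ K')) = finrank F Y := by
  have h : LinearMap.range ((shift F K' Y) ^ K') =
      LinearMap.range (LinearMap.single F (fun _ : Fin (K' + 1) => Y) (Fin.last K')) := by
    apply le_antisymm
    · rintro _ ⟨u, rfl⟩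
      exact ⟨u 0, by rw [shift_pow_last]; rfl⟩
    · rintro _ ⟨y, rfl⟩
      refine ⟨Pi.single 0 y, ?_⟩
      rw [shift_pow_last, Pi.single_eq_same]
      rfl
  rw [h]
  refine LinearMap.finrank_range_of_inj ?_
  intro a b hab
  have := congrFun hab (Fin.last K')
  simpa using this

/-- The type of the model. -/
theorem typeOf_model (s : F) :
    typeOf (s • (1 : Module.End F (Fin (K' + 1) → Y)) + shift F K' Y) =
      Multiset.replicate (finrank F Y) (X - C s, K' + 1) := by
  have ha : aeval (s • (1 : Module.End F (Fin (K' + 1) → Y)) + shift F K' Y) ((X - C s : F[X]) ^ (K' + 1)) = 0 := by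
    rw [aeval_add_smul, shift_pow_top]
  have h := mem_type_of_nil _ s (K' + 1) ha
  have hp : ∀ a ∈ typeOf (s • (1 : Module.End F (Fin (K' + 1) → Y)) + shift F K' Y), a.1 = X - C s :=
    fun a ha => (h a ha).1
  apply type_eq_replicate h
  · rw [← type_dim _ s hp, Module.finrank_pi_fintype]
    simp
  · rw [← type_rank _ s hp, aeval_add_smul, finrank_range_shift]

end ModelType2

end Cfsg.Agent.Lib.ClassNum.SpModel
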