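import Mathlib

/-!
# Nondegenerate symmetric bilinear forms over a finite field of odd order: at most two classes
-/

set_option autoImplicit false

open Module

namespace Cfsg.Agent.Lib.ClassNum.SpSym

universe u

variable {F : Type u} [Field F] [Fintype F]

theorem two_ne_zero_of_odd (hodd : Fintype.card F % 2 = 1) : (2 : F) ≠ 0 := by
  classical
  intro h
  have h1 : ringChar F = 2 := by
    have := CharTwo.of_one_ne_zero_of_two_eq_zero (R := F) one_ne_zero h
    exact ringChar.eq F 2
  have h2 := FiniteField.even_card_iff_char_two.mp h1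
  omega

variable {Y : Type u} [AddCommGroup Y] [Module F Y] [FiniteDimensional F Y]

/-- A nondegenerate symmetric form in dimension at least two takes the value one. -/
theorem exists_value_one (hodd : Fintype.card F % 2 = 1) (β : LinearMap.BilinForm F Y) (hs : β.IsSymm)
    (hn : β.Nondegenerate) (hd : 2 ≤ finrank F Y) : ∃ v, β v v = 1 := by
  classical
  have h2 := two_ne_zero_of_odd hodd
  haveI : Invertible (2 : F) := invertibleOfNonzero h2
  obtain ⟨v, hv⟩ := LinearMap.BilinForm.exists_orthogonal_basis (LinearMap.BilinForm.isSymm_iff.1 hs)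
  have hne : ∀ i, β (v i) (v i) ≠ 0 := by
    intro i h0
    apply hv.not_isOrtho_basis_self_of_separatingLeft ?_ i h0
    exact (LinearMap.IsRefl.nondegenerate_iff_separatingLeft hs.isRefl).1 hn
  let i₀ : Fin (finrank F Y) := ⟨0, by omega⟩
  let i₁ : Fin (finrank F Y) := ⟨1, by omega⟩
  have h01 : i₀ ≠ i₁ := by
    intro h
    have := congrArg Fin.val h
    simp [i₀, i₁] at this
  set a := β (v i₀) (v i₀) with ha
  set b := β (v i₁) (v i₁) with hb
  have hab : β (v i₀) (v i₁) = 0 := hv h01
  have hba : β (v i₁) (v i₀) = 0 := hv h01.symm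
  obtain ⟨x, y, hxy⟩ := FiniteField.exists_root_sum_quadratic
    (f := Polynomial.C a * Polynomial.X ^ 2) (g := Polynomial.C b * Polynomial.X ^ 2 - Polynomial.C 1)
    (by
      rw [Polynomial.degree_C_mul (hne i₀), Polynomial.degree_X_pow]
      rfl)
    (by
      rw [Polynomial.degree_sub_C (by
        rw [Polynomial.degree_C_mul (hne i₁), Polynomial.degree_X_pow]
        decide), Polynomial.degree_C_mul (hne i₁), Polynomial.degree_X_pow]
      rfl)
    hodd
  refine ⟨x • v i₀ + y • v i₁, ?_⟩
  simp only [map_add, map_smul, LinearMap.add_apply, LinearMap.smul_apply, smul_eq_mul, hab, hba]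
  simp only [Polynomial.eval_mul, Polynomial.eval_C, Polynomial.eval_pow, Polynomial.eval_X,
    Polynomial.eval_sub] at hxy
  rw [← ha, ← hb]
  linear_combination hxy

/-- The normal form of a nondegenerate symmetric form. -/
theorem exists_normal (hodd : Fintype.card F % 2 = 1) (ν : F) (hν : ¬ IsSquare ν) (m : ℕ) :
    ∀ (Y : Type u) [AddCommGroup Y] [Module F Y] [FiniteDimensional F Y] (_ : finrank F Y = m)
      (β : LinearMap.BilinForm F Y) (_ : β.IsSymm) (_ : β.Nondegenerate),
      ∃ (b : Basis (Fin m) F Y) (δ : F), (δ = 1 ∨ δ = ν) ∧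
        ∀ i j, β (b i) (b j) = if i = j then (if i.val + 1 = m then δ else 1) else 0 := by
  classical
  have hc2 : ringChar F ≠ 2 := by
    intro h
    have := FiniteField.even_card_iff_char_two.mp h
    omega
  induction m using Nat.strong_induction_on with
  | _ m ih =>
    intro Y _ _ _ hY β hs hn
    have hnL : ∀ x, (∀ y, β x y = 0) → x = 0 :=
      (LinearMap.IsRefl.nondegenerate_iff_separatingLeft hs.isRefl).1 hn
    rcases m with _ | _ | m
    · exact ⟨finBasisOfFinrankEq F Y hY, 1, Or.inl rfl, fun i => i.elim0⟩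
    · -- dimension one
      let b₀ := finBasisOfFinrankEq F Y hY
      have ha0 : β (b₀ 0) (b₀ 0) ≠ 0 := by
        intro h0
        have hb0 : ∀ x : Y, ∃ c : F, x = c • b₀ 0 := by
          intro x
          refine ⟨b₀.repr x 0, ?_⟩
          have := (b₀.sum_repr x).symm
          rw [Fin.sum_univ_one] at this
          exact this
        have : b₀ 0 = 0 := by
          apply hnL
          intro y
          obtain ⟨c, rfl⟩ := hb0 y
          rw [map_smul, h0, smul_zero]
        exact b₀.ne_zero 0 this
      set a := β (b₀ 0) (b₀ 0) with ha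
      obtain ⟨δ, hδ, c, hc0, hc⟩ : ∃ δ : F, (δ = 1 ∨ δ = ν) ∧ ∃ c : F, c ≠ 0 ∧ a = δ * (c * c) := by
        by_cases hsq : IsSquare a
        · obtain ⟨c, hc⟩ := hsq
          refine ⟨1, Or.inl rfl, c, ?_, by rw [one_mul, hc]⟩
          rintro rfl
          apply ha0
          rw [hc, mul_zero]
        · have hν0 : ν ≠ 0 := by
            rintro rfl
            exact hν IsSquare.zero
          have h1 : quadraticChar F a = -1 := (quadraticChar_neg_one_iff_not_isSquare).2 hsq
          have h2 : quadraticChar F ν = -1 := (quadraticChar_neg_one_iff_not_isSquare).2 hν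
          have h3 : quadraticChar F (a * ν) = 1 := by
            rw [map_mul, h1, h2]
            norm_num
          have h4 : IsSquare (a * ν) := (quadraticChar_one_iff_isSquare (mul_ne_zero ha0 hν0)).1 h3
          obtain ⟨d, hd⟩ := h4
          refine ⟨ν, Or.inr rfl, d * ν⁻¹, ?_, ?_⟩
          · refine mul_ne_zero ?_ (inv_ne_zero hν0)
            rintro rfl
            have : a * ν = 0 := by rw [hd, mul_zero]
            exact (mul_ne_zero ha0 hν0) this
          · field_simp
            linear_combination hd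
      have hcu : IsUnit c⁻¹ := (inv_ne_zero hc0).isUnit
      refine ⟨b₀.unitsSMul (fun _ => hcu.unit), δ, hδ, ?_⟩
      intro i j
      obtain rfl : i = 0 := Fin.ext (by have := i.2; simp only [Fin.val_zero]; omega)
      obtain rfl : j = 0 := Fin.ext (by have := j.2; simp only [Fin.val_zero]; omega)
      simp only [Basis.unitsSMul_apply, IsUnit.unit_spec, if_true, Fin.val_zero, zero_add]
      simp only [Units.smul_def, IsUnit.unit_spec, map_smul, LinearMap.smul_apply, smul_eq_mul]
      rw [← ha, hc]
      field_simp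
    · -- dimension at least two
      obtain ⟨v, hv⟩ := exists_value_one hodd β hs hn (by omega)
      have hv0 : β v v ≠ 0 := by
        rw [hv]
        exact one_ne_zero
      have hvne : v ≠ 0 := by
        rintro rfl
        simp at hv0
      set W := β.orthogonal (F ∙ v) with hW
      have hcompl : IsCompl (F ∙ v) W := LinearMap.BilinForm.isCompl_span_singleton_orthogonal hv0
      have hdim : finrank F W = m + 1 := by
        have h1 := Submodule.finrank_add_eq_of_isCompl hcompl
        rw [finrank_span_singleton hvne, hY] at h1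
        omega
      have hnW : (β.restrict W).Nondegenerate :=
        LinearMap.BilinForm.restrict_nondegenerate_orthogonal_spanSingleton β hn hs.isRefl hv0
      have hsW : (β.restrict W).IsSymm := hs.restrict W
      obtain ⟨b', δ, hδ, hb'⟩ := ih (m + 1) (by omega) W hdim (β.restrict W) hsW hnW
      have hmemW : ∀ z : Y, z ∈ W ↔ β v z = 0 := by
        intro z
        rw [hW, LinearMap.BilinForm.mem_orthogonal_iff]
        constructor
        · intro h
          exact h v (Submodule.mem_span_singleton_self v)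
        · intro h n hn
          obtain ⟨c, rfl⟩ := Submodule.mem_span_singleton.mp hn
          change β (c • v) z = 0
          rw [map_smul, LinearMap.smul_apply, h, smul_zero]
      let b := Basis.mkFinCons v b' (by
          intro c x hx h
          have h1 := congrArg (β v) h
          rw [map_add, map_smul, hv, (hmemW x).1 hx, map_zero] at h1
          simpa using h1) (by
          intro z
          refine ⟨- β v z, ?_⟩
          rw [hmemW, map_add, map_smul, hv]
          simp)
      have hb0 : b 0 = v := by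
        change (Basis.mkFinCons v b' _ _ : Fin (m + 1 + 1) → Y) 0 = v
        rw [Basis.coe_mkFinCons]
        rfl
      have hbs : ∀ i : Fin (m + 1), b i.succ = (b' i : Y) := by
        intro i
        change (Basis.mkFinCons v b' _ _ : Fin (m + 1 + 1) → Y) i.succ = _
        rw [Basis.coe_mkFinCons]
        rfl
      refine ⟨b, δ, hδ, ?_⟩
      intro i j
      refine Fin.cases ?_ (fun i' => ?_) i
      · refine Fin.cases ?_ (fun j' => ?_) j
        · rw [hb0, hv]
          simp
        · rw [hb0, hbs, (hmemW _).1 (b' j').2]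
          simp [Fin.succ_ne_zero j' |>.symm]
      · refine Fin.cases ?_ (fun j' => ?_) j
        · rw [hb0, hbs, hs.eq, (hmemW _).1 (b' i').2]
          simp [Fin.succ_ne_zero i']
        · rw [hbs, hbs]
          have h1 := hb' i' j'
          simp only [LinearMap.BilinForm.restrict_apply, LinearMap.domRestrict_apply] at h1
          rw [h1]
          simp only [Fin.succ_inj, Fin.val_succ, Nat.add_right_cancel_iff]

/-- At most two classes of nondegenerate symmetric forms. -/
theorem exists_cls (hodd : Fintype.card F % 2 = 1) :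
    ∃ cls : LinearMap.BilinForm F Y → Bool, ∀ β₁ β₂ : LinearMap.BilinForm F Y, β₁.IsSymm → β₁.Nondegenerate →
      β₂.IsSymm → β₂.Nondegenerate → cls β₁ = cls β₂ →
        ∃ φ : Y ≃ₗ[F] Y, ∀ x y, β₂ (φ x) (φ y) = β₁ x y := by
  classical
  have hc2 : ringChar F ≠ 2 := by
    intro h
    have := FiniteField.even_card_iff_char_two.mp h
    omega
  obtain ⟨ν, hν⟩ := FiniteField.exists_nonsquare hc2
  have hν1 : ν ≠ 1 := by
    rintro rfl
    exact hν IsSquare.one
  have hex := fun (β : {β : LinearMap.BilinForm F Y // β.IsSymm ∧ β.Nondegenerate}) =>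
    exists_normal hodd ν hν _ Y rfl β.1 β.2.1 β.2.2
  choose b δ hδ hb using hex
  refine ⟨fun β => if h : β.IsSymm ∧ β.Nondegenerate then decide (δ ⟨β, h⟩ = 1) else true, ?_⟩
  intro β₁ β₂ hs₁ hn₁ hs₂ hn₂ hc
  simp only [dif_pos (And.intro hs₁ hn₁), dif_pos (And.intro hs₂ hn₂)] at hc
  have hδeq : δ ⟨β₁, hs₁, hn₁⟩ = δ ⟨β₂, hs₂, hn₂⟩ := by
    rcases hδ ⟨β₁, hs₁, hn₁⟩ with h1 | h1 <;> rcases hδ ⟨β₂, hs₂, hn₂⟩ with h2 | h2
    · rw [h1, h2]
    · rw [h1, h2] at hc
      simp [hν1] at hc
    · rw [h1, h2] at hc
      simp [hν1] at hc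
    · rw [h1, h2]
  refine ⟨(b ⟨β₁, hs₁, hn₁⟩).equiv (b ⟨β₂, hs₂, hn₂⟩) (Equiv.refl _), ?_⟩
  intro x y
  have hform : β₂.compl₁₂ ((b ⟨β₁, hs₁, hn₁⟩).equiv (b ⟨β₂, hs₂, hn₂⟩) (Equiv.refl _)).toLinearMap
      ((b ⟨β₁, hs₁, hn₁⟩).equiv (b ⟨β₂, hs₂, hn₂⟩) (Equiv.refl _)).toLinearMap = β₁ := by
    apply LinearMap.BilinForm.ext_basis (b ⟨β₁, hs₁, hn₁⟩)
    intro i j
    simp only [LinearMap.compl₁₂_apply, LinearEquiv.coe_coe, Basis.equiv_apply, Equiv.refl_apply]
    rw [hb ⟨β₁, hs₁, hn₁⟩ i j, hb ⟨β₂, hs₂, hn₂⟩ i j, hδeq]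
  exact congrArg (fun B : LinearMap.BilinForm F Y => B x y) hform

end Cfsg.Agent.Lib.ClassNum.SpSym
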