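import Mathlib
import Cfsg.Agent.Lib.ClassNum.OTri

/-!
# The discriminant character of a symmetric form
-/

set_option autoImplicit false
set_option linter.unusedSectionVars false
set_option linter.unusedVariables false

open Polynomial Module Matrix
open Cfsg.Agent.Lib.ClassNum.SpTrip Cfsg.Agent.Lib.ClassNum.SpModel Cfsg.Agent.Lib.ClassNum.OTri
open scoped _root_.Classical

namespace Cfsg.Agent.Lib.ClassNum.ODisc

universe u

variable {F : Type u} [Field F] [Fintype F]

section Gen

variable {V : Type*} [AddCommGroup V] [Module F V] [FiniteDimensional F V]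

/-- The Gram matrix of a family. -/
def gram {ι : Type*} (B : LinearMap.BilinForm F V) (b : ι → V) : Matrix ι ι F := Matrix.of fun i j => B (b i) (b j)

theorem gram_apply {ι : Type*} (B : LinearMap.BilinForm F V) (b : ι → V) (i j : ι) : gram B b i j = B (b i) (b j) := rfl

/-- The discriminant character. -/
noncomputable def dch (B : LinearMap.BilinForm F V) : ℤ := quadraticChar F (gram B (finBasis F V)).det

theorem chi_mul_sq {x y : F} (hx : x ≠ 0) : quadraticChar F (x * y * x) = quadraticChar F y := by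
  have h : quadraticChar F x * quadraticChar F x = 1 := by
    have := quadraticChar_sq_one hx
    rwa [sq] at this
  rw [map_mul, map_mul]
  linear_combination (quadraticChar F y) * h

theorem gram_basis_eq {ι ι' : Type*} [Fintype ι] [Fintype ι'] (B : LinearMap.BilinForm F V) (b : Basis ι F V)
    (c : Basis ι' F V) : gram B c = (b.toMatrix c)ᵀ * gram B b * b.toMatrix c := by
  have h := LinearMap.BilinForm.toMatrix_mul_basis_toMatrix b c B
  have e1 : gram B c = LinearMap.BilinForm.toMatrix c B := by
    ext i j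
    rw [gram_apply, LinearMap.BilinForm.toMatrix_apply]
  have e2 : gram B b = LinearMap.BilinForm.toMatrix b B := by
    ext i j
    rw [gram_apply, LinearMap.BilinForm.toMatrix_apply]
  rw [e1, e2, h]

theorem dch_basis {ι : Type*} [Fintype ι] [DecidableEq ι] (B : LinearMap.BilinForm F V) (b : Basis ι F V) :
    dch B = quadraticChar F (gram B b).det := by
  let b₀ := finBasis F V
  let e : ι ≃ Fin (finrank F V) := b.indexEquiv b₀
  let b' := b.reindex e
  have h1 : (gram B b').det = (gram B b).det := by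
    have : gram B b' = (gram B b).submatrix e.symm e.symm := by
      ext i j
      simp [gram_apply, b']
    rw [this, Matrix.det_submatrix_equiv_self]
  rw [← h1, gram_basis_eq B b₀ b', Matrix.det_mul, Matrix.det_mul, Matrix.det_transpose]
  have hP : (b₀.toMatrix b').det ≠ 0 := by
    have h3 := b₀.toMatrix_mul_toMatrix_flip b'
    intro h0
    have := congrArg Matrix.det h3
    rw [Matrix.det_mul, h0, zero_mul, Matrix.det_one] at this
    exact zero_ne_one this
  rw [chi_mul_sq hP]
  rfl

theorem det_gram_ne_zero {ι : Type*} [Fintype ι] [DecidableEq ι] (B : LinearMap.BilinForm F V) (b : Basis ι F V)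
    (hs : ∀ x y, B x y = B y x) (hn : ∀ x, (∀ y, B x y = 0) → x = 0) : (gram B b).det ≠ 0 := by
  have hnd : B.Nondegenerate := ⟨fun x hx => hn x hx, fun y hy => hn y (fun x => by rw [hs]; exact hy x)⟩
  have h := (LinearMap.BilinForm.nondegenerate_iff_det_ne_zero b).mp hnd
  have e : gram B b = LinearMap.BilinForm.toMatrix b B := by
    ext i j
    rw [gram_apply, LinearMap.BilinForm.toMatrix_apply]
  rwa [e]

theorem dch_mul_self (B : LinearMap.BilinForm F V) (hs : ∀ x y, B x y = B y x)
    (hn : ∀ x, (∀ y, B x y = 0) → x = 0) : dch B * dch B = 1 := by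
  have := quadraticChar_sq_one (det_gram_ne_zero B (finBasis F V) hs hn)
  rw [sq] at this
  exact this

theorem dch_ne_zero (B : LinearMap.BilinForm F V) (hs : ∀ x y, B x y = B y x)
    (hn : ∀ x, (∀ y, B x y = 0) → x = 0) : dch B ≠ 0 := by
  intro h
  have := dch_mul_self B hs hn
  rw [h, zero_mul] at this
  exact zero_ne_one this

theorem dch_iso {V' : Type*} [AddCommGroup V'] [Module F V'] [FiniteDimensional F V'] {B : LinearMap.BilinForm F V}
    {B' : LinearMap.BilinForm F V'} (ψ : V ≃ₗ[F] V') (h : ∀ x y, B' (ψ x) (ψ y) = B x y) : dch B = dch B' := by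
  rw [dch_basis B' ((finBasis F V).map ψ)]
  have e : gram B' ((finBasis F V).map ψ) = gram B (finBasis F V) := by
    ext i j
    simp [gram_apply, h]
  rw [e]
  rfl

theorem dch_eq_one_of_subsingleton [Subsingleton V] (B : LinearMap.BilinForm F V) : dch B = 1 := by
  have h : finrank F V = 0 := finrank_zero_of_subsingleton
  have hE : IsEmpty (Fin (finrank F V)) := by
    rw [h]
    infer_instance
  unfold dch
  rw [Matrix.det_isEmpty, map_one]

/-- Multiplicativity on an orthogonal decomposition. -/
theorem dch_isCompl (B : LinearMap.BilinForm F V) {A C : Submodule F V} (hc : IsCompl A C)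
    (ho : ∀ a ∈ A, ∀ c ∈ C, B a c = 0) (ho' : ∀ a ∈ A, ∀ c ∈ C, B c a = 0) :
    dch B = dch (B.restrict A) * dch (B.restrict C) := by
  let bA := finBasis F A
  let bC := finBasis F C
  let e : (A × C) ≃ₗ[F] V := Submodule.prodEquivOfIsCompl A C hc
  let b : Basis (Fin (finrank F A) ⊕ Fin (finrank F C)) F V := (bA.prod bC).map e
  have hb1 : ∀ i, b (Sum.inl i) = (bA i : V) := fun i => by simp [b, e]
  have hb2 : ∀ i, b (Sum.inr i) = (bC i : V) := fun i => by simp [b, e]
  rw [dch_basis B b]
  have hG : gram B b = Matrix.fromBlocks (gram (B.restrict A) bA) 0 0 (gram (B.restrict C) bC) := by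
    ext i j
    rcases i with i | i <;> rcases j with j | j
    · simp [gram_apply, hb1]
    · simp only [gram_apply, hb1, hb2, Matrix.fromBlocks_apply₁₂, Matrix.zero_apply]
      exact ho _ (bA i).2 _ (bC j).2
    · simp only [gram_apply, hb1, hb2, Matrix.fromBlocks_apply₂₁, Matrix.zero_apply]
      exact ho' _ (bA j).2 _ (bC i).2
    · simp [gram_apply, hb2]
  rw [hG, Matrix.det_fromBlocks_zero₂₁, map_mul]
  rfl

end Gen

section Tri

theorem dch_sub (T : Tri F) {A C : Submodule F T.V} (hc : IsCompl A C) (hA : ∀ x ∈ A, T.g x ∈ A)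
    (hC : ∀ x ∈ C, T.g x ∈ C) (ho : ∀ a ∈ A, ∀ c ∈ C, T.B a c = 0) :
    dch T.B = dch (T.sub A hA (T.nondeg_left hc ho)).B * dch (T.sub C hC (T.nondeg_right hc ho)).B :=
  dch_isCompl T.B hc ho (fun a ha c hc' => by rw [T.symm]; exact ho a ha c hc')

theorem dch_isoT {T₁ T₂ : Tri F} (h : IsoT T₁ T₂) : dch T₁.B = dch T₂.B := by
  obtain ⟨ψ, -, h2⟩ := h
  exact dch_iso ψ h2

theorem dch_isSum {T T₁ T₂ : Tri F} (h : IsSum T T₁ T₂) : dch T.B = dch T₁.B * dch T₂.B := by
  obtain ⟨A, C, hc, hA, hC, ho, i₁, i₂⟩ := h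
  rw [dch_isoT i₁, dch_isoT i₂]
  exact dch_sub T hc hA hC ho

theorem dch_ne_zero' (T : Tri F) : dch T.B ≠ 0 := dch_ne_zero T.B T.symm T.nd

end Tri

section Normal

variable {Y₁ Y₂ : Type u} [AddCommGroup Y₁] [Module F Y₁] [FiniteDimensional F Y₁]
  [AddCommGroup Y₂] [Module F Y₂] [FiniteDimensional F Y₂]

/-- The discriminant of a normal form. -/
theorem dch_normal {m : ℕ} {β : LinearMap.BilinForm F Y₁} (b : Basis (Fin m) F Y₁) {δ : F} (hm : 1 ≤ m)
    (hb : ∀ i j, β (b i) (b j) = if i = j then (if i.val + 1 = m then δ else 1) else 0) :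
    dch β = quadraticChar F δ := by
  rw [dch_basis β b]
  have e : gram β b = Matrix.diagonal (fun i : Fin m => if i.val + 1 = m then δ else 1) := by
    ext i j
    rw [gram_apply, hb, Matrix.diagonal_apply]
  rw [e, Matrix.det_diagonal, Finset.prod_eq_single (⟨m - 1, by omega⟩ : Fin m)]
  · rw [if_pos (by simp; omega)]
  · intro i _ hi
    rw [if_neg]
    intro h
    apply hi
    apply Fin.ext
    simp
    omega
  · simp

/-- Two nondegenerate symmetric forms with the same discriminant character are equivalent. -/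
theorem exists_iso_of_dch (hodd : Fintype.card F % 2 = 1) {β₁ : LinearMap.BilinForm F Y₁}
    {β₂ : LinearMap.BilinForm F Y₂} (hs₁ : β₁.IsSymm) (hn₁ : β₁.Nondegenerate) (hs₂ : β₂.IsSymm)
    (hn₂ : β₂.Nondegenerate) (hfr : finrank F Y₁ = finrank F Y₂) (hd : dch β₁ = dch β₂) :
    ∃ φ : Y₁ ≃ₗ[F] Y₂, ∀ x y, β₂ (φ x) (φ y) = β₁ x y := by
  have hc2 : ringChar F ≠ 2 := by
    intro h
    have := FiniteField.even_card_iff_char_two.mp h
    omega
  obtain ⟨ν, hν⟩ := FiniteField.exists_nonsquare hc2
  have hν0 : ν ≠ 0 := by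
    rintro rfl
    exact hν IsSquare.zero
  obtain ⟨b₁, δ₁, hδ₁, hb₁⟩ := Cfsg.Agent.Lib.ClassNum.SpSym.exists_normal hodd ν hν (finrank F Y₁) Y₁ rfl β₁ hs₁ hn₁
  obtain ⟨b₂, δ₂, hδ₂, hb₂⟩ := Cfsg.Agent.Lib.ClassNum.SpSym.exists_normal hodd ν hν (finrank F Y₁) Y₂ hfr.symm β₂ hs₂ hn₂
  have key : finrank F Y₁ = 0 ∨ δ₁ = δ₂ := by
    rcases Nat.eq_zero_or_pos (finrank F Y₁) with h0 | hpos
    · exact Or.inl h0
    · right
      have e1 := dch_normal b₁ hpos hb₁
      have e2 := dch_normal b₂ hpos hb₂
      rw [e1, e2] at hd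
      have hχ : quadraticChar F ν = -1 := (quadraticChar_neg_one_iff_not_isSquare).2 hν
      rcases hδ₁ with rfl | rfl <;> rcases hδ₂ with rfl | rfl
      · rfl
      · rw [map_one, hχ] at hd
        norm_num at hd
      · rw [map_one, hχ] at hd
        norm_num at hd
      · rfl
  refine ⟨b₁.equiv b₂ (Equiv.refl _), ?_⟩
  have hform : β₂.compl₁₂ (b₁.equiv b₂ (Equiv.refl _)).toLinearMap (b₁.equiv b₂ (Equiv.refl _)).toLinearMap = β₁ := by
    apply LinearMap.BilinForm.ext_basis b₁
    intro i j
    simp only [LinearMap.compl₁₂_apply, LinearEquiv.coe_coe, Basis.equiv_apply, Equiv.refl_apply]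
    rw [hb₁ i j, hb₂ i j]
    rcases key with h0 | h
    · exact absurd i.2 (by omega)
    · rw [h]
  intro x y
  exact congrArg (fun B : LinearMap.BilinForm F Y₁ => B x y) hform

end Normal

section Model

variable {K' m : ℕ}

/-- The standard basis of the model. -/
noncomputable def mb (F : Type u) [Field F] (K' m : ℕ) : Basis (Fin (K' + 1) × Fin m) F (Fin (K' + 1) → Fin m → F) :=
  (Pi.basisFun F (Fin (K' + 1) × Fin m)).map (LinearEquiv.curry F F (Fin (K' + 1)) (Fin m))

theorem mb_apply (a : Fin (K' + 1)) (i : Fin m) : mb F K' m (a, i) = Pi.single a (Pi.single i 1) := by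
  funext c k
  simp only [mb, Basis.map_apply, Pi.basisFun_apply]
  change (Pi.single (a, i) 1 : Fin (K' + 1) × Fin m → F) (c, k) = _
  by_cases hc : c = a
  · subst hc
    by_cases hk : k = i
    · subst hk
      simp
    · simp [hk]
  · simp [hc]

theorem shift_pow_single (a : Fin (K' + 1)) (u : Fin m → F) :
    ((shift F K' (Fin m → F)) ^ a.val) (Pi.single 0 u) = Pi.single a u := by
  funext c
  rw [shift_pow]
  by_cases hc : c = a
  · subst hc
    rw [dif_pos le_rfl, Pi.single_eq_same]
    have : (⟨c.val - c.val, by omega⟩ : Fin (K' + 1)) = 0 := by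
      apply Fin.ext
      simp
    rw [this, Pi.single_eq_same]
  · rw [Pi.single_eq_of_ne hc]
    by_cases h : a.val ≤ c.val
    · rw [dif_pos h, Pi.single_eq_of_ne]
      intro h0
      have h1 := congrArg Fin.val h0
      simp only [Fin.val_zero] at h1
      apply hc
      apply Fin.ext
      omega
    · rw [dif_neg h]

variable {s : F} (hs : s * s = 1) {B : LinearMap.BilinForm F (Fin (K' + 1) → Fin m → F)}
  (hi : IsoN B (shift F K' (Fin m → F)) s)

include hs hi in
theorem B_single_gt (a b : Fin (K' + 1)) (h : K' < a.val + b.val) (u v : Fin m → F) :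
    B (Pi.single a u) (Pi.single b v) = 0 := by
  rw [← shift_pow_single a u, ← shift_pow_single b v]
  apply orth_of_pow hs hi
  rw [← Module.End.mul_apply, ← pow_add]
  have h5 : b.val + a.val = (K' + 1) + (a.val + b.val - K' - 1) := by omega
  rw [h5, pow_add, shift_pow_top, zero_mul]
  rfl

include hs hi in
theorem B_single_eq (a b : Fin (K' + 1)) (h : a.val + b.val = K') (u v : Fin m → F) :
    B (Pi.single a u) (Pi.single b v) = (-1) ^ b.val *
      B (((shift F K' (Fin m → F)) ^ K') (Pi.single 0 u)) (Pi.single 0 v) := by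
  rw [← shift_pow_single a u, ← shift_pow_single b v]
  exact beta_sign hs hi shift_pow_top _ _ b.val a.val h

/-- The universal constant in the discriminant of the model. -/
noncomputable def kap (F : Type u) [Field F] [Fintype F] (K' m : ℕ) : F :=
  ((Equiv.Perm.sign ((Fin.revPerm : Equiv.Perm (Fin (K' + 1))).prodCongr (Equiv.refl (Fin m))) : ℤ) : F) *
    ∏ a : Fin (K' + 1), ((-1 : F) ^ (Fin.rev a).val) ^ m

theorem kap_ne_zero : kap F K' m ≠ 0 := by
  unfold kap
  apply mul_ne_zero
  · have h := Int.units_eq_one_or (Equiv.Perm.sign ((Fin.revPerm : Equiv.Perm (Fin (K' + 1))).prodCongr (Equiv.refl (Fin m))))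
    rcases h with h | h <;> rw [h] <;> simp
  · apply Finset.prod_ne_zero_iff.mpr
    intro a _
    exact pow_ne_zero _ (pow_ne_zero _ (neg_ne_zero.mpr one_ne_zero))

/-- The top form of a form on the model. -/
noncomputable def topForm (B : LinearMap.BilinForm F (Fin (K' + 1) → Fin m → F)) : LinearMap.BilinForm F (Fin m → F) :=
  B.comp (((shift F K' (Fin m → F)) ^ K') ∘ₗ (LinearMap.single F (fun _ : Fin (K' + 1) => Fin m → F) 0))
    (LinearMap.single F (fun _ : Fin (K' + 1) => Fin m → F) 0)

theorem topForm_apply (B : LinearMap.BilinForm F (Fin (K' + 1) → Fin m → F)) (u v : Fin m → F) :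
    topForm B u v = B (((shift F K' (Fin m → F)) ^ K') (Pi.single 0 u)) (Pi.single 0 v) := rfl

include hs hi in
/-- The determinant of the Gram matrix of the model. -/
theorem det_gram_model :
    (gram B (mb F K' m)).det = kap F K' m * (gram (topForm B) (Pi.basisFun F (Fin m))).det ^ (K' + 1) := by
  let p : Equiv.Perm (Fin (K' + 1) × Fin m) := (Fin.revPerm : Equiv.Perm (Fin (K' + 1))).prodCongr (Equiv.refl (Fin m))
  let G := gram B (mb F K' m)
  let M : Matrix (Fin (K' + 1) × Fin m) (Fin (K' + 1) × Fin m) F := G.submatrix id p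
  have hdet : M.det = ((Equiv.Perm.sign p : ℤ) : F) * G.det := by
    have := Matrix.det_permute' p G
    simpa [M] using this
  have hM : ∀ a b i j, M (a, i) (b, j) = B (Pi.single a (Pi.single i 1)) (Pi.single (Fin.rev b) (Pi.single j 1)) := by
    intro a b i j
    change B (mb F K' m (a, i)) (mb F K' m (Fin.rev b, j)) = _
    rw [mb_apply, mb_apply]
  have hbt : M.BlockTriangular Prod.fst := by
    rintro ⟨a, i⟩ ⟨b, j⟩ (h : b < a)
    rw [hM]
    apply B_single_gt hs hi
    have h1 : b.val < a.val := h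
    have h2 := b.2
    rw [Fin.val_rev]
    omega
  have hblock : ∀ a, (M.toSquareBlock Prod.fst a).det = ((-1 : F) ^ (Fin.rev a).val) ^ m *
      (gram (topForm B) (Pi.basisFun F (Fin m))).det := by
    intro a
    let e : Fin m ≃ {x : Fin (K' + 1) × Fin m // x.1 = a} :=
      { toFun := fun i => ⟨(a, i), rfl⟩
        invFun := fun x => x.1.2
        left_inv := fun i => rfl
        right_inv := by
          rintro ⟨⟨b, i⟩, rfl⟩
          rfl }
    have h1 : (M.toSquareBlock Prod.fst a).submatrix e e =
        ((-1 : F) ^ (Fin.rev a).val) • gram (topForm B) (Pi.basisFun F (Fin m)) := by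
      ext i j
      simp only [Matrix.submatrix_apply, Matrix.smul_apply, smul_eq_mul]
      change M (a, i) (a, j) = _
      rw [hM, B_single_eq hs hi a (Fin.rev a) (by have h2 := a.2; rw [Fin.val_rev]; omega), gram_apply, topForm_apply]
      simp
    have h2 := congrArg Matrix.det h1
    rw [Matrix.det_submatrix_equiv_self, Matrix.det_smul, Fintype.card_fin] at h2
    exact h2
  have hsign : ((Equiv.Perm.sign p : ℤ) : F) * ((Equiv.Perm.sign p : ℤ) : F) = 1 := by
    rcases Int.units_eq_one_or (Equiv.Perm.sign p) with h | h <;> rw [h] <;> simp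
  have hfin : G.det = ((Equiv.Perm.sign p : ℤ) : F) * M.det := by
    rw [hdet, ← mul_assoc, hsign, one_mul]
  change G.det = _
  rw [hfin, hbt.det_fintype]
  simp only [hblock]
  rw [Finset.prod_mul_distrib, Finset.prod_const, Finset.card_univ, Fintype.card_fin, kap, mul_assoc]

include hs hi in
/-- The discriminant of the model. -/
theorem dch_model : dch B = quadraticChar F (kap F K' m) * dch (topForm B) ^ (K' + 1) := by
  rw [dch_basis B (mb F K' m), det_gram_model hs hi, map_mul, map_pow, dch_basis (topForm B) (Pi.basisFun F (Fin m))]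

end Model

end Cfsg.Agent.Lib.ClassNum.ODisc
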