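import Mathlib
import Cfsg.Agent.Lib.ClassNum.SpModel
import Cfsg.Agent.Lib.ClassNum.SpSym

/-!
# Peeling off the top homogeneous part of a unipotent symplectic isometry
-/

set_option autoImplicit false
set_option linter.unusedSectionVars false
set_option linter.unusedVariables false

open Polynomial Module
open Cfsg.Agent.Lib.Linalg.RCF Cfsg.Agent.Lib.Linalg.RCFType
open Cfsg.Agent.Lib.Classical.Herm.TwoForms
open Cfsg.Agent.Lib.ClassNum.SpTrip Cfsg.Agent.Lib.ClassNum.SpModel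

namespace Cfsg.Agent.Lib.ClassNum.SpPeel

universe u

variable {F : Type u} [Field F]

/-- `T` is an orthogonal sum of (copies of) `T₁` and `T₂`. -/
def IsSum (T T₁ T₂ : Trip F) : Prop :=
  ∃ (A C : Submodule F T.V) (hc : IsCompl A C) (hA : ∀ x ∈ A, T.g x ∈ A) (hC : ∀ x ∈ C, T.g x ∈ C)
    (ho : ∀ a ∈ A, ∀ c ∈ C, T.B a c = 0),
    IsoT T₁ (T.sub A hA (T.nondeg_left hc ho)) ∧ IsoT T₂ (T.sub C hC (T.nondeg_right hc ho))

theorem IsSum.iso {T T' T₁ T₂ T₁' T₂' : Trip F} (h : IsSum T T₁ T₂) (h' : IsSum T' T₁' T₂')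
    (h₁ : IsoT T₁ T₁') (h₂ : IsoT T₂ T₂') : IsoT T T' := by
  obtain ⟨A, C, hc, hA, hC, ho, i₁, i₂⟩ := h
  obtain ⟨A', C', hc', hA', hC', ho', i₁', i₂'⟩ := h'
  exact glue hc hc' hA hC hA' hC' ho ho' (i₁.symm.trans (h₁.trans i₁')) (i₂.symm.trans (h₂.trans i₂'))

theorem IsoT.typeOf_eq {T₁ T₂ : Trip F} (h : IsoT T₁ T₂) : typeOf T₁.g = typeOf T₂.g := by
  obtain ⟨ψ, h1, -⟩ := h
  exact (exists_conj_iff_typeOf_eq _ _).mp ⟨ψ, h1⟩

theorem IsSum.typeOf_add {T T₁ T₂ : Trip F} (h : IsSum T T₁ T₂) : typeOf T.g = typeOf T₁.g + typeOf T₂.g := by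
  obtain ⟨A, C, hc, hA, hC, ho, i₁, i₂⟩ := h
  rw [IsoT.typeOf_eq i₁, IsoT.typeOf_eq i₂]
  exact typeOf_of_isCompl T.g hc hA hC

/-- The orthogonal of a nondegenerate subspace is a complement. -/
theorem isCompl_perp (T : Trip F) (A : Submodule F T.V) (hn : ∀ x ∈ A, (∀ y ∈ A, T.B x y = 0) → x = 0) :
    IsCompl A (T.B.orthogonal A) := by
  have hrefl : T.B.IsRefl := T.alt.isRefl
  have hnd : (T.B.restrict A).Nondegenerate := by
    have key : ∀ x : A, (∀ y : A, T.B.restrict A x y = 0) → x = 0 := fun x hx =>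
      Subtype.ext (hn x x.2 (fun y hy => hx ⟨y, hy⟩))
    refine ⟨key, fun y hy => key y fun x => ?_⟩
    exact hrefl _ _ (hy x)
  exact LinearMap.BilinForm.isCompl_orthogonal_of_restrict_nondegenerate hrefl hnd

theorem perp_stable (T : Trip F) (A : Submodule F T.V) (hA : ∀ x ∈ A, T.g x ∈ A) :
    ∀ x ∈ T.B.orthogonal A, T.g x ∈ T.B.orthogonal A := by
  intro x hx
  rw [LinearMap.BilinForm.mem_orthogonal_iff] at hx ⊢
  intro a ha
  have hinj : Function.Injective (T.g.restrict hA) := by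
    rw [injective_iff_map_eq_zero]
    intro z hz
    apply Subtype.ext
    apply T.injective_g
    have := congrArg Subtype.val hz
    simpa using this
  obtain ⟨a', ha'⟩ := (LinearMap.injective_iff_surjective.mp hinj) ⟨a, ha⟩
  have h1 : T.g a' = a := congrArg Subtype.val ha'
  rw [← h1, T.isom]
  exact hx _ a'.2

theorem isSum_perp (T : Trip F) (A : Submodule F T.V) (hA : ∀ x ∈ A, T.g x ∈ A)
    (hn : ∀ x ∈ A, (∀ y ∈ A, T.B x y = 0) → x = 0) (T₁ : Trip F) (h₁ : IsoT T₁ (T.sub A hA hn)) :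
    ∃ T₂ : Trip F, IsSum T T₁ T₂ := by
  have hc := isCompl_perp T A hn
  have ho : ∀ a ∈ A, ∀ c ∈ T.B.orthogonal A, T.B a c = 0 := fun a ha c hc =>
    (LinearMap.BilinForm.mem_orthogonal_iff.mp hc) a ha
  exact ⟨T.sub (T.B.orthogonal A) (perp_stable T A hA) (T.nondeg_right hc ho),
    A, _, hc, hA, perp_stable T A hA, ho, h₁, IsoT.refl _⟩

/-- The nilpotent part. -/
def nN (T : Trip F) (s : F) : Module.End F T.V := T.g - s • 1

theorem nN_apply (T : Trip F) (s : F) (x : T.V) : nN T s x = T.g x - s • x := by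
  simp [nN]

theorem g_eq (T : Trip F) (s : F) (x : T.V) : T.g x = s • x + nN T s x := by
  rw [nN_apply]
  abel

theorem isoN_nN (T : Trip F) (s : F) : IsoN T.B (nN T s) s := fun u v => by
  rw [← g_eq, ← g_eq]
  exact T.isom u v

/-- A section of the top power. -/
structure PeelData (T : Trip F) (s : F) (K' m : ℕ) where
  y : (Fin m → F) →ₗ[F] T.V
  hnil : (nN T s) ^ (K' + 1) = 0
  hinj : ∀ a, ((nN T s) ^ K') (y a) = 0 → a = 0
  hspan : ∀ v, ∃ a, ((nN T s) ^ K') v = ((nN T s) ^ K') (y a)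

theorem exists_peelData (T : Trip F) (s : F) (K' m : ℕ) (hnil : (nN T s) ^ (K' + 1) = 0)
    (hm : finrank F (LinearMap.range ((nN T s) ^ K')) = m) : Nonempty (PeelData T s K' m) := by
  let e : (Fin m → F) ≃ₗ[F] LinearMap.range ((nN T s) ^ K') :=
    LinearEquiv.ofFinrankEq _ _ (by rw [hm]; simp)
  obtain ⟨sec, hsec⟩ := LinearMap.exists_rightInverse_of_surjective (((nN T s) ^ K').rangeRestrict)
    (LinearMap.range_rangeRestrict _)
  have hs : ∀ r : LinearMap.range ((nN T s) ^ K'), ((nN T s) ^ K') (sec r) = r := by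
    intro r
    have := LinearMap.congr_fun hsec r
    exact congrArg Subtype.val this
  refine ⟨⟨sec ∘ₗ e.toLinearMap, hnil, fun a ha => ?_, fun v => ?_⟩⟩
  · simp only [LinearMap.comp_apply, LinearEquiv.coe_coe, hs] at ha
    have : e a = 0 := Subtype.ext ha
    simpa using this
  · refine ⟨e.symm ⟨_, v, rfl⟩, ?_⟩
    simp only [LinearMap.comp_apply, LinearEquiv.coe_coe, hs, LinearEquiv.apply_symm_apply]

namespace PeelData

variable {T : Trip F} {s : F} {K' m : ℕ} (D : PeelData T s K' m)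

/-- The form on the top quotient. -/
def β : LinearMap.BilinForm F (Fin m → F) := T.B.comp (((nN T s) ^ K') ∘ₗ D.y) D.y

theorem β_apply (a b : Fin m → F) : D.β a b = T.B (((nN T s) ^ K') (D.y a)) (D.y b) := rfl

theorem sign_ne_zero (j : ℕ) : ((-1 : F) ^ j) ≠ 0 := pow_ne_zero _ (neg_ne_zero.mpr one_ne_zero)

theorem β_swap (hs : s * s = 1) (a b : Fin m → F) : D.β b a = (-1) ^ (K' + 1) * D.β a b := by
  rw [β_apply, β_apply, T.skew]
  have h := beta_sign hs (isoN_nN T s) D.hnil (D.y a) (D.y b) K' 0 (by omega)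
  rw [pow_zero, Module.End.one_apply] at h
  rw [h]
  ring

include D in
/-- Vectors in the kernel of the top power are orthogonal to the image of the top power. -/
theorem top_orth (hs : s * s = 1) (w κ : T.V) (hκ : ((nN T s) ^ K') κ = 0) :
    T.B (((nN T s) ^ K') w) κ = 0 := by
  have h := beta_sign hs (isoN_nN T s) D.hnil w κ K' 0 (by omega)
  rw [pow_zero, Module.End.one_apply, hκ, map_zero] at h
  exact (mul_eq_zero.mp h.symm).resolve_left (sign_ne_zero _)

theorem β_nd (hs : s * s = 1) (a : Fin m → F) (h : ∀ b, D.β a b = 0) : a = 0 := by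
  apply D.hinj
  apply T.nd
  intro z
  obtain ⟨b, hb⟩ := D.hspan z
  have h1 := top_orth D hs (D.y a) (z - D.y b) (by rw [map_sub, hb, sub_self])
  rw [map_sub, sub_eq_zero] at h1
  rw [h1]
  exact h b

theorem β_nondeg (hs : s * s = 1) : D.β.Nondegenerate := by
  refine ⟨fun a ha => D.β_nd hs a ha, fun b hb => D.β_nd hs b (fun a => ?_)⟩
  rw [β_swap D hs a b, hb a, mul_zero]

theorem β_symm (hs : s * s = 1) (hK : Odd K') : D.β.IsSymm := by
  refine ⟨fun a b => ?_⟩
  have h1 : (-1 : F) ^ (K' + 1) = 1 := (hK.add_one).neg_one_pow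
  rw [β_swap D hs b a, h1, one_mul]

theorem β_alt (h2 : (2 : F) ≠ 0) (hs : s * s = 1) (hK : Even K') : D.β.IsAlt := by
  intro a
  have h1 : (-1 : F) ^ (K' + 1) = -1 := (hK.add_one).neg_one_pow
  have h3 := β_swap D hs a a
  rw [h1] at h3
  have h4 : 2 * D.β a a = 0 := by linear_combination h3
  exact (mul_eq_zero.mp h4).resolve_left h2

/-- The map from the model. -/
noncomputable def Psi : (Fin (K' + 1) → Fin m → F) →ₗ[F] T.V :=
  ∑ a : Fin (K' + 1), ((nN T s) ^ a.val) ∘ₗ D.y ∘ₗ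
    (LinearMap.proj a : (Fin (K' + 1) → Fin m → F) →ₗ[F] (Fin m → F))

theorem Psi_apply (u : Fin (K' + 1) → Fin m → F) : D.Psi u = ∑ a, ((nN T s) ^ a.val) (D.y (u a)) := by
  simp [Psi, LinearMap.sum_apply]

theorem Psi_shift (u : Fin (K' + 1) → Fin m → F) :
    D.Psi (shift F K' (Fin m → F) u) = nN T s (D.Psi u) := by
  rw [Psi_apply, Psi_apply, Fin.sum_univ_succ, Fin.sum_univ_castSucc, map_add, map_sum]
  simp only [shift_zero, shift_succ, map_zero, zero_add, Fin.val_succ, Fin.val_last, Fin.val_castSucc]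
  have h : nN T s (((nN T s) ^ K') (D.y (u (Fin.last K')))) = 0 := by
    rw [← Module.End.mul_apply, ← pow_succ', D.hnil]
    rfl
  rw [h, add_zero]
  apply Finset.sum_congr rfl
  intro a _
  rw [pow_succ', Module.End.mul_apply]

theorem Psi_pow (j : ℕ) (u : Fin (K' + 1) → Fin m → F) :
    D.Psi (((shift F K' (Fin m → F)) ^ j) u) = ((nN T s) ^ j) (D.Psi u) := by
  induction j with
  | zero => simp
  | succ j ih =>
    rw [pow_succ', Module.End.mul_apply, Psi_shift, ih, ← Module.End.mul_apply, ← pow_succ']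

theorem Psi_single (c : Fin (K' + 1)) (a : Fin m → F) :
    D.Psi (Pi.single c a) = ((nN T s) ^ c.val) (D.y a) := by
  rw [Psi_apply, Finset.sum_eq_single c]
  · rw [Pi.single_eq_same]
  · intro b _ hb
    rw [Pi.single_eq_of_ne hb, map_zero, map_zero]
  · simp

theorem Psi_g (u : Fin (K' + 1) → Fin m → F) :
    D.Psi ((s • (1 : Module.End F (Fin (K' + 1) → Fin m → F)) + shift F K' (Fin m → F)) u) = T.g (D.Psi u) := by
  rw [g_eq T s, ← Psi_shift]
  simp

theorem pull_nd (hs : s * s = 1) (u : Fin (K' + 1) → Fin m → F) (h : ∀ v, T.B (D.Psi u) (D.Psi v) = 0) : u = 0 := by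
  classical
  by_contra hu
  have hex : ∃ a, u a ≠ 0 := by
    by_contra hall
    push_neg at hall
    exact hu (funext hall)
  let S : Finset (Fin (K' + 1)) := Finset.univ.filter fun a => u a ≠ 0
  have hS : S.Nonempty := by
    obtain ⟨a, ha⟩ := hex
    exact ⟨a, by simp [S, ha]⟩
  obtain ⟨a₀, ha₀, hmin⟩ := Finset.exists_min_image S (fun a => a.val) hS
  have ha₀' : u a₀ ≠ 0 := by simpa [S] using ha₀
  have hlt : ∀ a : Fin (K' + 1), a.val < a₀.val → u a = 0 := by
    intro a ha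
    by_contra hne
    have := hmin a (by simp [S, hne])
    omega
  have hβ : ∃ b, D.β (u a₀) b ≠ 0 := by
    by_contra hall
    push_neg at hall
    exact ha₀' (D.β_nd hs _ hall)
  obtain ⟨b, hb⟩ := hβ
  have hc : K' - a₀.val < K' + 1 := by omega
  have h1 := h (Pi.single ⟨K' - a₀.val, hc⟩ b)
  rw [Psi_single, Psi_apply, map_sum, LinearMap.sum_apply, Finset.sum_eq_single a₀] at h1
  · have hadd : a₀.val + (K' - a₀.val) = K' := by
      have := a₀.2
      omega
    rw [beta_sign hs (isoN_nN T s) D.hnil (D.y (u a₀)) (D.y b) (K' - a₀.val) a₀.val hadd] at h1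
    rcases mul_eq_zero.mp h1 with h3 | h3
    · exact sign_ne_zero _ h3
    · exact hb h3
  · intro a _ ha
    rcases lt_or_gt_of_ne (fun e => ha (Fin.ext e) : a.val ≠ a₀.val) with hl | hl
    · rw [hlt a hl]
      simp
    · apply orth_of_pow hs (isoN_nN T s)
      rw [← Module.End.mul_apply, ← pow_add]
      have := a₀.2
      have h5 : (K' - a₀.val) + a.val = (K' + 1) + (a.val - a₀.val - 1) := by omega
      rw [h5, pow_add, D.hnil, zero_mul]
      rfl
  · simp

/-- The model with the pulled-back form. -/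
noncomputable def pull (hs : s * s = 1) : Trip F where
  V := Fin (K' + 1) → Fin m → F
  B := T.B.comp D.Psi D.Psi
  g := s • (1 : Module.End F (Fin (K' + 1) → Fin m → F)) + shift F K' (Fin m → F)
  alt := fun x => T.alt _
  nd := fun x hx => D.pull_nd hs x hx
  isom := fun x y => by
    rw [LinearMap.BilinForm.comp_apply, LinearMap.BilinForm.comp_apply, Psi_g, Psi_g, T.isom]

theorem Psi_injective (hs : s * s = 1) : Function.Injective D.Psi := by
  rw [injective_iff_map_eq_zero]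
  intro u hu
  apply D.pull_nd hs
  intro v
  rw [hu, map_zero, LinearMap.zero_apply]

theorem range_stable : ∀ x ∈ LinearMap.range D.Psi, T.g x ∈ LinearMap.range D.Psi := by
  rintro _ ⟨u, rfl⟩
  exact ⟨_, D.Psi_g u⟩

theorem range_nd (hs : s * s = 1) : ∀ x ∈ LinearMap.range D.Psi,
    (∀ y ∈ LinearMap.range D.Psi, T.B x y = 0) → x = 0 := by
  rintro _ ⟨u, rfl⟩ h
  have := D.pull_nd hs u (fun v => h _ ⟨v, rfl⟩)
  subst this
  simp

theorem iso_range (hs : s * s = 1) :
    IsoT (D.pull hs) (T.sub (LinearMap.range D.Psi) D.range_stable (D.range_nd hs)) := by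
  refine ⟨LinearEquiv.ofInjective D.Psi (D.Psi_injective hs), fun x => ?_, fun x y => rfl⟩
  apply Subtype.ext
  exact D.Psi_g x

theorem exists_sum (hs : s * s = 1) : ∃ T₂ : Trip F, IsSum T (D.pull hs) T₂ :=
  isSum_perp T _ D.range_stable (D.range_nd hs) _ (D.iso_range hs)

theorem pull_type (hs : s * s = 1) :
    typeOf (D.pull hs).g = Multiset.replicate m (X - C s, K' + 1) := by
  have := typeOf_model (F := F) (Y := Fin m → F) (K' := K') s
  simp only [finrank_fintype_fun_eq_card, Fintype.card_fin] at this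
  exact this

theorem pull_isoN (hs : s * s = 1) : IsoN (D.pull hs).B (shift F K' (Fin m → F)) s := fun u v => by
  have h1 := (D.pull hs).isom u v
  exact h1

theorem pull_top (hs : s * s = 1) (a b : Fin m → F) :
    (D.pull hs).B (((shift F K' (Fin m → F)) ^ K') (Pi.single 0 a)) (Pi.single 0 b) = D.β a b := by
  change T.B (D.Psi _) (D.Psi _) = _
  rw [Psi_pow, Psi_single, Psi_single]
  simp [β_apply]

end PeelData

/-- Equivalent top forms give isomorphic homogeneous parts. -/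
theorem iso_pull [Finite F] (h2 : (2 : F) ≠ 0) {s : F} (hs : s * s = 1) {T₁ T₂ : Trip F} {K' m : ℕ}
    (D₁ : PeelData T₁ s K' m) (D₂ : PeelData T₂ s K' m) (φ : (Fin m → F) ≃ₗ[F] (Fin m → F))
    (hφ : ∀ a b, D₂.β (φ a) (φ b) = D₁.β a b) : IsoT (D₁.pull hs) (D₂.pull hs) := by
  classical
  let n := shift F K' (Fin m → F)
  let Φ : (Fin (K' + 1) → Fin m → F) ≃ₗ[F] (Fin (K' + 1) → Fin m → F) := mapY φ
  let B₁ : LinearMap.BilinForm F (Fin (K' + 1) → Fin m → F) := (D₁.pull hs).B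
  let B₂ : LinearMap.BilinForm F (Fin (K' + 1) → Fin m → F) := (D₂.pull hs).B
  let B₃ : LinearMap.BilinForm F (Fin (K' + 1) → Fin m → F) := B₂.comp Φ.toLinearMap Φ.toLinearMap
  have hB₃ : ∀ x y, B₃ x y = B₂ (Φ x) (Φ y) := fun x y => rfl
  have hΦn : ∀ u, Φ (n u) = n (Φ u) := mapY_shift φ
  have hΦnj : ∀ (j : ℕ) (u : Fin (K' + 1) → Fin m → F), Φ ((n ^ j) u) = (n ^ j) (Φ u) := by
    intro j
    induction j with
    | zero => intro u; simp
    | succ j ih =>
      intro u
      rw [pow_succ', Module.End.mul_apply, hΦn, ih, ← Module.End.mul_apply, ← pow_succ']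
  have hi₂ : IsoN B₂ n s := D₂.pull_isoN hs
  have hi₁ : IsoN B₁ n s := D₁.pull_isoN hs
  have hi₃ : IsoN B₃ n s := by
    intro u v
    have e1 : ∀ w, Φ (s • w + n w) = s • Φ w + n (Φ w) := fun w => by rw [map_add, map_smul, hΦn]
    rw [hB₃, hB₃, e1, e1]
    exact hi₂ (Φ u) (Φ v)
  have hn₃ : ∀ x, (∀ y, B₃ x y = 0) → x = 0 := by
    intro x hx
    have hnd₂ : ∀ x : Fin (K' + 1) → Fin m → F, (∀ y, B₂ x y = 0) → x = 0 := (D₂.pull hs).nd
    have : Φ x = 0 := by
      apply hnd₂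
      intro y
      have := hx (Φ.symm y)
      rw [hB₃] at this
      rw [LinearEquiv.apply_symm_apply] at this
      exact this
    simpa using this
  have hβ : ∀ u v, B₁ ((n ^ K') u) v = B₃ ((n ^ K') u) v := by
    intro u v
    rw [hB₃, hΦnj]
    have h1 := top_reduce hs hi₁ u v
    have h3 := top_reduce hs hi₂ (Φ u) (Φ v)
    rw [h1, h3]
    have e1 : B₁ ((n ^ K') (Pi.single 0 (u 0))) (Pi.single 0 (v 0)) = D₁.β (u 0) (v 0) := D₁.pull_top hs _ _
    have e2 : B₂ ((n ^ K') (Pi.single 0 ((Φ u) 0))) (Pi.single 0 ((Φ v) 0)) = D₂.β ((Φ u) 0) ((Φ v) 0) :=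
      D₂.pull_top hs _ _
    rw [e1, e2]
    exact (hφ _ _).symm
  have hG : GoodL B₁ B₃ (s • 1 + n) := good_of_beta_eq h2 hs (D₁.pull hs).alt (by intro x; exact (D₂.pull hs).alt _)
    (D₁.pull hs).nd hn₃ (N := n) (K' := K') shift_pow_top shift_pow_ker hi₁ hi₃ hβ
  obtain ⟨c, hc1, hc2⟩ := hG
  have hgx : ∀ x : Fin (K' + 1) → Fin m → F, (s • (1 : Module.End F (Fin (K' + 1) → Fin m → F)) + n) x = s • x + n x := by
    intro x
    simp
  have hcsymm : ∀ x, c.symm ((s • (1 : Module.End F (Fin (K' + 1) → Fin m → F)) + n) x) =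
      (s • (1 : Module.End F (Fin (K' + 1) → Fin m → F)) + n) (c.symm x) := by
    intro x
    apply c.injective
    rw [hc1, LinearEquiv.apply_symm_apply, LinearEquiv.apply_symm_apply]
  refine ⟨c.symm.trans Φ, fun (x : Fin (K' + 1) → Fin m → F) => ?_, fun (x y : Fin (K' + 1) → Fin m → F) => ?_⟩
  · change Φ (c.symm ((s • (1 : Module.End F (Fin (K' + 1) → Fin m → F)) + n) x)) =
      (s • (1 : Module.End F (Fin (K' + 1) → Fin m → F)) + n) (Φ (c.symm x))
    rw [hcsymm, hgx, hgx, map_add, map_smul, hΦn]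
  · change B₂ (Φ (c.symm x)) (Φ (c.symm y)) = B₁ x y
    rw [← hB₃, ← hc2, LinearEquiv.apply_symm_apply, LinearEquiv.apply_symm_apply]

end Cfsg.Agent.Lib.ClassNum.SpPeel
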