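import Mathlib
import Cfsg.Agent.Lib.ClassNum.SpPeel

/-!
# Counting isomorphism classes of unipotent symplectic isometries of a given type
-/

set_option autoImplicit false
set_option linter.unusedSectionVars false
set_option linter.unusedVariables false

open Polynomial Module
open Cfsg.Agent.Lib.Linalg.RCF Cfsg.Agent.Lib.Linalg.RCFType
open Cfsg.Agent.Lib.Classical.Herm.TwoForms
open Cfsg.Agent.Lib.ClassNum.SpTrip Cfsg.Agent.Lib.ClassNum.SpModel Cfsg.Agent.Lib.ClassNum.SpPeel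

namespace Cfsg.Agent.Lib.ClassNum.SpClass

universe u

variable {F : Type u} [Field F]

/-- Number of distinct even block sizes. -/
def dEven (τ : Multiset (F[X] × ℕ)) : ℕ := ((τ.map Prod.snd).toFinset.filter Even).card

theorem cl_of_fintype {τ : Multiset (F[X] × ℕ)} {N : ℕ} {α : Type*} [Fintype α] (f : Trip F → α)
    (hf : ∀ T₁ T₂ : Trip F, typeOf T₁.g = τ → typeOf T₂.g = τ → f T₁ = f T₂ → IsoT T₁ T₂)
    (hc : Fintype.card α ≤ N) : Cl τ N := by
  obtain ⟨e⟩ : Nonempty (α ↪ Fin N) := Function.Embedding.nonempty_of_card_le (by simpa using hc)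
  exact ⟨fun T => e (f T), fun T₁ T₂ h1 h2 h3 => hf T₁ T₂ h1 h2 (e.injective h3)⟩

theorem aeval_nN (T : Trip F) (s : F) (k : ℕ) : aeval T.g ((X - C s : F[X]) ^ k) = (nN T s) ^ k := by
  rw [map_pow, map_sub, aeval_X, aeval_C, Algebra.algebraMap_eq_smul_one]
  rfl

theorem sum_sub_eq_card {τ : Multiset (F[X] × ℕ)} {K' : ℕ} (h : ∀ a ∈ τ, a.2 ≤ K' + 1) :
    (τ.map fun a => a.2 - K').sum = (τ.filter fun a => a.2 = K' + 1).card := by
  induction τ using Multiset.induction_on with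
  | empty => simp
  | cons a t ih =>
    have h1 := h a (Multiset.mem_cons_self a t)
    have h2 := ih (fun b hb => h b (Multiset.mem_cons_of_mem hb))
    simp only [Multiset.map_cons, Multiset.sum_cons]
    rw [h2]
    by_cases hc : a.2 = K' + 1
    · rw [Multiset.filter_cons_of_pos (p := fun a : F[X] × ℕ => a.2 = K' + 1) t hc, Multiset.card_cons, hc]
      omega
    · rw [Multiset.filter_cons_of_neg (p := fun a : F[X] × ℕ => a.2 = K' + 1) t hc]
      omega

theorem iso_of_trivial {T₁ T₂ : Trip F} (h₁ : finrank F T₁.V = 0) (h₂ : finrank F T₂.V = 0) : IsoT T₁ T₂ := by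
  haveI : Subsingleton T₁.V := finrank_zero_iff.mp h₁
  haveI : Subsingleton T₂.V := finrank_zero_iff.mp h₂
  refine ⟨LinearEquiv.ofFinrankEq _ _ (by rw [h₁, h₂]), fun x => Subsingleton.elim _ _, fun x y => ?_⟩
  have hx : x = 0 := Subsingleton.elim _ _
  subst hx
  simp

/-- Classification of unipotent isometries of a given type. -/
theorem unip_class [Fintype F] (hodd : Fintype.card F % 2 = 1) {s : F} (hs : s * s = 1) :
    ∀ (n : ℕ) (τ : Multiset (F[X] × ℕ)), τ.card = n → (∀ a ∈ τ, a.1 = X - C s) →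
      Cl τ (2 ^ dEven τ) ∧
        ∀ T : Trip F, typeOf T.g = τ → ∀ j, Odd j → Even (τ.filter fun a => a.2 = j).card := by
  classical
  have h2 : (2 : F) ≠ 0 := Cfsg.Agent.Lib.ClassNum.SpSym.two_ne_zero_of_odd hodd
  intro n
  induction n using Nat.strong_induction_on with
  | _ n IH =>
  intro τ hcard hτ
  by_cases hne : τ = 0
  · subst hne
    refine ⟨?_, fun T _ j _ => by simp⟩
    have hd : dEven (0 : Multiset (F[X] × ℕ)) = 0 := by simp [dEven]
    rw [hd, pow_zero]
    refine ⟨fun _ => 0, fun T₁ T₂ h1 h2 _ => iso_of_trivial ?_ ?_⟩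
    · rw [finrank_eq_sum_typeOf, h1]
      simp
    · rw [finrank_eq_sum_typeOf, h2]
      simp
  -- the largest block
  obtain ⟨K, hKmem, hKmax⟩ : ∃ K, (∃ a ∈ τ, a.2 = K) ∧ ∀ a ∈ τ, a.2 ≤ K := by
    obtain ⟨a₀, ha₀⟩ := Multiset.exists_mem_of_ne_zero hne
    have hS : (τ.map Prod.snd).toFinset.Nonempty :=
      ⟨a₀.2, by simp only [Multiset.mem_toFinset, Multiset.mem_map]; exact ⟨a₀, ha₀, rfl⟩⟩
    obtain ⟨K, hK, hmax⟩ := Finset.exists_max_image _ id hS
    simp only [Multiset.mem_toFinset, Multiset.mem_map] at hK hmax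
    obtain ⟨a, ha, rfl⟩ := hK
    exact ⟨a.2, ⟨a, ha, rfl⟩, fun b hb => hmax b.2 ⟨b, hb, rfl⟩⟩
  obtain ⟨a₁, ha₁, ha₁K⟩ := hKmem
  by_cases hex : ∃ T : Trip F, typeOf T.g = τ
  swap
  · refine ⟨?_, fun T hT => (hex ⟨T, hT⟩).elim⟩
    exact ⟨fun _ => ⟨0, by positivity⟩, fun T₁ _ h1 => (hex ⟨T₁, h1⟩).elim⟩
  obtain ⟨T₀, hT₀⟩ := hex
  have hKpos : 0 < K := by
    have := (typeOf_adm T₀.g a₁ (by rw [hT₀]; exact ha₁)).2.2
    omega
  obtain ⟨K', rfl⟩ : ∃ K', K = K' + 1 := ⟨K - 1, by omega⟩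
  let p : F[X] := X - C s
  let m : ℕ := (τ.filter fun a => a.2 = K' + 1).card
  let τ' : Multiset (F[X] × ℕ) := τ.filter fun a => a.2 ≠ K' + 1
  have hsplit : τ = Multiset.replicate m (p, K' + 1) + τ' := by
    have h1 : (τ.filter fun a => a.2 = K' + 1) = Multiset.replicate m (p, K' + 1) := by
      rw [Multiset.eq_replicate]
      refine ⟨rfl, fun b hb => ?_⟩
      obtain ⟨hb1, hb2⟩ := Multiset.mem_filter.mp hb
      exact Prod.ext (hτ b hb1) hb2
    rw [← h1]
    exact (Multiset.filter_add_not _ τ).symm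
  have hm : 0 < m := Multiset.card_pos_iff_exists_mem.mpr ⟨a₁, Multiset.mem_filter.mpr ⟨ha₁, ha₁K⟩⟩
  have hcard' : τ'.card < n := by
    have := congrArg Multiset.card hsplit
    simp only [Multiset.card_add, Multiset.card_replicate] at this
    omega
  have hτ' : ∀ a ∈ τ', a.1 = X - C s := fun a ha => hτ a (Multiset.mem_filter.mp ha).1
  obtain ⟨hCl', hpar'⟩ := IH _ hcard' τ' rfl hτ'
  obtain ⟨f', hf'⟩ := hCl'
  have hdata : ∀ T : {T : Trip F // typeOf T.g = τ}, ∃ (D : PeelData T.1 s K' m) (T₂ : Trip F),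
      IsSum T.1 (D.pull hs) T₂ ∧ typeOf T₂.g = τ' := by
    rintro ⟨T, hT⟩
    have hnil : (nN T s) ^ (K' + 1) = 0 := by
      rw [← aeval_nN, aeval_eq_zero_iff, hT]
      intro a ha
      rw [hτ a ha]
      exact pow_dvd_pow _ (hKmax a ha)
    have hrk : finrank F (LinearMap.range ((nN T s) ^ K')) = m := by
      rw [← aeval_nN, type_rank T.g s (by rw [hT]; exact hτ), hT]
      exact sum_sub_eq_card hKmax
    obtain ⟨D⟩ := exists_peelData T s K' m hnil hrk
    obtain ⟨T₂, hT₂⟩ := D.exists_sum hs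
    refine ⟨D, T₂, hT₂, ?_⟩
    have h1 := hT₂.typeOf_add
    rw [D.pull_type hs, hT] at h1
    conv_lhs at h1 => rw [hsplit]
    exact (add_left_cancel h1).symm
  choose D T₂ hsum htype using hdata
  have hglue : ∀ (A B : {T : Trip F // typeOf T.g = τ}) (φ : (Fin m → F) ≃ₗ[F] (Fin m → F))
      (hφ : ∀ a b, (D B).β (φ a) (φ b) = (D A).β a b), f' (T₂ A) = f' (T₂ B) → IsoT A.1 B.1 := by
    intro A B φ hφ hff
    exact IsSum.iso (hsum A) (hsum B) (iso_pull h2 hs (D A) (D B) φ hφ) (hf' _ _ (htype A) (htype B) hff)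
  -- the counts
  have hS' : (τ'.map Prod.snd).toFinset ⊆ (τ.map Prod.snd).toFinset := by
    intro x hx
    simp only [Multiset.mem_toFinset, Multiset.mem_map] at hx ⊢
    obtain ⟨a, ha, rfl⟩ := hx
    exact ⟨a, (Multiset.mem_filter.mp ha).1, rfl⟩
  have hKS' : K' + 1 ∉ (τ'.map Prod.snd).toFinset := by
    intro hx
    simp only [Multiset.mem_toFinset, Multiset.mem_map] at hx
    obtain ⟨a, ha, h3⟩ := hx
    exact (Multiset.mem_filter.mp ha).2 h3
  have hKS : K' + 1 ∈ (τ.map Prod.snd).toFinset := by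
    simp only [Multiset.mem_toFinset, Multiset.mem_map]
    exact ⟨a₁, ha₁, ha₁K⟩
  have hd1 : dEven τ' ≤ dEven τ := Finset.card_le_card (Finset.filter_subset_filter _ hS')
  have hd2 : Even (K' + 1) → dEven τ' + 1 ≤ dEven τ := by
    intro hev
    have h3 : insert (K' + 1) ((τ'.map Prod.snd).toFinset.filter Even) ⊆ (τ.map Prod.snd).toFinset.filter Even := by
      intro x hx
      rcases Finset.mem_insert.mp hx with rfl | hx
      · exact Finset.mem_filter.mpr ⟨hKS, hev⟩
      · exact Finset.filter_subset_filter _ hS' hx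
    have h4 := Finset.card_le_card h3
    rw [Finset.card_insert_of_notMem (fun h5 => hKS' (Finset.mem_filter.mp h5).1)] at h4
    exact h4
  constructor
  · by_cases hK : Odd K'
    · obtain ⟨cls, hcls⟩ := Cfsg.Agent.Lib.ClassNum.SpSym.exists_cls (F := F) (Y := Fin m → F) hodd
      let f : Trip F → Bool × Fin (2 ^ dEven τ') := fun T =>
        if h : typeOf T.g = τ then (cls (D ⟨T, h⟩).β, f' (T₂ ⟨T, h⟩)) else (false, ⟨0, by positivity⟩)
      apply cl_of_fintype f
      · intro A B hA hB hff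
        simp only [f, dif_pos hA, dif_pos hB, Prod.mk.injEq] at hff
        obtain ⟨φ, hφ⟩ := hcls _ _ ((D ⟨A, hA⟩).β_symm hs hK) ((D ⟨A, hA⟩).β_nondeg hs)
          ((D ⟨B, hB⟩).β_symm hs hK) ((D ⟨B, hB⟩).β_nondeg hs) hff.1
        exact hglue ⟨A, hA⟩ ⟨B, hB⟩ φ hφ hff.2
      · have h3 := hd2 hK.add_one
        simp only [Fintype.card_prod, Fintype.card_bool, Fintype.card_fin]
        calc 2 * 2 ^ dEven τ' = 2 ^ (dEven τ' + 1) := by ring
          _ ≤ 2 ^ dEven τ := Nat.pow_le_pow_right (by norm_num) h3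
    · have hK' : Even K' := Nat.not_odd_iff_even.mp hK
      let f : Trip F → Fin (2 ^ dEven τ') := fun T =>
        if h : typeOf T.g = τ then f' (T₂ ⟨T, h⟩) else ⟨0, by positivity⟩
      apply cl_of_fintype f
      · intro A B hA hB hff
        simp only [f, dif_pos hA, dif_pos hB] at hff
        obtain ⟨φ, -, hφ⟩ := good_of_scalar ((D ⟨B, hB⟩).β_alt h2 hs hK') ((D ⟨A, hA⟩).β_alt h2 hs hK')
          (fun a ha => (D ⟨B, hB⟩).β_nd hs a ha) (fun a ha => (D ⟨A, hA⟩).β_nd hs a ha)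
          (LinearEquiv.refl F (Fin m → F)) (δ := 1) (fun x => by simp)
        exact hglue ⟨A, hA⟩ ⟨B, hB⟩ φ hφ hff
      · simp only [Fintype.card_fin]
        exact Nat.pow_le_pow_right (by norm_num) hd1
  · intro T hT j hj
    by_cases hjK : j = K' + 1
    · subst hjK
      have hK' : Even K' := by
        rcases Nat.even_or_odd K' with h3 | h3
        · exact h3
        · exact absurd hj (Nat.not_odd_iff_even.mpr h3.add_one)
      have h3 := Cfsg.Agent.Lib.Classical.Witt.Parity.even_finrank_of_alt (D ⟨T, hT⟩).β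
        ((D ⟨T, hT⟩).β_alt h2 hs hK') (fun a ha => (D ⟨T, hT⟩).β_nd hs a ha)
      simpa using h3
    · have h3 : (τ.filter fun a => a.2 = j) = τ'.filter fun a => a.2 = j := by
        rw [Multiset.filter_filter]
        apply Multiset.filter_congr
        intro x _
        constructor
        · intro h4
          exact ⟨h4, by rw [h4]; exact hjK⟩
        · intro h4
          exact h4.1
      rw [h3]
      exact hpar' (T₂ ⟨T, hT⟩) (htype _) j hj

end Cfsg.Agent.Lib.ClassNum.SpClass
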