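import Mathlib
import Cfsg.Agent.Lib.ClassNum.SpClass
import Cfsg.Agent.Lib.Classical.Symp.Basic

/-!
# Classes of isometries of a nondegenerate alternating form with a given type
-/

set_option autoImplicit false
set_option linter.unusedSectionVars false
set_option linter.unusedVariables false

open Polynomial Module Matrix
open Cfsg.Agent.Lib.Linalg.RCF Cfsg.Agent.Lib.Linalg.RCFType
open Cfsg.Agent.Lib.Classical.Herm.TwoForms
open Cfsg.Agent.Lib.ClassNum.SpTrip Cfsg.Agent.Lib.ClassNum.SpModel Cfsg.Agent.Lib.ClassNum.SpPeel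
open Cfsg.Agent.Lib.ClassNum.SpClass
open scoped _root_.Classical

namespace Cfsg.Agent.Lib.ClassNum.SpTop

universe u

variable {F : Type u} [Field F]

theorem forall_eq_of_sum_eq {α : Type*} {f g : α → ℕ} (τ : Multiset α) (h : ∀ a ∈ τ, f a ≤ g a)
    (heq : (τ.map f).sum = (τ.map g).sum) : ∀ a ∈ τ, f a = g a := by
  induction τ using Multiset.induction_on with
  | empty => simp
  | cons a t ih =>
    simp only [Multiset.map_cons, Multiset.sum_cons] at heq
    have h1 := h a (Multiset.mem_cons_self a t)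
    have h2 : ∀ b ∈ t, f b ≤ g b := fun b hb => h b (Multiset.mem_cons_of_mem hb)
    have h3 : (t.map f).sum ≤ (t.map g).sum := Multiset.sum_map_le_sum_map _ _ h2
    intro b hb
    rcases Multiset.mem_cons.mp hb with rfl | hb
    · omega
    · exact ih h2 (by omega) b hb

section Roots

variable {V : Type*} [AddCommGroup V] [Module F V] [FiniteDimensional F V]

theorem no_root_of_injective (T : V →ₗ[F] V) (s : F) (hinj : Function.Injective (aeval T (X - C s : F[X]))) :
    ∀ a ∈ typeOf T, a.1 ≠ X - C s := by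
  intro a ha hp
  have h1 := finrank_range_aeval_type' T (monic_X_sub_C s) (irreducible_X_sub_C s) 1
  rw [pow_one, LinearMap.finrank_range_of_inj hinj, finrank_eq_sum_typeOf] at h1
  have h2 := forall_eq_of_sum_eq (typeOf T) (f := fun a => if a.1 = X - C s then (X - C s : F[X]).natDegree * (a.2 - 1)
      else a.1.natDegree * a.2) (g := fun a => a.2 * a.1.natDegree) (by
    intro b hb
    by_cases hc : b.1 = X - C s
    · beta_reduce
      rw [if_pos hc, hc, natDegree_X_sub_C, one_mul, mul_one]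
      omega
    · beta_reduce
      rw [if_neg hc, mul_comm]) h1.symm a ha
  beta_reduce at h2
  rw [if_pos hp, hp, natDegree_X_sub_C, one_mul, mul_one] at h2
  have := (typeOf_adm T a ha).2.2
  omega

theorem injective_of_no_root (T : V →ₗ[F] V) (s : F) (h : ∀ a ∈ typeOf T, a.1 ≠ X - C s) :
    Function.Injective (aeval T (X - C s : F[X])) := by
  rw [LinearMap.injective_iff_surjective, ← LinearMap.range_eq_top]
  apply Submodule.eq_top_of_finrank_eq
  have h1 := finrank_range_aeval_type' T (monic_X_sub_C s) (irreducible_X_sub_C s) 1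
  rw [pow_one] at h1
  rw [h1, finrank_eq_sum_typeOf]
  congr 1
  apply Multiset.map_congr rfl
  intro a ha
  rw [if_neg (h a ha), mul_comm]

end Roots

theorem aeval_g (T : Trip F) (s : F) : aeval T.g (X - C s : F[X]) = nN T s := by
  have := aeval_nN T s 1
  rwa [pow_one, pow_one] at this

/-- The inclusion of a subtriple. -/
def subVal (T : Trip F) (A : Submodule F T.V) (hA : ∀ x ∈ A, T.g x ∈ A)
    (hn : ∀ x ∈ A, (∀ y ∈ A, T.B x y = 0) → x = 0) : (T.sub A hA hn).V →ₗ[F] T.V := A.subtype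

theorem subVal_injective (T : Trip F) (A : Submodule F T.V) (hA : ∀ x ∈ A, T.g x ∈ A)
    (hn : ∀ x ∈ A, (∀ y ∈ A, T.B x y = 0) → x = 0) : Function.Injective (subVal T A hA hn) :=
  Subtype.val_injective

theorem subVal_mem (T : Trip F) (A : Submodule F T.V) (hA : ∀ x ∈ A, T.g x ∈ A)
    (hn : ∀ x ∈ A, (∀ y ∈ A, T.B x y = 0) → x = 0) (x : (T.sub A hA hn).V) : subVal T A hA hn x ∈ A :=
  Subtype.property (p := fun z => z ∈ A) x

theorem subVal_nN (T : Trip F) (A : Submodule F T.V) (hA : ∀ x ∈ A, T.g x ∈ A)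
    (hn : ∀ x ∈ A, (∀ y ∈ A, T.B x y = 0) → x = 0) (s : F) (x : (T.sub A hA hn).V) :
    subVal T A hA hn (nN (T.sub A hA hn) s x) = nN T s (subVal T A hA hn x) := by
  rw [nN_apply, nN_apply, map_sub, map_smul]
  rfl

theorem subVal_pow (T : Trip F) (A : Submodule F T.V) (hA : ∀ x ∈ A, T.g x ∈ A)
    (hn : ∀ x ∈ A, (∀ y ∈ A, T.B x y = 0) → x = 0) (s : F) (k : ℕ) (x : (T.sub A hA hn).V) :
    subVal T A hA hn (((nN (T.sub A hA hn) s) ^ k) x) = ((nN T s) ^ k) (subVal T A hA hn x) := by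
  induction k with
  | zero => simp
  | succ k ih =>
    rw [pow_succ', Module.End.mul_apply, subVal_nN, ih, pow_succ', Module.End.mul_apply]

theorem g_comm_pow (T : Trip F) (s : F) (k : ℕ) (x : T.V) :
    T.g (((nN T s) ^ k) x) = ((nN T s) ^ k) (T.g x) := by
  induction k generalizing x with
  | zero => simp
  | succ k ih =>
    rw [pow_succ, Module.End.mul_apply, ih, Module.End.mul_apply]
    congr 1
    rw [nN_apply, nN_apply, map_sub, map_smul]

/-- The Fitting decomposition of an isometry. -/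
theorem exists_split (T : Trip F) {s : F} (hs : s * s = 1) :
    ∃ T₁ T₂ : Trip F, IsSum T T₁ T₂ ∧ (∀ a ∈ typeOf T₁.g, a.1 = X - C s) ∧ ∀ a ∈ typeOf T₂.g, a.1 ≠ X - C s := by
  obtain ⟨n₀, hn₀, hn₁⟩ := ((nN T s).eventually_isCompl_ker_pow_range_pow.and
    (Filter.eventually_ge_atTop 1)).exists
  let A : Submodule F T.V := LinearMap.ker ((nN T s) ^ n₀)
  let C' : Submodule F T.V := LinearMap.range ((nN T s) ^ n₀)
  have hc : IsCompl A C' := hn₀
  have hA : ∀ x ∈ A, T.g x ∈ A := by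
    intro x hx
    have h1 : ((nN T s) ^ n₀) x = 0 := hx
    show ((nN T s) ^ n₀) (T.g x) = 0
    rw [← g_comm_pow, h1, map_zero]
  have hC : ∀ x ∈ C', T.g x ∈ C' := by
    rintro _ ⟨w, rfl⟩
    exact ⟨T.g w, (g_comm_pow T s n₀ w).symm⟩
  have ho : ∀ a ∈ A, ∀ c ∈ C', T.B a c = 0 := by
    rintro a ha _ ⟨w, rfl⟩
    exact orth_of_pow hs (isoN_nN T s) n₀ a w ha
  refine ⟨T.sub A hA (T.nondeg_left hc ho), T.sub C' hC (T.nondeg_right hc ho),
    ⟨A, C', hc, hA, hC, ho, IsoT.refl _, IsoT.refl _⟩, ?_, ?_⟩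
  · intro a ha
    refine (mem_type_of_nil (T.sub A hA (T.nondeg_left hc ho)).g s n₀ ?_ a ha).1
    rw [aeval_nN]
    apply LinearMap.ext
    intro x
    apply subVal_injective
    rw [subVal_pow, LinearMap.zero_apply, map_zero]
    exact subVal_mem T A hA _ x
  · apply no_root_of_injective
    rw [aeval_g, injective_iff_map_eq_zero]
    intro x hx
    apply subVal_injective T C' hC (T.nondeg_right hc ho)
    rw [map_zero]
    have h1 : nN T s (subVal T C' hC (T.nondeg_right hc ho) x) = 0 := by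
      rw [← subVal_nN, hx, map_zero]
    have h2 : ((nN T s) ^ n₀) (subVal T C' hC (T.nondeg_right hc ho) x) = 0 := by
      obtain ⟨k, rfl⟩ : ∃ k, n₀ = k + 1 := ⟨n₀ - 1, by omega⟩
      rw [pow_succ, Module.End.mul_apply, h1, map_zero]
    have h3 : subVal T C' hC (T.nondeg_right hc ho) x ∈ A ⊓ C' := ⟨h2, subVal_mem T C' hC _ x⟩
    rw [hc.inf_eq_bot, Submodule.mem_bot] at h3
    exact h3

/-- The Fitting decomposition, types. -/
theorem exists_split' (T : Trip F) {s : F} (hs : s * s = 1) :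
    ∃ T₁ T₂ : Trip F, IsSum T T₁ T₂ ∧ typeOf T₁.g = (typeOf T.g).filter (fun a => a.1 = X - C s) ∧
      typeOf T₂.g = (typeOf T.g).filter (fun a => a.1 ≠ X - C s) := by
  obtain ⟨T₁, T₂, h, h1, h2⟩ := exists_split T hs
  refine ⟨T₁, T₂, h, ?_, ?_⟩
  · rw [h.typeOf_add, Multiset.filter_add, Multiset.filter_eq_self.mpr h1,
      Multiset.filter_eq_nil.mpr h2, add_zero]
  · rw [h.typeOf_add, Multiset.filter_add, Multiset.filter_eq_self.mpr h2,
      Multiset.filter_eq_nil.mpr (fun a ha h3 => h3 (h1 a ha)), zero_add]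

theorem cl_split {s : F} (hs : s * s = 1) {τ : Multiset (F[X] × ℕ)} {N₁ N₂ : ℕ}
    (h₁ : Cl (τ.filter (fun a => a.1 = X - C s)) N₁) (h₂ : Cl (τ.filter (fun a => a.1 ≠ X - C s)) N₂) :
    Cl τ (N₁ * N₂) := by
  obtain ⟨f₁, hf₁⟩ := h₁
  obtain ⟨f₂, hf₂⟩ := h₂
  choose t₁ t₂ hsum ht₁ ht₂ using fun T : Trip F => exists_split' T hs
  apply cl_of_fintype (fun T => (f₁ (t₁ T), f₂ (t₂ T)))
  · intro A B hA hB hff
    have h1 : f₁ (t₁ A) = f₁ (t₁ B) := congrArg Prod.fst hff
    have h2 : f₂ (t₂ A) = f₂ (t₂ B) := congrArg Prod.snd hff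
    refine IsSum.iso (hsum A) (hsum B) (hf₁ _ _ ?_ ?_ h1) (hf₂ _ _ ?_ ?_ h2)
    · rw [ht₁, hA]
    · rw [ht₁, hB]
    · rw [ht₂, hA]
    · rw [ht₂, hB]
  · simp

/-- There is one class when no eigenvalue `±1` occurs. -/
theorem cl_rest [Finite F] {τ : Multiset (F[X] × ℕ)} (h₁ : ∀ a ∈ τ, a.1 ≠ X - C 1) (h₂ : ∀ a ∈ τ, a.1 ≠ X - C (-1)) :
    Cl τ 1 := by
  refine ⟨fun _ => 0, fun T₁ T₂ hT₁ hT₂ _ => ?_⟩
  obtain ⟨ψ₀, hψ₀⟩ := (exists_conj_iff_typeOf_eq T₁.g T₂.g).mpr (hT₁.trans hT₂.symm)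
  let B₃ : LinearMap.BilinForm F T₁.V := T₂.B.comp ψ₀.toLinearMap ψ₀.toLinearMap
  have hB₃ : ∀ x y, B₃ x y = T₂.B (ψ₀ x) (ψ₀ y) := fun x y => rfl
  have hinj₁ := injective_of_no_root T₁.g 1 (by rw [hT₁]; exact h₁)
  have hinj₂ := injective_of_no_root T₁.g (-1) (by rw [hT₁]; exact h₂)
  rw [aeval_g] at hinj₁ hinj₂
  obtain ⟨c, hc1, hc2⟩ : Good T₁.B B₃ T₁.gE := good_of_injective (ε := -1) (by ring) (alt_sign T₁.alt) (by
      intro x y
      rw [hB₃, hB₃, alt_sign T₂.alt])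
    T₁.nd (by
      intro x hx
      have : ψ₀ x = 0 := by
        apply T₂.nd
        intro y
        have := hx (ψ₀.symm y)
        rwa [hB₃, LinearEquiv.apply_symm_apply] at this
      simpa using this) T₁.gE (fun x y => T₁.isom x y) (by
      intro x y
      rw [hB₃, hB₃, Trip.gE_apply, Trip.gE_apply, hψ₀, hψ₀, T₂.isom]) (by
      intro x hx
      rw [Trip.gE_apply, Trip.gE_apply] at hx
      have h3 : nN T₁ (-1) (nN T₁ 1 x) = 0 := by
        rw [nN_apply, nN_apply]
        simp only [map_sub, one_smul, neg_smul, hx]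
        abel
      have h4 : nN T₁ 1 x = 0 := hinj₂ (by rw [h3, map_zero])
      exact hinj₁ (by rw [h4, map_zero]))
  refine ⟨c.symm.trans ψ₀, fun x => ?_, fun x y => ?_⟩
  · show ψ₀ (c.symm (T₁.g x)) = T₂.g (ψ₀ (c.symm x))
    have h3 : c.symm (T₁.g x) = T₁.g (c.symm x) := by
      apply c.injective
      rw [LinearEquiv.apply_symm_apply]
      have := hc1 (c.symm x)
      rw [Trip.gE_apply, Trip.gE_apply, LinearEquiv.apply_symm_apply] at this
      exact this.symm
    rw [h3, hψ₀]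
  · show T₂.B (ψ₀ (c.symm x)) (ψ₀ (c.symm y)) = T₁.B x y
    rw [← hB₃, ← hc2, LinearEquiv.apply_symm_apply, LinearEquiv.apply_symm_apply]

/-- The exponent in the number of classes of a given type. -/
noncomputable def dd (τ : Multiset (F[X] × ℕ)) : ℕ :=
  dEven (τ.filter fun a => a.1 = X - C 1) + dEven (τ.filter fun a => a.1 = X - C (-1))

theorem cl_all [Fintype F] (hodd : Fintype.card F % 2 = 1) (τ : Multiset (F[X] × ℕ)) : Cl τ (2 ^ dd τ) := by
  have h2 : (2 : F) ≠ 0 := Cfsg.Agent.Lib.ClassNum.SpSym.two_ne_zero_of_odd hodd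
  have hs1 : (1 : F) * 1 = 1 := by ring
  have hs2 : (-1 : F) * (-1) = 1 := by ring
  have hne : (X - C (-1) : F[X]) ≠ X - C 1 := by
    intro h
    have h3 := congrArg (fun f => f.coeff 0) h
    simp only [coeff_sub, coeff_X_zero, coeff_C_zero, zero_sub, neg_neg] at h3
    apply h2
    linear_combination h3
  have h₁ := (unip_class hodd hs1 _ (τ.filter fun a => a.1 = X - C 1) rfl
    (fun a ha => (Multiset.mem_filter.mp ha).2)).1
  have h₂ := (unip_class hodd hs2 _ ((τ.filter fun a => a.1 ≠ X - C 1).filter fun a => a.1 = X - C (-1)) rfl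
    (fun a ha => (Multiset.mem_filter.mp ha).2)).1
  have h₃ : Cl ((τ.filter fun a => a.1 ≠ X - C 1).filter fun a => a.1 ≠ X - C (-1)) 1 :=
    cl_rest (fun a ha => (Multiset.mem_filter.mp (Multiset.mem_filter.mp ha).1).2)
      (fun a ha => (Multiset.mem_filter.mp ha).2)
  have h₄ := cl_split hs1 h₁ (cl_split hs2 h₂ h₃)
  have he : ((τ.filter fun a => a.1 ≠ X - C 1).filter fun a => a.1 = X - C (-1)) =
      τ.filter fun a => a.1 = X - C (-1) := by
    rw [Multiset.filter_filter]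
    apply Multiset.filter_congr
    intro x _
    constructor
    · exact fun h => h.1
    · intro h
      refine ⟨h, ?_⟩
      rw [h]
      exact hne
  rw [he] at h₄
  have e : 2 ^ dEven (τ.filter fun a => a.1 = X - C 1) * (2 ^ dEven (τ.filter fun a => a.1 = X - C (-1)) * 1) = 2 ^ dd τ := by
    rw [dd, pow_add, mul_one]
  rwa [e] at h₄

theorem parity_all [Fintype F] (hodd : Fintype.card F % 2 = 1) (T : Trip F) {s : F} (hs : s * s = 1) (j : ℕ) (hj : Odd j) :
    Even (((typeOf T.g).filter fun a => a.1 = X - C s).filter fun a => a.2 = j).card := by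
  obtain ⟨T₁, T₂, -, h₁, -⟩ := exists_split' T hs
  exact (unip_class hodd hs _ _ rfl (fun a ha => (Multiset.mem_filter.mp ha).2)).2 T₁ h₁ j hj

section Sp

open Cfsg.Agent.Lib.Classical.Symp.Basic Cfsg.Agent.Lib.Classical.Symp.AltForm

variable {n : ℕ}

/-- The triple of a symplectic matrix. -/
noncomputable def spTrip (x : symplecticGroup (Fin n) F) : Trip F where
  V := Fin n ⊕ Fin n → F
  B := sympBilin n F
  g := Matrix.toLin' (x : Matrix (Fin n ⊕ Fin n) (Fin n ⊕ Fin n) F)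
  alt := sympBilin_isAlt
  nd := fun v hv => (sympBilin_nondegenerate (m := n) (F := F)).1 v hv
  isom := fun u v => mem_symplecticGroup_iff_forall.mp x.2 u v

theorem typeOf_spTrip (x : symplecticGroup (Fin n) F) :
    typeOf (spTrip x).g = matType (x : Matrix (Fin n ⊕ Fin n) (Fin n ⊕ Fin n) F) := rfl

theorem isConj_of_iso {y z : symplecticGroup (Fin n) F} (h : IsoT (spTrip y) (spTrip z)) : IsConj y z := by
  obtain ⟨ψ, h1, h2⟩ : ∃ ψ : (Fin n ⊕ Fin n → F) ≃ₗ[F] (Fin n ⊕ Fin n → F),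
      (∀ x, ψ ((y : Matrix _ _ F) *ᵥ x) = (z : Matrix _ _ F) *ᵥ (ψ x)) ∧
      ∀ u v, sympBilin n F (ψ u) (ψ v) = sympBilin n F u v := h
  have hψ : ψ ∈ IsomGroup (sympBilin n F) := h2
  let Y : symplecticGroup (Fin n) F := spEquivIsom.symm ⟨ψ, hψ⟩
  have hY : ∀ v, (Y : Matrix _ _ F) *ᵥ v = ψ v := by
    intro v
    have := spEquivIsom_apply Y v
    rw [← this]
    simp [Y]
  rw [isConj_iff]
  refine ⟨Y, ?_⟩
  have hfin : Y * y = z * Y := by
    apply Subtype.ext
    apply Matrix.ext_of_mulVec_single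
    intro i
    change ((Y : Matrix (Fin n ⊕ Fin n) (Fin n ⊕ Fin n) F) * (y : Matrix (Fin n ⊕ Fin n) (Fin n ⊕ Fin n) F)) *ᵥ _
      = ((z : Matrix (Fin n ⊕ Fin n) (Fin n ⊕ Fin n) F) * (Y : Matrix (Fin n ⊕ Fin n) (Fin n ⊕ Fin n) F)) *ᵥ _
    rw [← mulVec_mulVec, ← mulVec_mulVec, hY, hY]
    exact h1 _
  rw [hfin]
  simp

/-- Classes of a given type are few. -/
theorem card_fiber_le [Fintype F] (hodd : Fintype.card F % 2 = 1) (τ : Multiset (F[X] × ℕ)) :
    Nat.card {C : ConjClasses (symplecticGroup (Fin n) F) //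
      matType ((Quotient.out C : symplecticGroup (Fin n) F) : Matrix (Fin n ⊕ Fin n) (Fin n ⊕ Fin n) F) = τ} ≤ 2 ^ dd τ := by
  obtain ⟨f, hf⟩ := cl_all hodd τ
  have : Nat.card (Fin (2 ^ dd τ)) = 2 ^ dd τ := by simp
  rw [← this]
  apply Nat.card_le_card_of_injective
    (fun C : {C : ConjClasses (symplecticGroup (Fin n) F) //
      matType ((Quotient.out C : symplecticGroup (Fin n) F) : Matrix (Fin n ⊕ Fin n) (Fin n ⊕ Fin n) F) = τ} =>
      f (spTrip (Quotient.out C.1)))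
  rintro ⟨C, hC⟩ ⟨D, hD⟩ hCD
  apply Subtype.ext
  have h3 := isConj_of_iso (hf _ _ hC hD hCD)
  have h4 := ConjClasses.mk_eq_mk_iff_isConj.mpr h3
  have e : ∀ E : ConjClasses (symplecticGroup (Fin n) F), ConjClasses.mk (Quotient.out E) = E := fun E =>
    Quotient.out_eq E
  rwa [e, e] at h4

theorem parity_sp [Fintype F] (hodd : Fintype.card F % 2 = 1) (x : symplecticGroup (Fin n) F) {s : F} (hs : s * s = 1)
    (j : ℕ) (hj : Odd j) :
    Even (((matType (x : Matrix (Fin n ⊕ Fin n) (Fin n ⊕ Fin n) F)).filter fun a => a.1 = X - C s).filter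
      fun a => a.2 = j).card :=
  parity_all hodd (spTrip x) hs j hj

end Sp

end Cfsg.Agent.Lib.ClassNum.SpTop
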