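import Mathlib
import Cfsg.Agent.Lib.ClassNum.ODisc
import Cfsg.Agent.Lib.ClassNum.SpTop

/-!
# Classes of isometries of a nondegenerate symmetric form with a given type and discriminant
-/

set_option autoImplicit false
set_option linter.unusedSectionVars false
set_option linter.unusedVariables false

open Polynomial Module Matrix
open Cfsg.Agent.Lib.Linalg.RCF Cfsg.Agent.Lib.Linalg.RCFType
open Cfsg.Agent.Lib.Classical.Herm.TwoForms
open Cfsg.Agent.Lib.ClassNum.SpTrip Cfsg.Agent.Lib.ClassNum.SpModel Cfsg.Agent.Lib.ClassNum.OTri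
open Cfsg.Agent.Lib.ClassNum.ODisc
open Cfsg.Agent.Lib.ClassNum.SpTop (no_root_of_injective injective_of_no_root)
open scoped _root_.Classical

namespace Cfsg.Agent.Lib.ClassNum.OClass

universe u

variable {F : Type u} [Field F] [Fintype F]

/-- The triples of type `τ` fall into at most `2 ^ (d - 1)` classes with a given discriminant,
and into one class if `d = 0`. -/
def Cx (τ : Multiset (F[X] × ℕ)) (d : ℕ) : Prop :=
  ∃ f : Tri F → Fin (2 ^ (d - 1)), ∀ T₁ T₂ : Tri F, typeOf T₁.g = τ → typeOf T₂.g = τ →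
    (dch T₁.B = dch T₂.B ∨ d = 0) → f T₁ = f T₂ → IsoT T₁ T₂

theorem cx_of_fintype {τ : Multiset (F[X] × ℕ)} {d : ℕ} {α : Type*} [Fintype α] (f : Tri F → α)
    (hf : ∀ T₁ T₂ : Tri F, typeOf T₁.g = τ → typeOf T₂.g = τ → (dch T₁.B = dch T₂.B ∨ d = 0) →
      f T₁ = f T₂ → IsoT T₁ T₂)
    (hc : Fintype.card α ≤ 2 ^ (d - 1)) : Cx τ d := by
  obtain ⟨e⟩ : Nonempty (α ↪ Fin (2 ^ (d - 1))) := Function.Embedding.nonempty_of_card_le (by simpa using hc)
  exact ⟨fun T => e (f T), fun T₁ T₂ h1 h2 h3 h4 => hf T₁ T₂ h1 h2 h3 (e.injective h4)⟩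

/-- Orthogonal sums of pieces of given types. -/
theorem comb {τ τA τC : Multiset (F[X] × ℕ)} {dA dC : ℕ}
    (hsum : ∀ T : Tri F, typeOf T.g = τ → ∃ A C : Tri F, IsSum T A C ∧ typeOf A.g = τA ∧ typeOf C.g = τC)
    (hA : Cx τA dA) (hC : Cx τC dC) : Cx τ (dA + dC) := by
  obtain ⟨fA, hfA⟩ := hA
  obtain ⟨fC, hfC⟩ := hC
  choose A C h1 h2 h3 using fun T : {T : Tri F // typeOf T.g = τ} => hsum T.1 T.2
  let A' : Tri F → Tri F := fun T => if h : typeOf T.g = τ then A ⟨T, h⟩ else T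
  let C' : Tri F → Tri F := fun T => if h : typeOf T.g = τ then C ⟨T, h⟩ else T
  have hA' : ∀ T (h : typeOf T.g = τ), A' T = A ⟨T, h⟩ := fun T h => dif_pos h
  have hC' : ∀ T (h : typeOf T.g = τ), C' T = C ⟨T, h⟩ := fun T h => dif_pos h
  have hs : ∀ T (h : typeOf T.g = τ), IsSum T (A' T) (C' T) := fun T h => by
    rw [hA' T h, hC' T h]
    exact h1 ⟨T, h⟩
  have htA : ∀ T (h : typeOf T.g = τ), typeOf (A' T).g = τA := fun T h => by
    rw [hA' T h]
    exact h2 ⟨T, h⟩
  have htC : ∀ T (h : typeOf T.g = τ), typeOf (C' T).g = τC := fun T h => by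
    rw [hC' T h]
    exact h3 ⟨T, h⟩
  by_cases hz : dA = 0 ∨ dC = 0
  · apply cx_of_fintype (fun T => (fA (A' T), fC (C' T)))
    · intro T₁ T₂ ht₁ ht₂ hd hff
      have e1 : fA (A' T₁) = fA (A' T₂) := congrArg Prod.fst hff
      have e2 : fC (C' T₁) = fC (C' T₂) := congrArg Prod.snd hff
      rcases hd with hd | hd
      · rcases hz with hz | hz
        · have iA := hfA _ _ (htA T₁ ht₁) (htA T₂ ht₂) (Or.inr hz) e1
          have hdc : dch (C' T₁).B = dch (C' T₂).B := by
            have h5 := dch_isSum (hs T₁ ht₁)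
            have h6 := dch_isSum (hs T₂ ht₂)
            rw [hd, h6, ← dch_isoT iA] at h5
            exact (mul_left_cancel₀ (dch_ne_zero' _) h5).symm
          exact IsSum.iso (hs T₁ ht₁) (hs T₂ ht₂) iA (hfC _ _ (htC T₁ ht₁) (htC T₂ ht₂) (Or.inl hdc) e2)
        · have iC := hfC _ _ (htC T₁ ht₁) (htC T₂ ht₂) (Or.inr hz) e2
          have hdc : dch (A' T₁).B = dch (A' T₂).B := by
            have h5 := dch_isSum (hs T₁ ht₁)
            have h6 := dch_isSum (hs T₂ ht₂)
            rw [hd, h6, ← dch_isoT iC] at h5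
            exact (mul_right_cancel₀ (dch_ne_zero' _) h5).symm
          exact IsSum.iso (hs T₁ ht₁) (hs T₂ ht₂) (hfA _ _ (htA T₁ ht₁) (htA T₂ ht₂) (Or.inl hdc) e1) iC
      · exact IsSum.iso (hs T₁ ht₁) (hs T₂ ht₂) (hfA _ _ (htA T₁ ht₁) (htA T₂ ht₂) (Or.inr (by omega)) e1)
          (hfC _ _ (htC T₁ ht₁) (htC T₂ ht₂) (Or.inr (by omega)) e2)
    · simp only [Fintype.card_prod, Fintype.card_fin]
      rcases hz with rfl | rfl
      · simp
      · simp
  · have h1A : 1 ≤ dA := by omega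
    have h1C : 1 ≤ dC := by omega
    apply cx_of_fintype (fun T => (decide (dch (A' T).B = 1), fA (A' T), fC (C' T)))
    · intro T₁ T₂ ht₁ ht₂ hd hff
      have e0 : decide (dch (A' T₁).B = 1) = decide (dch (A' T₂).B = 1) := congrArg Prod.fst hff
      have e1 : fA (A' T₁) = fA (A' T₂) := congrArg (fun x => x.2.1) hff
      have e2 : fC (C' T₁) = fC (C' T₂) := congrArg (fun x => x.2.2) hff
      have hd' : dch T₁.B = dch T₂.B := by
        rcases hd with hd | hd
        · exact hd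
        · omega
      have hs1 : ∀ T : Tri F, dch T.B = 1 ∨ dch T.B = -1 := by
        intro T
        have h5 := dch_mul_self T.B T.symm T.nd
        have h6 : (dch T.B - 1) * (dch T.B + 1) = 0 := by linarith
        rcases mul_eq_zero.mp h6 with h7 | h7
        · left
          linarith
        · right
          linarith
      have hdA : dch (A' T₁).B = dch (A' T₂).B := by
        have e3 : dch (A' T₁).B = 1 ↔ dch (A' T₂).B = 1 := by
          simpa using e0
        rcases hs1 (A' T₁) with h5 | h5 <;> rcases hs1 (A' T₂) with h6 | h6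
        · rw [h5, h6]
        · have := e3.mp h5
          omega
        · have := e3.mpr h6
          omega
        · rw [h5, h6]
      have hdC : dch (C' T₁).B = dch (C' T₂).B := by
        have h5 := dch_isSum (hs T₁ ht₁)
        have h6 := dch_isSum (hs T₂ ht₂)
        rw [hd', h6, hdA] at h5
        exact (mul_left_cancel₀ (dch_ne_zero' _) h5).symm
      exact IsSum.iso (hs T₁ ht₁) (hs T₂ ht₂) (hfA _ _ (htA T₁ ht₁) (htA T₂ ht₂) (Or.inl hdA) e1)
        (hfC _ _ (htC T₁ ht₁) (htC T₂ ht₂) (Or.inl hdC) e2)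
    · simp only [Fintype.card_prod, Fintype.card_fin, Fintype.card_bool]
      obtain ⟨a, rfl⟩ : ∃ a, dA = a + 1 := ⟨dA - 1, by omega⟩
      obtain ⟨c, rfl⟩ : ∃ c, dC = c + 1 := ⟨dC - 1, by omega⟩
      have e : a + 1 + (c + 1) - 1 = a + c + 1 := by omega
      rw [e, Nat.add_sub_cancel, Nat.add_sub_cancel, pow_succ, pow_add]
      apply le_of_eq
      ring

theorem aeval_nN (T : Tri F) (s : F) (k : ℕ) : aeval T.g ((X - C s : F[X]) ^ k) = (nN T s) ^ k := by
  rw [map_pow, map_sub, aeval_X, aeval_C, Algebra.algebraMap_eq_smul_one]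
  rfl

theorem sum_sub_eq_card {τ : Multiset (F[X] × ℕ)} {K' : ℕ} (h : ∀ a ∈ τ, a.2 ≤ K' + 1) :
    (τ.map fun a => a.2 - K').sum = (τ.filter fun a => a.2 = K' + 1).card :=
  Cfsg.Agent.Lib.ClassNum.SpClass.sum_sub_eq_card h

/-- Peeling off the top homogeneous part. -/
theorem exists_peel (T : Tri F) {s : F} (hs : s * s = 1) {K' m : ℕ} {τ' : Multiset (F[X] × ℕ)}
    (hT : typeOf T.g = Multiset.replicate m (X - C s, K' + 1) + τ')
    (hτ' : ∀ a ∈ τ', a.1 = X - C s ∧ a.2 ≤ K') :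
    ∃ (D : PeelData T s K' m) (T₂ : Tri F), IsSum T (D.pull hs) T₂ ∧ typeOf T₂.g = τ' := by
  have hτ : ∀ a ∈ typeOf T.g, a.1 = X - C s ∧ a.2 ≤ K' + 1 := by
    intro a ha
    rw [hT] at ha
    rcases Multiset.mem_add.mp ha with h | h
    · rw [Multiset.eq_of_mem_replicate h]
      exact ⟨rfl, le_rfl⟩
    · exact ⟨(hτ' a h).1, by have := (hτ' a h).2; omega⟩
  have hnil : (nN T s) ^ (K' + 1) = 0 := by
    rw [← aeval_nN, aeval_eq_zero_iff]
    intro a ha
    rw [(hτ a ha).1]
    exact pow_dvd_pow _ (hτ a ha).2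
  have hrk : finrank F (LinearMap.range ((nN T s) ^ K')) = m := by
    rw [← aeval_nN, type_rank T.g s (fun a ha => (hτ a ha).1), sum_sub_eq_card (fun a ha => (hτ a ha).2), hT,
      Multiset.filter_add, Multiset.card_add]
    have h1 : (Multiset.filter (fun a : F[X] × ℕ => a.2 = K' + 1) τ') = 0 := by
      rw [Multiset.filter_eq_nil]
      intro a ha h
      have := (hτ' a ha).2
      omega
    have h2 : (Multiset.filter (fun a : F[X] × ℕ => a.2 = K' + 1) (Multiset.replicate m (X - C s, K' + 1))) =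
        Multiset.replicate m (X - C s, K' + 1) := by
      rw [Multiset.filter_eq_self]
      intro a ha
      rw [Multiset.eq_of_mem_replicate ha]
    rw [h1, h2]
    simp
  obtain ⟨D⟩ := exists_peelData T s K' m hnil hrk
  obtain ⟨T₂, hT₂⟩ := D.exists_sum hs
  refine ⟨D, T₂, hT₂, ?_⟩
  have h1 := hT₂.typeOf_add
  rw [D.pull_type hs, hT] at h1
  exact (add_left_cancel h1).symm

theorem topForm_pull {T : Tri F} {s : F} (hs : s * s = 1) {K' m : ℕ} (D : PeelData T s K' m) :
    topForm (D.pull hs).B = D.β := by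
  ext a b
  exact D.pull_top hs _ _

theorem dch_pull {T : Tri F} {s : F} (hs : s * s = 1) {K' m : ℕ} (D : PeelData T s K' m) (hK : Even K') :
    dch (D.pull hs).B = quadraticChar F (kap F K' m) * dch D.β := by
  refine (dch_model hs (D.pull_isoN hs)).trans ?_
  rw [topForm_pull]
  congr 1
  have hsym := D.β_symm hs hK
  have h1 : dch D.β * dch D.β = 1 := dch_mul_self D.β (fun x y => hsym.eq x y) (fun a ha => D.β_nd hs a ha)
  generalize dch D.β = z at h1 ⊢
  obtain ⟨k, hk⟩ := hK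
  rw [hk, show k + k + 1 = 2 * k + 1 by ring, pow_succ, pow_mul, sq, h1, one_pow, one_mul]

theorem iso_of_trivial {T₁ T₂ : Tri F} (h₁ : finrank F T₁.V = 0) (h₂ : finrank F T₂.V = 0) : IsoT T₁ T₂ := by
  haveI : Subsingleton T₁.V := finrank_zero_iff.mp h₁
  haveI : Subsingleton T₂.V := finrank_zero_iff.mp h₂
  refine ⟨LinearEquiv.ofFinrankEq _ _ (by rw [h₁, h₂]), fun x => Subsingleton.elim _ _, fun x y => ?_⟩
  have hx : x = 0 := Subsingleton.elim _ _
  subst hx
  simp

theorem finrank_of_type_zero {T : Tri F} (h : typeOf T.g = 0) : finrank F T.V = 0 := by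
  rw [finrank_eq_sum_typeOf, h]
  simp

/-- The homogeneous triples. -/
theorem homog (hodd : Fintype.card F % 2 = 1) {s : F} (hs : s * s = 1) (K' m : ℕ) :
    Cx (Multiset.replicate m (X - C s, K' + 1)) (if Even K' then 1 else 0) ∧
      (Odd K' → ∀ T : Tri F, typeOf T.g = Multiset.replicate m (X - C s, K' + 1) → Even m) := by
  have h2 : (2 : F) ≠ 0 := Cfsg.Agent.Lib.ClassNum.SpSym.two_ne_zero_of_odd hodd
  have hdata : ∀ T : Tri F, typeOf T.g = Multiset.replicate m (X - C s, K' + 1) →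
      ∃ (D : PeelData T s K' m) (T₂ : Tri F), IsSum T (D.pull hs) T₂ ∧ typeOf T₂.g = 0 := by
    intro T hT
    exact exists_peel T hs (τ' := 0) (by rw [hT, add_zero]) (by simp)
  refine ⟨⟨fun _ => ⟨0, by positivity⟩, fun T₁ T₂ h₁ h₂ hd _ => ?_⟩, fun hK T hT => ?_⟩
  · obtain ⟨D₁, R₁, hs₁, hr₁⟩ := hdata T₁ h₁
    obtain ⟨D₂, R₂, hs₂, hr₂⟩ := hdata T₂ h₂
    have hR : IsoT R₁ R₂ := iso_of_trivial (finrank_of_type_zero hr₁) (finrank_of_type_zero hr₂)
    refine IsSum.iso hs₁ hs₂ ?_ hR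
    by_cases hK : Even K'
    · have hd' : dch T₁.B = dch T₂.B := by
        rcases hd with hd | hd
        · exact hd
        · rw [if_pos hK] at hd
          omega
      have e1 := dch_isSum hs₁
      have e2 := dch_isSum hs₂
      rw [hd', e2, ← dch_isoT hR] at e1
      have e3 : dch (D₂.pull hs).B = dch (D₁.pull hs).B := mul_right_cancel₀ (dch_ne_zero' _) e1
      rw [dch_pull hs D₁ hK, dch_pull hs D₂ hK] at e3
      have hκ : quadraticChar F (kap F K' m) ≠ 0 := by
        rw [Ne, quadraticChar_eq_zero_iff]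
        exact kap_ne_zero
      have e4 : dch D₂.β = dch D₁.β := mul_left_cancel₀ hκ e3
      obtain ⟨φ, hφ⟩ := exists_iso_of_dch hodd (D₁.β_symm hs hK) (D₁.β_nondeg hs) (D₂.β_symm hs hK) (D₂.β_nondeg hs)
        rfl e4.symm
      exact iso_pull h2 hs D₁ D₂ φ hφ
    · have hK' : Odd K' := Nat.not_even_iff_odd.mp hK
      obtain ⟨φ, -, hφ⟩ := good_of_scalar (D₂.β_alt h2 hs hK') (D₁.β_alt h2 hs hK')
        (fun a ha => D₂.β_nd hs a ha) (fun a ha => D₁.β_nd hs a ha)
        (LinearEquiv.refl F (Fin m → F)) (δ := 1) (fun x => by simp)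
      exact iso_pull h2 hs D₁ D₂ φ hφ
  · obtain ⟨D, -, -, -⟩ := hdata T hT
    have h3 := Cfsg.Agent.Lib.Classical.Witt.Parity.even_finrank_of_alt D.β
      (D.β_alt h2 hs hK) (fun a ha => D.β_nd hs a ha)
    simpa using h3

/-- Number of distinct odd block sizes. -/
def dOdd (τ : Multiset (F[X] × ℕ)) : ℕ := ((τ.map Prod.snd).toFinset.filter Odd).card

/-- Classification of unipotent isometries of a given type. -/
theorem unip (hodd : Fintype.card F % 2 = 1) {s : F} (hs : s * s = 1) :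
    ∀ (n : ℕ) (τ : Multiset (F[X] × ℕ)), τ.card = n → (∀ a ∈ τ, a.1 = X - C s) →
      Cx τ (dOdd τ) ∧ ∀ T : Tri F, typeOf T.g = τ → ∀ j, Even j → Even (τ.filter fun a => a.2 = j).card := by
  have h2 : (2 : F) ≠ 0 := Cfsg.Agent.Lib.ClassNum.SpSym.two_ne_zero_of_odd hodd
  intro n
  induction n using Nat.strong_induction_on with
  | _ n IH =>
  intro τ hcard hτ
  by_cases hne : τ = 0
  · subst hne
    refine ⟨?_, fun T _ j _ => by simp⟩
    refine ⟨fun _ => ⟨0, by positivity⟩, fun T₁ T₂ h1 h2 _ _ => iso_of_trivial ?_ ?_⟩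
    · exact finrank_of_type_zero h1
    · exact finrank_of_type_zero h2
  by_cases hex : ∃ T : Tri F, typeOf T.g = τ
  swap
  · refine ⟨?_, fun T hT => (hex ⟨T, hT⟩).elim⟩
    exact ⟨fun _ => ⟨0, by positivity⟩, fun T₁ _ h1 => (hex ⟨T₁, h1⟩).elim⟩
  obtain ⟨T₀, hT₀⟩ := hex
  -- the largest block
  obtain ⟨K, hKmem, hKmax⟩ : ∃ K, (∃ a ∈ τ, a.2 = K) ∧ ∀ a ∈ τ, a.2 ≤ K := by
    obtain ⟨a₀, ha₀⟩ := Multiset.exists_mem_of_ne_zero hne
    have hS : (τ.map Prod.snd).toFinset.Nonempty :=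
      ⟨a₀.2, by simp only [Multiset.mem_toFinset, Multiset.mem_map]; exact ⟨a₀, ha₀, rfl⟩⟩
    obtain ⟨K, hK, hmax⟩ := Finset.exists_max_image _ id hS
    simp only [Multiset.mem_toFinset, Multiset.mem_map] at hK hmax
    obtain ⟨a, ha, rfl⟩ := hK
    exact ⟨a.2, ⟨a, ha, rfl⟩, fun b hb => hmax b.2 ⟨b, hb, rfl⟩⟩
  obtain ⟨a₁, ha₁, ha₁K⟩ := hKmem
  have hKpos : 0 < K := by
    have := (typeOf_adm T₀.g a₁ (by rw [hT₀]; exact ha₁)).2.2
    omega
  obtain ⟨K', rfl⟩ : ∃ K', K = K' + 1 := ⟨K - 1, by omega⟩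
  let p : F[X] := X - C s
  let m : ℕ := (τ.filter fun a => a.2 = K' + 1).card
  let τ' : Multiset (F[X] × ℕ) := τ.filter fun a => a.2 ≠ K' + 1
  have hsplit : τ = Multiset.replicate m (p, K' + 1) + τ' := by
    have h1 : (τ.filter fun a => a.2 = K' + 1) = Multiset.replicate m (p, K' + 1) := by
      rw [Multiset.eq_replicate]
      refine ⟨rfl, fun b hb => ?_⟩
      obtain ⟨hb1, hb2⟩ := Multiset.mem_filter.mp hb
      exact Prod.ext (hτ b hb1) hb2
    rw [← h1]
    exact (Multiset.filter_add_not _ τ).symm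
  have hm : 0 < m := Multiset.card_pos_iff_exists_mem.mpr ⟨a₁, Multiset.mem_filter.mpr ⟨ha₁, ha₁K⟩⟩
  have hcard' : τ'.card < n := by
    have := congrArg Multiset.card hsplit
    simp only [Multiset.card_add, Multiset.card_replicate] at this
    omega
  have hτ' : ∀ a ∈ τ', a.1 = X - C s := fun a ha => hτ a (Multiset.mem_filter.mp ha).1
  obtain ⟨hCl', hpar'⟩ := IH _ hcard' τ' rfl hτ'
  have hτ'' : ∀ a ∈ τ', a.1 = X - C s ∧ a.2 ≤ K' := by
    intro a ha
    obtain ⟨h3, h4⟩ := Multiset.mem_filter.mp ha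
    have := hKmax a h3
    exact ⟨hτ a h3, by omega⟩
  obtain ⟨hCl, hParity⟩ := homog hodd hs K' m
  have hdata : ∀ T : Tri F, typeOf T.g = τ →
      ∃ A R : Tri F, IsSum T A R ∧ typeOf A.g = Multiset.replicate m (X - C s, K' + 1) ∧ typeOf R.g = τ' := by
    intro T hT
    obtain ⟨D, T₂, h3, h4⟩ := exists_peel T hs (m := m) (K' := K') (τ' := τ') (by rw [hT]; exact hsplit) hτ''
    exact ⟨_, _, h3, D.pull_type hs, h4⟩
  -- the counts
  have hS : (τ.map Prod.snd).toFinset = insert (K' + 1) (τ'.map Prod.snd).toFinset := by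
    ext x
    simp only [Multiset.mem_toFinset, Multiset.mem_map, Finset.mem_insert]
    constructor
    · rintro ⟨a, ha, rfl⟩
      by_cases h3 : a.2 = K' + 1
      · exact Or.inl h3
      · exact Or.inr ⟨a, Multiset.mem_filter.mpr ⟨ha, h3⟩, rfl⟩
    · rintro (rfl | ⟨a, ha, rfl⟩)
      · exact ⟨a₁, ha₁, ha₁K⟩
      · exact ⟨a, (Multiset.mem_filter.mp ha).1, rfl⟩
  have hKS' : K' + 1 ∉ (τ'.map Prod.snd).toFinset := by
    intro hx
    simp only [Multiset.mem_toFinset, Multiset.mem_map] at hx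
    obtain ⟨a, ha, h3⟩ := hx
    exact (Multiset.mem_filter.mp ha).2 h3
  have hdd : dOdd τ = (if Even K' then 1 else 0) + dOdd τ' := by
    unfold dOdd
    rw [hS]
    by_cases hK : Even K'
    · rw [if_pos hK, Finset.filter_insert, if_pos hK.add_one, Finset.card_insert_of_notMem
        (fun h => hKS' (Finset.mem_filter.mp h).1)]
      omega
    · rw [if_neg hK, Finset.filter_insert, if_neg (fun h => hK (by
        rcases Nat.even_or_odd K' with h3 | h3
        · exact h3
        · exact absurd h (Nat.not_odd_iff_even.mpr h3.add_one)))]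
      omega
  constructor
  · rw [hdd]
    exact comb hdata hCl hCl'
  · intro T hT j hj
    by_cases hjK : j = K' + 1
    · subst hjK
      have hK' : Odd K' := by
        rcases Nat.even_or_odd K' with h3 | h3
        · exact absurd hj (Nat.not_even_iff_odd.mpr h3.add_one)
        · exact h3
      obtain ⟨D, T₂, -, -⟩ := exists_peel T hs (m := m) (K' := K') (τ' := τ') (by rw [hT]; exact hsplit) hτ''
      exact hParity hK' (D.pull hs) (D.pull_type hs)
    · have h3 : (τ.filter fun a => a.2 = j) = τ'.filter fun a => a.2 = j := by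
        rw [Multiset.filter_filter]
        apply Multiset.filter_congr
        intro x _
        constructor
        · intro h4
          exact ⟨h4, by rw [h4]; exact hjK⟩
        · intro h4
          exact h4.1
      rw [h3]
      obtain ⟨D, T₂, -, h5⟩ := exists_peel T hs (m := m) (K' := K') (τ' := τ') (by rw [hT]; exact hsplit) hτ''
      exact hpar' T₂ h5 j hj

end Cfsg.Agent.Lib.ClassNum.OClass
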