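import Mathlib
import Cfsg.Agent.Lib.ClassNum.OClass
import Cfsg.Prelude.Def_Classical

/-!
# Classes of isometries of a quadratic form with a given type
-/

set_option autoImplicit false
set_option linter.unusedSectionVars false
set_option linter.unusedVariables false

open Polynomial Module Matrix
open Cfsg.Agent.Lib.Linalg.RCF Cfsg.Agent.Lib.Linalg.RCFType
open Cfsg.Agent.Lib.Classical.Herm.TwoForms
open Cfsg.Agent.Lib.ClassNum.SpTrip Cfsg.Agent.Lib.ClassNum.SpModel Cfsg.Agent.Lib.ClassNum.OTri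
open Cfsg.Agent.Lib.ClassNum.ODisc Cfsg.Agent.Lib.ClassNum.OClass
open Cfsg.Agent.Lib.ClassNum.SpTop (no_root_of_injective injective_of_no_root)
open scoped _root_.Classical

namespace Cfsg.Agent.Lib.ClassNum.OTop

universe u

variable {F : Type u} [Field F] [Fintype F]

theorem aeval_g (T : Tri F) (s : F) : aeval T.g (X - C s : F[X]) = nN T s := by
  rw [map_sub, aeval_X, aeval_C, Algebra.algebraMap_eq_smul_one]
  rfl

/-- The inclusion of a subtriple. -/
def subVal (T : Tri F) (A : Submodule F T.V) (hA : ∀ x ∈ A, T.g x ∈ A)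
    (hn : ∀ x ∈ A, (∀ y ∈ A, T.B x y = 0) → x = 0) : (T.sub A hA hn).V →ₗ[F] T.V := A.subtype

theorem subVal_injective (T : Tri F) (A : Submodule F T.V) (hA : ∀ x ∈ A, T.g x ∈ A)
    (hn : ∀ x ∈ A, (∀ y ∈ A, T.B x y = 0) → x = 0) : Function.Injective (subVal T A hA hn) :=
  Subtype.val_injective

theorem subVal_mem (T : Tri F) (A : Submodule F T.V) (hA : ∀ x ∈ A, T.g x ∈ A)
    (hn : ∀ x ∈ A, (∀ y ∈ A, T.B x y = 0) → x = 0) (x : (T.sub A hA hn).V) : subVal T A hA hn x ∈ A :=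
  Subtype.property (p := fun z => z ∈ A) x

theorem subVal_nN (T : Tri F) (A : Submodule F T.V) (hA : ∀ x ∈ A, T.g x ∈ A)
    (hn : ∀ x ∈ A, (∀ y ∈ A, T.B x y = 0) → x = 0) (s : F) (x : (T.sub A hA hn).V) :
    subVal T A hA hn (nN (T.sub A hA hn) s x) = nN T s (subVal T A hA hn x) := by
  rw [nN_apply, nN_apply, map_sub, map_smul]
  rfl

theorem subVal_pow (T : Tri F) (A : Submodule F T.V) (hA : ∀ x ∈ A, T.g x ∈ A)
    (hn : ∀ x ∈ A, (∀ y ∈ A, T.B x y = 0) → x = 0) (s : F) (k : ℕ) (x : (T.sub A hA hn).V) :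
    subVal T A hA hn (((nN (T.sub A hA hn) s) ^ k) x) = ((nN T s) ^ k) (subVal T A hA hn x) := by
  induction k with
  | zero => simp
  | succ k ih =>
    rw [pow_succ', Module.End.mul_apply, subVal_nN, ih, pow_succ', Module.End.mul_apply]

theorem g_comm_pow (T : Tri F) (s : F) (k : ℕ) (x : T.V) :
    T.g (((nN T s) ^ k) x) = ((nN T s) ^ k) (T.g x) := by
  induction k generalizing x with
  | zero => simp
  | succ k ih =>
    rw [pow_succ, Module.End.mul_apply, ih, Module.End.mul_apply]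
    congr 1
    rw [nN_apply, nN_apply, map_sub, map_smul]

/-- The Fitting decomposition of an isometry. -/
theorem exists_split (T : Tri F) {s : F} (hs : s * s = 1) :
    ∃ T₁ T₂ : Tri F, IsSum T T₁ T₂ ∧ (∀ a ∈ typeOf T₁.g, a.1 = X - C s) ∧ ∀ a ∈ typeOf T₂.g, a.1 ≠ X - C s := by
  obtain ⟨n₀, hn₀, hn₁⟩ := ((nN T s).eventually_isCompl_ker_pow_range_pow.and
    (Filter.eventually_ge_atTop 1)).exists
  let A : Submodule F T.V := LinearMap.ker ((nN T s) ^ n₀)
  let C' : Submodule F T.V := LinearMap.range ((nN T s) ^ n₀)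
  have hc : IsCompl A C' := hn₀
  have hA : ∀ x ∈ A, T.g x ∈ A := by
    intro x hx
    have h1 : ((nN T s) ^ n₀) x = 0 := hx
    show ((nN T s) ^ n₀) (T.g x) = 0
    rw [← g_comm_pow, h1, map_zero]
  have hC : ∀ x ∈ C', T.g x ∈ C' := by
    rintro _ ⟨w, rfl⟩
    exact ⟨T.g w, (g_comm_pow T s n₀ w).symm⟩
  have ho : ∀ a ∈ A, ∀ c ∈ C', T.B a c = 0 := by
    rintro a ha _ ⟨w, rfl⟩
    exact orth_of_pow hs (isoN_nN T s) n₀ a w ha
  refine ⟨T.sub A hA (T.nondeg_left hc ho), T.sub C' hC (T.nondeg_right hc ho),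
    ⟨A, C', hc, hA, hC, ho, IsoT.refl _, IsoT.refl _⟩, ?_, ?_⟩
  · intro a ha
    refine (mem_type_of_nil (T.sub A hA (T.nondeg_left hc ho)).g s n₀ ?_ a ha).1
    rw [aeval_nN]
    apply LinearMap.ext
    intro x
    apply subVal_injective
    rw [subVal_pow, LinearMap.zero_apply, map_zero]
    exact subVal_mem T A hA _ x
  · apply no_root_of_injective
    rw [aeval_g, injective_iff_map_eq_zero]
    intro x hx
    apply subVal_injective T C' hC (T.nondeg_right hc ho)
    rw [map_zero]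
    have h1 : nN T s (subVal T C' hC (T.nondeg_right hc ho) x) = 0 := by
      rw [← subVal_nN, hx, map_zero]
    have h2 : ((nN T s) ^ n₀) (subVal T C' hC (T.nondeg_right hc ho) x) = 0 := by
      obtain ⟨k, rfl⟩ : ∃ k, n₀ = k + 1 := ⟨n₀ - 1, by omega⟩
      rw [pow_succ, Module.End.mul_apply, h1, map_zero]
    have h3 : subVal T C' hC (T.nondeg_right hc ho) x ∈ A ⊓ C' := ⟨h2, subVal_mem T C' hC _ x⟩
    rw [hc.inf_eq_bot, Submodule.mem_bot] at h3
    exact h3

/-- The Fitting decomposition, types. -/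
theorem exists_split' (T : Tri F) {s : F} (hs : s * s = 1) :
    ∃ T₁ T₂ : Tri F, IsSum T T₁ T₂ ∧ typeOf T₁.g = (typeOf T.g).filter (fun a => a.1 = X - C s) ∧
      typeOf T₂.g = (typeOf T.g).filter (fun a => a.1 ≠ X - C s) := by
  obtain ⟨T₁, T₂, h, h1, h2⟩ := exists_split T hs
  refine ⟨T₁, T₂, h, ?_, ?_⟩
  · rw [h.typeOf_add, Multiset.filter_add, Multiset.filter_eq_self.mpr h1,
      Multiset.filter_eq_nil.mpr h2, add_zero]
  · rw [h.typeOf_add, Multiset.filter_add, Multiset.filter_eq_self.mpr h2,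
      Multiset.filter_eq_nil.mpr (fun a ha h3 => h3 (h1 a ha)), zero_add]

/-- There is one class when no eigenvalue `±1` occurs. -/
theorem cx_rest {τ : Multiset (F[X] × ℕ)} (h₁ : ∀ a ∈ τ, a.1 ≠ X - C 1) (h₂ : ∀ a ∈ τ, a.1 ≠ X - C (-1)) :
    Cx τ 0 := by
  refine ⟨fun _ => ⟨0, by norm_num⟩, fun T₁ T₂ hT₁ hT₂ _ _ => ?_⟩
  obtain ⟨ψ₀, hψ₀⟩ := (exists_conj_iff_typeOf_eq T₁.g T₂.g).mpr (hT₁.trans hT₂.symm)
  let B₃ : LinearMap.BilinForm F T₁.V := T₂.B.comp ψ₀.toLinearMap ψ₀.toLinearMap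
  have hB₃ : ∀ x y, B₃ x y = T₂.B (ψ₀ x) (ψ₀ y) := fun x y => rfl
  have hinj₁ := injective_of_no_root T₁.g 1 (by rw [hT₁]; exact h₁)
  have hinj₂ := injective_of_no_root T₁.g (-1) (by rw [hT₁]; exact h₂)
  rw [aeval_g] at hinj₁ hinj₂
  obtain ⟨c, hc1, hc2⟩ : Good T₁.B B₃ T₁.gE := good_of_injective (ε := 1) (by ring)
    (fun x y => by rw [one_mul]; exact T₁.symm x y) (by
      intro x y
      rw [one_mul, hB₃, hB₃]
      exact T₂.symm _ _)
    T₁.nd (by
      intro x hx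
      have : ψ₀ x = 0 := by
        apply T₂.nd
        intro y
        have := hx (ψ₀.symm y)
        rwa [hB₃, LinearEquiv.apply_symm_apply] at this
      simpa using this) T₁.gE (fun x y => T₁.isom x y) (by
      intro x y
      rw [hB₃, hB₃, Tri.gE_apply, Tri.gE_apply, hψ₀, hψ₀, T₂.isom]) (by
      intro x hx
      rw [Tri.gE_apply, Tri.gE_apply] at hx
      have h3 : nN T₁ (-1) (nN T₁ 1 x) = 0 := by
        rw [nN_apply, nN_apply]
        simp only [map_sub, one_smul, neg_smul, hx]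
        abel
      have h4 : nN T₁ 1 x = 0 := hinj₂ (by rw [h3, map_zero])
      exact hinj₁ (by rw [h4, map_zero]))
  refine ⟨c.symm.trans ψ₀, fun x => ?_, fun x y => ?_⟩
  · show ψ₀ (c.symm (T₁.g x)) = T₂.g (ψ₀ (c.symm x))
    have h3 : c.symm (T₁.g x) = T₁.g (c.symm x) := by
      apply c.injective
      rw [LinearEquiv.apply_symm_apply]
      have := hc1 (c.symm x)
      rw [Tri.gE_apply, Tri.gE_apply, LinearEquiv.apply_symm_apply] at this
      exact this.symm
    rw [h3, hψ₀]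
  · show T₂.B (ψ₀ (c.symm x)) (ψ₀ (c.symm y)) = T₁.B x y
    rw [← hB₃, ← hc2, LinearEquiv.apply_symm_apply, LinearEquiv.apply_symm_apply]

/-- The exponent in the number of classes of a given type. -/
noncomputable def dO (τ : Multiset (F[X] × ℕ)) : ℕ :=
  dOdd (τ.filter fun a => a.1 = X - C 1) + dOdd (τ.filter fun a => a.1 = X - C (-1))

theorem cx_all (hodd : Fintype.card F % 2 = 1) (τ : Multiset (F[X] × ℕ)) : Cx τ (dO τ) := by
  have h2 : (2 : F) ≠ 0 := Cfsg.Agent.Lib.ClassNum.SpSym.two_ne_zero_of_odd hodd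
  have hs1 : (1 : F) * 1 = 1 := by ring
  have hs2 : (-1 : F) * (-1) = 1 := by ring
  have hne : (X - C (-1) : F[X]) ≠ X - C 1 := by
    intro h
    have h3 := congrArg (fun f => f.coeff 0) h
    simp only [coeff_sub, coeff_X_zero, coeff_C_zero, zero_sub, neg_neg] at h3
    apply h2
    linear_combination h3
  have h₁ := (unip hodd hs1 _ (τ.filter fun a => a.1 = X - C 1) rfl
    (fun a ha => (Multiset.mem_filter.mp ha).2)).1
  have h₂ := (unip hodd hs2 _ ((τ.filter fun a => a.1 ≠ X - C 1).filter fun a => a.1 = X - C (-1)) rfl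
    (fun a ha => (Multiset.mem_filter.mp ha).2)).1
  have h₃ : Cx ((τ.filter fun a => a.1 ≠ X - C 1).filter fun a => a.1 ≠ X - C (-1)) 0 :=
    cx_rest (fun a ha => (Multiset.mem_filter.mp (Multiset.mem_filter.mp ha).1).2)
      (fun a ha => (Multiset.mem_filter.mp ha).2)
  have he : ((τ.filter fun a => a.1 ≠ X - C 1).filter fun a => a.1 = X - C (-1)) =
      τ.filter fun a => a.1 = X - C (-1) := by
    rw [Multiset.filter_filter]
    apply Multiset.filter_congr
    intro x _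
    constructor
    · exact fun h => h.1
    · intro h
      refine ⟨h, ?_⟩
      rw [h]
      exact hne
  have h₄ : Cx (τ.filter fun a => a.1 ≠ X - C 1) (dOdd ((τ.filter fun a => a.1 ≠ X - C 1).filter fun a => a.1 = X - C (-1)) + 0) := by
    refine comb (fun T hT => ?_) h₂ h₃
    obtain ⟨A, R, h, h5, h6⟩ := exists_split' T hs2
    exact ⟨A, R, h, by rw [h5, hT], by rw [h6, hT]⟩
  have h₅ : Cx τ (dOdd (τ.filter fun a => a.1 = X - C 1) +
      (dOdd ((τ.filter fun a => a.1 ≠ X - C 1).filter fun a => a.1 = X - C (-1)) + 0)) := by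
    refine comb (fun T hT => ?_) h₁ h₄
    obtain ⟨A, R, h, h5, h6⟩ := exists_split' T hs1
    exact ⟨A, R, h, by rw [h5, hT], by rw [h6, hT]⟩
  rw [he, add_zero] at h₅
  exact h₅

theorem parity_all (hodd : Fintype.card F % 2 = 1) (T : Tri F) {s : F} (hs : s * s = 1) (j : ℕ) (hj : Even j) :
    Even (((typeOf T.g).filter fun a => a.1 = X - C s).filter fun a => a.2 = j).card := by
  obtain ⟨T₁, T₂, -, h₁, -⟩ := exists_split' T hs
  exact (unip hodd hs _ _ rfl (fun a ha => (Multiset.mem_filter.mp ha).2)).2 T₁ h₁ j hj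

section Group

variable {ι : Type} [Fintype ι] [DecidableEq ι] {Q : (ι → F) → F}

theorem mem_iso {h : GL ι F} : h ∈ Cfsg.isometryGroup F Q ↔ ∀ u, Q ((h : Matrix ι ι F) *ᵥ u) = Q u := by
  constructor
  · intro hh u
    exact hh u u
  · intro hh u v
    exact hh u

variable {B : LinearMap.BilinForm F (ι → F)}

/-- The data of a nondegenerate quadratic form with polar form. -/
structure Polar (Q : (ι → F) → F) (B : LinearMap.BilinForm F (ι → F)) : Prop where
  h2 : (2 : F) ≠ 0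
  symm : ∀ x y, B x y = B y x
  nd : ∀ x, (∀ y, B x y = 0) → x = 0
  diag : ∀ u, B u u = 2 * Q u

theorem Polar.eq_of_Q (hP : Polar Q B) {f : (ι → F) →ₗ[F] (ι → F)} (hf : ∀ u, Q (f u) = Q u) (u v : ι → F) :
    B (f u) (f v) = B u v := by
  have h1 : ∀ w z : ι → F, 2 * B w z = 2 * Q (w + z) - 2 * Q w - 2 * Q z := by
    intro w z
    rw [← hP.diag, ← hP.diag, ← hP.diag]
    simp only [map_add, LinearMap.add_apply]
    rw [hP.symm z w]
    ring
  apply mul_left_cancel₀ hP.h2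
  rw [h1, h1, ← map_add, hf, hf, hf]

/-- The triple of an isometry. -/
noncomputable def oTri (hP : Polar Q B) (x : Cfsg.isometryGroup F Q) : Tri F where
  V := ι → F
  B := B
  g := Matrix.toLin' ((x : GL ι F) : Matrix ι ι F)
  symm := hP.symm
  nd := hP.nd
  isom := fun u v => hP.eq_of_Q (f := Matrix.toLin' ((x : GL ι F) : Matrix ι ι F)) (fun w => (mem_iso.mp x.2 w)) u v

theorem typeOf_oTri (hP : Polar Q B) (x : Cfsg.isometryGroup F Q) :
    typeOf (oTri hP x).g = matType ((x : GL ι F) : Matrix ι ι F) := rfl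

theorem isConj_of_iso (hP : Polar Q B) {y z : Cfsg.isometryGroup F Q} (h : IsoT (oTri hP y) (oTri hP z)) : IsConj y z := by
  obtain ⟨ψ, h1, h2⟩ : ∃ ψ : (ι → F) ≃ₗ[F] (ι → F),
      (∀ x, ψ (((y : GL ι F) : Matrix ι ι F) *ᵥ x) = ((z : GL ι F) : Matrix ι ι F) *ᵥ (ψ x)) ∧
      ∀ u v, B (ψ u) (ψ v) = B u v := h
  let P : GL ι F :=
    ⟨LinearMap.toMatrix' ψ.toLinearMap, LinearMap.toMatrix' ψ.symm.toLinearMap,
      by
        rw [← LinearMap.toMatrix'_comp]
        simp,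
      by
        rw [← LinearMap.toMatrix'_comp]
        simp⟩
  have hPv : ∀ u, (P : Matrix ι ι F) *ᵥ u = ψ u := fun u => by
    change LinearMap.toMatrix' ψ.toLinearMap *ᵥ u = _
    rw [LinearMap.toMatrix'_mulVec]
    rfl
  have hPm : P ∈ Cfsg.isometryGroup F Q := by
    rw [mem_iso]
    intro u
    rw [hPv]
    apply mul_left_cancel₀ hP.h2
    rw [← hP.diag, ← hP.diag, h2]
  rw [isConj_iff]
  refine ⟨⟨P, hPm⟩, ?_⟩
  have hfin : (⟨P, hPm⟩ : Cfsg.isometryGroup F Q) * y = z * ⟨P, hPm⟩ := by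
    apply Subtype.ext
    apply Units.ext
    apply Matrix.ext_of_mulVec_single
    intro i
    change ((P : Matrix ι ι F) * ((y : GL ι F) : Matrix ι ι F)) *ᵥ _
      = (((z : GL ι F) : Matrix ι ι F) * (P : Matrix ι ι F)) *ᵥ _
    rw [← mulVec_mulVec, ← mulVec_mulVec, hPv, hPv]
    exact h1 _
  rw [hfin]
  simp

/-- Classes of a given type are few. -/
theorem card_fiber_le (hodd : Fintype.card F % 2 = 1) (hP : Polar Q B) (τ : Multiset (F[X] × ℕ)) :
    Nat.card {C : ConjClasses (Cfsg.isometryGroup F Q) //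
      matType (((Quotient.out C : Cfsg.isometryGroup F Q) : GL ι F) : Matrix ι ι F) = τ} ≤ 2 ^ (dO τ - 1) := by
  obtain ⟨f, hf⟩ := cx_all hodd τ
  have : Nat.card (Fin (2 ^ (dO τ - 1))) = 2 ^ (dO τ - 1) := by simp
  rw [← this]
  apply Nat.card_le_card_of_injective
    (fun C : {C : ConjClasses (Cfsg.isometryGroup F Q) //
      matType (((Quotient.out C : Cfsg.isometryGroup F Q) : GL ι F) : Matrix ι ι F) = τ} =>
      f (oTri hP (Quotient.out C.1)))
  rintro ⟨E, hE⟩ ⟨D, hD⟩ hCD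
  apply Subtype.ext
  have h3 := isConj_of_iso hP (hf _ _ hE hD (Or.inl rfl) hCD)
  have h4 := ConjClasses.mk_eq_mk_iff_isConj.mpr h3
  have e : ∀ G : ConjClasses (Cfsg.isometryGroup F Q), ConjClasses.mk (Quotient.out G) = G := fun G =>
    Quotient.out_eq G
  rwa [e, e] at h4

theorem parity_o (hodd : Fintype.card F % 2 = 1) (hP : Polar Q B) (x : Cfsg.isometryGroup F Q) {s : F} (hs : s * s = 1)
    (j : ℕ) (hj : Even j) :
    Even (((matType ((x : GL ι F) : Matrix ι ι F)).filter fun a => a.1 = X - C s).filter fun a => a.2 = j).card :=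
  parity_all hodd (oTri hP x) hs j hj

end Group

end Cfsg.Agent.Lib.ClassNum.OTop
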