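import Mathlib
import Cfsg.Agent.Lib.ClassNum.SpModel
import Cfsg.Agent.S2478

/-!
# Reciprocal polynomials and the types of symplectic matrices
-/

set_option autoImplicit false
set_option linter.unusedSectionVars false
set_option linter.unusedVariables false

open Polynomial Module Matrix
open Cfsg.Agent.Lib.Linalg.RCF Cfsg.Agent.Lib.Linalg.RCFType
open Cfsg.Agent.Lib.ClassNum.SpModel
open Cfsg.Agent.S2478
open scoped _root_.Classical

namespace Cfsg.Agent.Lib.ClassNum.SpRec

universe u

variable {F : Type u} [Field F]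

/-- The monic reciprocal polynomial. -/
noncomputable def recP (f : F[X]) : F[X] := C ((f.coeff 0)⁻¹) * f.reverse

/-- The reciprocal of a type. -/
noncomputable def recT (τ : Multiset (F[X] × ℕ)) : Multiset (F[X] × ℕ) := τ.map fun a => (recP a.1, a.2)

variable {f g : F[X]}

theorem natTrailingDegree_zero (h0 : f.coeff 0 ≠ 0) : f.natTrailingDegree = 0 :=
  natTrailingDegree_eq_zero.2 (Or.inr h0)

theorem natDegree_recP (h0 : f.coeff 0 ≠ 0) : (recP f).natDegree = f.natDegree := by
  rw [recP, natDegree_C_mul (inv_ne_zero h0), reverse_natDegree, natTrailingDegree_zero h0, Nat.sub_zero]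

theorem recP_monic (h0 : f.coeff 0 ≠ 0) : (recP f).Monic := by
  rw [Monic, recP, leadingCoeff_mul, leadingCoeff_C, reverse_leadingCoeff, trailingCoeff,
    natTrailingDegree_zero h0]
  exact inv_mul_cancel₀ h0

theorem coeff_zero_recP (hm : f.Monic) : (recP f).coeff 0 = (f.coeff 0)⁻¹ := by
  rw [recP, coeff_C_mul, coeff_zero_reverse, hm.leadingCoeff, mul_one]

theorem reverse_reverse' (h0 : f.coeff 0 ≠ 0) : f.reverse.reverse = f := by
  have h1 : f.natTrailingDegree = 0 := natTrailingDegree_eq_zero.2 (Or.inr h0)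
  have h2 : f.reverse.natDegree = f.natDegree := by
    rw [reverse_natDegree, h1, Nat.sub_zero]
  rw [reverse, h2, reverse, reflect_reflect]

theorem recP_recP (hm : f.Monic) (h0 : f.coeff 0 ≠ 0) : recP (recP f) = f := by
  have h2 : (recP f).coeff 0 = (f.coeff 0)⁻¹ := coeff_zero_recP hm
  rw [recP, h2, inv_inv, recP, reverse_mul_of_domain, reverse_C, reverse_reverse' h0, ← mul_assoc, ← C_mul,
    mul_inv_cancel₀ h0, C_1, one_mul]

theorem recP_mul (f g : F[X]) : recP (f * g) = recP f * recP g := by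
  simp only [recP, mul_coeff_zero, reverse_mul_of_domain, mul_inv, C_mul]
  ring

theorem recP_one : recP (1 : F[X]) = 1 := by
  have h : reverse (1 : F[X]) = 1 := by rw [← C_1, reverse_C]
  simp [recP, h]

theorem recP_pow (f : F[X]) (k : ℕ) : recP (f ^ k) = recP f ^ k := by
  induction k with
  | zero => simp [recP_one]
  | succ k ih => rw [pow_succ, recP_mul, ih, pow_succ]

theorem recP_multiset_prod (s : Multiset F[X]) : recP s.prod = (s.map recP).prod := by
  induction s using Multiset.induction_on with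
  | empty => simp [recP_one]
  | cons f s ih => rw [Multiset.prod_cons, recP_mul, ih, Multiset.map_cons, Multiset.prod_cons]

theorem hPart_recT (j : ℕ) (τ : Multiset (F[X] × ℕ)) : hPart j (recT τ) = recP (hPart j τ) := by
  unfold hPart recT
  rw [Multiset.filter_map, Multiset.map_map, recP_multiset_prod, Multiset.map_map]
  rfl

theorem recP_hPart {τ : Multiset (F[X] × ℕ)} (hτ : recT τ = τ) (j : ℕ) : recP (hPart j τ) = hPart j τ := by
  rw [← hPart_recT, hτ]

theorem coeff_zero_ne_of_irreducible (hm : f.Monic) (hi : Irreducible f) (hX : f ≠ X) : f.coeff 0 ≠ 0 := by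
  intro h0
  have hd : (X : F[X]) ∣ f := Polynomial.X_dvd_iff.2 h0
  exact hX (eq_of_monic_of_associated hm monic_X (irreducible_X.associated_of_dvd hi hd).symm)

theorem irreducible_recP (hm : f.Monic) (h0 : f.coeff 0 ≠ 0) (hi : Irreducible f) : Irreducible (recP f) := by
  have hm' := recP_monic h0
  rw [hm'.irreducible_iff_natDegree]
  refine ⟨?_, fun a b ha hb hab => ?_⟩
  · intro h1
    have h2 := natDegree_recP h0
    rw [h1, natDegree_one] at h2
    exact (hi.natDegree_pos).ne h2
  · have h1 : a.coeff 0 * b.coeff 0 ≠ 0 := by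
      rw [← mul_coeff_zero, hab, coeff_zero_recP hm]
      exact inv_ne_zero h0
    have ha0 : a.coeff 0 ≠ 0 := left_ne_zero_of_mul h1
    have hb0 : b.coeff 0 ≠ 0 := right_ne_zero_of_mul h1
    have h2 : f = recP a * recP b := by
      rw [← recP_mul, hab, recP_recP hm h0]
    have h3 := (hm.irreducible_iff_natDegree.1 hi).2 _ _ (recP_monic ha0) (recP_monic hb0) h2.symm
    rw [natDegree_recP ha0, natDegree_recP hb0] at h3
    exact h3

section Mat

variable {ι : Type*} [Fintype ι] [DecidableEq ι]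

theorem inv_pow_mul_pow {A A' : Matrix ι ι F} (h2 : A' * A = 1) (i : ℕ) : A' ^ i * A ^ i = 1 := by
  induction i with
  | zero => simp
  | succ i ih =>
    calc A' ^ (i + 1) * A ^ (i + 1) = A' ^ i * (A' * A) * A ^ i := by
          rw [pow_succ, pow_succ']
          simp only [Matrix.mul_assoc]
      _ = 1 := by rw [h2, Matrix.mul_one, ih]

theorem aeval_inv_mul_pow {A A' : Matrix ι ι F} (h2 : A' * A = 1) (f : F[X]) :
    aeval A' f * A ^ f.natDegree = aeval A f.reverse := by
  set d := f.natDegree with hd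
  have h3 : f.reverse.natDegree < d + 1 := Nat.lt_succ_of_le (reverse_natDegree_le f)
  rw [aeval_eq_sum_range A', aeval_eq_sum_range' h3 A, Finset.sum_mul, ← hd]
  have h4 : ∀ i ∈ Finset.range (d + 1), f.coeff i • A' ^ i * A ^ d = f.coeff i • A ^ (d - i) := by
    intro i hi
    have hi' : i ≤ d := Nat.lt_succ_iff.1 (Finset.mem_range.1 hi)
    have h5 : A ^ d = A ^ i * A ^ (d - i) := by
      rw [← pow_add]
      congr 1
      omega
    rw [Matrix.smul_mul, h5, ← Matrix.mul_assoc, inv_pow_mul_pow h2, Matrix.one_mul]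
  rw [Finset.sum_congr rfl h4, ← Finset.sum_flip]
  refine Finset.sum_congr rfl fun j hj => ?_
  have hj' : j ≤ d := Nat.lt_succ_iff.1 (Finset.mem_range.1 hj)
  rw [coeff_reverse, revAt_le hj', show d - (d - j) = j by omega]

theorem rank_aeval_inv {A A' : Matrix ι ι F} (h1 : A * A' = 1) (h2 : A' * A = 1) {g : F[X]} (g0 : g.coeff 0 ≠ 0) :
    (aeval A' g).rank = (aeval A (recP g)).rank := by
  have hA : IsUnit A := IsUnit.of_mul_eq_one _ h1
  have h3 := aeval_inv_mul_pow h2 g
  have h4 : (g.coeff 0)⁻¹ ≠ 0 := inv_ne_zero g0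
  have h6 : aeval A (recP g) = ((g.coeff 0)⁻¹ • (1 : Matrix ι ι F)) * aeval A g.reverse := by
    rw [recP, map_mul, aeval_C, Algebra.algebraMap_eq_smul_one]
  have h7 : IsUnit ((g.coeff 0)⁻¹ • (1 : Matrix ι ι F)).det := by
    rw [Matrix.det_smul, Matrix.det_one, mul_one]
    exact (isUnit_iff_ne_zero.2 (pow_ne_zero _ h4))
  rw [h6, Matrix.rank_mul_eq_right_of_isUnit_det _ _ h7, ← h3, Matrix.rank_mul_eq_left_of_isUnit_det]
  exact (Matrix.isUnit_iff_isUnit_det _).1 (hA.pow _)

theorem finrank_range_toLin' (M : Matrix ι ι F) :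
    finrank F (LinearMap.range (Matrix.toLin' M)) = M.rank := rfl

/-- The type of the inverse. -/
theorem matType_inv {A A' : Matrix ι ι F} (h1 : A * A' = 1) (h2 : A' * A = 1) : matType A' = recT (matType A) := by
  set τ := matType A with hτ
  have hτX : ∀ a ∈ τ, a.1 ≠ X := (isUnit_iff_matType A).1 (IsUnit.of_mul_eq_one _ h1)
  have hτA : ∀ a ∈ τ, Adm a := matType_adm A
  have hτ0 : ∀ a ∈ τ, a.1.coeff 0 ≠ 0 := fun a ha =>
    coeff_zero_ne_of_irreducible (hτA a ha).1 (hτA a ha).2.1 (hτX a ha)
  have hadm : ∀ a ∈ recT τ, Adm a := by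
    intro a ha
    obtain ⟨b, hb, rfl⟩ := Multiset.mem_map.1 ha
    exact ⟨recP_monic (hτ0 b hb), irreducible_recP (hτA b hb).1 (hτ0 b hb) (hτA b hb).2.1,
      (hτA b hb).2.2⟩
  have hsum : ((recT τ).map fun a => a.2 * a.1.natDegree).sum = Fintype.card ι := by
    rw [← sum_matType A, ← hτ, recT, Multiset.map_map]
    congr 1
    refine Multiset.map_congr rfl fun a ha => ?_
    simp only [Function.comp]
    rw [natDegree_recP (hτ0 a ha)]
  obtain ⟨B, hB⟩ := exists_matrix_of_type hadm hsum
  have hBu : IsUnit B := by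
    rw [isUnit_iff_matType, hB]
    intro a ha
    obtain ⟨b, hb, rfl⟩ := Multiset.mem_map.1 ha
    intro hX
    have h3 : recP b.1 = X := hX
    have h4 := coeff_zero_recP (hτA b hb).1
    rw [h3, coeff_X_zero] at h4
    exact inv_ne_zero (hτ0 b hb) h4.symm
  have hAu : IsUnit A' := IsUnit.of_mul_eq_one _ h2
  rw [← hB]
  show typeOf _ = typeOf _
  rw [← exists_conj_iff_typeOf_eq]
  apply exists_conj_of_rank_eq
  intro p hpm hpi k
  by_cases hpX : p = X
  · subst hpX
    rw [aeval_toLin', aeval_toLin', finrank_range_toLin', finrank_range_toLin']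
    simp only [map_pow, aeval_X]
    rw [Matrix.rank_of_isUnit _ (hAu.pow k), Matrix.rank_of_isUnit _ (hBu.pow k)]
  · have hp0 := coeff_zero_ne_of_irreducible hpm hpi hpX
    have hpk0 : (p ^ k).coeff 0 ≠ 0 := by
      rw [coeff_zero_eq_eval_zero, eval_pow, ← coeff_zero_eq_eval_zero]
      exact pow_ne_zero _ hp0
    have hpm' := recP_monic hp0
    have hpi' := irreducible_recP hpm hp0 hpi
    have e0 : finrank F (LinearMap.range (aeval (Matrix.toLin' A') (p ^ k))) =
        finrank F (LinearMap.range (aeval (Matrix.toLin' A) (recP p ^ k))) := by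
      rw [aeval_toLin', aeval_toLin', finrank_range_toLin', finrank_range_toLin',
        rank_aeval_inv h1 h2 hpk0, recP_pow]
    rw [e0, finrank_range_aeval_type' _ hpm' hpi' k, finrank_range_aeval_type' _ hpm hpi k]
    have e1 : typeOf (Matrix.toLin' A) = τ := rfl
    have e2 : typeOf (Matrix.toLin' B) = recT τ := hB
    rw [e1, e2, recT, Multiset.map_map]
    congr 1
    refine Multiset.map_congr rfl fun a ha => ?_
    simp only [Function.comp]
    have hiff : a.1 = recP p ↔ recP a.1 = p := by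
      constructor
      · intro h
        rw [h, recP_recP hpm hp0]
      · intro h
        rw [← h, recP_recP (hτA a ha).1 (hτ0 a ha)]
    by_cases h : a.1 = recP p
    · rw [if_pos h, if_pos (hiff.1 h), natDegree_recP hp0]
    · rw [if_neg h, if_neg (fun h2 => h (hiff.2 h2)), natDegree_recP (hτ0 a ha)]

theorem aeval_transpose' (M : Matrix ι ι F) (h : F[X]) : aeval Mᵀ h = (aeval M h)ᵀ := by
  induction h using Polynomial.induction_on' with
  | add p r hp hr => rw [map_add, map_add, hp, hr, Matrix.transpose_add]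
  | monomial k a =>
    rw [aeval_monomial, aeval_monomial, Algebra.algebraMap_eq_smul_one, Matrix.smul_mul, Matrix.one_mul,
      Matrix.smul_mul, Matrix.one_mul, Matrix.transpose_smul, Matrix.transpose_pow]

theorem matType_transpose (M : Matrix ι ι F) : matType Mᵀ = matType M := by
  show typeOf _ = typeOf _
  rw [← exists_conj_iff_typeOf_eq]
  apply exists_conj_of_rank_eq
  intro p _ _ k
  rw [aeval_toLin', aeval_toLin', finrank_range_toLin', finrank_range_toLin', aeval_transpose', Matrix.rank_transpose]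

theorem matType_conj (M P Q : Matrix ι ι F) (h1 : P * Q = 1) (h2 : Q * P = 1) : matType (P * M * Q) = matType M := by
  show typeOf _ = typeOf _
  rw [← exists_conj_iff_typeOf_eq]
  let e : (ι → F) ≃ₗ[F] (ι → F) := LinearEquiv.ofLinear (Matrix.toLin' Q) (Matrix.toLin' P)
    (by rw [← Matrix.toLin'_mul, h2]; simp) (by rw [← Matrix.toLin'_mul, h1]; simp)
  refine ⟨e, fun v => ?_⟩
  show Q *ᵥ ((P * M * Q) *ᵥ v) = M *ᵥ (Q *ᵥ v)
  rw [mulVec_mulVec, mulVec_mulVec]
  congr 1
  rw [← Matrix.mul_assoc, ← Matrix.mul_assoc, h2, Matrix.one_mul]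

end Mat

section Sp

variable {n : ℕ}

theorem recT_matType_sp (x : symplecticGroup (Fin n) F) :
    recT (matType (x : Matrix (Fin n ⊕ Fin n) (Fin n ⊕ Fin n) F)) = matType (x : Matrix (Fin n ⊕ Fin n) (Fin n ⊕ Fin n) F) := by
  have h1 : (x : Matrix (Fin n ⊕ Fin n) (Fin n ⊕ Fin n) F) * ((x⁻¹ : symplecticGroup (Fin n) F) : Matrix _ _ F) = 1 := by
    rw [← Submonoid.coe_mul, mul_inv_cancel]
    rfl
  have h2 : ((x⁻¹ : symplecticGroup (Fin n) F) : Matrix _ _ F) * (x : Matrix (Fin n ⊕ Fin n) (Fin n ⊕ Fin n) F) = 1 := by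
    rw [← Submonoid.coe_mul, inv_mul_cancel]
    rfl
  rw [← matType_inv h1 h2, SymplecticGroup.coe_inv]
  rw [matType_conj _ _ _ (by simp [Matrix.J_squared]) (by simp [Matrix.J_squared]), matType_transpose]

end Sp

end Cfsg.Agent.Lib.ClassNum.SpRec
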