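import Mathlib
import Cfsg.Agent.Lib.ClassNum.SpRec
import Cfsg.Agent.Lib.Classical.Herm.SpReal

/-!
# Self-reciprocal polynomials in odd characteristic
-/

set_option autoImplicit false
set_option linter.unusedSectionVars false
set_option linter.unusedVariables false

open Polynomial Module
open Cfsg.Agent.Lib.Linalg.RCF
open Cfsg.Agent.Lib.Classical.Herm.Palin
open Cfsg.Agent.Lib.ClassNum.SpRec
open Cfsg.Agent.S2478
open scoped _root_.Classical

namespace Cfsg.Agent.Lib.ClassNum.SpPoly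

universe u

variable {F : Type u} [Field F]

theorem eval_reverse {a : F} (ha : a * a = 1) (f : F[X]) : eval a f.reverse * a ^ f.natDegree = eval a f := by
  letI : Invertible a := ⟨a, ha, ha⟩
  have h : eval₂ (RingHom.id F) a (reverse f) * a ^ f.natDegree = eval₂ (RingHom.id F) a f :=
    eval₂_reverse_mul_pow (RingHom.id F) a f
  simpa only [eval₂_id] using h

theorem reverse_P {a : F} (ha : a * a = 1) : (X - C a : F[X]).reverse = C (-a) * (X - C a) := by
  have h1 : (X - C a : F[X]) = 1 * X + C (-a) := by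
    simp [sub_eq_add_neg]
  have h5 : reverse (1 : F[X]) = 1 := by rw [← C_1, reverse_C]
  rw [h1, reverse_add_C, reverse_mul_X, h5, one_mul, natDegree_X, pow_one]
  simp only [one_mul, C_neg, neg_neg]
  have h3 : C a * C a = (1 : F[X]) := by rw [← C_mul, ha, C_1]
  rw [mul_add, mul_comm (-C a) X]
  simp only [mul_neg, neg_mul, neg_neg]
  linear_combination -h3

theorem reverse_sq {a : F} (ha : a * a = 1) :
    ((X - C a) * (X - C a) : F[X]).reverse = (X - C a) * (X - C a) := by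
  rw [reverse_mul_of_domain, reverse_P ha]
  have h3 : C (-a) * C (-a) = (1 : F[X]) := by rw [← C_mul, neg_mul_neg, ha, C_1]
  linear_combination (X - C a) * (X - C a) * h3

theorem reverse_sq_pow {a : F} (ha : a * a = 1) (r : ℕ) :
    (((X - C a) * (X - C a) : F[X]) ^ r).reverse = ((X - C a) * (X - C a)) ^ r := by
  induction r with
  | zero => rw [pow_zero, ← C_1, reverse_C]
  | succ r ih => rw [pow_succ, reverse_mul_of_domain, ih, reverse_sq ha]

/-- Cancelling a factor in the equation `reverse f = ρ f`. -/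
theorem reverse_of_mul {Q G f : F[X]} {κ : F} (hQ : Q ≠ 0) (hκ : κ ≠ 0) (hf : f = Q * G) (hr : Q.reverse = C κ * Q)
    (hρ : f.reverse = C κ * f) : G.reverse = G := by
  rw [hf, reverse_mul_of_domain, hr] at hρ
  have h1 : C κ * Q * G.reverse = C κ * Q * G := by
    rw [hρ]
    ring
  have h2 : C κ * Q ≠ 0 := mul_ne_zero (C_ne_zero.mpr hκ) hQ
  exact mul_left_cancel₀ h2 h1

/-- Palindromic polynomials with a root at `±1` have a double root there. -/
theorem pal_dvd (h2 : (2 : F) ≠ 0) {a : F} (ha : a * a = 1) {d : ℕ} {f : F[X]} (hf : IsPal d f) (hd : (X - C a) ∣ f) :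
    ∃ d', d = d' + 1 ∧ ∃ G, IsPal d' G ∧ f = (X - C a) * (X - C a) * G := by
  obtain ⟨hm, hdeg, hrev⟩ := hf
  obtain ⟨G, rfl⟩ := hd
  have hmG : G.Monic := (monic_X_sub_C a).of_mul_monic_left hm
  have hdegG : 1 + G.natDegree = 2 * d := by
    rw [← hdeg, natDegree_mul (X_sub_C_ne_zero a) hmG.ne_zero, natDegree_X_sub_C]
  obtain ⟨d', rfl⟩ : ∃ d', d = d' + 1 := ⟨d - 1, by omega⟩
  refine ⟨d', rfl, ?_⟩
  have ha0 : a ≠ 0 := by
    intro h
    rw [h] at ha
    simp at ha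
  have h3 : C (-a) * G.reverse = G := by
    rw [reverse_mul_of_domain, reverse_P ha] at hrev
    have h4 : (X - C a) * (C (-a) * G.reverse) = (X - C a) * G := by
      rw [← hrev]
      ring
    exact mul_left_cancel₀ (X_sub_C_ne_zero a) h4
  have h5 := eval_reverse ha G
  have h6 : a ^ G.natDegree = a := by
    have h7 : G.natDegree = 2 * d' + 1 := by omega
    rw [h7, pow_succ, pow_mul, sq, ha, one_pow, one_mul]
  rw [h6] at h5
  have h8 := congrArg (eval a) h3
  rw [eval_mul, eval_C] at h8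
  have h9 : eval a G = 0 := by
    have h10 : 2 * (a * eval a G.reverse) = 0 := by
      linear_combination h5 - h8
    have h11 := (mul_eq_zero.mp h10).resolve_left h2
    rw [← h5, mul_comm, h11]
  obtain ⟨G₁, rfl⟩ : (X - C a) ∣ G := dvd_iff_isRoot.mpr h9
  have hmG₁ : G₁.Monic := (monic_X_sub_C a).of_mul_monic_left hmG
  have hQ : ((X - C a) * (X - C a) : F[X]) ≠ 0 := mul_ne_zero (X_sub_C_ne_zero a) (X_sub_C_ne_zero a)
  refine ⟨G₁, ⟨hmG₁, ?_, ?_⟩, by ring⟩
  · rw [natDegree_mul (X_sub_C_ne_zero a) hmG₁.ne_zero, natDegree_X_sub_C] at hdegG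
    omega
  · have h12 : (X - C a) * ((X - C a) * G₁) = (X - C a) * (X - C a) * G₁ := by ring
    rw [h12] at hrev
    refine reverse_of_mul (κ := 1) hQ one_ne_zero rfl (by rw [C_1, one_mul, reverse_sq ha]) ?_
    rw [hrev, C_1, one_mul]

/-- Two different roots. -/
theorem pal_dvd₂ (h2 : (2 : F) ≠ 0) {d : ℕ} {f : F[X]} (hf : IsPal d f) (hd₁ : (X - C 1) ∣ f) (hd₂ : (X - C (-1)) ∣ f) :
    ∃ d', d = d' + 2 ∧ ∃ G, IsPal d' G ∧ f = (X - C 1) * (X - C 1) * ((X - C (-1)) * (X - C (-1)) * G) := by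
  have h1 : (1 : F) * 1 = 1 := by ring
  have h3 : (-1 : F) * (-1) = 1 := by ring
  obtain ⟨d₁, rfl, G₁, hG₁, rfl⟩ := pal_dvd h2 h1 hf hd₁
  have h4 : (X - C (-1)) ∣ G₁ := by
    have hp : Prime (X - C (-1) : F[X]) := prime_X_sub_C _
    rcases hp.dvd_or_dvd hd₂ with h5 | h5
    · exfalso
      have h6 : (X - C (-1) : F[X]) ∣ X - C 1 := by
        rcases hp.dvd_or_dvd h5 with h7 | h7 <;> exact h7
      have h7 : IsRoot (X - C 1 : F[X]) (-1) := dvd_iff_isRoot.mp h6
      rw [IsRoot, eval_sub, eval_X, eval_C] at h7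
      apply h2
      linear_combination -h7
    · exact h5
  obtain ⟨d₂, rfl, G, hG, rfl⟩ := pal_dvd h2 h3 hG₁ h4
  exact ⟨d₂, by omega, G, hG, rfl⟩

section Rec

variable {f : F[X]}

theorem rev_eq (hm : f.Monic) (h0 : f.coeff 0 ≠ 0) (hr : recP f = f) : f.reverse = C (f.coeff 0) * f := by
  have h : C ((f.coeff 0)⁻¹) * f.reverse = f := hr
  have h3 : C (f.coeff 0) * C ((f.coeff 0)⁻¹) = (1 : F[X]) := by rw [← C_mul, mul_inv_cancel₀ h0, C_1]
  calc f.reverse = C (f.coeff 0) * C ((f.coeff 0)⁻¹) * f.reverse := by rw [h3, one_mul]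
    _ = C (f.coeff 0) * f := by rw [mul_assoc, h]

theorem const_sq (hm : f.Monic) (h0 : f.coeff 0 ≠ 0) (hr : recP f = f) : f.coeff 0 * f.coeff 0 = 1 := by
  have h1 := coeff_zero_recP hm
  rw [hr] at h1
  conv_lhs => lhs; rw [h1]
  exact inv_mul_cancel₀ h0

theorem const_cases (hm : f.Monic) (h0 : f.coeff 0 ≠ 0) (hr : recP f = f) : f.coeff 0 = 1 ∨ f.coeff 0 = -1 := by
  have h1 := const_sq hm h0 hr
  have h2 : (f.coeff 0 - 1) * (f.coeff 0 + 1) = 0 := by linear_combination h1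
  rcases mul_eq_zero.mp h2 with h3 | h3
  · exact Or.inl (sub_eq_zero.mp h3)
  · exact Or.inr (eq_neg_of_add_eq_zero_left h3)

theorem eval_rec {a : F} (ha : a * a = 1) (hm : f.Monic) (h0 : f.coeff 0 ≠ 0) (hr : recP f = f) :
    f.coeff 0 * eval a f * a ^ f.natDegree = eval a f := by
  have h1 := eval_reverse ha f
  rwa [rev_eq hm h0 hr, eval_mul, eval_C] at h1

theorem pal_of_rec {d : ℕ} (hm : f.Monic) (h0 : f.coeff 0 ≠ 0) (hr : recP f = f) (hd : f.natDegree = 2 * d)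
    (h1 : f.coeff 0 = 1) : IsPal d f := by
  refine ⟨hm, hd, ?_⟩
  rw [rev_eq hm h0 hr, h1, C_1, one_mul]

theorem rec_even_neg (h2 : (2 : F) ≠ 0) {d : ℕ} (hm : f.Monic) (h0 : f.coeff 0 ≠ 0) (hr : recP f = f)
    (hd : f.natDegree = 2 * d) (h1 : f.coeff 0 = -1) :
    ∃ d', d = d' + 1 ∧ ∃ G, IsPal d' G ∧ f = (X - C 1) * ((X - C (-1)) * G) := by
  have e1 := eval_rec (a := 1) (by ring) hm h0 hr
  have e2 := eval_rec (a := -1) (by ring) hm h0 hr
  rw [h1, one_pow] at e1
  rw [h1, hd, pow_mul, neg_one_sq, one_pow] at e2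
  have hroot1 : eval 1 f = 0 := by
    have h3 : 2 * eval 1 f = 0 := by linear_combination -e1
    exact (mul_eq_zero.mp h3).resolve_left h2
  have hroot2 : eval (-1) f = 0 := by
    have h3 : 2 * eval (-1) f = 0 := by linear_combination -e2
    exact (mul_eq_zero.mp h3).resolve_left h2
  obtain ⟨G₁, hG₁⟩ : (X - C 1) ∣ f := dvd_iff_isRoot.mpr hroot1
  have hroot3 : eval (-1) G₁ = 0 := by
    rw [hG₁, eval_mul, eval_sub, eval_X, eval_C] at hroot2
    refine (mul_eq_zero.mp hroot2).resolve_left ?_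
    intro h3
    apply h2
    linear_combination -h3
  obtain ⟨G, rfl⟩ : (X - C (-1)) ∣ G₁ := dvd_iff_isRoot.mpr hroot3
  subst hG₁
  have hmG₁ : ((X - C (-1)) * G : F[X]).Monic := (monic_X_sub_C 1).of_mul_monic_left hm
  have hmG : G.Monic := (monic_X_sub_C (-1)).of_mul_monic_left hmG₁
  have hdeg : 1 + (1 + G.natDegree) = 2 * d := by
    rw [← hd, natDegree_mul (X_sub_C_ne_zero 1) hmG₁.ne_zero, natDegree_X_sub_C,
      natDegree_mul (X_sub_C_ne_zero (-1)) hmG.ne_zero, natDegree_X_sub_C]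
  obtain ⟨d', rfl⟩ : ∃ d', d = d' + 1 := ⟨d - 1, by omega⟩
  refine ⟨d', rfl, G, ⟨hmG, by omega, ?_⟩, rfl⟩
  have hre := rev_eq hm h0 hr
  rw [h1] at hre
  refine reverse_of_mul (Q := (X - C 1) * (X - C (-1))) (f := (X - C 1) * ((X - C (-1)) * G)) (κ := -1)
    (mul_ne_zero (X_sub_C_ne_zero 1) (X_sub_C_ne_zero (-1))) (by simp) (by ring) ?_ hre
  rw [reverse_mul_of_domain, reverse_P (a := 1) (by ring), reverse_P (a := -1) (by ring)]
  simp only [C_neg, C_1, neg_neg, one_mul]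
  ring

theorem rec_odd_pos (h2 : (2 : F) ≠ 0) {d : ℕ} (hm : f.Monic) (h0 : f.coeff 0 ≠ 0) (hr : recP f = f)
    (hd : f.natDegree = 2 * d + 1) (h1 : f.coeff 0 = 1) : ∃ G, IsPal d G ∧ f = (X - C (-1)) * G := by
  have e2 := eval_rec (a := -1) (by ring) hm h0 hr
  rw [h1, hd, pow_succ, pow_mul, neg_one_sq, one_pow] at e2
  have hroot2 : eval (-1) f = 0 := by
    have h3 : 2 * eval (-1) f = 0 := by linear_combination -e2
    exact (mul_eq_zero.mp h3).resolve_left h2
  obtain ⟨G, rfl⟩ : (X - C (-1)) ∣ f := dvd_iff_isRoot.mpr hroot2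
  have hmG : G.Monic := (monic_X_sub_C (-1)).of_mul_monic_left hm
  have hdeg : 1 + G.natDegree = 2 * d + 1 := by
    rw [← hd, natDegree_mul (X_sub_C_ne_zero (-1)) hmG.ne_zero, natDegree_X_sub_C]
  refine ⟨G, ⟨hmG, by omega, ?_⟩, rfl⟩
  have hre := rev_eq hm h0 hr
  rw [h1] at hre
  refine reverse_of_mul (Q := (X - C (-1))) (κ := 1) (X_sub_C_ne_zero (-1)) one_ne_zero rfl ?_ hre
  rw [reverse_P (a := -1) (by ring)]
  simp

theorem rec_odd_neg (h2 : (2 : F) ≠ 0) {d : ℕ} (hm : f.Monic) (h0 : f.coeff 0 ≠ 0) (hr : recP f = f)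
    (hd : f.natDegree = 2 * d + 1) (h1 : f.coeff 0 = -1) : ∃ G, IsPal d G ∧ f = (X - C 1) * G := by
  have e1 := eval_rec (a := 1) (by ring) hm h0 hr
  rw [h1, one_pow] at e1
  have hroot1 : eval 1 f = 0 := by
    have h3 : 2 * eval 1 f = 0 := by linear_combination -e1
    exact (mul_eq_zero.mp h3).resolve_left h2
  obtain ⟨G, rfl⟩ : (X - C 1) ∣ f := dvd_iff_isRoot.mpr hroot1
  have hmG : G.Monic := (monic_X_sub_C 1).of_mul_monic_left hm
  have hdeg : 1 + G.natDegree = 2 * d + 1 := by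
    rw [← hd, natDegree_mul (X_sub_C_ne_zero 1) hmG.ne_zero, natDegree_X_sub_C]
  refine ⟨G, ⟨hmG, by omega, ?_⟩, rfl⟩
  have hre := rev_eq hm h0 hr
  rw [h1] at hre
  refine reverse_of_mul (Q := (X - C 1)) (κ := -1) (X_sub_C_ne_zero 1) (by simp) rfl ?_ hre
  rw [reverse_P (a := 1) (by ring)]

end Rec

section Parity

theorem eval_ne_of_irreducible {f : F[X]} {a : F} (hm : f.Monic) (hi : Irreducible f) (hne : f ≠ X - C a) : eval a f ≠ 0 := by
  intro h0
  have hd : (X - C a : F[X]) ∣ f := dvd_iff_isRoot.mpr h0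
  exact hne (eq_of_monic_of_associated hm (monic_X_sub_C a)
    ((irreducible_X_sub_C a).associated_of_dvd hi hd).symm)

/-- Even multiplicity at `±1` forces a palindromic polynomial. -/
theorem pal_of_parity (h2 : (2 : F) ≠ 0) {τ : Multiset (F[X] × ℕ)} {j : ℕ} (hadm : ∀ a ∈ τ, Adm a ∧ a.1 ≠ X)
    (hr : recP (hPart j τ) = hPart j τ)
    (hp₁ : Even (((τ.filter fun a => a.1 = X - C 1).filter fun a => a.2 = j).card))
    (hp₂ : Even (((τ.filter fun a => a.1 = X - C (-1)).filter fun a => a.2 = j).card)) :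
    ∃ d, (hPart j τ).natDegree = 2 * d ∧ IsPal d (hPart j τ) := by
  have hne : (X - C (-1) : F[X]) ≠ X - C 1 := by
    intro h
    have h3 := congrArg (fun f => f.coeff 0) h
    simp only [coeff_sub, coeff_X_zero, coeff_C_zero, zero_sub, neg_neg] at h3
    apply h2
    linear_combination h3
  have hm : (hPart j τ).Monic := hPart_monic j τ (fun a ha => (hadm a ha).1)
  have h0 : (hPart j τ).coeff 0 ≠ 0 := hPart_coeff j τ hadm
  let σ := τ.filter fun a => a.2 = j
  let A := σ.filter fun a => a.1 = X - C 1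
  let B := (σ.filter fun a => a.1 ≠ X - C 1).filter fun a => a.1 = X - C (-1)
  let D := (σ.filter fun a => a.1 ≠ X - C 1).filter fun a => a.1 ≠ X - C (-1)
  have hcardA : Even A.card := by
    have : A = (τ.filter fun a => a.1 = X - C 1).filter fun a => a.2 = j := by
      show (τ.filter fun a => a.2 = j).filter (fun a => a.1 = X - C 1) = _
      rw [Multiset.filter_filter, Multiset.filter_filter]
      apply Multiset.filter_congr
      intro x _
      exact and_comm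
    rw [this]
    exact hp₁
  have hcardB : Even B.card := by
    have : B = (τ.filter fun a => a.1 = X - C (-1)).filter fun a => a.2 = j := by
      show ((τ.filter fun a => a.2 = j).filter fun a => a.1 ≠ X - C 1).filter (fun a => a.1 = X - C (-1)) = _
      rw [Multiset.filter_filter, Multiset.filter_filter, Multiset.filter_filter]
      apply Multiset.filter_congr
      intro x _
      have hb : x.1 = X - C (-1) → x.1 ≠ X - C 1 := fun h => by rw [h]; exact hne
      tauto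
    rw [this]
    exact hp₂
  obtain ⟨r, hr₁⟩ := hcardA
  obtain ⟨r', hr₂⟩ := hcardB
  have hsplit : σ = A + (B + D) := by
    show σ = (σ.filter fun a => a.1 = X - C 1) + (((σ.filter fun a => a.1 ≠ X - C 1).filter fun a => a.1 = X - C (-1)) +
      ((σ.filter fun a => a.1 ≠ X - C 1).filter fun a => a.1 ≠ X - C (-1)))
    rw [Multiset.filter_add_not, Multiset.filter_add_not]
  have hpA : (A.map Prod.fst).prod = (X - C 1) ^ A.card := by
    have : A.map Prod.fst = Multiset.replicate A.card (X - C 1) := by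
      rw [Multiset.eq_replicate]
      refine ⟨by simp, fun b hb => ?_⟩
      obtain ⟨a, ha, rfl⟩ := Multiset.mem_map.mp hb
      exact (Multiset.mem_filter.mp ha).2
    rw [this, Multiset.prod_replicate]
  have hpB : (B.map Prod.fst).prod = (X - C (-1)) ^ B.card := by
    have : B.map Prod.fst = Multiset.replicate B.card (X - C (-1)) := by
      rw [Multiset.eq_replicate]
      refine ⟨by simp, fun b hb => ?_⟩
      obtain ⟨a, ha, rfl⟩ := Multiset.mem_map.mp hb
      exact (Multiset.mem_filter.mp ha).2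
    rw [this, Multiset.prod_replicate]
  let h : F[X] := (D.map Prod.fst).prod
  have hmemτ : ∀ a ∈ D, a ∈ τ := fun a ha =>
    (Multiset.mem_filter.mp (Multiset.mem_filter.mp (Multiset.mem_filter.mp ha).1).1).1
  have hmh : h.Monic := by
    apply monic_multiset_prod_of_monic
    intro a ha
    exact (hadm a (hmemτ a ha)).1.1
  have hev : ∀ c : F, (∀ a ∈ D, a.1 ≠ X - C c) → eval c h ≠ 0 := by
    intro c hc
    rw [eval_multiset_prod, Ne, Multiset.prod_eq_zero_iff]
    intro hmem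
    obtain ⟨p, hp, hp0⟩ := Multiset.mem_map.mp hmem
    obtain ⟨a, ha, rfl⟩ := Multiset.mem_map.mp hp
    exact eval_ne_of_irreducible (hadm a (hmemτ a ha)).1.1 (hadm a (hmemτ a ha)).1.2.1 (hc a ha) hp0
  have he₁ : eval 1 h ≠ 0 := hev 1 (fun a ha => (Multiset.mem_filter.mp (Multiset.mem_filter.mp ha).1).2)
  have he₂ : eval (-1) h ≠ 0 := hev (-1) (fun a ha => (Multiset.mem_filter.mp ha).2)
  let Q₁ : F[X] := ((X - C 1) * (X - C 1)) ^ r
  let Q₂ : F[X] := ((X - C (-1)) * (X - C (-1))) ^ r'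
  have hf : hPart j τ = Q₁ * Q₂ * h := by
    show ((τ.filter fun a => a.2 = j).map Prod.fst).prod = _
    change (σ.map Prod.fst).prod = _
    rw [hsplit, Multiset.map_add, Multiset.map_add, Multiset.prod_add, Multiset.prod_add, hpA, hpB, hr₁, hr₂,
      pow_add, pow_add, ← mul_pow, ← mul_pow, mul_assoc]
  have hmQ₁ : Q₁.Monic := ((monic_X_sub_C 1).mul (monic_X_sub_C 1)).pow r
  have hmQ₂ : Q₂.Monic := ((monic_X_sub_C (-1)).mul (monic_X_sub_C (-1))).pow r'
  have hdQ₁ : Q₁.natDegree = 2 * r := by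
    show (((X - C 1) * (X - C 1) : F[X]) ^ r).natDegree = _
    rw [((monic_X_sub_C 1).mul (monic_X_sub_C 1)).natDegree_pow,
      (monic_X_sub_C 1).natDegree_mul (monic_X_sub_C 1), natDegree_X_sub_C]
    ring
  have hdQ₂ : Q₂.natDegree = 2 * r' := by
    show (((X - C (-1)) * (X - C (-1)) : F[X]) ^ r').natDegree = _
    rw [((monic_X_sub_C (-1)).mul (monic_X_sub_C (-1))).natDegree_pow,
      (monic_X_sub_C (-1)).natDegree_mul (monic_X_sub_C (-1)), natDegree_X_sub_C]
    ring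
  have hrQ₁ : Q₁.reverse = Q₁ := reverse_sq_pow (a := 1) (by ring) r
  have hrQ₂ : Q₂.reverse = Q₂ := reverse_sq_pow (a := -1) (by ring) r'
  have hcQ₁ : Q₁.coeff 0 = 1 := by
    show (((X - C 1) * (X - C 1) : F[X]) ^ r).coeff 0 = 1
    rw [coeff_zero_eq_eval_zero, eval_pow, eval_mul]
    simp
  have hcQ₂ : Q₂.coeff 0 = 1 := by
    show (((X - C (-1)) * (X - C (-1)) : F[X]) ^ r').coeff 0 = 1
    rw [coeff_zero_eq_eval_zero, eval_pow, eval_mul]
    simp
  have hcf : (hPart j τ).coeff 0 = h.coeff 0 := by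
    rw [hf, mul_coeff_zero, mul_coeff_zero, hcQ₁, hcQ₂, one_mul, one_mul]
  have hre := rev_eq hm h0 hr
  have hQ : (Q₁ * Q₂) ≠ 0 := (hmQ₁.mul hmQ₂).ne_zero
  have hrh : h.reverse = C (h.coeff 0) * h := by
    rw [hcf, hf, reverse_mul_of_domain, reverse_mul_of_domain, hrQ₁, hrQ₂] at hre
    apply mul_left_cancel₀ hQ
    rw [hre]
    ring
  have e1 := eval_reverse (a := 1) (by ring) h
  rw [hrh, eval_mul, eval_C, one_pow, mul_one] at e1
  have hc1 : h.coeff 0 = 1 := by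
    have : (h.coeff 0 - 1) * eval 1 h = 0 := by linear_combination e1
    exact sub_eq_zero.mp ((mul_eq_zero.mp this).resolve_right he₁)
  have e2 := eval_reverse (a := -1) (by ring) h
  rw [hrh, eval_mul, eval_C, hc1, one_mul] at e2
  have hdh : Even h.natDegree := by
    by_contra hodd
    rw [Nat.not_even_iff_odd] at hodd
    rw [hodd.neg_one_pow] at e2
    apply he₂
    have h3 : 2 * eval (-1) h = 0 := by linear_combination -e2
    exact (mul_eq_zero.mp h3).resolve_left h2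
  obtain ⟨e, he⟩ := hdh
  have hdeg : (hPart j τ).natDegree = 2 * (r + r' + e) := by
    rw [hf, (hmQ₁.mul hmQ₂).natDegree_mul hmh, hmQ₁.natDegree_mul hmQ₂, hdQ₁, hdQ₂, he]
    ring
  exact ⟨_, hdeg, pal_of_rec hm h0 hr hdeg (by rw [hcf, hc1])⟩

end Parity

section Count

variable [Fintype F]

theorem finite_isPal (d : ℕ) : {f : F[X] | IsPal d f}.Finite := by
  have : Finite {f : F[X] // f.Monic ∧ f.natDegree = 2 * d} :=
    Finite.of_equiv _ (Cfsg.Agent.Lib.Linalg.SemisimpleClasses.monicEquivFun (F := F) (2 * d)).symm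
  refine Set.Finite.subset (s := {f : F[X] | f.Monic ∧ f.natDegree = 2 * d}) (Set.finite_coe_iff.mp (by exact this)) ?_
  intro f hf
  exact ⟨hf.1, hf.2.1⟩

/-- Subsets of multiples of `Q` with palindromic quotient are small. -/
theorem card_le_of_factor (S : Finset F[X]) {Q : F[X]} (hQ : Q ≠ 0) {d' : ℕ}
    (h : ∀ f ∈ S, ∃ G, IsPal d' G ∧ f = Q * G) : S.card ≤ Fintype.card F ^ d' := by
  choose! G hG hf using h
  have hle := Cfsg.Agent.Lib.Classical.Herm.SpReal.card_isPal_le (F := F) d'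
  rw [Nat.card_eq_fintype_card (α := F)] at hle
  refine le_trans ?_ hle
  rw [← Fintype.card_coe, ← Nat.card_eq_fintype_card]
  haveI : Finite {f : F[X] // IsPal d' f} := (finite_isPal d').to_subtype
  refine Nat.card_le_card_of_injective (fun x : S => (⟨G x.1, hG x.1 x.2⟩ : {f : F[X] // IsPal d' f})) ?_
  intro x y hxy
  have h3 : G x.1 = G y.1 := congrArg Subtype.val hxy
  apply Subtype.ext
  rw [hf x.1 x.2, hf y.1 y.2, h3]

/-- The truncated power. -/
def cc (q d s : ℕ) : ℕ := if s ≤ d then q ^ (d - s) else 0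

theorem card_le_cc (S : Finset F[X]) {Q : F[X]} (hQ : Q ≠ 0) {d s : ℕ}
    (h : ∀ f ∈ S, ∃ d', d = d' + s ∧ ∃ G, IsPal d' G ∧ f = Q * G) : S.card ≤ cc (Fintype.card F) d s := by
  unfold cc
  by_cases hs : s ≤ d
  · rw [if_pos hs]
    apply card_le_of_factor S hQ
    intro f hf
    obtain ⟨d', h1, G, hG, h2⟩ := h f hf
    have : d - s = d' := by omega
    rw [this]
    exact ⟨G, hG, h2⟩
  · rw [if_neg hs, Nat.le_zero, Finset.card_eq_zero, Finset.eq_empty_iff_forall_notMem]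
    intro f hf
    obtain ⟨d', h1, -⟩ := h f hf
    omega

/-- Monic self-reciprocal polynomials. -/
def RM (F : Type u) [Field F] (D : ℕ) : Set F[X] := {f | f.Monic ∧ f.natDegree = D ∧ f.coeff 0 ≠ 0 ∧ recP f = f}

theorem finite_RM (D : ℕ) : (RM F D).Finite := by
  have : Finite {f : F[X] // f.Monic ∧ f.natDegree = D} :=
    Finite.of_equiv _ (Cfsg.Agent.Lib.Linalg.SemisimpleClasses.monicEquivFun (F := F) D).symm
  refine Set.Finite.subset (s := {f : F[X] | f.Monic ∧ f.natDegree = D}) (Set.finite_coe_iff.mp (by exact this)) ?_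
  intro f hf
  exact ⟨hf.1, hf.2.1⟩

/-- The finite set of monic self-reciprocal polynomials. -/
noncomputable def RF (F : Type u) [Field F] [Fintype F] (D : ℕ) : Finset F[X] := (finite_RM D).toFinset

theorem mem_RF {D : ℕ} {f : F[X]} : f ∈ RF F D ↔ f.Monic ∧ f.natDegree = D ∧ f.coeff 0 ≠ 0 ∧ recP f = f := by
  simp [RF, RM]

/-- The number of the eigenvalues `±1` of a polynomial. -/
noncomputable def wt (f : F[X]) : ℕ := (if (X - C 1) ∣ f then 1 else 0) + (if (X - C (-1)) ∣ f then 1 else 0)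

/-- Weighted count, even degree. -/
theorem W_even (h2 : (2 : F) ≠ 0) (d : ℕ) :
    ∑ f ∈ RF F (2 * d), 2 ^ wt f ≤ Fintype.card F ^ d + 6 * cc (Fintype.card F) d 1 + cc (Fintype.card F) d 2 := by
  have h1' : (1 : F) * 1 = 1 := by ring
  have h3' : (-1 : F) * (-1) = 1 := by ring
  let R := RF F (2 * d)
  let s₁ : F[X] → Prop := fun f => f.coeff 0 = 1
  let A : F[X] → Prop := fun f => (X - C 1) ∣ f
  let B : F[X] → Prop := fun f => (X - C (-1)) ∣ f
  have hpt : ∀ f ∈ R, 2 ^ wt f ≤ (if s₁ f then 1 else 0) + (if s₁ f ∧ A f then 1 else 0) + (if s₁ f ∧ B f then 1 else 0)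
      + (if s₁ f ∧ A f ∧ B f then 1 else 0) + 4 * (if ¬ s₁ f then 1 else 0) := by
    intro f _
    unfold wt
    by_cases h₁ : s₁ f <;> by_cases h₂ : A f <;> by_cases h₃ : B f <;>
      simp only [h₁, h₂, h₃, A, B, s₁] at * <;> simp_all
  have hsum := Finset.sum_le_sum hpt
  refine hsum.trans ?_
  simp only [Finset.sum_add_distrib, ← Finset.mul_sum, ← Finset.card_filter]
  have e1 : (R.filter fun f => s₁ f).card ≤ Fintype.card F ^ d := by
    apply card_le_of_factor _ (Q := 1) one_ne_zero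
    intro f hf
    obtain ⟨hf₁, hf₂⟩ := Finset.mem_filter.mp hf
    obtain ⟨hm, hdeg, h0, hr⟩ := mem_RF.mp hf₁
    exact ⟨f, pal_of_rec hm h0 hr hdeg hf₂, (one_mul f).symm⟩
  have e2 : (R.filter fun f => s₁ f ∧ A f).card ≤ cc (Fintype.card F) d 1 := by
    apply card_le_cc _ (Q := (X - C 1) * (X - C 1)) (mul_ne_zero (X_sub_C_ne_zero 1) (X_sub_C_ne_zero 1))
    intro f hf
    obtain ⟨hf₁, hf₂, hf₃⟩ := Finset.mem_filter.mp hf
    obtain ⟨hm, hdeg, h0, hr⟩ := mem_RF.mp hf₁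
    exact pal_dvd h2 h1' (pal_of_rec hm h0 hr hdeg hf₂) hf₃
  have e3 : (R.filter fun f => s₁ f ∧ B f).card ≤ cc (Fintype.card F) d 1 := by
    apply card_le_cc _ (Q := (X - C (-1)) * (X - C (-1))) (mul_ne_zero (X_sub_C_ne_zero (-1)) (X_sub_C_ne_zero (-1)))
    intro f hf
    obtain ⟨hf₁, hf₂, hf₃⟩ := Finset.mem_filter.mp hf
    obtain ⟨hm, hdeg, h0, hr⟩ := mem_RF.mp hf₁
    exact pal_dvd h2 h3' (pal_of_rec hm h0 hr hdeg hf₂) hf₃
  have e4 : (R.filter fun f => s₁ f ∧ A f ∧ B f).card ≤ cc (Fintype.card F) d 2 := by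
    apply card_le_cc _ (Q := (X - C 1) * (X - C 1) * ((X - C (-1)) * (X - C (-1))))
      (mul_ne_zero (mul_ne_zero (X_sub_C_ne_zero 1) (X_sub_C_ne_zero 1))
        (mul_ne_zero (X_sub_C_ne_zero (-1)) (X_sub_C_ne_zero (-1))))
    intro f hf
    obtain ⟨hf₁, hf₂, hf₃, hf₄⟩ := Finset.mem_filter.mp hf
    obtain ⟨hm, hdeg, h0, hr⟩ := mem_RF.mp hf₁
    obtain ⟨d', h5, G, hG, h6⟩ := pal_dvd₂ h2 (pal_of_rec hm h0 hr hdeg hf₂) hf₃ hf₄
    exact ⟨d', h5, G, hG, by rw [h6]; ring⟩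
  have e5 : (R.filter fun f => ¬ s₁ f).card ≤ cc (Fintype.card F) d 1 := by
    apply card_le_cc _ (Q := (X - C 1) * (X - C (-1))) (mul_ne_zero (X_sub_C_ne_zero 1) (X_sub_C_ne_zero (-1)))
    intro f hf
    obtain ⟨hf₁, hf₂⟩ := Finset.mem_filter.mp hf
    obtain ⟨hm, hdeg, h0, hr⟩ := mem_RF.mp hf₁
    have hneg := (const_cases hm h0 hr).resolve_left hf₂
    obtain ⟨d', h5, G, hG, h6⟩ := rec_even_neg h2 hm h0 hr hdeg hneg
    exact ⟨d', h5, G, hG, by rw [h6]; ring⟩
  omega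

/-- Weighted count, odd degree. -/
theorem W_odd (h2 : (2 : F) ≠ 0) (d : ℕ) :
    ∑ f ∈ RF F (2 * d + 1), 2 ^ wt f ≤ 4 * Fintype.card F ^ d + 4 * cc (Fintype.card F) d 1 := by
  have h1' : (1 : F) * 1 = 1 := by ring
  have h3' : (-1 : F) * (-1) = 1 := by ring
  let R := RF F (2 * d + 1)
  let s₁ : F[X] → Prop := fun f => f.coeff 0 = 1
  let A : F[X] → Prop := fun f => (X - C 1) ∣ f
  let B : F[X] → Prop := fun f => (X - C (-1)) ∣ f
  have hpt : ∀ f ∈ R, 2 ^ wt f ≤ 2 * (if s₁ f then 1 else 0) + 2 * (if s₁ f ∧ A f then 1 else 0)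
      + 2 * (if ¬ s₁ f then 1 else 0) + 2 * (if ¬ s₁ f ∧ B f then 1 else 0) := by
    intro f _
    unfold wt
    by_cases h₁ : s₁ f <;> by_cases h₂ : A f <;> by_cases h₃ : B f <;>
      simp only [h₁, h₂, h₃, A, B, s₁] at * <;> simp_all
  have hsum := Finset.sum_le_sum hpt
  refine hsum.trans ?_
  simp only [Finset.sum_add_distrib, ← Finset.mul_sum, ← Finset.card_filter]
  have e1 : (R.filter fun f => s₁ f).card ≤ Fintype.card F ^ d := by
    apply card_le_of_factor _ (Q := X - C (-1)) (X_sub_C_ne_zero (-1))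
    intro f hf
    obtain ⟨hf₁, hf₂⟩ := Finset.mem_filter.mp hf
    obtain ⟨hm, hdeg, h0, hr⟩ := mem_RF.mp hf₁
    exact rec_odd_pos h2 hm h0 hr hdeg hf₂
  have e2 : (R.filter fun f => ¬ s₁ f).card ≤ Fintype.card F ^ d := by
    apply card_le_of_factor _ (Q := X - C 1) (X_sub_C_ne_zero 1)
    intro f hf
    obtain ⟨hf₁, hf₂⟩ := Finset.mem_filter.mp hf
    obtain ⟨hm, hdeg, h0, hr⟩ := mem_RF.mp hf₁
    exact rec_odd_neg h2 hm h0 hr hdeg ((const_cases hm h0 hr).resolve_left hf₂)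
  have e3 : (R.filter fun f => s₁ f ∧ A f).card ≤ cc (Fintype.card F) d 1 := by
    apply card_le_cc _ (Q := (X - C (-1)) * ((X - C 1) * (X - C 1)))
      (mul_ne_zero (X_sub_C_ne_zero (-1)) (mul_ne_zero (X_sub_C_ne_zero 1) (X_sub_C_ne_zero 1)))
    intro f hf
    obtain ⟨hf₁, hf₂, hf₃⟩ := Finset.mem_filter.mp hf
    obtain ⟨hm, hdeg, h0, hr⟩ := mem_RF.mp hf₁
    obtain ⟨G, hG, h5⟩ := rec_odd_pos h2 hm h0 hr hdeg hf₂
    have h6 : (X - C 1 : F[X]) ∣ G := by
      have hp : Prime (X - C 1 : F[X]) := prime_X_sub_C _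
      have h7 : (X - C 1 : F[X]) ∣ (X - C (-1)) * G := h5 ▸ hf₃
      rcases hp.dvd_or_dvd h7 with h8 | h8
      · exfalso
        have h9 : IsRoot (X - C (-1) : F[X]) 1 := dvd_iff_isRoot.mp h8
        rw [IsRoot, eval_sub, eval_X, eval_C] at h9
        apply h2
        linear_combination h9
      · exact h8
    obtain ⟨d', h7, G', hG', h8⟩ := pal_dvd h2 h1' hG h6
    exact ⟨d', h7, G', hG', by rw [h5, h8]; ring⟩
  have e4 : (R.filter fun f => ¬ s₁ f ∧ B f).card ≤ cc (Fintype.card F) d 1 := by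
    apply card_le_cc _ (Q := (X - C 1) * ((X - C (-1)) * (X - C (-1))))
      (mul_ne_zero (X_sub_C_ne_zero 1) (mul_ne_zero (X_sub_C_ne_zero (-1)) (X_sub_C_ne_zero (-1))))
    intro f hf
    obtain ⟨hf₁, hf₂, hf₃⟩ := Finset.mem_filter.mp hf
    obtain ⟨hm, hdeg, h0, hr⟩ := mem_RF.mp hf₁
    obtain ⟨G, hG, h5⟩ := rec_odd_neg h2 hm h0 hr hdeg ((const_cases hm h0 hr).resolve_left hf₂)
    have h6 : (X - C (-1) : F[X]) ∣ G := by
      have hp : Prime (X - C (-1) : F[X]) := prime_X_sub_C _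
      have h7 : (X - C (-1) : F[X]) ∣ (X - C 1) * G := h5 ▸ hf₃
      rcases hp.dvd_or_dvd h7 with h8 | h8
      · exfalso
        have h9 : IsRoot (X - C 1 : F[X]) (-1) := dvd_iff_isRoot.mp h8
        rw [IsRoot, eval_sub, eval_X, eval_C] at h9
        apply h2
        linear_combination -h9
      · exact h8
    obtain ⟨d', h7, G', hG', h8⟩ := pal_dvd h2 h3' hG h6
    exact ⟨d', h7, G', hG', by rw [h5, h8]; ring⟩
  omega

end Count

end Cfsg.Agent.Lib.ClassNum.SpPoly
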