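import Mathlib
import Cfsg.Agent.Lib.ClassNum.SpPoly
import Cfsg.Agent.Lib.ClassNum.SpTop
import Cfsg.Agent.Lib.ClassNum.SLBound

/-!
# The weighted number of types of symplectic matrices: the recursion
-/

set_option autoImplicit false
set_option linter.unusedSectionVars false
set_option linter.unusedVariables false

open Polynomial Module Matrix
open Cfsg.Agent.Lib.Linalg.RCF Cfsg.Agent.Lib.Linalg.RCFType
open Cfsg.Agent.Lib.Classical.Herm.Palin
open Cfsg.Agent.Lib.ClassNum.SpRec Cfsg.Agent.Lib.ClassNum.SpPoly Cfsg.Agent.Lib.ClassNum.SpClass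
open Cfsg.Agent.Lib.ClassNum.SpTop
open Cfsg.Agent.S2478
open scoped _root_.Classical

namespace Cfsg.Agent.Lib.ClassNum.SpCount

universe u

variable {F : Type u} [Field F] [Fintype F]

/-- Even multiplicities at `±1` for odd block sizes. -/
def parityP (τ : Multiset (F[X] × ℕ)) : Prop :=
  ∀ i, Odd i → Even (((τ.filter fun a => a.1 = X - C 1).filter fun a => a.2 = i).card) ∧
    Even (((τ.filter fun a => a.1 = X - C (-1)).filter fun a => a.2 = i).card)

/-- The types of symplectic matrices. -/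
def TS (F : Type u) [Field F] (J m : ℕ) : Set (Multiset (F[X] × ℕ)) :=
  {τ | ((∀ a ∈ τ, (Adm a ∧ a.1 ≠ X) ∧ a.2 ≤ J) ∧ (τ.map fun a => a.2 * a.1.natDegree).sum = m) ∧
    recT τ = τ ∧ parityP τ}

theorem finite_TS (J m : ℕ) : (TS F J m).Finite := by
  have h := Cfsg.Agent.Lib.ClassNum.SLBound.hfin (F := F) J m
  have h' : Set.Finite {τ : Multiset (F[X] × ℕ) | (∀ a ∈ τ, (Adm a ∧ a.1 ≠ X) ∧ a.2 ≤ J) ∧
      (τ.map fun a => a.2 * a.1.natDegree).sum = m} := Set.finite_coe_iff.mp (by exact h)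
  exact h'.subset (fun τ hτ => hτ.1)

/-- The finite set of types. -/
noncomputable def TF (F : Type u) [Field F] [Fintype F] (J m : ℕ) : Finset (Multiset (F[X] × ℕ)) :=
  (finite_TS J m).toFinset

theorem mem_TF {J m : ℕ} {τ : Multiset (F[X] × ℕ)} : τ ∈ TF F J m ↔ τ ∈ TS F J m := by
  simp [TF]

/-- The weighted number of types. -/
noncomputable def AA (F : Type u) [Field F] [Fintype F] (J m : ℕ) : ℕ := ∑ τ ∈ TF F J m, 2 ^ dd τ

theorem filter_mem {J m : ℕ} {τ : Multiset (F[X] × ℕ)} (hτ : τ ∈ TS F (J + 1) m) :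
    (τ.filter fun a => a.2 ≠ J + 1) ∈ TS F J (m - (J + 1) * (hPart (J + 1) τ).natDegree) := by
  obtain ⟨⟨h1, h2⟩, h3, h4⟩ := hτ
  refine ⟨⟨fun a ha => ?_, ?_⟩, ?_, fun i hi => ?_⟩
  · obtain ⟨ha1, ha2⟩ := Multiset.mem_filter.mp ha
    have := h1 a ha1
    exact ⟨this.1, by have := this.2; omega⟩
  · have := sum_split (J + 1) τ (fun a ha => (h1 a ha).1.1)
    rw [h2] at this
    omega
  · conv_rhs => rw [← h3]
    unfold recT
    rw [Multiset.filter_map]
    rfl
  · by_cases hij : i = J + 1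
    · subst hij
      have e : ∀ P : F[X], (((τ.filter fun a => a.2 ≠ J + 1).filter fun a => a.1 = P).filter fun a => a.2 = J + 1) = 0 := by
        intro P
        rw [Multiset.filter_eq_nil]
        intro a ha hb
        exact (Multiset.mem_filter.mp (Multiset.mem_filter.mp ha).1).2 hb
      rw [e, e]
      simp
    · have e : ∀ P : F[X], (((τ.filter fun a => a.2 ≠ J + 1).filter fun a => a.1 = P).filter fun a => a.2 = i) =
          ((τ.filter fun a => a.1 = P).filter fun a => a.2 = i) := by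
        intro P
        rw [Multiset.filter_filter, Multiset.filter_filter, Multiset.filter_filter]
        apply Multiset.filter_congr
        intro x _
        have hb : x.2 = i → x.2 ≠ J + 1 := fun h => by rw [h]; exact hij
        tauto
      rw [e, e]
      exact h4 i hi

theorem dEven_filter_le (P : F[X]) (j : ℕ) (τ : Multiset (F[X] × ℕ)) :
    dEven (τ.filter fun a => a.1 = P) ≤ dEven ((τ.filter fun a => a.2 ≠ j).filter fun a => a.1 = P) +
      (if Even j ∧ P ∣ hPart j τ then 1 else 0) := by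
  unfold dEven
  have hsub : ((τ.filter fun a => a.1 = P).map Prod.snd).toFinset.filter Even ⊆
      (((τ.filter fun a => a.2 ≠ j).filter fun a => a.1 = P).map Prod.snd).toFinset.filter Even ∪
        (if Even j ∧ P ∣ hPart j τ then {j} else ∅) := by
    intro x hx
    obtain ⟨hx1, hx2⟩ := Finset.mem_filter.mp hx
    simp only [Multiset.mem_toFinset, Multiset.mem_map] at hx1
    obtain ⟨a, ha, rfl⟩ := hx1
    obtain ⟨ha1, ha2⟩ := Multiset.mem_filter.mp ha
    by_cases hj : a.2 = j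
    · apply Finset.mem_union_right
      have hd : P ∣ hPart j τ := by
        apply Multiset.dvd_prod
        exact Multiset.mem_map.mpr ⟨a, Multiset.mem_filter.mpr ⟨ha1, hj⟩, ha2⟩
      rw [if_pos ⟨hj ▸ hx2, hd⟩]
      simp [hj]
    · apply Finset.mem_union_left
      refine Finset.mem_filter.mpr ⟨?_, hx2⟩
      simp only [Multiset.mem_toFinset, Multiset.mem_map]
      exact ⟨a, Multiset.mem_filter.mpr ⟨Multiset.mem_filter.mpr ⟨ha1, hj⟩, ha2⟩, rfl⟩
  refine (Finset.card_le_card hsub).trans ((Finset.card_union_le _ _).trans ?_)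
  apply Nat.add_le_add_left
  split_ifs <;> simp

theorem dd_le_even {j : ℕ} (hj : Even j) (τ : Multiset (F[X] × ℕ)) :
    dd τ ≤ wt (hPart j τ) + dd (τ.filter fun a => a.2 ≠ j) := by
  have h1 := dEven_filter_le (X - C 1) j τ
  have h2 := dEven_filter_le (X - C (-1)) j τ
  unfold dd wt
  simp only [hj, true_and] at h1 h2
  omega

theorem dd_le_odd {j : ℕ} (hj : Odd j) (τ : Multiset (F[X] × ℕ)) :
    dd τ ≤ dd (τ.filter fun a => a.2 ≠ j) := by
  have hj' : ¬ Even j := Nat.not_even_iff_odd.mpr hj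
  have h1 := dEven_filter_le (X - C 1) j τ
  have h2 := dEven_filter_le (X - C (-1)) j τ
  unfold dd
  simp only [hj', false_and, if_false] at h1 h2
  omega

theorem step_general (J m M : ℕ) (G : ℕ → Finset F[X]) (δ : ℕ → ℕ) (w : F[X] → ℕ)
    (h : ∀ τ ∈ TF F (J + 1) m, ∃ k < M, hPart (J + 1) τ ∈ G k ∧ (hPart (J + 1) τ).natDegree = δ k ∧
      2 ^ dd τ ≤ w (hPart (J + 1) τ) * 2 ^ dd (τ.filter fun a => a.2 ≠ J + 1)) :
    AA F (J + 1) m ≤ ∑ k ∈ Finset.range M, (∑ f ∈ G k, w f) * AA F J (m - (J + 1) * δ k) := by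
  choose! k hk hG hδ hdd using h
  let T : Finset (Σ _ : ℕ, F[X] × Multiset (F[X] × ℕ)) :=
    (Finset.range M).sigma (fun k => G k ×ˢ TF F J (m - (J + 1) * δ k))
  let φ : Multiset (F[X] × ℕ) → (Σ _ : ℕ, F[X] × Multiset (F[X] × ℕ)) := fun τ =>
    ⟨k τ, (hPart (J + 1) τ, τ.filter fun a => a.2 ≠ J + 1)⟩
  let g : (Σ _ : ℕ, F[X] × Multiset (F[X] × ℕ)) → ℕ := fun x => w x.2.1 * 2 ^ dd x.2.2
  have hinj : Set.InjOn φ (TF F (J + 1) m : Set (Multiset (F[X] × ℕ))) := by
    intro τ hτ τ' hτ' heq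
    have hτ₁ := (mem_TF.mp (Finset.mem_coe.mp hτ)).1.1
    have hτ₂ := (mem_TF.mp (Finset.mem_coe.mp hτ')).1.1
    have h1 : hPart (J + 1) τ = hPart (J + 1) τ' := congrArg (fun x => x.2.1) heq
    have h2 : (τ.filter fun a => a.2 ≠ J + 1) = τ'.filter fun a => a.2 ≠ J + 1 := congrArg (fun x => x.2.2) heq
    rw [← Multiset.filter_add_not (fun a : F[X] × ℕ => a.2 = J + 1) τ,
      ← Multiset.filter_add_not (fun a : F[X] × ℕ => a.2 = J + 1) τ', h2,
      filter_eq_of_hPart (J + 1) τ (fun a ha => (hτ₁ a ha).1.1),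
      filter_eq_of_hPart (J + 1) τ' (fun a ha => (hτ₂ a ha).1.1), h1]
  have hmaps : ∀ τ ∈ TF F (J + 1) m, φ τ ∈ T := by
    intro τ hτ
    refine Finset.mem_sigma.mpr ⟨Finset.mem_range.mpr (hk τ hτ), Finset.mem_product.mpr ⟨hG τ hτ, ?_⟩⟩
    rw [mem_TF, ← hδ τ hτ]
    exact filter_mem (mem_TF.mp hτ)
  calc AA F (J + 1) m = ∑ τ ∈ TF F (J + 1) m, 2 ^ dd τ := rfl
    _ ≤ ∑ τ ∈ TF F (J + 1) m, g (φ τ) := Finset.sum_le_sum (fun τ hτ => hdd τ hτ)
    _ = ∑ x ∈ (TF F (J + 1) m).image φ, g x := (Finset.sum_image hinj).symm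
    _ ≤ ∑ x ∈ T, g x := by
        apply Finset.sum_le_sum_of_subset
        intro x hx
        obtain ⟨τ, hτ, rfl⟩ := Finset.mem_image.mp hx
        exact hmaps τ hτ
    _ = ∑ k ∈ Finset.range M, (∑ f ∈ G k, w f) * AA F J (m - (J + 1) * δ k) := by
        rw [Finset.sum_sigma]
        apply Finset.sum_congr rfl
        intro k _
        rw [Finset.sum_product, Finset.sum_mul]
        apply Finset.sum_congr rfl
        intro f _
        rw [AA, Finset.mul_sum]

theorem natDegree_le {J m : ℕ} {τ : Multiset (F[X] × ℕ)} (hτ : τ ∈ TS F (J + 1) m) :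
    (hPart (J + 1) τ).natDegree ≤ m / (J + 1) := by
  obtain ⟨⟨h1, h2⟩, -⟩ := hτ
  have := sum_split (J + 1) τ (fun a ha => (h1 a ha).1.1)
  rw [h2] at this
  rw [Nat.le_div_iff_mul_le (Nat.succ_pos J), mul_comm]
  change (J + 1) * _ ≤ m
  omega

/-- The recursion for even block sizes. -/
theorem step_even (J m : ℕ) (hJ : Even (J + 1)) :
    AA F (J + 1) m ≤ ∑ D ∈ Finset.range (m / (J + 1) + 1), (∑ f ∈ RF F D, 2 ^ wt f) * AA F J (m - (J + 1) * D) := by
  apply step_general J m _ (RF F) (fun D => D) (fun f => 2 ^ wt f)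
  intro τ hτ
  have hτ' := mem_TF.mp hτ
  obtain ⟨⟨h1, h2⟩, h3, h4⟩ := hτ'
  refine ⟨(hPart (J + 1) τ).natDegree, Nat.lt_succ_of_le (natDegree_le (mem_TF.mp hτ)), ?_, rfl, ?_⟩
  · rw [mem_RF]
    exact ⟨hPart_monic _ _ (fun a ha => (h1 a ha).1.1), rfl, hPart_coeff _ _ (fun a ha => (h1 a ha).1),
      recP_hPart h3 _⟩
  · rw [← pow_add]
    exact Nat.pow_le_pow_right (by norm_num) (dd_le_even hJ τ)

/-- The palindromic polynomials. -/
noncomputable def PF (F : Type u) [Field F] [Fintype F] (d : ℕ) : Finset F[X] := (finite_isPal d).toFinset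

theorem mem_PF {d : ℕ} {f : F[X]} : f ∈ PF F d ↔ IsPal d f := by
  simp [PF]

theorem card_PF_le (d : ℕ) : (PF F d).card ≤ Fintype.card F ^ d := by
  apply card_le_of_factor _ (Q := 1) one_ne_zero
  intro f hf
  exact ⟨f, mem_PF.mp hf, (one_mul f).symm⟩

/-- The recursion for odd block sizes. -/
theorem step_odd (h2' : (2 : F) ≠ 0) (J m : ℕ) (hJ : Odd (J + 1)) :
    AA F (J + 1) m ≤ ∑ d ∈ Finset.range (m / (2 * (J + 1)) + 1), (PF F d).card * AA F J (m - (J + 1) * (2 * d)) := by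
  have h0 := step_general (F := F) J m (m / (2 * (J + 1)) + 1) (PF F) (fun d => 2 * d) (fun f => 1) (by
    intro τ hτ
    have hτ' := mem_TF.mp hτ
    obtain ⟨⟨h1, h2⟩, h3, h4⟩ := hτ'
    obtain ⟨h5, h6⟩ := h4 (J + 1) hJ
    obtain ⟨d, hd, hP⟩ := pal_of_parity h2' (fun a ha => (h1 a ha).1) (recP_hPart h3 _) h5 h6
    have hle := natDegree_le (mem_TF.mp hτ)
    refine ⟨d, ?_, mem_PF.mpr hP, hd, ?_⟩
    · rw [hd, Nat.le_div_iff_mul_le (Nat.succ_pos J)] at hle
      rw [Nat.lt_succ_iff, Nat.le_div_iff_mul_le (by positivity)]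
      calc d * (2 * (J + 1)) = 2 * d * (J + 1) := by ring
        _ ≤ m := hle
    · rw [one_mul]
      exact Nat.pow_le_pow_right (by norm_num) (dd_le_odd hJ τ))
  refine h0.trans (le_of_eq ?_)
  apply Finset.sum_congr rfl
  intro d _
  simp

theorem AA_zero_zero : AA F 0 0 ≤ 1 := by
  have h : TF F 0 0 ⊆ {0} := by
    intro τ hτ
    obtain ⟨⟨h1, -⟩, -⟩ := mem_TF.mp hτ
    have h0 : τ = 0 := by
      apply Multiset.eq_zero_of_forall_notMem
      intro a ha
      have h3 := (h1 a ha).1.1.2.2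
      have h4 := (h1 a ha).2
      omega
    simp [h0]
  have h3 : dd (0 : Multiset (F[X] × ℕ)) = 0 := by
    simp [dd, dEven]
  calc AA F 0 0 ≤ ∑ τ ∈ ({0} : Finset (Multiset (F[X] × ℕ))), 2 ^ dd τ :=
        Finset.sum_le_sum_of_subset h
    _ = 1 := by simp [h3]

theorem AA_zero_pos {m : ℕ} (hm : 1 ≤ m) : AA F 0 m = 0 := by
  have h : TF F 0 m = ∅ := by
    rw [Finset.eq_empty_iff_forall_notMem]
    intro τ hτ
    obtain ⟨⟨h1, h2⟩, -⟩ := mem_TF.mp hτ
    have h0 : τ = 0 := by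
      apply Multiset.eq_zero_of_forall_notMem
      intro a ha
      have h3 := (h1 a ha).1.1.2.2
      have h4 := (h1 a ha).2
      omega
    subst h0
    simp at h2
    omega
  simp [AA, h]

section Half

/-- The half size version. -/
noncomputable def aa (F : Type u) [Field F] [Fintype F] (J n : ℕ) : ℕ := AA F J (2 * n)

theorem aa_even (i n : ℕ) (hi : 1 ≤ i) (J : ℕ) (hJ : J + 1 = 2 * i) :
    aa F (J + 1) n ≤ ∑ D ∈ Finset.range (n / i + 1), (∑ f ∈ RF F D, 2 ^ wt f) * aa F J (n - i * D) := by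
  have h := step_even (F := F) J (2 * n) (by rw [hJ]; exact even_two_mul i)
  have e1 : 2 * n / (J + 1) = n / i := by
    rw [hJ, Nat.mul_div_mul_left _ _ (by norm_num : 0 < 2)]
  rw [e1] at h
  refine h.trans (le_of_eq ?_)
  apply Finset.sum_congr rfl
  intro D _
  unfold aa
  have e : 2 * n - (J + 1) * D = 2 * (n - i * D) := by
    rw [hJ, Nat.mul_sub, mul_assoc]
  rw [e]

theorem aa_odd (h2 : (2 : F) ≠ 0) (n J : ℕ) (hJ : Odd (J + 1)) :
    aa F (J + 1) n ≤ ∑ d ∈ Finset.range (n / (J + 1) + 1), Fintype.card F ^ d * aa F J (n - (J + 1) * d) := by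
  have h := step_odd h2 J (2 * n) hJ
  rw [Nat.mul_div_mul_left _ _ (by norm_num : 0 < 2)] at h
  refine h.trans (Finset.sum_le_sum fun d _ => ?_)
  have e : 2 * n - (J + 1) * (2 * d) = 2 * (n - (J + 1) * d) := by
    rw [Nat.mul_sub]
    congr 1
    ring
  rw [e]
  exact Nat.mul_le_mul_right _ (card_PF_le d)

theorem aa_zero_zero : aa F 0 0 ≤ 1 := AA_zero_zero

theorem aa_zero_pos {n : ℕ} (hn : 1 ≤ n) : aa F 0 n = 0 := AA_zero_pos (by omega)

end Half

section Classes

variable {n : ℕ}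

theorem mem_TF_sp (hodd : Fintype.card F % 2 = 1) (x : symplecticGroup (Fin n) F) :
    matType (x : Matrix (Fin n ⊕ Fin n) (Fin n ⊕ Fin n) F) ∈ TF F (2 * n) (2 * n) := by
  have hU : IsUnit (x : Matrix (Fin n ⊕ Fin n) (Fin n ⊕ Fin n) F) := by
    rw [Matrix.isUnit_iff_isUnit_det, SymplecticGroup.det_eq_one x.2]
    exact isUnit_one
  have hs : ((matType (x : Matrix (Fin n ⊕ Fin n) (Fin n ⊕ Fin n) F)).map fun a => a.2 * a.1.natDegree).sum = 2 * n := by
    rw [sum_matType]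
    simp
    ring
  rw [mem_TF]
  refine ⟨⟨fun a ha => ⟨⟨matType_adm _ a ha, (isUnit_iff_matType _).mp hU a ha⟩, ?_⟩, hs⟩, recT_matType_sp x, fun i hi => ?_⟩
  · have h4 : a.2 * a.1.natDegree ≤ ((matType (x : Matrix (Fin n ⊕ Fin n) (Fin n ⊕ Fin n) F)).map fun a => a.2 * a.1.natDegree).sum :=
      Multiset.single_le_sum (fun _ _ => Nat.zero_le _) _ (Multiset.mem_map_of_mem _ ha)
    have h5 : 0 < a.1.natDegree := (matType_adm _ a ha).2.1.natDegree_pos
    rw [hs] at h4
    nlinarith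
  · exact ⟨parity_sp hodd x (s := 1) (by ring) i hi, parity_sp hodd x (s := -1) (by ring) i hi⟩

/-- The number of classes of the symplectic group is bounded by the weighted number of types. -/
theorem card_classes_le (hodd : Fintype.card F % 2 = 1) :
    Nat.card (ConjClasses (symplecticGroup (Fin n) F)) ≤ aa F (2 * n) n := by
  haveI : Finite (symplecticGroup (Fin n) F) := by
    haveI : Finite (Matrix (Fin n ⊕ Fin n) (Fin n ⊕ Fin n) F) := by
      unfold Matrix
      infer_instance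
    exact Finite.of_injective (fun x : symplecticGroup (Fin n) F => (x : Matrix (Fin n ⊕ Fin n) (Fin n ⊕ Fin n) F))
      Subtype.val_injective
  haveI : Fintype (ConjClasses (symplecticGroup (Fin n) F)) := Fintype.ofFinite _
  rw [Nat.card_eq_fintype_card, ← Finset.card_univ]
  let tp : ConjClasses (symplecticGroup (Fin n) F) → Multiset (F[X] × ℕ) := fun C =>
    matType ((Quotient.out C : symplecticGroup (Fin n) F) : Matrix (Fin n ⊕ Fin n) (Fin n ⊕ Fin n) F)
  rw [Finset.card_eq_sum_card_fiberwise (f := tp) (t := TF F (2 * n) (2 * n)) (fun C _ => mem_TF_sp hodd _)]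
  apply Finset.sum_le_sum
  intro τ _
  have h := card_fiber_le (n := n) hodd τ
  rw [Nat.card_eq_fintype_card, Fintype.card_subtype] at h
  exact h

end Classes

end Cfsg.Agent.Lib.ClassNum.SpCount
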