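import Mathlib
import Cfsg.Agent.Lib.ClassNum.OTop
import Cfsg.Agent.Lib.ClassNum.SpCount

/-!
# The weighted number of types of orthogonal matrices: the recursion
-/

set_option autoImplicit false
set_option linter.unusedSectionVars false
set_option linter.unusedVariables false

open Polynomial Module Matrix
open Cfsg.Agent.Lib.Linalg.RCF Cfsg.Agent.Lib.Linalg.RCFType
open Cfsg.Agent.Lib.Classical.Herm.Palin
open Cfsg.Agent.Lib.ClassNum.SpRec Cfsg.Agent.Lib.ClassNum.SpPoly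
open Cfsg.Agent.Lib.ClassNum.SpCount (PF mem_PF card_PF_le)
open Cfsg.Agent.Lib.ClassNum.OClass Cfsg.Agent.Lib.ClassNum.OTop
open Cfsg.Agent.S2478
open scoped _root_.Classical

namespace Cfsg.Agent.Lib.ClassNum.OCount

universe u

variable {F : Type u} [Field F] [Fintype F]

/-- Even multiplicities at `±1` for even block sizes. -/
def parityO (τ : Multiset (F[X] × ℕ)) : Prop :=
  ∀ i, Even i → Even (((τ.filter fun a => a.1 = X - C 1).filter fun a => a.2 = i).card) ∧
    Even (((τ.filter fun a => a.1 = X - C (-1)).filter fun a => a.2 = i).card)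

/-- The types of orthogonal matrices. -/
def TO (F : Type u) [Field F] (J m : ℕ) : Set (Multiset (F[X] × ℕ)) :=
  {τ | ((∀ a ∈ τ, (Adm a ∧ a.1 ≠ X) ∧ a.2 ≤ J) ∧ (τ.map fun a => a.2 * a.1.natDegree).sum = m) ∧
    recT τ = τ ∧ parityO τ}

theorem finite_TO (J m : ℕ) : (TO F J m).Finite := by
  have h := Cfsg.Agent.Lib.ClassNum.SLBound.hfin (F := F) J m
  have h' : Set.Finite {τ : Multiset (F[X] × ℕ) | (∀ a ∈ τ, (Adm a ∧ a.1 ≠ X) ∧ a.2 ≤ J) ∧
      (τ.map fun a => a.2 * a.1.natDegree).sum = m} := Set.finite_coe_iff.mp (by exact h)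
  exact h'.subset (fun τ hτ => hτ.1)

/-- The finite set of types. -/
noncomputable def TFO (F : Type u) [Field F] [Fintype F] (J m : ℕ) : Finset (Multiset (F[X] × ℕ)) :=
  (finite_TO J m).toFinset

theorem mem_TFO {J m : ℕ} {τ : Multiset (F[X] × ℕ)} : τ ∈ TFO F J m ↔ τ ∈ TO F J m := by
  simp [TFO]

/-- The types without odd blocks at `±1`. -/
noncomputable def TFZ (F : Type u) [Field F] [Fintype F] (J m : ℕ) : Finset (Multiset (F[X] × ℕ)) :=
  (TFO F J m).filter fun τ => dO τ = 0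

theorem mem_TFZ {J m : ℕ} {τ : Multiset (F[X] × ℕ)} : τ ∈ TFZ F J m ↔ τ ∈ TO F J m ∧ dO τ = 0 := by
  simp [TFZ, mem_TFO]

/-- The weighted number of types. -/
noncomputable def AO (F : Type u) [Field F] [Fintype F] (J m : ℕ) : ℕ := ∑ τ ∈ TFO F J m, 2 ^ dO τ

/-- The number of types without odd blocks at `±1`. -/
noncomputable def ZO (F : Type u) [Field F] [Fintype F] (J m : ℕ) : ℕ := (TFZ F J m).card

theorem filter_mem {J m : ℕ} {τ : Multiset (F[X] × ℕ)} (hτ : τ ∈ TO F (J + 1) m) :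
    (τ.filter fun a => a.2 ≠ J + 1) ∈ TO F J (m - (J + 1) * (hPart (J + 1) τ).natDegree) := by
  obtain ⟨⟨h1, h2⟩, h3, h4⟩ := hτ
  refine ⟨⟨fun a ha => ?_, ?_⟩, ?_, fun i hi => ?_⟩
  · obtain ⟨ha1, ha2⟩ := Multiset.mem_filter.mp ha
    have := h1 a ha1
    exact ⟨this.1, by have := this.2; omega⟩
  · have := sum_split (J + 1) τ (fun a ha => (h1 a ha).1.1)
    rw [h2] at this
    omega
  · conv_rhs => rw [← h3]
    unfold recT
    rw [Multiset.filter_map]
    rfl
  · by_cases hij : i = J + 1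
    · subst hij
      have e : ∀ P : F[X], (((τ.filter fun a => a.2 ≠ J + 1).filter fun a => a.1 = P).filter fun a => a.2 = J + 1) = 0 := by
        intro P
        rw [Multiset.filter_eq_nil]
        intro a ha hb
        exact (Multiset.mem_filter.mp (Multiset.mem_filter.mp ha).1).2 hb
      rw [e, e]
      simp
    · have e : ∀ P : F[X], (((τ.filter fun a => a.2 ≠ J + 1).filter fun a => a.1 = P).filter fun a => a.2 = i) =
          ((τ.filter fun a => a.1 = P).filter fun a => a.2 = i) := by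
        intro P
        rw [Multiset.filter_filter, Multiset.filter_filter, Multiset.filter_filter]
        apply Multiset.filter_congr
        intro x _
        have hb : x.2 = i → x.2 ≠ J + 1 := fun h => by rw [h]; exact hij
        tauto
      rw [e, e]
      exact h4 i hi

theorem dOdd_filter_le (P : F[X]) (j : ℕ) (τ : Multiset (F[X] × ℕ)) :
    dOdd (τ.filter fun a => a.1 = P) ≤ dOdd ((τ.filter fun a => a.2 ≠ j).filter fun a => a.1 = P) +
      (if Odd j ∧ P ∣ hPart j τ then 1 else 0) := by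
  unfold dOdd
  have hsub : ((τ.filter fun a => a.1 = P).map Prod.snd).toFinset.filter Odd ⊆
      (((τ.filter fun a => a.2 ≠ j).filter fun a => a.1 = P).map Prod.snd).toFinset.filter Odd ∪
        (if Odd j ∧ P ∣ hPart j τ then {j} else ∅) := by
    intro x hx
    obtain ⟨hx1, hx2⟩ := Finset.mem_filter.mp hx
    simp only [Multiset.mem_toFinset, Multiset.mem_map] at hx1
    obtain ⟨a, ha, rfl⟩ := hx1
    obtain ⟨ha1, ha2⟩ := Multiset.mem_filter.mp ha
    by_cases hj : a.2 = j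
    · apply Finset.mem_union_right
      have hd : P ∣ hPart j τ := by
        apply Multiset.dvd_prod
        exact Multiset.mem_map.mpr ⟨a, Multiset.mem_filter.mpr ⟨ha1, hj⟩, ha2⟩
      rw [if_pos ⟨hj ▸ hx2, hd⟩]
      simp [hj]
    · apply Finset.mem_union_left
      refine Finset.mem_filter.mpr ⟨?_, hx2⟩
      simp only [Multiset.mem_toFinset, Multiset.mem_map]
      exact ⟨a, Multiset.mem_filter.mpr ⟨Multiset.mem_filter.mpr ⟨ha1, hj⟩, ha2⟩, rfl⟩
  refine (Finset.card_le_card hsub).trans ((Finset.card_union_le _ _).trans ?_)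
  apply Nat.add_le_add_left
  split_ifs <;> simp

theorem dO_le_odd {j : ℕ} (hj : Odd j) (τ : Multiset (F[X] × ℕ)) :
    dO τ ≤ wt (hPart j τ) + dO (τ.filter fun a => a.2 ≠ j) := by
  have h1 := dOdd_filter_le (X - C 1) j τ
  have h2 := dOdd_filter_le (X - C (-1)) j τ
  unfold dO wt
  simp only [hj, true_and] at h1 h2
  omega

theorem dO_le_even {j : ℕ} (hj : Even j) (τ : Multiset (F[X] × ℕ)) :
    dO τ ≤ dO (τ.filter fun a => a.2 ≠ j) := by
  have hj' : ¬ Odd j := Nat.not_odd_iff_even.mpr hj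
  have h1 := dOdd_filter_le (X - C 1) j τ
  have h2 := dOdd_filter_le (X - C (-1)) j τ
  unfold dO
  simp only [hj', false_and, if_false] at h1 h2
  omega

/-- Removing blocks does not increase the exponent. -/
theorem dO_filter_le (j : ℕ) (τ : Multiset (F[X] × ℕ)) : dO (τ.filter fun a => a.2 ≠ j) ≤ dO τ := by
  have hle : ∀ P : F[X], dOdd ((τ.filter fun a => a.2 ≠ j).filter fun a => a.1 = P) ≤ dOdd (τ.filter fun a => a.1 = P) := by
    intro P
    unfold dOdd
    apply Finset.card_le_card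
    apply Finset.filter_subset_filter
    intro x hx
    simp only [Multiset.mem_toFinset, Multiset.mem_map] at hx ⊢
    obtain ⟨a, ha, rfl⟩ := hx
    obtain ⟨h1, h2⟩ := Multiset.mem_filter.mp ha
    exact ⟨a, Multiset.mem_filter.mpr ⟨(Multiset.mem_filter.mp h1).1, h2⟩, rfl⟩
  unfold dO
  have h1 := hle (X - C 1)
  have h2 := hle (X - C (-1))
  omega

section Step

/-- The general recursion step. -/
theorem step_general (𝒯 : ℕ → ℕ → Finset (Multiset (F[X] × ℕ))) (wg : Multiset (F[X] × ℕ) → ℕ)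
    (hadm : ∀ J m, ∀ τ ∈ 𝒯 J m, ∀ a ∈ τ, Adm a) (J m M : ℕ) (G : ℕ → Finset F[X]) (δ : ℕ → ℕ) (w : F[X] → ℕ)
    (h : ∀ τ ∈ 𝒯 (J + 1) m, ∃ k < M, hPart (J + 1) τ ∈ G k ∧ (hPart (J + 1) τ).natDegree = δ k ∧
      (τ.filter fun a => a.2 ≠ J + 1) ∈ 𝒯 J (m - (J + 1) * δ k) ∧
      wg τ ≤ w (hPart (J + 1) τ) * wg (τ.filter fun a => a.2 ≠ J + 1)) :
    ∑ τ ∈ 𝒯 (J + 1) m, wg τ ≤ ∑ k ∈ Finset.range M, (∑ f ∈ G k, w f) * ∑ τ ∈ 𝒯 J (m - (J + 1) * δ k), wg τ := by
  choose! k hk hG hδ hmem hdd using h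
  let T : Finset (Σ _ : ℕ, F[X] × Multiset (F[X] × ℕ)) :=
    (Finset.range M).sigma (fun k => G k ×ˢ 𝒯 J (m - (J + 1) * δ k))
  let φ : Multiset (F[X] × ℕ) → (Σ _ : ℕ, F[X] × Multiset (F[X] × ℕ)) := fun τ =>
    ⟨k τ, (hPart (J + 1) τ, τ.filter fun a => a.2 ≠ J + 1)⟩
  let g : (Σ _ : ℕ, F[X] × Multiset (F[X] × ℕ)) → ℕ := fun x => w x.2.1 * wg x.2.2
  have hinj : Set.InjOn φ (𝒯 (J + 1) m : Set (Multiset (F[X] × ℕ))) := by
    intro τ hτ τ' hτ' heq
    have hτ₁ := hadm _ _ τ (Finset.mem_coe.mp hτ)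
    have hτ₂ := hadm _ _ τ' (Finset.mem_coe.mp hτ')
    have h1 : hPart (J + 1) τ = hPart (J + 1) τ' := congrArg (fun x => x.2.1) heq
    have h2 : (τ.filter fun a => a.2 ≠ J + 1) = τ'.filter fun a => a.2 ≠ J + 1 := congrArg (fun x => x.2.2) heq
    rw [← Multiset.filter_add_not (fun a : F[X] × ℕ => a.2 = J + 1) τ,
      ← Multiset.filter_add_not (fun a : F[X] × ℕ => a.2 = J + 1) τ', h2,
      filter_eq_of_hPart (J + 1) τ hτ₁,
      filter_eq_of_hPart (J + 1) τ' hτ₂, h1]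
  have hmaps : ∀ τ ∈ 𝒯 (J + 1) m, φ τ ∈ T := by
    intro τ hτ
    exact Finset.mem_sigma.mpr ⟨Finset.mem_range.mpr (hk τ hτ), Finset.mem_product.mpr ⟨hG τ hτ, hmem τ hτ⟩⟩
  calc ∑ τ ∈ 𝒯 (J + 1) m, wg τ ≤ ∑ τ ∈ 𝒯 (J + 1) m, g (φ τ) := Finset.sum_le_sum (fun τ hτ => hdd τ hτ)
    _ = ∑ x ∈ (𝒯 (J + 1) m).image φ, g x := (Finset.sum_image hinj).symm
    _ ≤ ∑ x ∈ T, g x := by
        apply Finset.sum_le_sum_of_subset
        intro x hx
        obtain ⟨τ, hτ, rfl⟩ := Finset.mem_image.mp hx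
        exact hmaps τ hτ
    _ = ∑ k ∈ Finset.range M, (∑ f ∈ G k, w f) * ∑ τ ∈ 𝒯 J (m - (J + 1) * δ k), wg τ := by
        rw [Finset.sum_sigma]
        apply Finset.sum_congr rfl
        intro k _
        rw [Finset.sum_product, Finset.sum_mul]
        apply Finset.sum_congr rfl
        intro f _
        rw [Finset.mul_sum]

theorem natDegree_le {J m : ℕ} {τ : Multiset (F[X] × ℕ)} (hτ : τ ∈ TO F (J + 1) m) :
    (hPart (J + 1) τ).natDegree ≤ m / (J + 1) := by
  obtain ⟨⟨h1, h2⟩, -⟩ := hτ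
  have := sum_split (J + 1) τ (fun a ha => (h1 a ha).1.1)
  rw [h2] at this
  rw [Nat.le_div_iff_mul_le (Nat.succ_pos J), mul_comm]
  change (J + 1) * _ ≤ m
  omega

theorem adm_TFO (J m : ℕ) : ∀ τ ∈ TFO F J m, ∀ a ∈ τ, Adm a := fun τ hτ a ha =>
  ((mem_TFO.mp hτ).1.1 a ha).1.1

theorem adm_TFZ (J m : ℕ) : ∀ τ ∈ TFZ F J m, ∀ a ∈ τ, Adm a := fun τ hτ a ha =>
  ((mem_TFZ.mp hτ).1.1.1 a ha).1.1

/-- The recursion for odd block sizes. -/
theorem step_odd (J m : ℕ) (hJ : Odd (J + 1)) :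
    AO F (J + 1) m ≤ ∑ D ∈ Finset.range (m / (J + 1) + 1), (∑ f ∈ RF F D, 2 ^ wt f) * AO F J (m - (J + 1) * D) := by
  apply step_general (TFO F) (fun τ => 2 ^ dO τ) adm_TFO J m _ (RF F) (fun D => D) (fun f => 2 ^ wt f)
  intro τ hτ
  have hτ' := mem_TFO.mp hτ
  obtain ⟨⟨h1, h2⟩, h3, h4⟩ := hτ'
  refine ⟨(hPart (J + 1) τ).natDegree, Nat.lt_succ_of_le (natDegree_le (mem_TFO.mp hτ)), ?_, rfl, ?_, ?_⟩
  · rw [mem_RF]
    exact ⟨hPart_monic _ _ (fun a ha => (h1 a ha).1.1), rfl, hPart_coeff _ _ (fun a ha => (h1 a ha).1),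
      recP_hPart h3 _⟩
  · rw [mem_TFO]
    exact filter_mem (mem_TFO.mp hτ)
  · beta_reduce
    rw [← pow_add]
    exact Nat.pow_le_pow_right (by norm_num) (dO_le_odd hJ τ)

/-- The recursion for even block sizes. -/
theorem step_even (h2' : (2 : F) ≠ 0) (J m : ℕ) (hJ : Even (J + 1)) :
    AO F (J + 1) m ≤ ∑ d ∈ Finset.range (m / (2 * (J + 1)) + 1), (PF F d).card * AO F J (m - (J + 1) * (2 * d)) := by
  have h0 := step_general (F := F) (TFO F) (fun τ => 2 ^ dO τ) adm_TFO J m (m / (2 * (J + 1)) + 1) (PF F) (fun d => 2 * d) (fun f => 1) (by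
    intro τ hτ
    have hτ' := mem_TFO.mp hτ
    obtain ⟨⟨h1, h2⟩, h3, h4⟩ := hτ'
    obtain ⟨h5, h6⟩ := h4 (J + 1) hJ
    obtain ⟨d, hd, hP⟩ := pal_of_parity h2' (fun a ha => (h1 a ha).1) (recP_hPart h3 _) h5 h6
    have hle := natDegree_le (mem_TFO.mp hτ)
    refine ⟨d, ?_, mem_PF.mpr hP, hd, ?_, ?_⟩
    · rw [hd, Nat.le_div_iff_mul_le (Nat.succ_pos J)] at hle
      rw [Nat.lt_succ_iff, Nat.le_div_iff_mul_le (by positivity)]
      calc d * (2 * (J + 1)) = 2 * d * (J + 1) := by ring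
        _ ≤ m := hle
    · rw [mem_TFO, ← hd]
      exact filter_mem (mem_TFO.mp hτ)
    · beta_reduce
      rw [one_mul]
      exact Nat.pow_le_pow_right (by norm_num) (dO_le_even hJ τ))
  refine h0.trans (le_of_eq ?_)
  apply Finset.sum_congr rfl
  intro d _
  simp only [Finset.sum_const, smul_eq_mul, mul_one]
  rfl

/-- For a type without odd blocks at `±1` all multiplicities are even. -/
theorem even_count_of_dO {τ : Multiset (F[X] × ℕ)} (hp : parityO τ) (hd : dO τ = 0) {s : F}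
    (hs : s = 1 ∨ s = -1) (i : ℕ) : Even (((τ.filter fun a => a.1 = X - C s).filter fun a => a.2 = i).card) := by
  rcases Nat.even_or_odd i with hi | hi
  · rcases hs with rfl | rfl
    · exact (hp i hi).1
    · exact (hp i hi).2
  · have h0 : ((τ.filter fun a => a.1 = X - C s).filter fun a => a.2 = i) = 0 := by
      rw [Multiset.filter_eq_nil]
      intro a ha hai
      have hz : dOdd (τ.filter fun a => a.1 = X - C s) = 0 := by
        unfold dO at hd
        rcases hs with rfl | rfl <;> omega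
      unfold dOdd at hz
      rw [Finset.card_eq_zero] at hz
      have hmem : i ∈ ((τ.filter fun a => a.1 = X - C s).map Prod.snd).toFinset.filter Odd := by
        refine Finset.mem_filter.mpr ⟨?_, hi⟩
        simp only [Multiset.mem_toFinset, Multiset.mem_map]
        exact ⟨a, ha, hai⟩
      rw [hz] at hmem
      simp at hmem
    rw [h0]
    simp

/-- The recursion for the number of types without odd blocks at `±1`. -/
theorem step_Z (h2' : (2 : F) ≠ 0) (J m : ℕ) :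
    ZO F (J + 1) m ≤ ∑ d ∈ Finset.range (m / (2 * (J + 1)) + 1), (PF F d).card * ZO F J (m - (J + 1) * (2 * d)) := by
  have h0 := step_general (F := F) (TFZ F) (fun τ => 1) adm_TFZ J m (m / (2 * (J + 1)) + 1) (PF F) (fun d => 2 * d) (fun f => 1) (by
    intro τ hτ
    obtain ⟨hτ', hdO⟩ := mem_TFZ.mp hτ
    obtain ⟨⟨h1, h2⟩, h3, h4⟩ := id hτ'
    obtain ⟨d, hd, hP⟩ := pal_of_parity h2' (fun a ha => (h1 a ha).1) (recP_hPart h3 _)
      (even_count_of_dO h4 hdO (Or.inl rfl) (J + 1)) (even_count_of_dO h4 hdO (Or.inr rfl) (J + 1))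
    have hle := natDegree_le hτ'
    refine ⟨d, ?_, mem_PF.mpr hP, hd, ?_, le_rfl⟩
    · rw [hd, Nat.le_div_iff_mul_le (Nat.succ_pos J)] at hle
      rw [Nat.lt_succ_iff, Nat.le_div_iff_mul_le (by positivity)]
      calc d * (2 * (J + 1)) = 2 * d * (J + 1) := by ring
        _ ≤ m := hle
    · rw [mem_TFZ, ← hd]
      refine ⟨filter_mem hτ', ?_⟩
      have := dO_filter_le (J + 1) τ
      omega)
  have e : ∀ J m, ∑ τ ∈ TFZ F J m, (fun _ => 1) τ = ZO F J m := by
    intro J m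
    simp [ZO]
  simp only [e] at h0
  refine h0.trans (le_of_eq ?_)
  apply Finset.sum_congr rfl
  intro d _
  simp

theorem TO_zero_zero {τ : Multiset (F[X] × ℕ)} {m : ℕ} (hτ : τ ∈ TO F 0 m) : τ = 0 := by
  obtain ⟨⟨h1, -⟩, -⟩ := hτ
  apply Multiset.eq_zero_of_forall_notMem
  intro a ha
  have h3 := (h1 a ha).1.1.2.2
  have h4 := (h1 a ha).2
  omega

theorem dO_zero : dO (0 : Multiset (F[X] × ℕ)) = 0 := by
  simp [dO, dOdd]

theorem AO_zero_zero : AO F 0 0 ≤ 1 := by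
  have h : TFO F 0 0 ⊆ {0} := by
    intro τ hτ
    simp [TO_zero_zero (mem_TFO.mp hτ)]
  calc AO F 0 0 ≤ ∑ τ ∈ ({0} : Finset (Multiset (F[X] × ℕ))), 2 ^ dO τ :=
        Finset.sum_le_sum_of_subset h
    _ = 1 := by simp [dO_zero]

theorem AO_zero_pos {m : ℕ} (hm : 1 ≤ m) : AO F 0 m = 0 := by
  have h : TFO F 0 m = ∅ := by
    rw [Finset.eq_empty_iff_forall_notMem]
    intro τ hτ
    have h0 := TO_zero_zero (mem_TFO.mp hτ)
    have h1 := (mem_TFO.mp hτ).1.2
    subst h0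
    simp at h1
    omega
  simp [AO, h]

theorem ZO_zero_zero : ZO F 0 0 ≤ 1 := by
  have h : TFZ F 0 0 ⊆ {0} := by
    intro τ hτ
    simp [TO_zero_zero (mem_TFZ.mp hτ).1]
  exact (Finset.card_le_card h).trans (by simp)

theorem ZO_zero_pos {m : ℕ} (hm : 1 ≤ m) : ZO F 0 m = 0 := by
  have h : TFZ F 0 m = ∅ := by
    rw [Finset.eq_empty_iff_forall_notMem]
    intro τ hτ
    have h0 := TO_zero_zero (mem_TFZ.mp hτ).1
    have h1 := (mem_TFZ.mp hτ).1.1.2
    subst h0
    simp at h1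
    omega
  simp [ZO, h]

end Step

section Classes

variable {ι : Type} [Fintype ι] [DecidableEq ι] {Q : (ι → F) → F} {B : LinearMap.BilinForm F (ι → F)}

theorem recT_matType_o (hP : Polar Q B) (x : Cfsg.isometryGroup F Q) :
    recT (matType ((x : GL ι F) : Matrix ι ι F)) = matType ((x : GL ι F) : Matrix ι ι F) := by
  set A : Matrix ι ι F := ((x : GL ι F) : Matrix ι ι F) with hA
  let G : Matrix ι ι F := LinearMap.BilinForm.toMatrix' B
  have hcomp : B.comp (Matrix.toLin' A) (Matrix.toLin' A) = B := by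
    ext u v
    exact (oTri hP x).isom _ _
  have h1 : Aᵀ * G * A = G := by
    have := LinearMap.BilinForm.toMatrix'_comp B (Matrix.toLin' A) (Matrix.toLin' A)
    rw [hcomp, LinearMap.toMatrix'_toLin'] at this
    exact this.symm
  have hdet : G.det ≠ 0 := by
    have h3 := Cfsg.Agent.Lib.ClassNum.ODisc.det_gram_ne_zero B (Pi.basisFun F ι) hP.symm hP.nd
    have e : Cfsg.Agent.Lib.ClassNum.ODisc.gram B (Pi.basisFun F ι) = G := by
      ext i j
      simp [Cfsg.Agent.Lib.ClassNum.ODisc.gram_apply, G, LinearMap.BilinForm.toMatrix'_apply]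
    rwa [e] at h3
  have hGu : IsUnit G.det := isUnit_iff_ne_zero.mpr hdet
  have hG1 : G⁻¹ * G = 1 := Matrix.nonsing_inv_mul G hGu
  have hG2 : G * G⁻¹ = 1 := Matrix.mul_nonsing_inv G hGu
  have h2 : (G⁻¹ * Aᵀ * G) * A = 1 := by
    rw [Matrix.mul_assoc G⁻¹ Aᵀ G, Matrix.mul_assoc G⁻¹, h1, hG1]
  have h3 : A * (G⁻¹ * Aᵀ * G) = 1 := mul_eq_one_comm.mp h2
  rw [← matType_inv h3 h2, matType_conj _ _ _ hG1 hG2, matType_transpose]

theorem mem_TFO_o (hodd : Fintype.card F % 2 = 1) (hP : Polar Q B) (x : Cfsg.isometryGroup F Q) {N : ℕ}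
    (hN : Fintype.card ι = N) : matType ((x : GL ι F) : Matrix ι ι F) ∈ TFO F N N := by
  have hU : IsUnit ((x : GL ι F) : Matrix ι ι F) := (x : GL ι F).isUnit
  have hs : ((matType ((x : GL ι F) : Matrix ι ι F)).map fun a => a.2 * a.1.natDegree).sum = N := by
    rw [sum_matType, hN]
  rw [mem_TFO]
  refine ⟨⟨fun a ha => ⟨⟨matType_adm _ a ha, (isUnit_iff_matType _).mp hU a ha⟩, ?_⟩, hs⟩, recT_matType_o hP x, fun i hi => ?_⟩
  · have h4 : a.2 * a.1.natDegree ≤ ((matType ((x : GL ι F) : Matrix ι ι F)).map fun a => a.2 * a.1.natDegree).sum :=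
      Multiset.single_le_sum (fun _ _ => Nat.zero_le _) _ (Multiset.mem_map_of_mem _ ha)
    have h5 : 0 < a.1.natDegree := (matType_adm _ a ha).2.1.natDegree_pos
    rw [hs] at h4
    nlinarith
  · exact ⟨parity_o hodd hP x (s := 1) (by ring) i hi, parity_o hodd hP x (s := -1) (by ring) i hi⟩

/-- The number of classes of the isometry group is bounded by the weighted number of types. -/
theorem card_classes_le (hodd : Fintype.card F % 2 = 1) (hP : Polar Q B) {N : ℕ} (hN : Fintype.card ι = N) :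
    2 * Nat.card (ConjClasses (Cfsg.isometryGroup F Q)) ≤ AO F N N + ZO F N N := by
  haveI : Finite (Cfsg.isometryGroup F Q) := by
    haveI : Finite (Matrix ι ι F) := by
      unfold Matrix
      infer_instance
    haveI : Finite (GL ι F) := Finite.of_injective (fun x : GL ι F => (x : Matrix ι ι F)) Units.val_injective
    infer_instance
  haveI : Fintype (ConjClasses (Cfsg.isometryGroup F Q)) := Fintype.ofFinite _
  rw [Nat.card_eq_fintype_card, ← Finset.card_univ]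
  let tp : ConjClasses (Cfsg.isometryGroup F Q) → Multiset (F[X] × ℕ) := fun E =>
    matType (((Quotient.out E : Cfsg.isometryGroup F Q) : GL ι F) : Matrix ι ι F)
  rw [Finset.card_eq_sum_card_fiberwise (f := tp) (t := TFO F N N) (fun E _ => mem_TFO_o hodd hP _ hN), Finset.mul_sum]
  have hZ : ZO F N N = ∑ τ ∈ TFO F N N, if dO τ = 0 then 1 else 0 := by
    unfold ZO TFZ
    rw [Finset.card_filter]
  rw [hZ, AO, ← Finset.sum_add_distrib]
  apply Finset.sum_le_sum
  intro τ _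
  have h := card_fiber_le hodd hP τ
  rw [Nat.card_eq_fintype_card, Fintype.card_subtype] at h
  refine (Nat.mul_le_mul_left 2 h).trans ?_
  by_cases hd : dO τ = 0
  · rw [hd, if_pos rfl]
    simp
  · rw [if_neg hd]
    obtain ⟨k, hk⟩ : ∃ k, dO τ = k + 1 := ⟨dO τ - 1, by omega⟩
    rw [hk, Nat.add_sub_cancel, pow_succ]
    omega

end Classes

end Cfsg.Agent.Lib.ClassNum.OCount
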