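import Mathlib
import Cfsg.Agent.Lib.ClassNum.SpCount

/-!
# The recursion for the weighted number of types of symplectic matrices, in numbers
-/

set_option autoImplicit false
set_option linter.unusedSectionVars false
set_option linter.unusedSimpArgs false
set_option linter.unusedVariables false

open Cfsg.Agent.Lib.ClassNum.SpPoly Cfsg.Agent.Lib.ClassNum.SpCount

namespace Cfsg.Agent.Lib.ClassNum.SpNum

theorem geom_le {r : ℚ} (h0 : 0 ≤ r) (h1 : r < 1) (N : ℕ) : ∑ d ∈ Finset.range N, r ^ d ≤ 1 / (1 - r) := by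
  have h2 : (1 - r) * ∑ d ∈ Finset.range N, r ^ d = 1 - r ^ N := by
    induction N with
    | zero => simp
    | succ N ih =>
      rw [Finset.sum_range_succ, mul_add, ih]
      ring
  rw [le_div_iff₀ (by linarith), mul_comm, h2]
  have : 0 ≤ r ^ N := pow_nonneg h0 _
  linarith

/-- One odd step. -/
theorem odd_step {q j : ℕ} (hq : 3 ≤ q) (hj : 1 ≤ j) (a a' : ℕ → ℕ)
    (hrec : ∀ n, a' n ≤ ∑ d ∈ Finset.range (n / (j + 1) + 1), q ^ d * a (n - (j + 1) * d))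
    {C : ℚ} (hC : 0 ≤ C) (ha : ∀ n, (a n : ℚ) ≤ C * (q : ℚ) ^ n) (n : ℕ) :
    (a' n : ℚ) ≤ C / (1 - 1 / (q : ℚ) ^ j) * (q : ℚ) ^ n := by
  have hQ : (3 : ℚ) ≤ (q : ℚ) := by exact_mod_cast hq
  generalize hQdef : (q : ℚ) = Q at *
  have hQ0 : 0 < Q := by linarith
  have hx : 3 ≤ Q ^ j := by
    calc (3 : ℚ) ≤ Q := hQ
      _ = Q ^ 1 := (pow_one Q).symm
      _ ≤ Q ^ j := pow_le_pow_right₀ (by linarith) hj
  have hx0 : 0 < Q ^ j := by linarith
  set y : ℚ := 1 / Q ^ j with hy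
  have hy0 : 0 ≤ y := by positivity
  have hy1 : y < 1 := by
    rw [hy, div_lt_one hx0]
    linarith
  have h1 : (a' n : ℚ) ≤ ∑ d ∈ Finset.range (n / (j + 1) + 1), Q ^ d * (a (n - (j + 1) * d) : ℚ) := by
    have := hrec n
    rw [← hQdef]
    exact_mod_cast this
  have hterm : ∀ d ∈ Finset.range (n / (j + 1) + 1), Q ^ d * (a (n - (j + 1) * d) : ℚ) ≤ C * Q ^ n * y ^ d := by
    intro d hd
    have hd' : (j + 1) * d ≤ n := by
      have := Nat.lt_succ_iff.mp (Finset.mem_range.mp hd)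
      calc (j + 1) * d ≤ (j + 1) * (n / (j + 1)) := Nat.mul_le_mul_left _ this
        _ ≤ n := Nat.mul_div_le n (j + 1)
    have h3 := ha (n - (j + 1) * d)
    have h4 : Q ^ n = Q ^ (n - (j + 1) * d) * Q ^ ((j + 1) * d) := by
      rw [← pow_add]
      congr 1
      omega
    have h5 : Q ^ d * (Q ^ (n - (j + 1) * d)) = Q ^ n * y ^ d := by
      rw [h4, hy, div_pow, one_pow, ← pow_mul, add_mul, one_mul, pow_add]
      field_simp
    calc Q ^ d * (a (n - (j + 1) * d) : ℚ) ≤ Q ^ d * (C * Q ^ (n - (j + 1) * d)) :=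
          mul_le_mul_of_nonneg_left h3 (by positivity)
      _ = C * (Q ^ d * Q ^ (n - (j + 1) * d)) := by ring
      _ = C * Q ^ n * y ^ d := by rw [h5]; ring
  refine h1.trans ((Finset.sum_le_sum hterm).trans ?_)
  rw [← Finset.mul_sum]
  have h6 := geom_le hy0 hy1 (n / (j + 1) + 1)
  calc C * Q ^ n * ∑ d ∈ Finset.range (n / (j + 1) + 1), y ^ d ≤ C * Q ^ n * (1 / (1 - y)) :=
        mul_le_mul_of_nonneg_left h6 (by positivity)
    _ = C / (1 - y) * Q ^ n := by ring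

theorem sum_le_pairs {w : ℕ → ℚ} (h : ∀ D, 0 ≤ w D) (N : ℕ) :
    ∑ D ∈ Finset.range N, w D ≤ ∑ d ∈ Finset.range N, (w (2 * d) + w (2 * d + 1)) := by
  have h1 : ∀ M, ∑ D ∈ Finset.range (2 * M), w D = ∑ d ∈ Finset.range M, (w (2 * d) + w (2 * d + 1)) := by
    intro M
    induction M with
    | zero => simp
    | succ M ih =>
      rw [show 2 * (M + 1) = 2 * M + 1 + 1 by ring, Finset.sum_range_succ, Finset.sum_range_succ, ih,
        Finset.sum_range_succ, add_assoc]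
  rw [← h1]
  exact Finset.sum_le_sum_of_subset_of_nonneg
    (by intro x hx; rw [Finset.mem_range] at hx ⊢; omega) (fun x _ _ => h x)

/-- One even step. -/
theorem even_step {q i : ℕ} (hq : 3 ≤ q) (hi : 1 ≤ i) (a a' W : ℕ → ℕ)
    (hW0 : ∀ d, W (2 * d) ≤ q ^ d + 6 * cc q d 1 + cc q d 2) (hW1 : ∀ d, W (2 * d + 1) ≤ 4 * q ^ d + 4 * cc q d 1)
    (hrec : ∀ n, a' n ≤ ∑ D ∈ Finset.range (n / i + 1), W D * a (n - i * D))
    {C : ℚ} (hC : 0 ≤ C) (ha : ∀ n, (a n : ℚ) ≤ C * (q : ℚ) ^ n) (n : ℕ) :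
    (a' n : ℚ) ≤ C * ((1 + 1 / (q : ℚ) ^ i) ^ 4 / (1 - (q : ℚ) * (1 / (q : ℚ) ^ i) ^ 2)) * (q : ℚ) ^ n := by
  have hQ : (3 : ℚ) ≤ (q : ℚ) := by exact_mod_cast hq
  have hcc : ∀ d s, ((cc q d s : ℕ) : ℚ) = if s ≤ d then (q : ℚ) ^ (d - s) else 0 := by
    intro d s
    unfold cc
    split_ifs <;> simp
  have hW0' : ∀ d, (W (2 * d) : ℚ) ≤ (q : ℚ) ^ d + 6 * (if 1 ≤ d then (q : ℚ) ^ (d - 1) else 0) +
      (if 2 ≤ d then (q : ℚ) ^ (d - 2) else 0) := by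
    intro d
    rw [← hcc, ← hcc]
    exact_mod_cast hW0 d
  have hW1' : ∀ d, (W (2 * d + 1) : ℚ) ≤ 4 * (q : ℚ) ^ d + 4 * (if 1 ≤ d then (q : ℚ) ^ (d - 1) else 0) := by
    intro d
    rw [← hcc]
    exact_mod_cast hW1 d
  have h1 : (a' n : ℚ) ≤ ∑ D ∈ Finset.range (n / i + 1), (W D : ℚ) * (a (n - i * D) : ℚ) := by
    exact_mod_cast hrec n
  generalize hQdef : (q : ℚ) = Q at *
  have hQ0 : 0 < Q := by linarith
  have hx : Q ≤ Q ^ i := by
    calc Q = Q ^ 1 := (pow_one Q).symm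
      _ ≤ Q ^ i := pow_le_pow_right₀ (by linarith) hi
  have hx0 : 0 < Q ^ i := by linarith
  set y : ℚ := 1 / Q ^ i with hy
  have hy0 : 0 ≤ y := by positivity
  have hyQ : y * Q ≤ 1 := by
    rw [hy, div_mul_eq_mul_div, one_mul, div_le_one hx0]
    exact hx
  set r : ℚ := Q * y ^ 2 with hr
  have hr0 : 0 ≤ r := by positivity
  have hy13 : y ≤ 1 / 3 := by
    have : y * Q ≤ 1 := hyQ
    rw [le_div_iff₀ (by norm_num)]
    nlinarith
  have hr1 : r < 1 := by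
    have : r = (y * Q) * y := by rw [hr]; ring
    rw [this]
    nlinarith
  have hterm : ∀ D ∈ Finset.range (n / i + 1), (W D : ℚ) * (a (n - i * D) : ℚ) ≤ C * Q ^ n * ((W D : ℚ) * y ^ D) := by
    intro D hD
    have hd' : i * D ≤ n := by
      have := Nat.lt_succ_iff.mp (Finset.mem_range.mp hD)
      calc i * D ≤ i * (n / i) := Nat.mul_le_mul_left _ this
        _ ≤ n := Nat.mul_div_le n i
    have h3 := ha (n - i * D)
    have h4 : Q ^ n = Q ^ (n - i * D) * Q ^ (i * D) := by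
      rw [← pow_add]
      congr 1
      omega
    have h5 : Q ^ (n - i * D) = Q ^ n * y ^ D := by
      rw [h4, hy, div_pow, one_pow, ← pow_mul]
      field_simp
    calc (W D : ℚ) * (a (n - i * D) : ℚ) ≤ (W D : ℚ) * (C * Q ^ (n - i * D)) :=
          mul_le_mul_of_nonneg_left h3 (by positivity)
      _ = C * Q ^ n * ((W D : ℚ) * y ^ D) := by rw [h5]; ring
  refine h1.trans ((Finset.sum_le_sum hterm).trans ?_)
  rw [← Finset.mul_sum]
  have hsum : ∑ D ∈ Finset.range (n / i + 1), (W D : ℚ) * y ^ D ≤ (1 + y) ^ 4 / (1 - r) := by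
    refine (sum_le_pairs (fun D => by positivity) _).trans ?_
    let e₀ : ℕ → ℚ := fun d => r ^ d
    let e₁ : ℕ → ℚ := fun d => if 1 ≤ d then r ^ (d - 1) else 0
    let e₂ : ℕ → ℚ := fun d => if 2 ≤ d then r ^ (d - 2) else 0
    have hpt : ∀ d ∈ Finset.range (n / i + 1), (W (2 * d) : ℚ) * y ^ (2 * d) + (W (2 * d + 1) : ℚ) * y ^ (2 * d + 1) ≤
        (1 + 4 * y) * e₀ d + (6 * y ^ 2 + 4 * y ^ 3) * e₁ d + y ^ 4 * e₂ d := by
      intro d _
      have hA : Q ^ d * y ^ (2 * d) = e₀ d := by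
        show _ = r ^ d
        rw [hr, mul_pow, pow_mul]
      have hB : (if 1 ≤ d then Q ^ (d - 1) else 0) * y ^ (2 * d) = y ^ 2 * e₁ d := by
        show _ = y ^ 2 * (if 1 ≤ d then r ^ (d - 1) else 0)
        split_ifs with hd
        · obtain ⟨k, rfl⟩ : ∃ k, d = k + 1 := ⟨d - 1, by omega⟩
          rw [Nat.add_sub_cancel, hr, mul_pow, ← pow_mul, mul_add, pow_add]
          ring
        · simp
      have hC' : (if 2 ≤ d then Q ^ (d - 2) else 0) * y ^ (2 * d) = y ^ 4 * e₂ d := by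
        show _ = y ^ 4 * (if 2 ≤ d then r ^ (d - 2) else 0)
        split_ifs with hd
        · obtain ⟨k, rfl⟩ : ∃ k, d = k + 2 := ⟨d - 2, by omega⟩
          rw [Nat.add_sub_cancel, hr, mul_pow, ← pow_mul, mul_add, pow_add]
          ring
        · simp
      have h3 := mul_le_mul_of_nonneg_right (hW0' d) (by positivity : 0 ≤ y ^ (2 * d))
      have h4 := mul_le_mul_of_nonneg_right (hW1' d) (by positivity : 0 ≤ y ^ (2 * d + 1))
      have h5 : y ^ (2 * d + 1) = y ^ (2 * d) * y := pow_succ _ _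
      rw [h5] at h4 ⊢
      generalize (if 1 ≤ d then Q ^ (d - 1) else 0) = E₁ at hB h3 h4
      generalize (if 2 ≤ d then Q ^ (d - 2) else 0) = E₂ at hC' h3
      generalize y ^ (2 * d) = Y at *
      have h6 : (Q ^ d + 6 * E₁ + E₂) * Y = Q ^ d * Y + 6 * (E₁ * Y) + E₂ * Y := by ring
      have h7 : (4 * Q ^ d + 4 * E₁) * (Y * y) = 4 * y * (Q ^ d * Y) + 4 * y * (E₁ * Y) := by ring
      rw [h6, hA, hB, hC'] at h3
      rw [h7, hA, hB] at h4
      have h8 : (W (2 * d + 1) : ℚ) * (Y * y) = (W (2 * d + 1) : ℚ) * (Y * y) := rfl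
      nlinarith [h3, h4]
    have hs₀ := geom_le hr0 hr1 (n / i + 1)
    have hs₁ : ∑ d ∈ Finset.range (n / i + 1), e₁ d ≤ 1 / (1 - r) := by
      rw [Finset.sum_range_succ']
      have e0 : e₁ 0 = 0 := by simp [e₁]
      have e3 : ∀ d, e₁ (d + 1) = r ^ d := fun d => by simp [e₁]
      rw [e0, add_zero]
      simp only [e3]
      exact geom_le hr0 hr1 _
    have hs₂ : ∑ d ∈ Finset.range (n / i + 1), e₂ d ≤ 1 / (1 - r) := by
      rw [Finset.sum_range_succ']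
      have e0 : e₂ 0 = 0 := by simp [e₂]
      rw [e0, add_zero]
      have hpos : 0 ≤ 1 / (1 - r) := by
        apply div_nonneg zero_le_one
        linarith
      generalize n / i = M
      cases M with
      | zero => simpa using hpos
      | succ M =>
        rw [Finset.sum_range_succ']
        have e4 : e₂ (0 + 1) = 0 := by simp [e₂]
        have e3 : ∀ d, e₂ (d + 1 + 1) = r ^ d := fun d => by simp [e₂]
        rw [e4, add_zero]
        simp only [e3]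
        exact geom_le hr0 hr1 _
    refine (Finset.sum_le_sum hpt).trans ?_
    rw [Finset.sum_add_distrib, Finset.sum_add_distrib, ← Finset.mul_sum, ← Finset.mul_sum, ← Finset.mul_sum]
    have hy4 : 0 ≤ 1 + 4 * y := by positivity
    have hy5 : 0 ≤ 6 * y ^ 2 + 4 * y ^ 3 := by positivity
    have hy6 : 0 ≤ y ^ 4 := by positivity
    have h1 := mul_le_mul_of_nonneg_left hs₀ hy4
    have h2 := mul_le_mul_of_nonneg_left hs₁ hy5
    have h3 := mul_le_mul_of_nonneg_left hs₂ hy6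
    have h4 : (1 + y) ^ 4 / (1 - r) = (1 + 4 * y) * (1 / (1 - r)) + (6 * y ^ 2 + 4 * y ^ 3) * (1 / (1 - r)) + y ^ 4 * (1 / (1 - r)) := by
      have : 1 - r ≠ 0 := by linarith
      field_simp
      ring
    rw [h4]
    exact add_le_add (add_le_add h1 h2) h3
  calc C * Q ^ n * ∑ D ∈ Finset.range (n / i + 1), (W D : ℚ) * y ^ D ≤ C * Q ^ n * ((1 + y) ^ 4 / (1 - r)) :=
        mul_le_mul_of_nonneg_left hsum (by positivity)
    _ = C * ((1 + y) ^ 4 / (1 - r)) * Q ^ n := by ring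

/-- The polynomial inequality behind the potential. -/
theorem pair_ineq {Q u : ℚ} (h : Q = 3 ∨ 5 ≤ Q) (hu : 0 ≤ u) (hu2 : Q ^ 2 * u ≤ 1) :
    (1 + u) ^ 4 * (1 - (21 / 10) * (Q * u)) ≤ (1 - (21 / 10) * u) * ((1 - (Q * u) ^ 2) * (1 - Q * u ^ 2)) := by
  have hG : 0 ≤ (21 / 10 * Q - 61 / 10) + u * (74 / 10 * Q - Q ^ 2 - 6) + u ^ 2 * (21 / 10 * Q ^ 2 + 147 / 10 * Q - 4) +
      u ^ 3 * (Q ^ 3 + 84 / 10 * Q - 1) + u ^ 4 * (-(21 / 10) * Q ^ 3 + 21 / 10 * Q) := by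
    rcases h with rfl | hQ
    · have hu3 : u ≤ 1 / 9 := by linarith
      have h3 : 0 ≤ u ^ 3 := by positivity
      have h4 : u ^ 4 ≤ u ^ 3 / 9 := by
        have : u ^ 4 = u ^ 3 * u := pow_succ _ _
        rw [this]
        nlinarith
      have h2 : 0 ≤ u ^ 2 := by positivity
      norm_num
      nlinarith
    · have hQ0 : 0 < Q := by linarith
      have hu3 : u ≤ 1 / 25 := by
        have hQ2 : 25 ≤ Q ^ 2 := by nlinarith
        have := mul_le_mul_of_nonneg_right hQ2 hu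
        linarith
      have h3 : 0 ≤ u ^ 3 := by positivity
      have h2 : 0 ≤ u ^ 2 := by positivity
      have hQ3 : 0 ≤ Q ^ 3 := by positivity
      have t1 : 0 ≤ u * (74 / 10 * Q - 6) := mul_nonneg hu (by linarith)
      have t2 : 0 ≤ u ^ 2 * (21 / 10 * Q ^ 2 + 147 / 10 * Q - 4) :=
        mul_nonneg h2 (by nlinarith)
      have t3 : 0 ≤ u ^ 3 * (84 / 10 * Q - 1) := mul_nonneg h3 (by linarith)
      have t4 : 0 ≤ u ^ 4 * (21 / 10 * Q) := by positivity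
      have t5 : 0 ≤ u ^ 3 * Q ^ 3 * (1 - 21 / 10 * u) := mul_nonneg (by positivity) (by linarith)
      have t6 : u * Q ^ 2 ≤ 1 := by linarith
      nlinarith
  have hfin : (1 - (21 / 10) * u) * ((1 - (Q * u) ^ 2) * (1 - Q * u ^ 2)) - (1 + u) ^ 4 * (1 - (21 / 10) * (Q * u)) =
      u * ((21 / 10 * Q - 61 / 10) + u * (74 / 10 * Q - Q ^ 2 - 6) + u ^ 2 * (21 / 10 * Q ^ 2 + 147 / 10 * Q - 4) +
      u ^ 3 * (Q ^ 3 + 84 / 10 * Q - 1) + u ^ 4 * (-(21 / 10) * Q ^ 3 + 21 / 10 * Q)) := by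
    ring
  have := mul_nonneg hu hG
  linarith

theorem pot_pair {Q x : ℚ} (h : Q = 3 ∨ 5 ≤ Q) (hx : Q ≤ x) :
    (1 - (21 / 10) * (1 / x)) / (1 - (1 / x) ^ 2) * ((1 + 1 / (Q * x)) ^ 4 / (1 - Q * (1 / (Q * x)) ^ 2)) ≤
      1 - (21 / 10) * (1 / (Q * x)) := by
  have hQ : 3 ≤ Q := by
    rcases h with rfl | h1
    · norm_num
    · linarith
  have hQ0 : 0 < Q := by linarith
  have hx0 : 0 < x := by linarith
  set u : ℚ := 1 / (Q * x) with hu
  have hu0 : 0 ≤ u := by positivity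
  have hz : 1 / x = Q * u := by
    rw [hu]
    field_simp
  rw [hz]
  have hu2 : Q ^ 2 * u ≤ 1 := by
    rw [hu, sq, ← mul_div_assoc, mul_one, div_le_one (by positivity)]
    nlinarith
  have hz3 : Q * u ≤ 1 / 3 := by
    rw [← hz, div_le_div_iff₀ hx0 (by norm_num)]
    linarith
  have hQu0 : 0 ≤ Q * u := by positivity
  have hu9 : u ≤ 1 / 9 := by
    have hQ2 : 9 ≤ Q ^ 2 := by nlinarith
    have := mul_le_mul_of_nonneg_right hQ2 hu0
    linarith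
  have hd1 : 0 < 1 - (Q * u) ^ 2 := by nlinarith
  have hd2 : 0 < 1 - Q * u ^ 2 := by
    have : Q * u ^ 2 = (Q * u) * u := by ring
    rw [this]
    nlinarith
  rw [div_mul_div_comm, div_le_iff₀ (mul_pos hd1 hd2), mul_comm (1 - 21 / 10 * (Q * u))]
  exact pair_ineq h hu0 hu2

section Chain

variable {q : ℕ} (hq : 3 ≤ q) (a : ℕ → ℕ → ℕ) (W : ℕ → ℕ)
  (hW0 : ∀ d, W (2 * d) ≤ q ^ d + 6 * cc q d 1 + cc q d 2) (hW1 : ∀ d, W (2 * d + 1) ≤ 4 * q ^ d + 4 * cc q d 1)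
  (hodd : ∀ J n, Odd (J + 1) → a (J + 1) n ≤ ∑ d ∈ Finset.range (n / (J + 1) + 1), q ^ d * a J (n - (J + 1) * d))
  (heven : ∀ i n J, 1 ≤ i → J + 1 = 2 * i → a (J + 1) n ≤ ∑ D ∈ Finset.range (n / i + 1), W D * a J (n - i * D))
  (h00 : a 0 0 ≤ 1) (h0n : ∀ n, 1 ≤ n → a 0 n = 0)

include hq hodd h00 h0n in
theorem a_one (n : ℕ) : (a 1 n : ℚ) ≤ 1 * (q : ℚ) ^ n := by
  have h := hodd 0 n (by simp)
  simp only [zero_add, Nat.div_one, one_mul] at h
  rw [Finset.sum_eq_single n] at h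
  · rw [Nat.sub_self] at h
    have h1 : a 1 n ≤ q ^ n := h.trans (by
      calc q ^ n * a 0 0 ≤ q ^ n * 1 := Nat.mul_le_mul_left _ h00
        _ = q ^ n := mul_one _)
    rw [one_mul]
    exact_mod_cast h1
  · intro d hd hne
    have h1 := Finset.mem_range.mp hd
    rw [h0n _ (by omega), mul_zero]
  · intro hm
    simp at hm

include hq hW0 hW1 heven in
theorem even_chain (k : ℕ) {C : ℚ} (hC : 0 ≤ C) (ha : ∀ n, (a (2 * k + 1) n : ℚ) ≤ C * (q : ℚ) ^ n) (n : ℕ) :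
    (a (2 * k + 1 + 1) n : ℚ) ≤ C * ((1 + 1 / (q : ℚ) ^ (k + 1)) ^ 4 / (1 - (q : ℚ) * (1 / (q : ℚ) ^ (k + 1)) ^ 2)) * (q : ℚ) ^ n :=
  even_step hq (by omega) (a (2 * k + 1)) (a (2 * k + 1 + 1)) W hW0 hW1
    (fun n => heven (k + 1) n (2 * k + 1) (by omega) (by ring)) hC ha n

include hq hodd in
theorem odd_chain (k : ℕ) (hk : 1 ≤ k) {C : ℚ} (hC : 0 ≤ C) (ha : ∀ n, (a (2 * k) n : ℚ) ≤ C * (q : ℚ) ^ n) (n : ℕ) :
    (a (2 * k + 1) n : ℚ) ≤ C / (1 - 1 / (q : ℚ) ^ (2 * k)) * (q : ℚ) ^ n :=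
  odd_step hq (by omega) (a (2 * k)) (a (2 * k + 1)) (fun n => hodd (2 * k) n (by simp)) hC ha n

/-- The potential. -/
def Phi (Q : ℚ) (k : ℕ) : ℚ := 54 / 5 * (1 - 21 / 10 * (1 / Q ^ k))

include hq hW0 hW1 heven hodd in
theorem pot_chain (h : (q : ℚ) = 3 ∨ 5 ≤ (q : ℚ)) {k₀ : ℕ} (hk₀ : 1 ≤ k₀)
    (hstart : ∀ n, (a (2 * k₀) n : ℚ) ≤ Phi q k₀ * (q : ℚ) ^ n) :
    ∀ k, k₀ ≤ k → ∀ n, (a (2 * k) n : ℚ) ≤ Phi q k * (q : ℚ) ^ n := by
  have hQ : (3 : ℚ) ≤ (q : ℚ) := by exact_mod_cast hq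
  intro k hk
  induction k, hk using Nat.le_induction with
  | base => exact hstart
  | succ k hk ih =>
    intro n
    have hk1 : 1 ≤ k := by omega
    have hx : (q : ℚ) ≤ (q : ℚ) ^ k := by
      calc (q : ℚ) = (q : ℚ) ^ 1 := (pow_one _).symm
        _ ≤ (q : ℚ) ^ k := pow_le_pow_right₀ (by linarith) hk1
    have hx3 : (3 : ℚ) ≤ (q : ℚ) ^ k := by linarith
    have hPhi : 0 ≤ Phi q k := by
      unfold Phi
      have h1 : 1 / (q : ℚ) ^ k ≤ 1 / 3 := by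
        rw [div_le_div_iff₀ (by linarith) (by norm_num)]
        linarith
      nlinarith
    have hz : 1 / (q : ℚ) ^ (2 * k) = (1 / (q : ℚ) ^ k) ^ 2 := by
      rw [div_pow, one_pow, ← pow_mul, mul_comm]
    have hd : 0 < 1 - 1 / (q : ℚ) ^ (2 * k) := by
      rw [hz]
      have h1 : 1 / (q : ℚ) ^ k ≤ 1 / 3 := by
        rw [div_le_div_iff₀ (by linarith) (by norm_num)]
        linarith
      have h2 : 0 ≤ 1 / (q : ℚ) ^ k := by positivity
      nlinarith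
    have h1 := odd_chain hq a hodd k hk1 hPhi ih
    have h2 := even_chain hq a W hW0 hW1 heven k (div_nonneg hPhi hd.le) h1 n
    have e1 : 2 * k + 1 + 1 = 2 * (k + 1) := by ring
    rw [e1] at h2
    refine h2.trans (mul_le_mul_of_nonneg_right ?_ (by positivity))
    have hp := pot_pair h hx
    have e2 : (q : ℚ) ^ (k + 1) = (q : ℚ) * (q : ℚ) ^ k := pow_succ' _ _
    rw [hz, e2]
    unfold Phi
    rw [e2]
    have e3 : 54 / 5 * (1 - 21 / 10 * (1 / (q : ℚ) ^ k)) / (1 - (1 / (q : ℚ) ^ k) ^ 2) *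
        ((1 + 1 / ((q : ℚ) * (q : ℚ) ^ k)) ^ 4 / (1 - (q : ℚ) * (1 / ((q : ℚ) * (q : ℚ) ^ k)) ^ 2)) =
        54 / 5 * ((1 - 21 / 10 * (1 / (q : ℚ) ^ k)) / (1 - (1 / (q : ℚ) ^ k) ^ 2) *
        ((1 + 1 / ((q : ℚ) * (q : ℚ) ^ k)) ^ 4 / (1 - (q : ℚ) * (1 / ((q : ℚ) * (q : ℚ) ^ k)) ^ 2))) := by
      ring
    rw [e3]
    exact mul_le_mul_of_nonneg_left hp (by norm_num)

theorem Phi_le (Q : ℚ) (hQ : 0 < Q) (k : ℕ) : Phi Q k ≤ 54 / 5 := by
  unfold Phi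
  have : 0 ≤ 1 / Q ^ k := by positivity
  nlinarith

include hq hW0 hW1 heven hodd h00 h0n in
/-- The bound for `q ≥ 5`. -/
theorem bound_large (hq5 : (5 : ℚ) ≤ (q : ℚ)) (k : ℕ) (hk : 1 ≤ k) (n : ℕ) :
    (a (2 * k) n : ℚ) ≤ 54 / 5 * (q : ℚ) ^ n := by
  have hQ0 : (0 : ℚ) < (q : ℚ) := by linarith
  have hstart : ∀ n, (a (2 * 1) n : ℚ) ≤ Phi q 1 * (q : ℚ) ^ n := by
    intro n
    have h1 := a_one hq a hodd h00 h0n
    have h2 := even_chain hq a W hW0 hW1 heven 0 (C := 1) (by norm_num) (by simpa using h1) n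
    refine h2.trans (mul_le_mul_of_nonneg_right ?_ (by positivity))
    unfold Phi
    simp only [zero_add, pow_one, one_mul]
    set w : ℚ := 1 / (q : ℚ) with hw
    have hw0 : 0 ≤ w := by positivity
    have hw5 : w ≤ 1 / 5 := by
      rw [hw, div_le_div_iff₀ hQ0 (by norm_num)]
      linarith
    have e : (q : ℚ) * w ^ 2 = w := by
      rw [hw]
      field_simp
    rw [e, div_le_iff₀ (by linarith)]
    have h3 : (1 + w) ^ 4 ≤ (6 / 5) ^ 4 := pow_le_pow_left₀ (by linarith) (by linarith) 4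
    nlinarith
  have h := pot_chain hq a W hW0 hW1 hodd heven (Or.inr hq5) (le_refl 1) hstart k hk n
  exact h.trans (mul_le_mul_of_nonneg_right (Phi_le _ hQ0 _) (by positivity))

include hq hW0 hW1 heven hodd h00 h0n in
/-- The bound for `q = 3`. -/
theorem bound_three (hq3 : q = 3) (k : ℕ) (hk : 1 ≤ k) (n : ℕ) :
    (a (2 * k) n : ℚ) ≤ 54 / 5 * (q : ℚ) ^ n := by
  have h1 := a_one hq a hodd h00 h0n
  have hQ : (q : ℚ) = 3 := by exact_mod_cast hq3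
  have hQ0 : (0 : ℚ) < (q : ℚ) := by rw [hQ]; norm_num
  have h2 := even_chain hq a W hW0 hW1 heven 0 (C := 1) (by norm_num) (by simpa using h1)
  have h3 := odd_chain hq a hodd 1 (le_refl 1) (C := 1 * ((1 + 1 / (q : ℚ) ^ (0 + 1)) ^ 4 / (1 - (q : ℚ) * (1 / (q : ℚ) ^ (0 + 1)) ^ 2)))
    (by rw [hQ]; norm_num) h2
  have h4 := even_chain hq a W hW0 hW1 heven 1 (C := 1 * ((1 + 1 / (q : ℚ) ^ (0 + 1)) ^ 4 / (1 - (q : ℚ) * (1 / (q : ℚ) ^ (0 + 1)) ^ 2)) /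
    (1 - 1 / (q : ℚ) ^ (2 * 1))) (by rw [hQ]; norm_num) h3
  have h5 := odd_chain hq a hodd 2 (by norm_num) (C := 1 * ((1 + 1 / (q : ℚ) ^ (0 + 1)) ^ 4 / (1 - (q : ℚ) * (1 / (q : ℚ) ^ (0 + 1)) ^ 2)) /
    (1 - 1 / (q : ℚ) ^ (2 * 1)) * ((1 + 1 / (q : ℚ) ^ (1 + 1)) ^ 4 / (1 - (q : ℚ) * (1 / (q : ℚ) ^ (1 + 1)) ^ 2)))
    (by rw [hQ]; norm_num) h4
  have h6 := even_chain hq a W hW0 hW1 heven 2 (C := 1 * ((1 + 1 / (q : ℚ) ^ (0 + 1)) ^ 4 / (1 - (q : ℚ) * (1 / (q : ℚ) ^ (0 + 1)) ^ 2)) /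
    (1 - 1 / (q : ℚ) ^ (2 * 1)) * ((1 + 1 / (q : ℚ) ^ (1 + 1)) ^ 4 / (1 - (q : ℚ) * (1 / (q : ℚ) ^ (1 + 1)) ^ 2)) /
    (1 - 1 / (q : ℚ) ^ (2 * 2))) (by rw [hQ]; norm_num) h5
  rw [hQ] at h2 h4 h6
  have hstart : ∀ n, (a (2 * 3) n : ℚ) ≤ Phi q 3 * (q : ℚ) ^ n := by
    intro n
    rw [hQ]
    refine (h6 n).trans (mul_le_mul_of_nonneg_right ?_ (by positivity))
    unfold Phi
    norm_num
  have hchain := pot_chain hq a W hW0 hW1 hodd heven (Or.inl hQ) (by norm_num : 1 ≤ 3) hstart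
  have hpos : ∀ n : ℕ, (0 : ℚ) ≤ (3 : ℚ) ^ n := fun n => by positivity
  rw [hQ]
  by_cases hk1 : k = 1
  · subst hk1
    refine (h2 n).trans (mul_le_mul_of_nonneg_right ?_ (hpos n))
    norm_num
  by_cases hk2 : k = 2
  · subst hk2
    refine (h4 n).trans (mul_le_mul_of_nonneg_right ?_ (hpos n))
    norm_num
  have h7 := hchain k (by omega) n
  rw [hQ] at h7
  exact h7.trans (mul_le_mul_of_nonneg_right (Phi_le _ (by norm_num) _) (hpos n))

end Chain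

end Cfsg.Agent.Lib.ClassNum.SpNum
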