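import Mathlib
import Cfsg.Agent.Lib.ClassNum.SpNum

/-!
# The recursion for the weighted number of types of orthogonal matrices, in numbers
-/

set_option autoImplicit false
set_option linter.unusedSectionVars false
set_option linter.unusedSimpArgs false
set_option linter.unusedVariables false

open Cfsg.Agent.Lib.ClassNum.SpPoly (cc)
open Cfsg.Agent.Lib.ClassNum.SpNum (geom_le sum_le_pairs)

namespace Cfsg.Agent.Lib.ClassNum.ONum

section Sums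

theorem sum_e1 {r : ℚ} (h0 : 0 ≤ r) (h1 : r < 1) (N : ℕ) :
    ∑ d ∈ Finset.range N, (if 1 ≤ d then r ^ (d - 1) else 0) ≤ 1 / (1 - r) := by
  have hpos : 0 ≤ 1 / (1 - r) := by
    apply div_nonneg zero_le_one
    linarith
  cases N with
  | zero => simpa using hpos
  | succ M =>
    rw [Finset.sum_range_succ']
    have e0 : (if 1 ≤ 0 then r ^ (0 - 1) else 0) = 0 := by simp
    have e3 : ∀ d, (if 1 ≤ d + 1 then r ^ (d + 1 - 1) else 0) = r ^ d := fun d => by simp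
    rw [e0, add_zero]
    simp only [e3]
    exact geom_le h0 h1 _

theorem sum_e2 {r : ℚ} (h0 : 0 ≤ r) (h1 : r < 1) (N : ℕ) :
    ∑ d ∈ Finset.range N, (if 2 ≤ d then r ^ (d - 2) else 0) ≤ 1 / (1 - r) := by
  have hpos : 0 ≤ 1 / (1 - r) := by
    apply div_nonneg zero_le_one
    linarith
  cases N with
  | zero => simpa using hpos
  | succ M =>
    rw [Finset.sum_range_succ']
    have e0 : (if 2 ≤ 0 then r ^ (0 - 2) else 0) = 0 := by simp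
    rw [e0, add_zero]
    cases M with
    | zero => simpa using hpos
    | succ M =>
      rw [Finset.sum_range_succ']
      have e4 : (if 2 ≤ 0 + 1 then r ^ (0 + 1 - 2) else 0) = 0 := by simp
      have e3 : ∀ d, (if 2 ≤ d + 1 + 1 then r ^ (d + 1 + 1 - 2) else 0) = r ^ d := fun d => by simp
      rw [e4, add_zero]
      simp only [e3]
      exact geom_le h0 h1 _

variable {q : ℕ} (hq : 3 ≤ q)

theorem cc_cast (d s : ℕ) : ((cc q d s : ℕ) : ℚ) = if s ≤ d then (q : ℚ) ^ (d - s) else 0 := by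
  unfold cc
  split_ifs <;> simp

include hq in
theorem r_bounds {j : ℕ} (hj : 2 ≤ j) :
    0 ≤ (q : ℚ) * (1 / (q : ℚ) ^ j) ∧ (q : ℚ) * (1 / (q : ℚ) ^ j) < 1 := by
  have hQ : (3 : ℚ) ≤ (q : ℚ) := by exact_mod_cast hq
  obtain ⟨k, rfl⟩ : ∃ k, j = k + 2 := ⟨j - 2, by omega⟩
  have hQ0 : (0 : ℚ) < q := by linarith
  constructor
  · positivity
  · have e : (q : ℚ) * (1 / (q : ℚ) ^ (k + 2)) = 1 / (q : ℚ) ^ (k + 1) := by
      field_simp
      ring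
    rw [e, div_lt_one (by positivity)]
    calc (1 : ℚ) < q := by linarith
      _ = (q : ℚ) ^ 1 := (pow_one _).symm
      _ ≤ (q : ℚ) ^ (k + 1) := pow_le_pow_right₀ (by linarith) (by omega)

include hq in
theorem sum_W_even {j : ℕ} (hj : 2 ≤ j) (W : ℕ → ℕ) (hW0 : ∀ d, W (2 * d) ≤ q ^ d + 6 * cc q d 1 + cc q d 2) (N : ℕ) :
    ∑ d ∈ Finset.range N, (W (2 * d) : ℚ) * (1 / (q : ℚ) ^ j) ^ d ≤
      (1 + 6 * (1 / (q : ℚ) ^ j) + (1 / (q : ℚ) ^ j) ^ 2) / (1 - (q : ℚ) * (1 / (q : ℚ) ^ j)) := by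
  obtain ⟨hr0, hr1⟩ := r_bounds hq hj
  have hQ : (3 : ℚ) ≤ (q : ℚ) := by exact_mod_cast hq
  generalize hy : (1 / (q : ℚ) ^ j) = y at *
  have hy0 : 0 ≤ y := by
    rw [← hy]
    positivity
  set r : ℚ := (q : ℚ) * y with hr
  have hW0' : ∀ d, (W (2 * d) : ℚ) ≤ (q : ℚ) ^ d + 6 * (if 1 ≤ d then (q : ℚ) ^ (d - 1) else 0) +
      (if 2 ≤ d then (q : ℚ) ^ (d - 2) else 0) := by
    intro d
    rw [← cc_cast, ← cc_cast]
    exact_mod_cast hW0 d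
  have hpt : ∀ d ∈ Finset.range N, (W (2 * d) : ℚ) * y ^ d ≤ r ^ d + 6 * y * (if 1 ≤ d then r ^ (d - 1) else 0) +
      y ^ 2 * (if 2 ≤ d then r ^ (d - 2) else 0) := by
    intro d _
    have h3 := mul_le_mul_of_nonneg_right (hW0' d) (by positivity : 0 ≤ y ^ d)
    refine h3.trans (le_of_eq ?_)
    have hA : (q : ℚ) ^ d * y ^ d = r ^ d := by rw [hr, mul_pow]
    have hB : (if 1 ≤ d then (q : ℚ) ^ (d - 1) else 0) * y ^ d = y * (if 1 ≤ d then r ^ (d - 1) else 0) := by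
      split_ifs with hd
      · obtain ⟨k, rfl⟩ : ∃ k, d = k + 1 := ⟨d - 1, by omega⟩
        rw [Nat.add_sub_cancel, hr, mul_pow, pow_succ]
        ring
      · simp
    have hC' : (if 2 ≤ d then (q : ℚ) ^ (d - 2) else 0) * y ^ d = y ^ 2 * (if 2 ≤ d then r ^ (d - 2) else 0) := by
      split_ifs with hd
      · obtain ⟨k, rfl⟩ : ∃ k, d = k + 2 := ⟨d - 2, by omega⟩
        rw [Nat.add_sub_cancel, hr, mul_pow, pow_add]
        ring
      · simp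
    rw [add_mul, add_mul, mul_assoc 6, hA, hB, hC']
    ring
  refine (Finset.sum_le_sum hpt).trans ?_
  rw [Finset.sum_add_distrib, Finset.sum_add_distrib, ← Finset.mul_sum, ← Finset.mul_sum]
  have h1 := geom_le hr0 hr1 N
  have h2 := mul_le_mul_of_nonneg_left (sum_e1 hr0 hr1 N) (by positivity : 0 ≤ 6 * y)
  have h3 := mul_le_mul_of_nonneg_left (sum_e2 hr0 hr1 N) (by positivity : 0 ≤ y ^ 2)
  have h4 : (1 + 6 * y + y ^ 2) / (1 - r) = 1 / (1 - r) + 6 * y * (1 / (1 - r)) + y ^ 2 * (1 / (1 - r)) := by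
    ring
  rw [h4]
  exact add_le_add (add_le_add h1 h2) h3

include hq in
theorem sum_W_odd {j : ℕ} (hj : 2 ≤ j) (W : ℕ → ℕ) (hW1 : ∀ d, W (2 * d + 1) ≤ 4 * q ^ d + 4 * cc q d 1) (N : ℕ) :
    ∑ d ∈ Finset.range N, (W (2 * d + 1) : ℚ) * (1 / (q : ℚ) ^ j) ^ d ≤
      (4 + 4 * (1 / (q : ℚ) ^ j)) / (1 - (q : ℚ) * (1 / (q : ℚ) ^ j)) := by
  obtain ⟨hr0, hr1⟩ := r_bounds hq hj
  have hQ : (3 : ℚ) ≤ (q : ℚ) := by exact_mod_cast hq
  generalize hy : (1 / (q : ℚ) ^ j) = y at *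
  have hy0 : 0 ≤ y := by
    rw [← hy]
    positivity
  set r : ℚ := (q : ℚ) * y with hr
  have hW1' : ∀ d, (W (2 * d + 1) : ℚ) ≤ 4 * (q : ℚ) ^ d + 4 * (if 1 ≤ d then (q : ℚ) ^ (d - 1) else 0) := by
    intro d
    rw [← cc_cast]
    exact_mod_cast hW1 d
  have hpt : ∀ d ∈ Finset.range N, (W (2 * d + 1) : ℚ) * y ^ d ≤ 4 * r ^ d + 4 * y * (if 1 ≤ d then r ^ (d - 1) else 0) := by
    intro d _
    have h3 := mul_le_mul_of_nonneg_right (hW1' d) (by positivity : 0 ≤ y ^ d)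
    refine h3.trans (le_of_eq ?_)
    have hA : (q : ℚ) ^ d * y ^ d = r ^ d := by rw [hr, mul_pow]
    have hB : (if 1 ≤ d then (q : ℚ) ^ (d - 1) else 0) * y ^ d = y * (if 1 ≤ d then r ^ (d - 1) else 0) := by
      split_ifs with hd
      · obtain ⟨k, rfl⟩ : ∃ k, d = k + 1 := ⟨d - 1, by omega⟩
        rw [Nat.add_sub_cancel, hr, mul_pow, pow_succ]
        ring
      · simp
    rw [add_mul, mul_assoc 4, mul_assoc 4, hA, hB]
    ring
  refine (Finset.sum_le_sum hpt).trans ?_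
  rw [Finset.sum_add_distrib, ← Finset.mul_sum, ← Finset.mul_sum]
  have h1 := mul_le_mul_of_nonneg_left (geom_le hr0 hr1 N) (by norm_num : (0 : ℚ) ≤ 4)
  have h2 := mul_le_mul_of_nonneg_left (sum_e1 hr0 hr1 N) (by positivity : 0 ≤ 4 * y)
  have h4 : (4 + 4 * y) / (1 - r) = 4 * (1 / (1 - r)) + 4 * y * (1 / (1 - r)) := by
    ring
  rw [h4]
  exact add_le_add h1 h2

theorem pair_sum (w : ℕ → ℚ) (hw : ∀ D, 0 ≤ w D) (u v : ℕ → ℚ) (N : ℕ) {A B Ev Od : ℚ} (hA : 0 ≤ A) (hB : 0 ≤ B)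
    (h0 : ∀ d, w (2 * d) ≤ A * u d) (h1 : ∀ d, w (2 * d + 1) ≤ B * v d)
    (hS0 : ∑ d ∈ Finset.range N, u d ≤ Ev) (hS1 : ∑ d ∈ Finset.range N, v d ≤ Od) :
    ∑ D ∈ Finset.range N, w D ≤ A * Ev + B * Od := by
  refine (sum_le_pairs hw N).trans ?_
  rw [Finset.sum_add_distrib]
  refine add_le_add ?_ ?_
  · refine (Finset.sum_le_sum fun d _ => h0 d).trans ?_
    rw [← Finset.mul_sum]
    exact mul_le_mul_of_nonneg_left hS0 hA
  · refine (Finset.sum_le_sum fun d _ => h1 d).trans ?_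
    rw [← Finset.mul_sum]
    exact mul_le_mul_of_nonneg_left hS1 hB

end Sums

section Steps

theorem pow_sub_eq {Q : ℚ} (hQ : 0 < Q) {n e : ℕ} (h : e ≤ n) : Q ^ (n - e) = Q ^ n * (1 / Q ^ e) := by
  have h4 : Q ^ n = Q ^ (n - e) * Q ^ e := by
    rw [← pow_add]
    congr 1
    omega
  rw [h4]
  field_simp

theorem y_pow {Q : ℚ} (j d : ℕ) : (1 / Q ^ j) ^ d = 1 / Q ^ (j * d) := by
  rw [div_pow, one_pow, ← pow_mul]

/-- One odd step. -/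
theorem odd_pair {q i : ℕ} (hq : 3 ≤ q) (hi : 1 ≤ i) (a a' W : ℕ → ℕ)
    (hW0 : ∀ d, W (2 * d) ≤ q ^ d + 6 * cc q d 1 + cc q d 2) (hW1 : ∀ d, W (2 * d + 1) ≤ 4 * q ^ d + 4 * cc q d 1)
    (hrec : ∀ m, a' m ≤ ∑ D ∈ Finset.range (m / (2 * i + 1) + 1), W D * a (m - (2 * i + 1) * D))
    {C₀ C₁ : ℚ} (hC₀ : 0 ≤ C₀) (hC₁ : 0 ≤ C₁) (ha₀ : ∀ n, (a (2 * n) : ℚ) ≤ C₀ * (q : ℚ) ^ n)
    (ha₁ : ∀ n, (a (2 * n + 1) : ℚ) ≤ C₁ * (q : ℚ) ^ n) (n : ℕ) :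
    (a' (2 * n) : ℚ) ≤ (C₀ * ((1 + 6 * (1 / (q : ℚ) ^ (2 * i + 1)) + (1 / (q : ℚ) ^ (2 * i + 1)) ^ 2) /
        (1 - (q : ℚ) * (1 / (q : ℚ) ^ (2 * i + 1)))) +
        C₁ * (1 / (q : ℚ) ^ (i + 1)) * ((4 + 4 * (1 / (q : ℚ) ^ (2 * i + 1))) / (1 - (q : ℚ) * (1 / (q : ℚ) ^ (2 * i + 1))))) * (q : ℚ) ^ n ∧
    (a' (2 * n + 1) : ℚ) ≤ (C₁ * ((1 + 6 * (1 / (q : ℚ) ^ (2 * i + 1)) + (1 / (q : ℚ) ^ (2 * i + 1)) ^ 2) /
        (1 - (q : ℚ) * (1 / (q : ℚ) ^ (2 * i + 1)))) +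
        C₀ * (1 / (q : ℚ) ^ i) * ((4 + 4 * (1 / (q : ℚ) ^ (2 * i + 1))) / (1 - (q : ℚ) * (1 / (q : ℚ) ^ (2 * i + 1))))) * (q : ℚ) ^ n := by
  have hQ : (3 : ℚ) ≤ (q : ℚ) := by exact_mod_cast hq
  have hQ0 : (0 : ℚ) < q := by linarith
  have hj2 : 2 ≤ 2 * i + 1 := by omega
  have hS0 := sum_W_even hq hj2 W hW0
  have hS1 := sum_W_odd hq hj2 W hW1
  set j := 2 * i + 1 with hj
  have hrecQ : ∀ m, (a' m : ℚ) ≤ ∑ D ∈ Finset.range (m / j + 1), (if j * D ≤ m then (W D : ℚ) * (a (m - j * D) : ℚ) else 0) := by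
    intro m
    have h1 : (a' m : ℚ) ≤ ∑ D ∈ Finset.range (m / j + 1), (W D : ℚ) * (a (m - j * D) : ℚ) := by
      exact_mod_cast hrec m
    refine h1.trans (le_of_eq (Finset.sum_congr rfl fun D hD => ?_))
    have hd' : j * D ≤ m := by
      have := Nat.lt_succ_iff.mp (Finset.mem_range.mp hD)
      calc j * D ≤ j * (m / j) := Nat.mul_le_mul_left _ this
        _ ≤ m := Nat.mul_div_le m j
    rw [if_pos hd']
  have hw : ∀ (m D : ℕ), 0 ≤ (if j * D ≤ m then (W D : ℚ) * (a (m - j * D) : ℚ) else 0) := by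
    intro m D
    split_ifs <;> positivity
  have hv : ∀ d : ℕ, (0 : ℚ) ≤ (W (2 * d) : ℚ) * (1 / (q : ℚ) ^ j) ^ d := fun d => by positivity
  have hv' : ∀ d : ℕ, (0 : ℚ) ≤ (W (2 * d + 1) : ℚ) * (1 / (q : ℚ) ^ j) ^ d := fun d => by positivity
  have e2 : ∀ d, j * (2 * d) = 2 * (j * d) := fun d => by ring
  have e3 : ∀ d, j * (2 * d + 1) = 2 * (j * d) + (2 * i + 1) := fun d => by rw [hj]; ring
  have hy : ∀ d, (1 / (q : ℚ) ^ j) ^ d = 1 / (q : ℚ) ^ (j * d) := fun d => y_pow j d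
  constructor
  · refine (hrecQ (2 * n)).trans ?_
    have := pair_sum (fun D => if j * D ≤ 2 * n then (W D : ℚ) * (a (2 * n - j * D) : ℚ) else 0) (hw _)
      (fun d => (W (2 * d) : ℚ) * (1 / (q : ℚ) ^ j) ^ d) (fun d => (W (2 * d + 1) : ℚ) * (1 / (q : ℚ) ^ j) ^ d)
      (2 * n / j + 1) (A := C₀ * (q : ℚ) ^ n) (B := C₁ * (1 / (q : ℚ) ^ (i + 1)) * (q : ℚ) ^ n) (by positivity) (by positivity)
      (by
        intro d
        beta_reduce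
        split_ifs with h
        · rw [e2] at h ⊢
          have h5 : j * d ≤ n := by omega
          have h6 : 2 * n - 2 * (j * d) = 2 * (n - j * d) := by omega
          rw [h6]
          have h7 := ha₀ (n - j * d)
          rw [pow_sub_eq hQ0 h5] at h7
          have h8 := mul_le_mul_of_nonneg_left h7 (by positivity : (0 : ℚ) ≤ (W (2 * d) : ℚ))
          rw [hy]
          refine h8.trans (le_of_eq ?_)
          ring
        · have := hv d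
          positivity)
      (by
        intro d
        beta_reduce
        split_ifs with h
        · rw [e3] at h ⊢
          have h5 : j * d + (i + 1) ≤ n := by omega
          have h6 : 2 * n - (2 * (j * d) + (2 * i + 1)) = 2 * (n - (j * d + (i + 1))) + 1 := by omega
          rw [h6]
          have h7 := ha₁ (n - (j * d + (i + 1)))
          rw [pow_sub_eq hQ0 h5, pow_add] at h7
          have h8 := mul_le_mul_of_nonneg_left h7 (by positivity : (0 : ℚ) ≤ (W (2 * d + 1) : ℚ))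
          rw [hy]
          refine h8.trans (le_of_eq ?_)
          field_simp
        · have := hv' d
          positivity)
      (hS0 _) (hS1 _)
    refine this.trans (le_of_eq ?_)
    ring
  · refine (hrecQ (2 * n + 1)).trans ?_
    have := pair_sum (fun D => if j * D ≤ 2 * n + 1 then (W D : ℚ) * (a (2 * n + 1 - j * D) : ℚ) else 0) (hw _)
      (fun d => (W (2 * d) : ℚ) * (1 / (q : ℚ) ^ j) ^ d) (fun d => (W (2 * d + 1) : ℚ) * (1 / (q : ℚ) ^ j) ^ d)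
      ((2 * n + 1) / j + 1) (A := C₁ * (q : ℚ) ^ n) (B := C₀ * (1 / (q : ℚ) ^ i) * (q : ℚ) ^ n) (by positivity) (by positivity)
      (by
        intro d
        beta_reduce
        split_ifs with h
        · rw [e2] at h ⊢
          have h5 : j * d ≤ n := by omega
          have h6 : 2 * n + 1 - 2 * (j * d) = 2 * (n - j * d) + 1 := by omega
          rw [h6]
          have h7 := ha₁ (n - j * d)
          rw [pow_sub_eq hQ0 h5] at h7
          have h8 := mul_le_mul_of_nonneg_left h7 (by positivity : (0 : ℚ) ≤ (W (2 * d) : ℚ))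
          rw [hy]
          refine h8.trans (le_of_eq ?_)
          ring
        · have := hv d
          positivity)
      (by
        intro d
        beta_reduce
        split_ifs with h
        · rw [e3] at h ⊢
          have h5 : j * d + i ≤ n := by omega
          have h6 : 2 * n + 1 - (2 * (j * d) + (2 * i + 1)) = 2 * (n - (j * d + i)) := by omega
          rw [h6]
          have h7 := ha₀ (n - (j * d + i))
          rw [pow_sub_eq hQ0 h5, pow_add] at h7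
          have h8 := mul_le_mul_of_nonneg_left h7 (by positivity : (0 : ℚ) ≤ (W (2 * d + 1) : ℚ))
          rw [hy]
          refine h8.trans (le_of_eq ?_)
          field_simp
        · have := hv' d
          positivity)
      (hS0 _) (hS1 _)
    refine this.trans (le_of_eq ?_)
    ring

/-- One even step. -/
theorem even_pair {q i : ℕ} (hq : 3 ≤ q) (a a' : ℕ → ℕ)
    (hrec : ∀ m, a' m ≤ ∑ d ∈ Finset.range (m / (2 * (2 * i + 1 + 1)) + 1), q ^ d * a (m - (2 * i + 1 + 1) * (2 * d)))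
    {C₀ C₁ : ℚ} (hC₀ : 0 ≤ C₀) (hC₁ : 0 ≤ C₁) (ha₀ : ∀ n, (a (2 * n) : ℚ) ≤ C₀ * (q : ℚ) ^ n)
    (ha₁ : ∀ n, (a (2 * n + 1) : ℚ) ≤ C₁ * (q : ℚ) ^ n) (n : ℕ) :
    (a' (2 * n) : ℚ) ≤ C₀ / (1 - 1 / (q : ℚ) ^ (2 * i + 1)) * (q : ℚ) ^ n ∧
    (a' (2 * n + 1) : ℚ) ≤ C₁ / (1 - 1 / (q : ℚ) ^ (2 * i + 1)) * (q : ℚ) ^ n := by
  have hQ : (3 : ℚ) ≤ (q : ℚ) := by exact_mod_cast hq
  have hQ0 : (0 : ℚ) < q := by linarith
  set j := 2 * i + 1 with hj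
  have hx : 3 ≤ (q : ℚ) ^ j := by
    calc (3 : ℚ) ≤ q := hQ
      _ = (q : ℚ) ^ 1 := (pow_one _).symm
      _ ≤ (q : ℚ) ^ j := pow_le_pow_right₀ (by linarith) (by omega)
  have hx0 : 0 < (q : ℚ) ^ j := by linarith
  set y : ℚ := 1 / (q : ℚ) ^ j with hy
  have hy0 : 0 ≤ y := by positivity
  have hy1 : y < 1 := by
    rw [hy, div_lt_one hx0]
    linarith
  have key : ∀ (m n' : ℕ) (C : ℚ), 0 ≤ C → (∀ k, (a (2 * k + (m - 2 * n')) : ℚ) ≤ C * (q : ℚ) ^ k) → (m = 2 * n' ∨ m = 2 * n' + 1) →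
      (a' m : ℚ) ≤ C / (1 - y) * (q : ℚ) ^ n' := by
    intro m n' C hC hk hm
    have h1 : (a' m : ℚ) ≤ ∑ d ∈ Finset.range (m / (2 * (j + 1)) + 1), (q : ℚ) ^ d * (a (m - (j + 1) * (2 * d)) : ℚ) := by
      exact_mod_cast hrec m
    have hterm : ∀ d ∈ Finset.range (m / (2 * (j + 1)) + 1), (q : ℚ) ^ d * (a (m - (j + 1) * (2 * d)) : ℚ) ≤ C * (q : ℚ) ^ n' * y ^ d := by
      intro d hd
      have hd' : (2 * (j + 1)) * d ≤ m := by
        have := Nat.lt_succ_iff.mp (Finset.mem_range.mp hd)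
        calc (2 * (j + 1)) * d ≤ (2 * (j + 1)) * (m / (2 * (j + 1))) := Nat.mul_le_mul_left _ this
          _ ≤ m := Nat.mul_div_le m _
      have e1 : (2 * (j + 1)) * d = 2 * ((j + 1) * d) := by ring
      have e2 : (j + 1) * (2 * d) = 2 * ((j + 1) * d) := by ring
      rw [e1] at hd'
      rw [e2]
      have h5 : (j + 1) * d ≤ n' := by omega
      have h6 : m - 2 * ((j + 1) * d) = 2 * (n' - (j + 1) * d) + (m - 2 * n') := by omega
      rw [h6]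
      have h7 := hk (n' - (j + 1) * d)
      rw [pow_sub_eq hQ0 h5] at h7
      have h8 := mul_le_mul_of_nonneg_left h7 (by positivity : (0 : ℚ) ≤ (q : ℚ) ^ d)
      refine h8.trans (le_of_eq ?_)
      rw [hy, y_pow, add_mul, one_mul, pow_add]
      field_simp
    refine h1.trans ((Finset.sum_le_sum hterm).trans ?_)
    rw [← Finset.mul_sum]
    have h6 := geom_le hy0 hy1 (m / (2 * (j + 1)) + 1)
    calc C * (q : ℚ) ^ n' * ∑ d ∈ Finset.range (m / (2 * (j + 1)) + 1), y ^ d ≤ C * (q : ℚ) ^ n' * (1 / (1 - y)) :=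
          mul_le_mul_of_nonneg_left h6 (by positivity)
      _ = C / (1 - y) * (q : ℚ) ^ n' := by ring
  constructor
  · apply key (2 * n) n C₀ hC₀ _ (Or.inl rfl)
    intro k
    simpa using ha₀ k
  · apply key (2 * n + 1) n C₁ hC₁ _ (Or.inr rfl)
    intro k
    have e : 2 * n + 1 - 2 * n = 1 := by omega
    rw [e]
    exact ha₁ k

end Steps

section Chain

/-- The pair of bounds. -/
def Bd (q : ℕ) (a : ℕ → ℕ → ℕ) (J : ℕ) (C₀ C₁ : ℚ) : Prop :=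
  ∀ n, (a J (2 * n) : ℚ) ≤ C₀ * (q : ℚ) ^ n ∧ (a J (2 * n + 1) : ℚ) ≤ C₁ * (q : ℚ) ^ n

theorem Bd.mono {q : ℕ} {a : ℕ → ℕ → ℕ} {J : ℕ} {C₀ C₁ D₀ D₁ : ℚ} (h : Bd q a J C₀ C₁) (h₀ : C₀ ≤ D₀) (h₁ : C₁ ≤ D₁) :
    Bd q a J D₀ D₁ := by
  intro n
  obtain ⟨h1, h2⟩ := h n
  have hp : (0 : ℚ) ≤ (q : ℚ) ^ n := by positivity
  exact ⟨h1.trans (mul_le_mul_of_nonneg_right h₀ hp), h2.trans (mul_le_mul_of_nonneg_right h₁ hp)⟩

/-- The next constants. -/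
def nx₀ (Q : ℚ) (i : ℕ) (C₀ C₁ : ℚ) : ℚ :=
  (C₀ * ((1 + 6 * (1 / Q ^ (2 * i + 1)) + (1 / Q ^ (2 * i + 1)) ^ 2) / (1 - Q * (1 / Q ^ (2 * i + 1)))) +
    C₁ * (1 / Q ^ (i + 1)) * ((4 + 4 * (1 / Q ^ (2 * i + 1))) / (1 - Q * (1 / Q ^ (2 * i + 1))))) / (1 - 1 / Q ^ (2 * i + 1))

/-- The next constants. -/
def nx₁ (Q : ℚ) (i : ℕ) (C₀ C₁ : ℚ) : ℚ :=
  (C₁ * ((1 + 6 * (1 / Q ^ (2 * i + 1)) + (1 / Q ^ (2 * i + 1)) ^ 2) / (1 - Q * (1 / Q ^ (2 * i + 1)))) +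
    C₀ * (1 / Q ^ i) * ((4 + 4 * (1 / Q ^ (2 * i + 1))) / (1 - Q * (1 / Q ^ (2 * i + 1))))) / (1 - 1 / Q ^ (2 * i + 1))

variable {q : ℕ} (hq : 3 ≤ q) (a : ℕ → ℕ → ℕ) (W : ℕ → ℕ)
  (hW0 : ∀ d, W (2 * d) ≤ q ^ d + 6 * cc q d 1 + cc q d 2) (hW1 : ∀ d, W (2 * d + 1) ≤ 4 * q ^ d + 4 * cc q d 1)
  (hodd : ∀ J m, Odd (J + 1) → a (J + 1) m ≤ ∑ D ∈ Finset.range (m / (J + 1) + 1), W D * a J (m - (J + 1) * D))
  (heven : ∀ J m, Even (J + 1) → a (J + 1) m ≤ ∑ d ∈ Finset.range (m / (2 * (J + 1)) + 1), q ^ d * a J (m - (J + 1) * (2 * d)))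
  (h00 : a 0 0 ≤ 1) (h0n : ∀ m, 1 ≤ m → a 0 m = 0)

include hodd h00 h0n in
theorem a_one_le (m : ℕ) : a 1 m ≤ W m := by
  have h := hodd 0 m (by simp)
  simp only [zero_add, Nat.div_one, one_mul] at h
  rw [Finset.sum_eq_single m] at h
  · rw [Nat.sub_self] at h
    refine h.trans ?_
    calc W m * a 0 0 ≤ W m * 1 := Nat.mul_le_mul_left _ h00
      _ = W m := mul_one _
  · intro d hd hne
    have h1 := Finset.mem_range.mp hd
    rw [h0n _ (by omega), mul_zero]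
  · intro hm
    simp at hm

include hq hW0 hW1 hodd h00 h0n in
theorem bd_one : Bd q a 1 (1 + 6 * (1 / (q : ℚ)) + (1 / (q : ℚ)) ^ 2) (4 + 4 * (1 / (q : ℚ))) := by
  have hQ : (3 : ℚ) ≤ (q : ℚ) := by exact_mod_cast hq
  have hQ0 : (0 : ℚ) < q := by linarith
  have hE : ∀ (n s : ℕ), ((cc q n s : ℕ) : ℚ) ≤ (1 / (q : ℚ)) ^ s * (q : ℚ) ^ n := by
    intro n s
    rw [cc_cast]
    split_ifs with h
    · rw [pow_sub_eq hQ0 h, div_pow, one_pow]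
      apply le_of_eq
      ring
    · positivity
  intro n
  have h1 : (a 1 (2 * n) : ℚ) ≤ (W (2 * n) : ℚ) := by exact_mod_cast a_one_le a W hodd h00 h0n (2 * n)
  have h2 : (a 1 (2 * n + 1) : ℚ) ≤ (W (2 * n + 1) : ℚ) := by exact_mod_cast a_one_le a W hodd h00 h0n (2 * n + 1)
  have h3 : (W (2 * n) : ℚ) ≤ (q : ℚ) ^ n + 6 * (cc q n 1 : ℕ) + (cc q n 2 : ℕ) := by exact_mod_cast hW0 n
  have h4 : (W (2 * n + 1) : ℚ) ≤ 4 * (q : ℚ) ^ n + 4 * (cc q n 1 : ℕ) := by exact_mod_cast hW1 n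
  have h5 := hE n 1
  have h6 := hE n 2
  rw [pow_one] at h5
  constructor
  · refine h1.trans (h3.trans ?_)
    nlinarith
  · refine h2.trans (h4.trans ?_)
    nlinarith

include heven hq in
theorem bd_even {i : ℕ} {C₀ C₁ : ℚ} (hC₀ : 0 ≤ C₀) (hC₁ : 0 ≤ C₁) (h : Bd q a (2 * i + 1) C₀ C₁) :
    Bd q a (2 * i + 1 + 1) (C₀ / (1 - 1 / (q : ℚ) ^ (2 * i + 1))) (C₁ / (1 - 1 / (q : ℚ) ^ (2 * i + 1))) := by
  intro n
  exact even_pair hq (a (2 * i + 1)) (a (2 * i + 1 + 1)) (fun m => heven (2 * i + 1) m (by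
    rw [show 2 * i + 1 + 1 = 2 * (i + 1) by ring]
    exact even_two_mul _)) hC₀ hC₁ (fun n => (h n).1) (fun n => (h n).2) n

theorem den_pos (hq : 3 ≤ q) (j : ℕ) (hj : 1 ≤ j) : 0 < 1 - 1 / (q : ℚ) ^ j := by
  have hQ : (3 : ℚ) ≤ (q : ℚ) := by exact_mod_cast hq
  have hx : 3 ≤ (q : ℚ) ^ j := by
    calc (3 : ℚ) ≤ q := hQ
      _ = (q : ℚ) ^ 1 := (pow_one _).symm
      _ ≤ (q : ℚ) ^ j := pow_le_pow_right₀ (by linarith) hj
  have : 1 / (q : ℚ) ^ j < 1 := by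
    rw [div_lt_one (by linarith)]
    linarith
  linarith

include hq hW0 hW1 hodd heven in
theorem bd_next {i : ℕ} (hi : 1 ≤ i) {C₀ C₁ : ℚ} (hC₀ : 0 ≤ C₀) (hC₁ : 0 ≤ C₁) (h : Bd q a (2 * i) C₀ C₁) :
    Bd q a (2 * (i + 1)) (nx₀ q i C₀ C₁) (nx₁ q i C₀ C₁) := by
  have hQ : (3 : ℚ) ≤ (q : ℚ) := by exact_mod_cast hq
  have hj2 : 2 ≤ 2 * i + 1 := by omega
  obtain ⟨hr0, hr1⟩ := r_bounds hq hj2
  have hd := den_pos hq (2 * i + 1) (by omega)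
  have h1 : Bd q a (2 * i + 1)
      (C₀ * ((1 + 6 * (1 / (q : ℚ) ^ (2 * i + 1)) + (1 / (q : ℚ) ^ (2 * i + 1)) ^ 2) /
        (1 - (q : ℚ) * (1 / (q : ℚ) ^ (2 * i + 1)))) +
        C₁ * (1 / (q : ℚ) ^ (i + 1)) * ((4 + 4 * (1 / (q : ℚ) ^ (2 * i + 1))) / (1 - (q : ℚ) * (1 / (q : ℚ) ^ (2 * i + 1)))))
      (C₁ * ((1 + 6 * (1 / (q : ℚ) ^ (2 * i + 1)) + (1 / (q : ℚ) ^ (2 * i + 1)) ^ 2) /
        (1 - (q : ℚ) * (1 / (q : ℚ) ^ (2 * i + 1)))) +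
        C₀ * (1 / (q : ℚ) ^ i) * ((4 + 4 * (1 / (q : ℚ) ^ (2 * i + 1))) / (1 - (q : ℚ) * (1 / (q : ℚ) ^ (2 * i + 1))))) := by
    intro n
    exact odd_pair hq hi (a (2 * i)) (a (2 * i + 1)) W hW0 hW1
      (fun m => hodd (2 * i) m (by simp)) hC₀ hC₁ (fun n => (h n).1) (fun n => (h n).2) n
  have hy0 : (0 : ℚ) ≤ 1 / (q : ℚ) ^ (2 * i + 1) := by positivity
  have hnn : 0 < 1 - (q : ℚ) * (1 / (q : ℚ) ^ (2 * i + 1)) := by linarith
  have h2 := bd_even hq a heven (i := i) (by positivity) (by positivity) h1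
  rw [show 2 * i + 1 + 1 = 2 * (i + 1) by ring] at h2
  exact h2

/-- Clearing denominators in the step. -/
theorem nx_le {Q : ℚ} (hQ : 3 ≤ Q) {i : ℕ} (hi : 1 ≤ i) {C₀ C₁ T₀ T₁ : ℚ}
    (h₀ : C₀ * (1 + 6 * ((1 / Q ^ i) ^ 2 * (1 / Q)) + ((1 / Q ^ i) ^ 2 * (1 / Q)) ^ 2) +
        C₁ * ((1 / Q ^ i) * (1 / Q)) * (4 + 4 * ((1 / Q ^ i) ^ 2 * (1 / Q))) ≤
        T₀ * (1 - (1 / Q ^ i) ^ 2 * (1 / Q)) * (1 - (1 / Q ^ i) ^ 2))
    (h₁ : C₁ * (1 + 6 * ((1 / Q ^ i) ^ 2 * (1 / Q)) + ((1 / Q ^ i) ^ 2 * (1 / Q)) ^ 2) +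
        C₀ * (1 / Q ^ i) * (4 + 4 * ((1 / Q ^ i) ^ 2 * (1 / Q))) ≤
        T₁ * (1 - (1 / Q ^ i) ^ 2 * (1 / Q)) * (1 - (1 / Q ^ i) ^ 2)) :
    nx₀ Q i C₀ C₁ ≤ T₀ ∧ nx₁ Q i C₀ C₁ ≤ T₁ := by
  have hQ0 : 0 < Q := by linarith
  have hx : Q ≤ Q ^ i := by
    calc Q = Q ^ 1 := (pow_one _).symm
      _ ≤ Q ^ i := pow_le_pow_right₀ (by linarith) hi
  have e1 : 1 / Q ^ (2 * i + 1) = (1 / Q ^ i) ^ 2 * (1 / Q) := by
    rw [pow_succ, pow_mul']
    field_simp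
  have e2 : Q * (1 / Q ^ (2 * i + 1)) = (1 / Q ^ i) ^ 2 := by
    rw [e1]
    field_simp
  have e3 : 1 / Q ^ (i + 1) = (1 / Q ^ i) * (1 / Q) := by
    rw [pow_succ]
    field_simp
  have hw0 : 0 ≤ 1 / Q ^ i := by positivity
  have hw1 : 1 / Q ^ i ≤ 1 / 3 := by
    rw [div_le_div_iff₀ (by positivity) (by norm_num)]
    linarith
  have hz1 : 1 / Q ≤ 1 / 3 := by
    rw [div_le_div_iff₀ (by positivity) (by norm_num)]
    linarith
  have hz0 : 0 ≤ 1 / Q := by positivity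
  unfold nx₀ nx₁
  rw [e2, e3, e1]
  generalize (1 / Q ^ i) = w at *
  generalize (1 / Q) = z at *
  have hd1 : 0 < 1 - w ^ 2 := by nlinarith
  have hd2 : 0 < 1 - w ^ 2 * z := by nlinarith [mul_nonneg (sq_nonneg w) hz0, mul_le_mul_of_nonneg_left hz1 (sq_nonneg w)]
  constructor
  · rw [div_le_iff₀ hd2, ← mul_div_assoc, ← mul_div_assoc, ← add_div, div_le_iff₀ hd1]
    linarith
  · rw [div_le_iff₀ hd2, ← mul_div_assoc, ← mul_div_assoc, ← add_div, div_le_iff₀ hd1]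
    linarith

/-- The potential. -/
def Pt (Q L α : ℚ) (i : ℕ) : ℚ := L * (1 - α * (1 / Q ^ i))

include hq hW0 hW1 hodd heven in
theorem pot_chain {L₀ L₁ α : ℚ} {i₀ : ℕ} (hi₀ : 1 ≤ i₀)
    (hpos : ∀ i, i₀ ≤ i → 0 ≤ Pt q L₀ α i ∧ 0 ≤ Pt q L₁ α i)
    (hstep : ∀ i, i₀ ≤ i → nx₀ q i (Pt q L₀ α i) (Pt q L₁ α i) ≤ Pt q L₀ α (i + 1) ∧
      nx₁ q i (Pt q L₀ α i) (Pt q L₁ α i) ≤ Pt q L₁ α (i + 1))
    (hstart : Bd q a (2 * i₀) (Pt q L₀ α i₀) (Pt q L₁ α i₀)) :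
    ∀ i, i₀ ≤ i → Bd q a (2 * i) (Pt q L₀ α i) (Pt q L₁ α i) := by
  intro i hi
  induction i, hi using Nat.le_induction with
  | base => exact hstart
  | succ i hi ih =>
    obtain ⟨h1, h2⟩ := hpos i hi
    obtain ⟨h3, h4⟩ := hstep i hi
    exact (bd_next hq a W hW0 hW1 hodd heven (by omega) h1 h2 ih).mono h3 h4

/-- The one-step inequality for `q = 3`. -/
theorem step_three (i : ℕ) (hi : 1 ≤ i) :
    nx₀ 3 i (Pt 3 17 4 i) (Pt 3 (291 / 10) 4 i) ≤ Pt 3 17 4 (i + 1) ∧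
      nx₁ 3 i (Pt 3 17 4 i) (Pt 3 (291 / 10) 4 i) ≤ Pt 3 (291 / 10) 4 (i + 1) := by
  have e3 : (1 : ℚ) / 3 ^ (i + 1) = (1 / 3 ^ i) * (1 / 3) := by
    rw [pow_succ]
    field_simp
  have hw0 : (0 : ℚ) ≤ 1 / 3 ^ i := by positivity
  refine nx_le (by norm_num) hi ?_ ?_
  · unfold Pt
    rw [e3]
    generalize ((1 : ℚ) / 3 ^ i) = w at *
    have hP : 17 * (1 - 4 * (w * (1 / 3))) * (1 - w ^ 2 * (1 / 3)) * (1 - w ^ 2) -
        (17 * (1 - 4 * w) * (1 + 6 * (w ^ 2 * (1 / 3)) + (w ^ 2 * (1 / 3)) ^ 2) +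
        291 / 10 * (1 - 4 * w) * (w * (1 / 3)) * (4 + 4 * (w ^ 2 * (1 / 3)))) =
        w * (98 / 15 + 1478 / 15 * w + 6898 / 45 * w ^ 2 + 2498 / 45 * w ^ 3) := by ring
    have h0 : 0 ≤ w * (98 / 15 + 1478 / 15 * w + 6898 / 45 * w ^ 2 + 2498 / 45 * w ^ 3) := by positivity
    linarith
  · unfold Pt
    rw [e3]
    generalize ((1 : ℚ) / 3 ^ i) = w at *
    have hP : 291 / 10 * (1 - 4 * (w * (1 / 3))) * (1 - w ^ 2 * (1 / 3)) * (1 - w ^ 2) -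
        (291 / 10 * (1 - 4 * w) * (1 + 6 * (w ^ 2 * (1 / 3)) + (w ^ 2 * (1 / 3)) ^ 2) +
        17 * (1 - 4 * w) * w * (4 + 4 * (w ^ 2 * (1 / 3)))) =
        w * (48 / 5 + 175 * w + 3928 / 15 * w ^ 2 + 1457 / 15 * w ^ 3) := by ring
    have h0 : 0 ≤ w * (48 / 5 + 175 * w + 3928 / 15 * w ^ 2 + 1457 / 15 * w ^ 3) := by positivity
    linarith

/-- The one-step inequality for `q ≥ 5`. -/
theorem step_large {Q : ℚ} (hQ : 5 ≤ Q) (i : ℕ) (hi : 1 ≤ i) :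
    nx₀ Q i (Pt Q 8 3 i) (Pt Q 16 3 i) ≤ Pt Q 8 3 (i + 1) ∧
      nx₁ Q i (Pt Q 8 3 i) (Pt Q 16 3 i) ≤ Pt Q 16 3 (i + 1) := by
  have hQ0 : 0 < Q := by linarith
  have e3 : (1 : ℚ) / Q ^ (i + 1) = (1 / Q ^ i) * (1 / Q) := by
    rw [pow_succ]
    field_simp
  have hw0 : (0 : ℚ) ≤ 1 / Q ^ i := by positivity
  have hz0 : (0 : ℚ) ≤ 1 / Q := by positivity
  have hz1 : 1 / Q ≤ 1 / 5 := by
    rw [div_le_div_iff₀ hQ0 (by norm_num)]
    linarith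
  have hw1 : 1 / Q ^ i ≤ 1 / 5 := by
    have hx : Q ≤ Q ^ i := by
      calc Q = Q ^ 1 := (pow_one _).symm
        _ ≤ Q ^ i := pow_le_pow_right₀ (by linarith) hi
    rw [div_le_div_iff₀ (by positivity) (by norm_num)]
    linarith
  refine nx_le (by linarith) hi ?_ ?_
  · unfold Pt
    rw [e3]
    generalize ((1 : ℚ) / Q ^ i) = w at *
    generalize ((1 : ℚ) / Q) = z at *
    have hP : 8 * (1 - 3 * (w * z)) * (1 - w ^ 2 * z) * (1 - w ^ 2) -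
        (8 * (1 - 3 * w) * (1 + 6 * (w ^ 2 * z) + (w ^ 2 * z) ^ 2) +
        16 * (1 - 3 * w) * (w * z) * (4 + 4 * (w ^ 2 * z))) =
        w * ((24 - 88 * z - 8 * w) + 136 * (w * z) + w ^ 2 * z * (168 - 40 * z) + 8 * (w ^ 3 * z) + 184 * (w ^ 3 * z ^ 2)) := by ring
    have h1 : 0 ≤ 24 - 88 * z - 8 * w := by linarith
    have h2 : 0 ≤ 168 - 40 * z := by linarith
    have h0 : 0 ≤ w * ((24 - 88 * z - 8 * w) + 136 * (w * z) + w ^ 2 * z * (168 - 40 * z) + 8 * (w ^ 3 * z) + 184 * (w ^ 3 * z ^ 2)) := by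
      positivity
    linarith
  · unfold Pt
    rw [e3]
    generalize ((1 : ℚ) / Q ^ i) = w at *
    generalize ((1 : ℚ) / Q) = z at *
    have hP : 16 * (1 - 3 * (w * z)) * (1 - w ^ 2 * z) * (1 - w ^ 2) -
        (16 * (1 - 3 * w) * (1 + 6 * (w ^ 2 * z) + (w ^ 2 * z) ^ 2) +
        8 * (1 - 3 * w) * w * (4 + 4 * (w ^ 2 * z))) =
        w * ((16 - 48 * z) + w * (80 - 112 * z) + 304 * (w ^ 2 * z) + 48 * (w ^ 2 * z ^ 2) + w ^ 3 * z * (112 - 16 * z)) := by ring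
    have h1 : 0 ≤ 16 - 48 * z := by linarith
    have h2 : 0 ≤ 80 - 112 * z := by linarith
    have h3 : 0 ≤ 112 - 16 * z := by linarith
    have h0 : 0 ≤ w * ((16 - 48 * z) + w * (80 - 112 * z) + 304 * (w ^ 2 * z) + 48 * (w ^ 2 * z ^ 2) + w ^ 3 * z * (112 - 16 * z)) := by
      positivity
    linarith

theorem Pt_le {Q L α : ℚ} (hQ : 0 < Q) (hL : 0 ≤ L) (hα : 0 ≤ α) (i : ℕ) : Pt Q L α i ≤ L := by
  unfold Pt
  have h : 0 ≤ α * (1 / Q ^ i) := by positivity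
  nlinarith

include hq hW0 hW1 hodd heven h00 h0n in
/-- The bound for `q ≥ 5`. -/
theorem bound_large (hq5 : (5 : ℚ) ≤ (q : ℚ)) (i : ℕ) (hi : 1 ≤ i) (n : ℕ) :
    (a (2 * i) (2 * n) : ℚ) ≤ 8 * (q : ℚ) ^ n := by
  have hQ0 : (0 : ℚ) < (q : ℚ) := by linarith
  have hz0 : (0 : ℚ) ≤ 1 / (q : ℚ) := by positivity
  have hz1 : 1 / (q : ℚ) ≤ 1 / 5 := by
    rw [div_le_div_iff₀ hQ0 (by norm_num)]
    linarith
  have hstart : Bd q a (2 * 1) (Pt q 8 3 1) (Pt q 16 3 1) := by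
    have h1 := bd_one hq a W hW0 hW1 hodd h00 h0n
    have h2 := bd_even hq a heven (i := 0) (by positivity) (by positivity) h1
    refine Bd.mono h2 ?_ ?_
    · unfold Pt
      simp only [Nat.mul_zero, Nat.zero_add, pow_one]
      generalize (1 : ℚ) / (q : ℚ) = z at *
      have hd : 0 < 1 - z := by linarith
      rw [div_le_iff₀ hd]
      nlinarith
    · unfold Pt
      simp only [Nat.mul_zero, Nat.zero_add, pow_one]
      generalize (1 : ℚ) / (q : ℚ) = z at *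
      have hd : 0 < 1 - z := by linarith
      rw [div_le_iff₀ hd]
      nlinarith
  have hpos : ∀ i, 1 ≤ i → 0 ≤ Pt q 8 3 i ∧ 0 ≤ Pt q 16 3 i := by
    intro i hi
    have hx : (q : ℚ) ≤ (q : ℚ) ^ i := by
      calc (q : ℚ) = (q : ℚ) ^ 1 := (pow_one _).symm
        _ ≤ (q : ℚ) ^ i := pow_le_pow_right₀ (by linarith) hi
    have hw1 : 1 / (q : ℚ) ^ i ≤ 1 / 5 := by
      rw [div_le_div_iff₀ (by positivity) (by norm_num)]
      linarith
    unfold Pt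
    constructor <;> nlinarith
  have h := pot_chain hq a W hW0 hW1 hodd heven (le_refl 1) hpos (fun i hi => step_large hq5 i hi) hstart i hi n
  exact h.1.trans (mul_le_mul_of_nonneg_right (Pt_le hQ0 (by norm_num) (by norm_num) _) (by positivity))

include hq hW0 hW1 hodd heven h00 h0n in
/-- The bound for `q = 3`. -/
theorem bound_three (hq3 : q = 3) (i : ℕ) (hi : 2 ≤ i) (n : ℕ) :
    (a (2 * i) (2 * n) : ℚ) ≤ 17 * (q : ℚ) ^ n := by
  have hQ : (q : ℚ) = 3 := by exact_mod_cast hq3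
  have hQ0 : (0 : ℚ) < (q : ℚ) := by rw [hQ]; norm_num
  have h1 := bd_one hq a W hW0 hW1 hodd h00 h0n
  have h2 : Bd q a (2 * 1) (14 / 3) 8 := by
    have h2' := bd_even hq a heven (i := 0) (by rw [hQ]; norm_num) (by rw [hQ]; norm_num) h1
    refine Bd.mono h2' ?_ ?_
    · rw [hQ]
      norm_num
    · rw [hQ]
      norm_num
  have h4 : Bd q a (2 * 2) (1098 / 100) (1898 / 100) := by
    refine Bd.mono (bd_next hq a W hW0 hW1 hodd heven (i := 1) (by norm_num) (by norm_num) (by norm_num) h2) ?_ ?_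
    · rw [hQ]
      norm_num [nx₀]
    · rw [hQ]
      norm_num [nx₁]
  have h6 : Bd q a (2 * 3) (Pt q 17 4 3) (Pt q (291 / 10) 4 3) := by
    refine Bd.mono (bd_next hq a W hW0 hW1 hodd heven (i := 2) (by norm_num) (by norm_num) (by norm_num) h4) ?_ ?_
    · rw [hQ]
      norm_num [nx₀, Pt]
    · rw [hQ]
      norm_num [nx₁, Pt]
  have hpos : ∀ i, 3 ≤ i → 0 ≤ Pt q 17 4 i ∧ 0 ≤ Pt q (291 / 10) 4 i := by
    intro i hi
    have hx : (27 : ℚ) ≤ (q : ℚ) ^ i := by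
      rw [hQ]
      calc (27 : ℚ) = 3 ^ 3 := by norm_num
        _ ≤ 3 ^ i := pow_le_pow_right₀ (by norm_num) hi
    have hw1 : 1 / (q : ℚ) ^ i ≤ 1 / 27 := by
      rw [div_le_div_iff₀ (by linarith) (by norm_num)]
      linarith
    unfold Pt
    constructor <;> nlinarith
  have hstep : ∀ i, 3 ≤ i → nx₀ q i (Pt q 17 4 i) (Pt q (291 / 10) 4 i) ≤ Pt q 17 4 (i + 1) ∧
      nx₁ q i (Pt q 17 4 i) (Pt q (291 / 10) 4 i) ≤ Pt q (291 / 10) 4 (i + 1) := by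
    intro i hi
    rw [hQ]
    exact step_three i (by omega)
  have hchain := pot_chain hq a W hW0 hW1 hodd heven (by norm_num : 1 ≤ 3) hpos hstep h6
  by_cases hi2 : i = 2
  · subst hi2
    refine (h4 n).1.trans (mul_le_mul_of_nonneg_right (by norm_num) (by positivity))
  · have h7 := hchain i (by omega) n
    exact h7.1.trans (mul_le_mul_of_nonneg_right (Pt_le hQ0 (by norm_num) (by norm_num) _) (by positivity))

end Chain

section Z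

variable {q : ℕ} (hq : 3 ≤ q) (z : ℕ → ℕ → ℕ)
  (hrec : ∀ J n, z (J + 1) n ≤ ∑ d ∈ Finset.range (n / (J + 1) + 1), q ^ d * z J (n - (J + 1) * d))
  (h00 : z 0 0 ≤ 1) (h0n : ∀ n, 1 ≤ n → z 0 n = 0)

include hq hrec h00 h0n in
theorem z_bound (J : ℕ) (hJ : 1 ≤ J) : ∀ n, (z J n : ℚ) ≤ 2 * (1 - 3 / 2 * (1 / (q : ℚ) ^ J)) * (q : ℚ) ^ n := by
  have hQ : (3 : ℚ) ≤ (q : ℚ) := by exact_mod_cast hq
  have hQ0 : (0 : ℚ) < q := by linarith
  induction J, hJ using Nat.le_induction with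
  | base =>
    intro n
    have h := hrec 0 n
    simp only [zero_add, Nat.div_one, one_mul] at h
    rw [Finset.sum_eq_single n] at h
    · rw [Nat.sub_self] at h
      have h1 : z 1 n ≤ q ^ n := h.trans (by
        calc q ^ n * z 0 0 ≤ q ^ n * 1 := Nat.mul_le_mul_left _ h00
          _ = q ^ n := mul_one _)
      have h2 : (z 1 n : ℚ) ≤ (q : ℚ) ^ n := by exact_mod_cast h1
      refine h2.trans ?_
      have h3 : 1 / (q : ℚ) ^ 1 ≤ 1 / 3 := by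
        rw [pow_one, div_le_div_iff₀ hQ0 (by norm_num)]
        linarith
      have h4 : (1 : ℚ) ≤ 2 * (1 - 3 / 2 * (1 / (q : ℚ) ^ 1)) := by linarith
      have h5 := mul_le_mul_of_nonneg_right h4 (by positivity : (0 : ℚ) ≤ (q : ℚ) ^ n)
      rwa [one_mul] at h5
    · intro d hd hne
      have h1 := Finset.mem_range.mp hd
      rw [h0n _ (by omega), mul_zero]
    · intro hm
      simp at hm
  | succ J hJ ih =>
    intro n
    have hx : (q : ℚ) ≤ (q : ℚ) ^ J := by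
      calc (q : ℚ) = (q : ℚ) ^ 1 := (pow_one _).symm
        _ ≤ (q : ℚ) ^ J := pow_le_pow_right₀ (by linarith) hJ
    have hy1 : 1 / (q : ℚ) ^ J ≤ 1 / 3 := by
      rw [div_le_div_iff₀ (by positivity) (by norm_num)]
      linarith
    have hy0 : 0 ≤ 1 / (q : ℚ) ^ J := by positivity
    have hC : 0 ≤ 2 * (1 - 3 / 2 * (1 / (q : ℚ) ^ J)) := by linarith
    have h := Cfsg.Agent.Lib.ClassNum.SpNum.odd_step hq hJ (z J) (z (J + 1)) (hrec J) hC ih n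
    refine h.trans (mul_le_mul_of_nonneg_right ?_ (by positivity))
    have e : 1 / (q : ℚ) ^ (J + 1) = (1 / (q : ℚ) ^ J) * (1 / q) := by
      rw [pow_succ]
      field_simp
    rw [e]
    have hz1 : 1 / (q : ℚ) ≤ 1 / 3 := by
      rw [div_le_div_iff₀ hQ0 (by norm_num)]
      linarith
    have hz0 : 0 ≤ 1 / (q : ℚ) := by positivity
    generalize 1 / (q : ℚ) ^ J = y at *
    generalize 1 / (q : ℚ) = t at *
    have hd : 0 < 1 - y := by linarith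
    rw [div_le_iff₀ hd]
    nlinarith [mul_nonneg hy0 (by linarith : 0 ≤ 1 / 3 - t), mul_nonneg (mul_nonneg hy0 hy0) hz0]

include hq hrec h00 h0n in
theorem z_le_two (J : ℕ) (hJ : 1 ≤ J) (n : ℕ) : (z J n : ℚ) ≤ 2 * (q : ℚ) ^ n := by
  have h := z_bound hq z hrec h00 h0n J hJ n
  refine h.trans (mul_le_mul_of_nonneg_right ?_ (by positivity))
  have : 0 ≤ 1 / (q : ℚ) ^ J := by positivity
  linarith

end Z

end Cfsg.Agent.Lib.ClassNum.ONum
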