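import Mathlib
import Cfsg.Agent.Lib.ClassNum.OCount
import Cfsg.Agent.Lib.ClassNum.ONum

/-!
# The upper bound for the number of classes of an orthogonal group, and the two polar forms
-/

set_option autoImplicit false
set_option linter.unusedSectionVars false
set_option linter.unusedVariables false

open Polynomial Module Matrix
open Cfsg.Agent.Lib.ClassNum.SpPoly Cfsg.Agent.Lib.ClassNum.SpCount
open Cfsg.Agent.Lib.ClassNum.OTop Cfsg.Agent.Lib.ClassNum.OCount Cfsg.Agent.Lib.ClassNum.ONum
open scoped _root_.Classical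

namespace Cfsg.Agent.Lib.ClassNum.OBound

universe u

variable {F : Type u} [Field F] [Fintype F]

theorem AO_rec_even (h2 : (2 : F) ≠ 0) (J m : ℕ) (hJ : Even (J + 1)) :
    AO F (J + 1) m ≤ ∑ d ∈ Finset.range (m / (2 * (J + 1)) + 1), Fintype.card F ^ d * AO F J (m - (J + 1) * (2 * d)) :=
  (step_even h2 J m hJ).trans (Finset.sum_le_sum fun d _ => Nat.mul_le_mul_right _ (card_PF_le d))

/-- The half version of the count of types without odd blocks. -/
noncomputable def zz (F : Type u) [Field F] [Fintype F] (J n : ℕ) : ℕ := ZO F J (2 * n)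

theorem zz_rec (h2 : (2 : F) ≠ 0) (J n : ℕ) :
    zz F (J + 1) n ≤ ∑ d ∈ Finset.range (n / (J + 1) + 1), Fintype.card F ^ d * zz F J (n - (J + 1) * d) := by
  have h := step_Z h2 J (2 * n)
  rw [Nat.mul_div_mul_left _ _ (by norm_num : 0 < 2)] at h
  refine h.trans (Finset.sum_le_sum fun d _ => ?_)
  have e : 2 * n - (J + 1) * (2 * d) = 2 * (n - (J + 1) * d) := by
    rw [Nat.mul_sub]
    congr 1
    ring
  rw [e]
  exact Nat.mul_le_mul_right _ (card_PF_le d)

/-- The bound on the numerical side. -/
theorem AO_add_ZO_le (hodd : Fintype.card F % 2 = 1) {n : ℕ} (hn : 2 ≤ n) :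
    AO F (2 * n) (2 * n) + ZO F (2 * n) (2 * n) ≤ 19 * Fintype.card F ^ n := by
  have h2 : (2 : F) ≠ 0 := Cfsg.Agent.Lib.ClassNum.SpSym.two_ne_zero_of_odd hodd
  have hq1 : 1 < Fintype.card F := Fintype.one_lt_card
  have hq : 3 ≤ Fintype.card F := by omega
  have hA : (AO F (2 * n) (2 * n) : ℚ) ≤ 17 * (Fintype.card F : ℚ) ^ n := by
    by_cases h3 : Fintype.card F = 3
    · exact bound_three hq (AO F) (fun D => ∑ f ∈ RF F D, 2 ^ wt f) (W_even h2) (W_odd h2)
        (fun J m hJ => step_odd J m hJ) (fun J m hJ => AO_rec_even h2 J m hJ)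
        AO_zero_zero (fun m hm => AO_zero_pos hm) h3 n hn n
    · have h5 : 5 ≤ Fintype.card F := by omega
      have h5' : (5 : ℚ) ≤ (Fintype.card F : ℚ) := by exact_mod_cast h5
      have h6 := bound_large hq (AO F) (fun D => ∑ f ∈ RF F D, 2 ^ wt f) (W_even h2) (W_odd h2)
        (fun J m hJ => step_odd J m hJ) (fun J m hJ => AO_rec_even h2 J m hJ)
        AO_zero_zero (fun m hm => AO_zero_pos hm) h5' n (by omega) n
      refine h6.trans (mul_le_mul_of_nonneg_right (by norm_num) (by positivity))
  have hZ : (ZO F (2 * n) (2 * n) : ℚ) ≤ 2 * (Fintype.card F : ℚ) ^ n :=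
    z_le_two hq (zz F) (zz_rec h2) ZO_zero_zero (fun m hm => ZO_zero_pos (by omega)) (2 * n) (by omega) n
  have h3 : ((AO F (2 * n) (2 * n) + ZO F (2 * n) (2 * n) : ℕ) : ℚ) ≤ ((19 * Fintype.card F ^ n : ℕ) : ℚ) := by
    push_cast
    linarith
  exact_mod_cast h3

/-- The upper bound for an orthogonal group. -/
theorem upper {ι : Type} [Fintype ι] [DecidableEq ι] {Q : (ι → F) → F} {B : LinearMap.BilinForm F (ι → F)}
    (hodd : Fintype.card F % 2 = 1) (hP : Polar Q B) {n : ℕ} (hn : 2 ≤ n) (hN : Fintype.card ι = 2 * n) :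
    2 * Nat.card (ConjClasses (Cfsg.isometryGroup F Q)) ≤ 19 * Fintype.card F ^ n :=
  (card_classes_le hodd hP hN).trans (AO_add_ZO_le hodd hn)

section Forms

/-- The polar form of `quadFormPlus`. -/
noncomputable def plusB (m : ℕ) (F : Type u) [Field F] : LinearMap.BilinForm F (Fin m ⊕ Fin m → F) :=
  LinearMap.mk₂ F (fun u v => ∑ i : Fin m, (u (.inl i) * v (.inr i) + u (.inr i) * v (.inl i)))
    (fun a b c => by
      simp only [Pi.add_apply]
      rw [← Finset.sum_add_distrib]
      exact Finset.sum_congr rfl fun i _ => by ring)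
    (fun c a b => by
      simp only [Pi.smul_apply, smul_eq_mul]
      rw [Finset.mul_sum]
      exact Finset.sum_congr rfl fun i _ => by ring)
    (fun a b c => by
      simp only [Pi.add_apply]
      rw [← Finset.sum_add_distrib]
      exact Finset.sum_congr rfl fun i _ => by ring)
    (fun c a b => by
      simp only [Pi.smul_apply, smul_eq_mul]
      rw [Finset.mul_sum]
      exact Finset.sum_congr rfl fun i _ => by ring)

theorem plusB_apply (m : ℕ) (u v : Fin m ⊕ Fin m → F) :
    plusB m F u v = ∑ i : Fin m, (u (.inl i) * v (.inr i) + u (.inr i) * v (.inl i)) := rfl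

theorem polar_plus (h2 : (2 : F) ≠ 0) (m : ℕ) : Polar (Cfsg.quadFormPlus m F) (plusB m F) where
  h2 := h2
  symm := fun x y => by
    rw [plusB_apply, plusB_apply]
    exact Finset.sum_congr rfl fun i _ => by ring
  nd := fun x hx => by
    funext i
    rcases i with i | i
    · have h := hx (Pi.single (.inr i) 1)
      rw [plusB_apply, Finset.sum_eq_single i] at h
      · simpa using h
      · intro j _ hj
        simp [Pi.single_apply, hj]
      · simp
    · have h := hx (Pi.single (.inl i) 1)
      rw [plusB_apply, Finset.sum_eq_single i] at h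
      · simpa using h
      · intro j _ hj
        simp [Pi.single_apply, hj]
      · simp
  diag := fun u => by
    rw [plusB_apply, Cfsg.quadFormPlus, Finset.mul_sum]
    exact Finset.sum_congr rfl fun i _ => by ring

/-- The polar form of `quadFormMinus`. -/
noncomputable def minusB (m : ℕ) (F : Type u) [Field F] (a b : F) :
    LinearMap.BilinForm F ((Fin m ⊕ Fin m) ⊕ Fin 2 → F) :=
  LinearMap.mk₂ F (fun u v => (∑ i : Fin m, (u (.inl (.inl i)) * v (.inl (.inr i)) + u (.inl (.inr i)) * v (.inl (.inl i)))) +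
      (2 * u (.inr 0) * v (.inr 0) + a * (u (.inr 0) * v (.inr 1) + u (.inr 1) * v (.inr 0)) + 2 * b * u (.inr 1) * v (.inr 1)))
    (fun x y z => by
      simp only [Pi.add_apply]
      have : ∀ i : Fin m, ((x (.inl (.inl i)) + y (.inl (.inl i))) * z (.inl (.inr i)) +
          (x (.inl (.inr i)) + y (.inl (.inr i))) * z (.inl (.inl i))) =
          (x (.inl (.inl i)) * z (.inl (.inr i)) + x (.inl (.inr i)) * z (.inl (.inl i))) +
          (y (.inl (.inl i)) * z (.inl (.inr i)) + y (.inl (.inr i)) * z (.inl (.inl i))) := fun i => by ring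
      simp only [this, Finset.sum_add_distrib]
      ring)
    (fun c x y => by
      simp only [Pi.smul_apply, smul_eq_mul]
      have : ∀ i : Fin m, (c * x (.inl (.inl i)) * y (.inl (.inr i)) + c * x (.inl (.inr i)) * y (.inl (.inl i))) =
          c * (x (.inl (.inl i)) * y (.inl (.inr i)) + x (.inl (.inr i)) * y (.inl (.inl i))) := fun i => by ring
      simp only [this, ← Finset.mul_sum]
      ring)
    (fun x y z => by
      simp only [Pi.add_apply]
      have : ∀ i : Fin m, (x (.inl (.inl i)) * (y (.inl (.inr i)) + z (.inl (.inr i))) +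
          x (.inl (.inr i)) * (y (.inl (.inl i)) + z (.inl (.inl i)))) =
          (x (.inl (.inl i)) * y (.inl (.inr i)) + x (.inl (.inr i)) * y (.inl (.inl i))) +
          (x (.inl (.inl i)) * z (.inl (.inr i)) + x (.inl (.inr i)) * z (.inl (.inl i))) := fun i => by ring
      simp only [this, Finset.sum_add_distrib]
      ring)
    (fun c x y => by
      simp only [Pi.smul_apply, smul_eq_mul]
      have : ∀ i : Fin m, (x (.inl (.inl i)) * (c * y (.inl (.inr i))) + x (.inl (.inr i)) * (c * y (.inl (.inl i)))) =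
          c * (x (.inl (.inl i)) * y (.inl (.inr i)) + x (.inl (.inr i)) * y (.inl (.inl i))) := fun i => by ring
      simp only [this, ← Finset.mul_sum]
      ring)

theorem minusB_apply (m : ℕ) (a b : F) (u v : (Fin m ⊕ Fin m) ⊕ Fin 2 → F) :
    minusB m F a b u v = (∑ i : Fin m, (u (.inl (.inl i)) * v (.inl (.inr i)) + u (.inl (.inr i)) * v (.inl (.inl i)))) +
      (2 * u (.inr 0) * v (.inr 0) + a * (u (.inr 0) * v (.inr 1) + u (.inr 1) * v (.inr 0)) + 2 * b * u (.inr 1) * v (.inr 1)) := rfl

theorem polar_minus (h2 : (2 : F) ≠ 0) (m : ℕ) {a b : F}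
    (hab : ∀ z₁ z₂ : F, z₁ ^ 2 + a * z₁ * z₂ + b * z₂ ^ 2 = 0 → z₁ = 0 ∧ z₂ = 0) :
    Polar (Cfsg.quadFormMinus m F a b) (minusB m F a b) where
  h2 := h2
  symm := fun x y => by
    rw [minusB_apply, minusB_apply]
    congr 1
    · exact Finset.sum_congr rfl fun i _ => by ring
    · ring
  nd := fun x hx => by
    have h01 : (0 : Fin 2) ≠ 1 := by decide
    have h1 := hx (Pi.single (.inr 0) 1)
    have h3 := hx (Pi.single (.inr 1) 1)
    rw [minusB_apply] at h1 h3
    simp only [Pi.single_apply, reduceCtorEq, if_false, mul_zero, add_zero, Finset.sum_const_zero, zero_add, Sum.inr.injEq,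
      if_true, mul_one, h01, h01.symm] at h1 h3
    have hne : 4 * b - a ^ 2 ≠ 0 := by
      intro h0
      have h4 := hab (-a) 2 (by linear_combination h0)
      exact h2 h4.2
    have hx1 : x (.inr 1) = 0 := by
      have h4 : (4 * b - a ^ 2) * x (.inr 1) = 0 := by linear_combination 2 * h3 - a * h1
      exact (mul_eq_zero.mp h4).resolve_left hne
    have hx0 : x (.inr 0) = 0 := by
      rw [hx1] at h1
      have h4 : 2 * x (.inr 0) = 0 := by linear_combination h1
      exact (mul_eq_zero.mp h4).resolve_left h2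
    funext i
    rcases i with (i | i) | i
    · have h := hx (Pi.single (.inl (.inr i)) 1)
      rw [minusB_apply, Finset.sum_eq_single i] at h
      · simpa [Pi.single_apply] using h
      · intro j _ hj
        simp [Pi.single_apply, hj]
      · simp
    · have h := hx (Pi.single (.inl (.inl i)) 1)
      rw [minusB_apply, Finset.sum_eq_single i] at h
      · simpa [Pi.single_apply] using h
      · intro j _ hj
        simp [Pi.single_apply, hj]
      · simp
    · fin_cases i
      · exact hx0
      · exact hx1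
  diag := fun u => by
    rw [minusB_apply, Cfsg.quadFormMinus]
    have e : (∑ i : Fin m, (u (.inl (.inl i)) * u (.inl (.inr i)) + u (.inl (.inr i)) * u (.inl (.inl i)))) =
        2 * ∑ i : Fin m, u (.inl (.inl i)) * u (.inl (.inr i)) := by
      rw [Finset.mul_sum]
      exact Finset.sum_congr rfl fun i _ => by ring
    rw [e]
    ring

end Forms

end Cfsg.Agent.Lib.ClassNum.OBound
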