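import Mathlib
import Cfsg.Agent.Lib.ClassNum.OBound
import Cfsg.Agent.Lib.Classical.Herm.SpReal

/-!
# Realising polynomials as characteristic polynomials of isometries of a quadratic form
-/

set_option autoImplicit false
set_option linter.unusedSectionVars false
set_option linter.unusedVariables false

open Polynomial Module Matrix
open Cfsg.Agent.Lib.Classical.Herm.Palin
open Cfsg.Agent.Lib.ClassNum.ODisc Cfsg.Agent.Lib.ClassNum.OTop
open scoped _root_.Classical

namespace Cfsg.Agent.Lib.ClassNum.OReal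

universe u

variable {F : Type u} [Field F]

section Palin

theorem eval_palin {s : F} (hs : s * s = 1) (g : F[X]) : eval s (palin g) = s ^ g.natDegree * eval (2 * s) g := by
  rw [eval_eq_sum_range (p := g) (x := 2 * s), palin, eval_finset_sum, Finset.mul_sum]
  apply Finset.sum_congr rfl
  intro i hi
  have hi' : i ≤ g.natDegree := Nat.lt_succ_iff.mp (Finset.mem_range.mp hi)
  simp only [eval_mul, eval_C, eval_pow, eval_add, eval_X, eval_one]
  have e1 : s ^ 2 + 1 = 2 := by
    rw [sq, hs]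
    norm_num
  have e2 : s ^ g.natDegree = s ^ (g.natDegree - i) * s ^ i := by
    rw [← pow_add]
    congr 1
    omega
  have e3 : s ^ i * s ^ i = 1 := by
    rw [← mul_pow, hs, one_pow]
  rw [e1, e2, mul_pow]
  linear_combination (g.coeff i * 2 ^ i * s ^ (g.natDegree - i)) * (-e3)

theorem palin_X_sub {s : F} (hs : s * s = 1) : palin (X - C (2 * s) : F[X]) = (X - C s) ^ 2 := by
  have c0 : (X - C (2 * s) : F[X]).coeff 0 = -(2 * s) := by simp
  have c1 : (X - C (2 * s) : F[X]).coeff 1 = 1 := by simp [coeff_C]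
  rw [palin, natDegree_X_sub_C, Finset.sum_range_succ, Finset.sum_range_one, c0, c1]
  have h : (C s * C s : F[X]) = 1 := by rw [← C_mul, hs, C_1]
  have e2 : (C (-(2 * s)) : F[X]) = -(2 * C s) := by
    rw [C_neg, C_mul, map_ofNat C 2]
  rw [e2, C_1]
  simp only [pow_zero, mul_one, one_mul, pow_one, Nat.sub_self, Nat.sub_zero]
  linear_combination (-1 : F[X]) * h

theorem palin_pow {p : F[X]} (hp : p.Monic) (a : ℕ) : palin (p ^ a) = palin p ^ a := by
  induction a with
  | zero => simp [palin_one]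
  | succ a ih => rw [pow_succ, palin_mul (hp.pow a) hp, ih, pow_succ]

end Palin

variable [Fintype F]

/-- A polynomial realised by a pair of matrices. -/
def RealPair (f : F[X]) (c : ℤ) : Prop :=
  ∃ (ι₀ : Type) (i₁ : Fintype ι₀) (i₂ : DecidableEq ι₀) (M N : Matrix ι₀ ι₀ F),
    Mᵀ * N * M = N ∧ Nᵀ = N ∧ N.det ≠ 0 ∧ M.charpoly = f ∧ quadraticChar F N.det = c

/-- The orthogonal sum of two pairs. -/
theorem RealPair.mul {f f' : F[X]} {c c' : ℤ} (h : RealPair f c) (h' : RealPair f' c') :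
    RealPair (f * f') (c * c') := by
  obtain ⟨ι₀, i₁, i₂, M, N, h1, h2, h3, h4, h5⟩ := h
  obtain ⟨ι₀', i₁', i₂', M', N', h1', h2', h3', h4', h5'⟩ := h'
  refine ⟨ι₀ ⊕ ι₀', inferInstance, inferInstance, Matrix.fromBlocks M 0 0 M', Matrix.fromBlocks N 0 0 N',
    ?_, ?_, ?_, ?_, ?_⟩
  · rw [Matrix.fromBlocks_transpose, Matrix.fromBlocks_multiply, Matrix.fromBlocks_multiply]
    simp [h1, h1']
  · rw [Matrix.fromBlocks_transpose]
    simp [h2, h2']
  · rw [Matrix.det_fromBlocks_zero₂₁]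
    exact mul_ne_zero h3 h3'
  · rw [Matrix.charpoly_fromBlocks_zero₁₂, h4, h4']
  · rw [Matrix.det_fromBlocks_zero₂₁, map_mul, h5, h5']

/-- The scalar part. -/
theorem realPair_scalar {s : F} (hs : s * s = 1) {m : ℕ} (hm : 1 ≤ m) {δ : F} (hδ : δ ≠ 0) :
    RealPair ((X - C s) ^ m : F[X]) (quadraticChar F δ) := by
  let d : Fin m → F := fun i => if i.val + 1 = m then δ else 1
  have hdet : (Matrix.diagonal d).det = δ := by
    rw [Matrix.det_diagonal, Finset.prod_eq_single (⟨m - 1, by omega⟩ : Fin m)]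
    · have h0 : ((⟨m - 1, by omega⟩ : Fin m) : ℕ) + 1 = m := by
        show m - 1 + 1 = m
        omega
      simp only [d]
      rw [if_pos h0]
    · intro i _ hi
      simp only [d]
      rw [if_neg]
      intro h
      apply hi
      apply Fin.ext
      simp
      omega
    · simp
  refine ⟨Fin m, inferInstance, inferInstance, Matrix.diagonal fun _ => s, Matrix.diagonal d, ?_, ?_, ?_, ?_, ?_⟩
  · rw [Matrix.diagonal_transpose, Matrix.diagonal_mul_diagonal, Matrix.diagonal_mul_diagonal]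
    congr 1
    funext i
    linear_combination (d i) * hs
  · exact Matrix.diagonal_transpose _
  · rw [hdet]
    exact hδ
  · rw [Matrix.charpoly_diagonal]
    simp
  · rw [hdet]

/-- The pair attached to a symplectic matrix. -/
theorem realPair_sp {k : ℕ} (u : symplecticGroup (Fin k) F)
    (h1 : eval 1 ((u : Matrix (Fin k ⊕ Fin k) (Fin k ⊕ Fin k) F).charpoly) ≠ 0)
    (h2 : eval (-1) ((u : Matrix (Fin k ⊕ Fin k) (Fin k ⊕ Fin k) F).charpoly) ≠ 0) :
    RealPair ((u : Matrix (Fin k ⊕ Fin k) (Fin k ⊕ Fin k) F).charpoly)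
      (quadraticChar F (Matrix.J (Fin k) F).det * quadraticChar F
        (eval 1 ((u : Matrix (Fin k ⊕ Fin k) (Fin k ⊕ Fin k) F).charpoly) *
          eval (-1) ((u : Matrix (Fin k ⊕ Fin k) (Fin k ⊕ Fin k) F).charpoly))) := by
  set M : Matrix (Fin k ⊕ Fin k) (Fin k ⊕ Fin k) F := (u : Matrix (Fin k ⊕ Fin k) (Fin k ⊕ Fin k) F) with hM
  set J : Matrix (Fin k ⊕ Fin k) (Fin k ⊕ Fin k) F := Matrix.J (Fin k) F with hJ
  have hmem : Mᵀ * J * M = J := SymplecticGroup.mem_iff'.mp u.2
  have hJt : Jᵀ = -J := Matrix.J_transpose (Fin k) F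
  have hdetM : M.det = 1 := SymplecticGroup.det_eq_one u.2
  let N : Matrix (Fin k ⊕ Fin k) (Fin k ⊕ Fin k) F := Mᵀ * J - J * M
  have hNM : N * M = J * ((1 - M) * (1 + M)) := by
    have e : (1 - M) * (1 + M) = 1 - M * M := by
      noncomm_ring
    rw [e, Matrix.mul_sub, Matrix.mul_one]
    simp only [N]
    rw [Matrix.sub_mul, hmem, Matrix.mul_assoc J]
  have hdet1 : (1 - M).det = eval 1 M.charpoly := by
    rw [Matrix.eval_charpoly]
    simp
  have hdet2 : (1 + M).det = eval (-1) M.charpoly := by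
    rw [Matrix.eval_charpoly]
    have e : Matrix.scalar (Fin k ⊕ Fin k) (-1 : F) - M = -(1 + M) := by
      ext i j
      by_cases hij : i = j <;> simp [hij, Matrix.one_apply, sub_eq_add_neg, Matrix.diagonal_apply] <;> ring
    rw [e, Matrix.det_neg, Fintype.card_sum, Fintype.card_fin]
    simp [← two_mul]
  have hdetN : N.det = J.det * (eval 1 M.charpoly * eval (-1) M.charpoly) := by
    have h3 := congrArg Matrix.det hNM
    rw [Matrix.det_mul, hdetM, mul_one, Matrix.det_mul, Matrix.det_mul, hdet1, hdet2] at h3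
    exact h3
  have hJ0 : J.det ≠ 0 := (Matrix.isUnit_det_J (Fin k) F).ne_zero
  refine ⟨Fin k ⊕ Fin k, inferInstance, inferInstance, M, N, ?_, ?_, ?_, rfl, ?_⟩
  · have e : Mᵀ * (Mᵀ * J - J * M) * M = Mᵀ * (Mᵀ * J * M) - (Mᵀ * J * M) * M := by
      simp only [Matrix.mul_sub, Matrix.sub_mul, Matrix.mul_assoc]
    simp only [N]
    rw [e, hmem]
  · simp only [N]
    rw [Matrix.transpose_sub, Matrix.transpose_mul, Matrix.transpose_mul, Matrix.transpose_transpose, hJt]
    simp only [Matrix.neg_mul, Matrix.mul_neg]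
    abel
  · rw [hdetN]
    exact mul_ne_zero hJ0 (mul_ne_zero h1 h2)
  · rw [hdetN, map_mul]

/-- The realisation of a palindromic polynomial without roots at `±1`. -/
theorem realPair_palin {g : F[X]} (hg : g.Monic) (h1 : eval 1 (palin g) ≠ 0) (h2 : eval (-1) (palin g) ≠ 0) :
    RealPair (palin g) (quadraticChar F (Matrix.J (Fin g.natDegree) F).det *
      quadraticChar F (eval 1 (palin g) * eval (-1) (palin g))) := by
  obtain ⟨p, hp⟩ := CharP.exists F
  have hpp : p.Prime := by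
    rcases CharP.char_is_prime_or_zero F p with h | h
    · exact h
    · subst h
      exact absurd hp (by
        intro h
        have := CharP.charP_to_charZero F
        exact (not_finite F))
  haveI : Fact p.Prime := ⟨hpp⟩
  obtain ⟨u, -, hu⟩ := Cfsg.Agent.Lib.Classical.Herm.SpReal.exists_sp_charpoly (p := p) hg
  have := realPair_sp u (by rw [hu]; exact h1) (by rw [hu]; exact h2)
  rwa [hu] at this

section Transport

variable {ι : Type} [Fintype ι] [DecidableEq ι] {Q : (ι → F) → F} {B : LinearMap.BilinForm F (ι → F)}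

/-- Transporting a realisation to a given quadratic form. -/
theorem exists_of_realPair (hodd : Fintype.card F % 2 = 1) (hP : Polar Q B) {f : F[X]} (h : RealPair f (dch B))
    (hdeg : f.natDegree = Fintype.card ι) :
    ∃ x : Cfsg.isometryGroup F Q, ((x : GL ι F) : Matrix ι ι F).charpoly = f := by
  obtain ⟨ι₀, i₁, i₂, M, N, h1, h2, h3, h4, h5⟩ := h
  have hcard : Fintype.card ι₀ = Fintype.card ι := by
    rw [← hdeg, ← h4, Matrix.charpoly_natDegree_eq_dim]
  let β₁ : LinearMap.BilinForm F (ι₀ → F) := Matrix.toBilin' N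
  have hβ : ∀ x y, β₁ x y = x ⬝ᵥ (N *ᵥ y) := fun x y => Matrix.toBilin'_apply' N x y
  have hs₁ : ∀ x y, β₁ x y = β₁ y x := by
    intro x y
    rw [hβ, hβ, Matrix.dotProduct_mulVec, ← Matrix.mulVec_transpose, h2, dotProduct_comm]
  have hn₁ : ∀ x, (∀ y, β₁ x y = 0) → x = 0 := by
    intro x hx
    have h6 : x ᵥ* N = 0 := by
      funext j
      have := hx (Pi.single j 1)
      rw [hβ, Matrix.dotProduct_mulVec] at this
      simpa using this
    by_contra hne
    exact h3 (Matrix.exists_vecMul_eq_zero_iff.mp ⟨x, hne, h6⟩)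
  have hdβ : dch β₁ = quadraticChar F N.det := by
    rw [dch_basis β₁ (Pi.basisFun F ι₀)]
    congr 2
    ext i j
    rw [Cfsg.Agent.Lib.ClassNum.ODisc.gram_apply]
    simp [β₁, Matrix.toBilin'_single]
  have hsymm₁ : β₁.IsSymm := ⟨fun a b => hs₁ a b⟩
  have hnd₁ : β₁.Nondegenerate := ⟨fun x hx => hn₁ x hx, fun y hy => hn₁ y (fun x => by rw [hs₁]; exact hy x)⟩
  have hsymm₂ : B.IsSymm := ⟨fun a b => hP.symm a b⟩
  have hnd₂ : B.Nondegenerate := ⟨fun x hx => hP.nd x hx, fun y hy => hP.nd y (fun x => by rw [hP.symm]; exact hy x)⟩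
  obtain ⟨φ, hφ⟩ := exists_iso_of_dch hodd hsymm₁ hnd₁ hsymm₂ hnd₂
    (by rw [Module.finrank_fintype_fun_eq_card, Module.finrank_fintype_fun_eq_card, hcard]) (by rw [hdβ, h5])
  let f₀ : (ι → F) →ₗ[F] (ι → F) := φ.toLinearMap ∘ₗ Matrix.toLin' M ∘ₗ φ.symm.toLinearMap
  have hf₀ : ∀ u, f₀ u = φ (M *ᵥ φ.symm u) := fun u => rfl
  have hβM : ∀ x y, β₁ (M *ᵥ x) (M *ᵥ y) = β₁ x y := by
    intro x y
    rw [hβ, hβ]
    calc (M *ᵥ x) ⬝ᵥ (N *ᵥ (M *ᵥ y)) = x ⬝ᵥ (Mᵀ *ᵥ (N *ᵥ (M *ᵥ y))) := by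
          rw [Matrix.dotProduct_mulVec x, Matrix.vecMul_transpose]
      _ = x ⬝ᵥ ((Mᵀ * N * M) *ᵥ y) := by simp only [Matrix.mulVec_mulVec, Matrix.mul_assoc]
      _ = x ⬝ᵥ (N *ᵥ y) := by rw [h1]
  have hf₀B : ∀ u v, B (f₀ u) (f₀ v) = B u v := by
    intro u v
    rw [hf₀, hf₀, hφ, hβM, ← hφ, LinearEquiv.apply_symm_apply, LinearEquiv.apply_symm_apply]
  have hinj : Function.Injective f₀ := by
    rw [injective_iff_map_eq_zero]
    intro x hx
    apply hP.nd
    intro y
    rw [← hf₀B, hx, map_zero, LinearMap.zero_apply]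
  let E : (ι → F) ≃ₗ[F] (ι → F) := LinearEquiv.ofInjectiveEndo f₀ hinj
  have hE : ∀ u, E u = f₀ u := fun u => rfl
  let P : GL ι F :=
    ⟨LinearMap.toMatrix' E.toLinearMap, LinearMap.toMatrix' E.symm.toLinearMap,
      by
        rw [← LinearMap.toMatrix'_comp]
        simp,
      by
        rw [← LinearMap.toMatrix'_comp]
        simp⟩
  have hPv : ∀ u, (P : Matrix ι ι F) *ᵥ u = E u := fun u => by
    change LinearMap.toMatrix' E.toLinearMap *ᵥ u = _
    rw [LinearMap.toMatrix'_mulVec]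
    rfl
  have hPm : P ∈ Cfsg.isometryGroup F Q := by
    rw [mem_iso]
    intro u
    rw [hPv, hE]
    apply mul_left_cancel₀ hP.h2
    rw [← hP.diag, ← hP.diag, hf₀B]
  refine ⟨⟨P, hPm⟩, ?_⟩
  change (LinearMap.toMatrix' E.toLinearMap).charpoly = f
  have h7 : (LinearMap.toMatrix' E.toLinearMap).charpoly = (E.toLinearMap).charpoly := by
    rw [← LinearMap.toMatrix_eq_toMatrix', LinearMap.charpoly_toMatrix]
  have h8 : E.toLinearMap = φ.conj (Matrix.toLin' M) := LinearMap.ext fun u => rfl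
  rw [h7, h8, LinearEquiv.charpoly_conj, Matrix.charpoly_toLin', h4]

end Transport

end Cfsg.Agent.Lib.ClassNum.OReal
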