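import Mathlib
import Cfsg.Agent.Lib.ClassNum.OReal
import Cfsg.Agent.Lib.Linalg.SemisimpleClasses

/-!
# The lower bound for the number of classes of an orthogonal group
-/

set_option autoImplicit false
set_option linter.unusedSectionVars false
set_option linter.unusedVariables false

open Polynomial Module Matrix
open Cfsg.Agent.Lib.Classical.Herm.Palin
open Cfsg.Agent.Lib.ClassNum.ODisc Cfsg.Agent.Lib.ClassNum.OTop Cfsg.Agent.Lib.ClassNum.OReal
open scoped _root_.Classical

namespace Cfsg.Agent.Lib.ClassNum.OLower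

universe u

variable {F : Type u} [Field F] [Fintype F]

section Chi

theorem ringChar_ne (hodd : Fintype.card F % 2 = 1) : ringChar F ≠ 2 := by
  intro h
  have := FiniteField.even_card_iff_char_two.mp h
  omega

theorem card_chi (hodd : Fintype.card F % 2 = 1) {t : ℤ} (ht : t = 1 ∨ t = -1) :
    2 * (Finset.univ.filter fun a : F => quadraticChar F a = t).card = Fintype.card F - 1 := by
  have hc := ringChar_ne hodd
  have hsum := quadraticChar_sum_zero hc
  have h1 : ∀ a : F, quadraticChar F a = (if quadraticChar F a = 1 then (1 : ℤ) else 0) - (if quadraticChar F a = -1 then (1 : ℤ) else 0) := by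
    intro a
    by_cases ha : a = 0
    · subst ha
      simp
    · rcases quadraticChar_dichotomy ha with h | h <;> simp [h]
  have h2 : ∀ a : F, (1 : ℤ) = (if quadraticChar F a = 1 then (1 : ℤ) else 0) + (if quadraticChar F a = -1 then (1 : ℤ) else 0) + (if a = 0 then (1 : ℤ) else 0) := by
    intro a
    by_cases ha : a = 0
    · subst ha
      simp
    · rcases quadraticChar_dichotomy ha with h | h <;> simp [h, ha]
  have h3 : (0 : ℤ) = ((Finset.univ.filter fun a : F => quadraticChar F a = 1).card : ℤ) -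
      ((Finset.univ.filter fun a : F => quadraticChar F a = -1).card : ℤ) := by
    rw [← hsum]
    conv_lhs => rw [Finset.sum_congr rfl fun a _ => h1 a]
    rw [Finset.sum_sub_distrib, Finset.sum_boole, Finset.sum_boole]
  have h4 : (Fintype.card F : ℤ) = ((Finset.univ.filter fun a : F => quadraticChar F a = 1).card : ℤ) +
      ((Finset.univ.filter fun a : F => quadraticChar F a = -1).card : ℤ) + 1 := by
    have e : (Fintype.card F : ℤ) = ∑ a : F, (1 : ℤ) := by simp
    rw [e, Finset.sum_congr rfl fun a _ => h2 a, Finset.sum_add_distrib, Finset.sum_add_distrib, Finset.sum_boole,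
      Finset.sum_boole, Finset.sum_boole]
    have e0 : (Finset.univ.filter fun x : F => x = 0) = {0} := by
      ext x
      simp
    rw [e0]
    simp
  rcases ht with rfl | rfl <;> omega

theorem exists_delta (hodd : Fintype.card F % 2 = 1) {c₂ c : ℤ} (hc₂ : c₂ = 1 ∨ c₂ = -1) (hc : c = 1 ∨ c = -1) :
    ∃ δ : F, δ ≠ 0 ∧ quadraticChar F δ * c₂ = c := by
  obtain ⟨ν, hν⟩ := FiniteField.exists_nonsquare (ringChar_ne hodd)
  have hν0 : ν ≠ 0 := by
    rintro rfl
    exact hν IsSquare.zero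
  have hχ : quadraticChar F ν = -1 := (quadraticChar_neg_one_iff_not_isSquare).2 hν
  by_cases h : c₂ = c
  · exact ⟨1, one_ne_zero, by rw [map_one, one_mul, h]⟩
  · refine ⟨ν, hν0, ?_⟩
    rw [hχ]
    rcases hc₂ with rfl | rfl <;> rcases hc with rfl | rfl <;> simp_all

theorem chi_cases {x : F} (hx : x ≠ 0) : quadraticChar F x = 1 ∨ quadraticChar F x = -1 := quadraticChar_dichotomy hx

end Chi

section Real

variable {ι : Type} [Fintype ι] [DecidableEq ι] {Q : (ι → F) → F} {B : LinearMap.BilinForm F (ι → F)}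

theorem dch_cases (hP : Polar Q B) : dch B = 1 ∨ dch B = -1 := by
  have h5 := dch_mul_self B hP.symm hP.nd
  have h6 : (dch B - 1) * (dch B + 1) = 0 := by linarith
  rcases mul_eq_zero.mp h6 with h7 | h7
  · left
    linarith
  · right
    linarith

variable {n : ℕ}

theorem eval_one_palin (g : F[X]) : eval 1 (palin g) = eval 2 g := by
  rw [eval_palin (by ring : (1 : F) * 1 = 1), one_pow, one_mul, mul_one]

theorem eval_neg_one_palin (g : F[X]) : eval (-1) (palin g) = (-1) ^ g.natDegree * eval (-2) g := by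
  rw [eval_palin (by ring : (-1 : F) * (-1) = 1)]
  congr 2
  ring

theorem exists_A (hodd : Fintype.card F % 2 = 1) (hP : Polar Q B) (hN : Fintype.card ι = 2 * n) {g : F[X]} (hg : g.Monic)
    (hd : g.natDegree = n) (h1 : eval 2 g ≠ 0) (h2 : eval (-2) g ≠ 0)
    (hc : quadraticChar F (Matrix.J (Fin n) F).det * quadraticChar F (eval 2 g * ((-1) ^ n * eval (-2) g)) = dch B) :
    ∃ x : Cfsg.isometryGroup F Q, ((x : GL ι F) : Matrix ι ι F).charpoly = palin g := by
  subst hd
  apply exists_of_realPair hodd hP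
  · have e1 := eval_one_palin g
    have e2 := eval_neg_one_palin g
    have h := realPair_palin hg (by rw [e1]; exact h1) (by
      rw [e2]
      exact mul_ne_zero (pow_ne_zero _ (neg_ne_zero.mpr one_ne_zero)) h2)
    rw [e1, e2, hc] at h
    exact h
  · rw [(palin_monic hg).2, hN]

theorem exists_B (hodd : Fintype.card F % 2 = 1) (hP : Polar Q B) (hN : Fintype.card ι = 2 * n) {s : F} (hs : s * s = 1)
    {g : F[X]} (hg : g.Monic) (hd : g.natDegree = n) (h1 : eval (2 * s) g = 0) (h2 : eval (-(2 * s)) g ≠ 0) :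
    ∃ x : Cfsg.isometryGroup F Q, ((x : GL ι F) : Matrix ι ι F).charpoly = palin g := by
  have hs' : s = 1 ∨ s = -1 := by
    have h3 : (s - 1) * (s + 1) = 0 := by linear_combination hs
    rcases mul_eq_zero.mp h3 with h4 | h4
    · left
      linear_combination h4
    · right
      linear_combination h4
  obtain ⟨g₂, hfac, hnd⟩ := exists_eq_pow_rootMultiplicity_mul_and_not_dvd g hg.ne_zero (2 * s)
  set a := g.rootMultiplicity (2 * s) with ha
  have ha1 : 1 ≤ a := by
    rw [ha]
    exact (rootMultiplicity_pos hg.ne_zero).mpr h1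
  have hpm : (X - C (2 * s) : F[X]).Monic := monic_X_sub_C _
  have hg₂ : g₂.Monic := by
    rw [hfac] at hg
    exact (hpm.pow a).of_mul_monic_left hg
  have e₀ : eval (2 * s) g₂ ≠ 0 := fun h => hnd (dvd_iff_isRoot.mpr h)
  have e₁ : eval (-(2 * s)) g₂ ≠ 0 := by
    intro h
    apply h2
    rw [hfac, eval_mul, h, mul_zero]
  have hpal : palin g = (X - C s) ^ (2 * a) * palin g₂ := by
    conv_lhs => rw [hfac]
    rw [palin_mul (hpm.pow a) hg₂, palin_pow hpm, palin_X_sub hs, ← pow_mul]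
  have ev₁ : eval 1 (palin g₂) ≠ 0 := by
    rw [eval_one_palin]
    rcases hs' with rfl | rfl
    · simpa using e₀
    · have : (2 : F) = -(2 * -1) := by ring
      rw [this]
      exact e₁
  have ev₂ : eval (-1) (palin g₂) ≠ 0 := by
    rw [eval_neg_one_palin]
    refine mul_ne_zero (pow_ne_zero _ (neg_ne_zero.mpr one_ne_zero)) ?_
    rcases hs' with rfl | rfl
    · have : (-2 : F) = -(2 * 1) := by ring
      rw [this]
      exact e₁
    · have : (-2 : F) = 2 * -1 := by ring
      rw [this]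
      exact e₀
  have hr := realPair_palin hg₂ ev₁ ev₂
  have hc₂ : quadraticChar F (Matrix.J (Fin g₂.natDegree) F).det *
      quadraticChar F (eval 1 (palin g₂) * eval (-1) (palin g₂)) = 1 ∨
      quadraticChar F (Matrix.J (Fin g₂.natDegree) F).det *
      quadraticChar F (eval 1 (palin g₂) * eval (-1) (palin g₂)) = -1 := by
    rw [← map_mul]
    exact chi_cases (mul_ne_zero (Matrix.isUnit_det_J (Fin g₂.natDegree) F).ne_zero (mul_ne_zero ev₁ ev₂))
  obtain ⟨δ, hδ, hδc⟩ := exists_delta hodd hc₂ (dch_cases hP)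
  have hfin := (realPair_scalar hs (m := 2 * a) (by omega) hδ).mul hr
  rw [hδc, ← hpal] at hfin
  apply exists_of_realPair hodd hP hfin
  rw [(palin_monic hg).2, hN, hd]

end Real

section Count

/-- The good pairs of values. -/
def GoodP (κ c : ℤ) (ε : F) (α β : F) : Prop :=
  (α = 0 ∧ β ≠ 0) ∨ (α ≠ 0 ∧ β = 0) ∨ (α ≠ 0 ∧ β ≠ 0 ∧ κ * quadraticChar F (α * (ε * β)) = c)

theorem card_good_zero (κ c : ℤ) (ε : F) : Fintype.card {β : F // GoodP κ c ε 0 β} = Fintype.card F - 1 := by
  have h : ∀ β : F, GoodP κ c ε 0 β ↔ β ≠ 0 := by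
    intro β
    simp [GoodP]
  rw [Fintype.card_congr (Equiv.subtypeEquivRight h), Fintype.card_subtype_compl]
  simp

theorem card_good_ne (hodd : Fintype.card F % 2 = 1) {κ c : ℤ} {ε α : F} (hκ : κ = 1 ∨ κ = -1) (hc : c = 1 ∨ c = -1)
    (hε : ε ≠ 0) (hα : α ≠ 0) : Fintype.card F + 1 ≤ 2 * Fintype.card {β : F // GoodP κ c ε α β} := by
  rw [Fintype.card_subtype]
  obtain ⟨t, ht, hiff⟩ : ∃ t : ℤ, (t = 1 ∨ t = -1) ∧ ∀ β : F, β ≠ 0 → quadraticChar F β = t →
      κ * quadraticChar F (α * (ε * β)) = c := by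
    have h1 := chi_cases (mul_ne_zero hα hε)
    refine ⟨κ * c * quadraticChar F (α * ε), ?_, fun β _ hβ => ?_⟩
    · rcases hκ with rfl | rfl <;> rcases hc with rfl | rfl <;> rcases h1 with h | h <;> simp [h]
    · rw [← mul_assoc, map_mul, hβ]
      rcases hκ with rfl | rfl <;> rcases hc with rfl | rfl <;> rcases h1 with h | h <;> simp [h]
  have hsub : insert 0 (Finset.univ.filter fun a : F => quadraticChar F a = t) ⊆
      Finset.univ.filter fun β : F => GoodP κ c ε α β := by
    intro β hβ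
    rcases Finset.mem_insert.mp hβ with rfl | hβ
    · exact Finset.mem_filter.mpr ⟨Finset.mem_univ _, Or.inr (Or.inl ⟨hα, rfl⟩)⟩
    · have h1 : quadraticChar F β = t := (Finset.mem_filter.mp hβ).2
      have h2 : β ≠ 0 := by
        rintro rfl
        rw [quadraticChar_zero] at h1
        rcases ht with rfl | rfl <;> omega
      exact Finset.mem_filter.mpr ⟨Finset.mem_univ _, Or.inr (Or.inr ⟨hα, h2, hiff β h2 h1⟩)⟩
  have h0 : (0 : F) ∉ Finset.univ.filter fun a : F => quadraticChar F a = t := by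
    intro h
    have h1 : quadraticChar F (0 : F) = t := (Finset.mem_filter.mp h).2
    rw [quadraticChar_zero] at h1
    rcases ht with rfl | rfl <;> omega
  have h3 := Finset.card_le_card hsub
  rw [Finset.card_insert_of_notMem h0] at h3
  have h4 := card_chi hodd ht
  have h5 : 1 < Fintype.card F := Fintype.one_lt_card
  omega

theorem card_pairs (hodd : Fintype.card F % 2 = 1) {κ c : ℤ} {ε : F} (hκ : κ = 1 ∨ κ = -1) (hc : c = 1 ∨ c = -1)
    (hε : ε ≠ 0) : (Fintype.card F - 1) * (Fintype.card F + 3) ≤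
      2 * Fintype.card (Σ α : F, {β : F // GoodP κ c ε α β}) := by
  rw [Fintype.card_sigma, Finset.mul_sum]
  have hsplit : ∑ α : F, 2 * Fintype.card {β : F // GoodP κ c ε α β} =
      2 * Fintype.card {β : F // GoodP κ c ε 0 β} + ∑ α ∈ Finset.univ.erase (0 : F), 2 * Fintype.card {β : F // GoodP κ c ε α β} :=
    (Finset.add_sum_erase _ _ (Finset.mem_univ _)).symm
  rw [hsplit, card_good_zero]
  have h1 : ∑ α ∈ Finset.univ.erase (0 : F), (Fintype.card F + 1) ≤
      ∑ α ∈ Finset.univ.erase (0 : F), 2 * Fintype.card {β : F // GoodP κ c ε α β} :=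
    Finset.sum_le_sum fun α hα => card_good_ne hodd hκ hc hε (Finset.ne_of_mem_erase hα)
  rw [Finset.sum_const, Finset.card_erase_of_mem (Finset.mem_univ _), Finset.card_univ, smul_eq_mul] at h1
  have h5 : 1 < Fintype.card F := Fintype.one_lt_card
  obtain ⟨p, hp⟩ : ∃ p, Fintype.card F = p + 1 := ⟨Fintype.card F - 1, by omega⟩
  rw [hp] at h1 ⊢
  simp only [Nat.add_sub_cancel] at h1 ⊢
  nlinarith

/-- The polynomial with given values at `±2`. -/
noncomputable def mk (g₁ : F[X]) (α β : F) : F[X] :=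
  (X ^ 2 - C 4) * g₁ + (C ((α - β) * 2⁻¹ * 2⁻¹) * X + C ((α + β) * 2⁻¹))

theorem eval_mk_two (h2 : (2 : F) ≠ 0) (g₁ : F[X]) (α β : F) : eval 2 (mk g₁ α β) = α := by
  simp only [mk, eval_add, eval_mul, eval_sub, eval_pow, eval_X, eval_C]
  field_simp
  ring

theorem eval_mk_neg_two (h2 : (2 : F) ≠ 0) (g₁ : F[X]) (α β : F) : eval (-2) (mk g₁ α β) = β := by
  simp only [mk, eval_add, eval_mul, eval_sub, eval_pow, eval_X, eval_C]
  field_simp
  ring

theorem mk_monic {g₁ : F[X]} (hg : g₁.Monic) {d : ℕ} (hd : g₁.natDegree = d) (α β : F) :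
    (mk g₁ α β).Monic ∧ (mk g₁ α β).natDegree = d + 2 := by
  have hP : (X ^ 2 - C 4 : F[X]).Monic := monic_X_pow_sub_C 4 (by norm_num)
  have hPd : (X ^ 2 - C 4 : F[X]).natDegree = 2 := natDegree_X_pow_sub_C
  have hm : ((X ^ 2 - C 4) * g₁ : F[X]).Monic := hP.mul hg
  have hmd : ((X ^ 2 - C 4) * g₁ : F[X]).natDegree = d + 2 := by
    rw [hP.natDegree_mul hg, hPd, hd]
    omega
  have hL : (C ((α - β) * 2⁻¹ * 2⁻¹) * X + C ((α + β) * 2⁻¹) : F[X]).degree < ((X ^ 2 - C 4) * g₁ : F[X]).degree := by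
    rw [degree_eq_natDegree hm.ne_zero, hmd]
    refine lt_of_le_of_lt (degree_linear_le) ?_
    exact_mod_cast (by omega : 1 < d + 2)
  refine ⟨hm.add_of_left hL, ?_⟩
  rw [mk, natDegree_add_eq_left_of_degree_lt hL, hmd]

theorem mk_injective (h2 : (2 : F) ≠ 0) {g₁ g₁' : F[X]} {α α' β β' : F} (h : mk g₁ α β = mk g₁' α' β') :
    g₁ = g₁' ∧ α = α' ∧ β = β' := by
  have e1 : α = α' := by
    have := congrArg (eval 2) h
    rwa [eval_mk_two h2, eval_mk_two h2] at this
  have e2 : β = β' := by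
    have := congrArg (eval (-2)) h
    rwa [eval_mk_neg_two h2, eval_mk_neg_two h2] at this
  subst e1 e2
  refine ⟨?_, rfl, rfl⟩
  have hP : (X ^ 2 - C 4 : F[X]).Monic := monic_X_pow_sub_C 4 (by norm_num)
  simp only [mk, add_left_inj] at h
  exact mul_left_cancel₀ hP.ne_zero h

variable {ι : Type} [Fintype ι] [DecidableEq ι] {Q : (ι → F) → F} {B : LinearMap.BilinForm F (ι → F)} {n : ℕ}

theorem pair_ext {P : F → F → Prop} {M : F[X] → Prop} {a b : {f : F[X] // M f} × (Σ α : F, {β : F // P α β})}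
    (h1 : a.1.1 = b.1.1) (h2 : a.2.1 = b.2.1) (h3 : a.2.2.1 = b.2.2.1) : a = b := by
  obtain ⟨⟨g₁, hg₁⟩, ⟨α, ⟨β, hβ⟩⟩⟩ := a
  obtain ⟨⟨g₂, hg₂⟩, ⟨α', ⟨β', hβ'⟩⟩⟩ := b
  simp only at h1 h2 h3
  subst h1 h2 h3
  rfl

theorem charpoly_of_isConj {y z : Cfsg.isometryGroup F Q} (h : IsConj y z) :
    ((z : GL ι F) : Matrix ι ι F).charpoly = ((y : GL ι F) : Matrix ι ι F).charpoly := by
  obtain ⟨c, hc⟩ := isConj_iff.mp h
  have e : (z : GL ι F) = (c : GL ι F) * (y : GL ι F) * ((c : GL ι F))⁻¹ := by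
    rw [← hc, Subgroup.coe_mul, Subgroup.coe_mul, Subgroup.coe_inv]
  rw [e, Units.val_mul, Units.val_mul, Matrix.charpoly_mul_comm, ← Matrix.mul_assoc, Units.inv_mul, Matrix.one_mul]

/-- Every good pair of values gives an isometry with the corresponding characteristic polynomial. -/
theorem exists_of_good (hodd : Fintype.card F % 2 = 1) (hP : Polar Q B) (hN : Fintype.card ι = 2 * n) {g : F[X]} (hg : g.Monic)
    (hd : g.natDegree = n)
    (h : GoodP (quadraticChar F (Matrix.J (Fin n) F).det) (dch B) ((-1) ^ n) (eval 2 g) (eval (-2) g)) :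
    ∃ x : Cfsg.isometryGroup F Q, ((x : GL ι F) : Matrix ι ι F).charpoly = palin g := by
  rcases h with ⟨h1, h2⟩ | ⟨h1, h2⟩ | ⟨h1, h2, h3⟩
  · refine exists_B hodd hP hN (s := 1) (by ring) hg hd ?_ ?_
    · rw [mul_one]
      exact h1
    · have : (-(2 * 1) : F) = -2 := by ring
      rw [this]
      exact h2
  · refine exists_B hodd hP hN (s := -1) (by ring) hg hd ?_ ?_
    · have : (2 * -1 : F) = -2 := by ring
      rw [this]
      exact h2
    · have : (-(2 * -1) : F) = 2 := by ring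
      rw [this]
      exact h1
  · exact exists_A hodd hP hN hg hd h1 h2 h3

/-- The lower bound. -/
theorem lower (hodd : Fintype.card F % 2 = 1) (hP : Polar Q B) (hn : 2 ≤ n) (hN : Fintype.card ι = 2 * n) :
    Fintype.card F ^ n ≤ 2 * Nat.card (ConjClasses (Cfsg.isometryGroup F Q)) := by
  have h2 : (2 : F) ≠ 0 := Cfsg.Agent.Lib.ClassNum.SpSym.two_ne_zero_of_odd hodd
  obtain ⟨d, rfl⟩ : ∃ d, n = d + 2 := ⟨n - 2, by omega⟩
  haveI : Finite (Matrix ι ι F) := by
    unfold Matrix
    infer_instance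
  haveI : Finite (GL ι F) := Finite.of_injective (fun x : GL ι F => (x : Matrix ι ι F)) Units.val_injective
  haveI : Finite (Cfsg.isometryGroup F Q) := inferInstance
  set κ : ℤ := quadraticChar F (Matrix.J (Fin (d + 2)) F).det with hκdef
  set c : ℤ := dch B with hcdef
  set ε : F := (-1) ^ (d + 2) with hεdef
  have hκ : κ = 1 ∨ κ = -1 := chi_cases (Matrix.isUnit_det_J (Fin (d + 2)) F).ne_zero
  have hc : c = 1 ∨ c = -1 := dch_cases hP
  have hε : ε ≠ 0 := pow_ne_zero _ (neg_ne_zero.mpr one_ne_zero)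
  let Mon := {f : F[X] // f.Monic ∧ f.natDegree = d}
  let Pairs := Σ α : F, {β : F // GoodP κ c ε α β}
  let A := Mon × Pairs
  have hex : ∀ a : A, ∃ x : Cfsg.isometryGroup F Q, ((x : GL ι F) : Matrix ι ι F).charpoly =
      palin (mk a.1.1 a.2.1 a.2.2.1) := by
    intro a
    obtain ⟨hm, hmd⟩ := mk_monic a.1.2.1 a.1.2.2 a.2.1 a.2.2.1
    refine exists_of_good hodd hP hN hm hmd ?_
    rw [eval_mk_two h2, eval_mk_neg_two h2]
    exact a.2.2.2
  choose x hx using hex
  have hinj : Function.Injective (fun a : A => ConjClasses.mk (x a)) := by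
    intro a b hab
    have hconj : IsConj (x a) (x b) := ConjClasses.mk_eq_mk_iff_isConj.mp hab
    have hch := charpoly_of_isConj hconj
    rw [hx, hx] at hch
    obtain ⟨ma, mad⟩ := mk_monic a.1.2.1 a.1.2.2 a.2.1 a.2.2.1
    obtain ⟨mb, mbd⟩ := mk_monic b.1.2.1 b.1.2.2 b.2.1 b.2.2.1
    have hg := palin_injective mb ma (by rw [mad, mbd]) hch
    obtain ⟨e1, e2, e3⟩ := mk_injective h2 hg
    exact pair_ext e1.symm e2.symm e3.symm
  have hle := Nat.card_le_card_of_injective _ hinj
  have hcardA : Nat.card A = Fintype.card F ^ d * Fintype.card Pairs := by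
    rw [Nat.card_prod, Nat.card_eq_fintype_card (α := Pairs)]
    congr 1
    rw [Nat.card_congr (Cfsg.Agent.Lib.Linalg.SemisimpleClasses.monicEquivFun (F := F) d)]
    simp
  have hpairs := card_pairs hodd hκ hc hε
  have hq1 : 1 < Fintype.card F := Fintype.one_lt_card
  have hq : 3 ≤ Fintype.card F := by omega
  have hpoly : Fintype.card F ^ 2 ≤ (Fintype.card F - 1) * (Fintype.card F + 3) := by
    obtain ⟨p, hp⟩ : ∃ p, Fintype.card F = p + 3 := ⟨Fintype.card F - 3, by omega⟩
    rw [hp]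
    simp only [show p + 3 - 1 = p + 2 by omega]
    nlinarith
  calc Fintype.card F ^ (d + 2) = Fintype.card F ^ d * Fintype.card F ^ 2 := pow_add _ _ _
    _ ≤ Fintype.card F ^ d * (2 * Fintype.card Pairs) := Nat.mul_le_mul_left _ (hpoly.trans hpairs)
    _ = 2 * Nat.card A := by rw [hcardA]; ring
    _ ≤ 2 * Nat.card (ConjClasses (Cfsg.isometryGroup F Q)) := Nat.mul_le_mul_left _ hle

end Count

end Cfsg.Agent.Lib.ClassNum.OLower
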