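import Mathlib
import Cfsg.Agent.Lib.Classical.Herm.SSCent
import Cfsg.Agent.Lib.ClassNum.BlockDet

/-!
# How a class of `GU` splits in `SU`

The classes of `SU` of a given type inject into `U₁ ⧸ H`, `U₁` the group of norm-one elements and `H` the group of
determinants of the centralizer in `GU`, and `H` contains the `j`-th powers for all elementary divisors `(f, j)`.
-/

set_option autoImplicit false
set_option linter.unusedSectionVars false
set_option linter.unusedSimpArgs false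
set_option linter.unusedVariables false
set_option linter.style.haveILetI false

open scoped Matrix
open Polynomial Module
open Cfsg
open Cfsg.Agent.Lib.Classical.Herm.Basic Cfsg.Agent.Lib.Classical.Herm.GU
open Cfsg.Agent.Lib.Classical.Herm.NormMat Cfsg.Agent.Lib.Classical.Herm.Wall
open Cfsg.Agent.Lib.Classical.Herm.Block Cfsg.Agent.Lib.Classical.Herm.SU
open Cfsg.Agent.Lib.Classical.Herm.SSCent
open Cfsg.Agent.Lib.Linalg.RCF Cfsg.Agent.Lib.Linalg.RCFType

namespace Cfsg.Agent.Lib.ClassNum.SUFiber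

/-- A subgroup of a cyclic group containing all `j`-th powers has index dividing `j`. -/
theorem index_dvd_of_pow_mem {G : Type*} [CommGroup G] [IsCyclic G] (H : Subgroup G) (j : ℕ)
    (hj : ∀ t : G, t ^ j ∈ H) : H.index ∣ j := by
  obtain ⟨ζ, hζ⟩ := IsCyclic.exists_generator (α := G)
  have hgen : ∀ x : G ⧸ H, x ∈ Subgroup.zpowers (QuotientGroup.mk ζ : G ⧸ H) := by
    intro x
    obtain ⟨y, rfl⟩ := QuotientGroup.mk_surjective x
    obtain ⟨k, rfl⟩ := Subgroup.mem_zpowers_iff.mp (hζ y)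
    exact ⟨k, by simp⟩
  have h1 := orderOf_eq_card_of_forall_mem_zpowers hgen
  have h2 : H.index = orderOf (QuotientGroup.mk ζ : G ⧸ H) := h1.symm
  rw [h2]
  apply orderOf_dvd_of_pow_eq_one
  rw [← QuotientGroup.mk_pow, QuotientGroup.eq_one_iff]
  exact hj ζ

variable {K : Type*} [Field K] [Fintype K] {q : ℕ}

open scoped _root_.Classical

/-- A matrix with an elementary divisor `(f, j)` commutes with invertible matrices of determinant `d ^ j`. -/
theorem exists_commuting_GL_pow {m : ℕ} (M : Matrix (Fin m) (Fin m) K) {a : K[X] × ℕ} (ha : a ∈ matType M)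
    {d : K} (hd : d ≠ 0) :
    ∃ b : GL (Fin m) K, (b : Matrix (Fin m) (Fin m) K) * M = M * b ∧
      (b : Matrix (Fin m) (Fin m) K).det = d ^ a.2 := by
  obtain ⟨C, hC, hdC⟩ := Cfsg.Agent.Lib.ClassNum.BlockDet.exists_commuting_det_block (Matrix.toLin' M) ha hd
  refine ⟨Cfsg.Agent.Lib.Linalg.Bridge.glOfEquiv C, ?_, ?_⟩
  · apply Cfsg.Agent.Lib.Linalg.Bridge.matrix_eq_of_mulVec_eq
    intro v
    rw [← Matrix.mulVec_mulVec, ← Matrix.mulVec_mulVec, Cfsg.Agent.Lib.Linalg.Bridge.glOfEquiv_mulVec,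
      Cfsg.Agent.Lib.Linalg.Bridge.glOfEquiv_mulVec]
    have := hC v
    simpa only [Matrix.toLin'_apply] using this
  · rw [Cfsg.Agent.Lib.Linalg.Bridge.det_glOfEquiv, hdC]

variable (hK : Fintype.card K = q ^ 2)
include hK

/-- The determinant on the centraliser of a self-dual block. -/
theorem exists_det_selfdual_pow {m : ℕ} {a : K[X] × ℕ} (ha : Adm a) (M : Cfsg.GU m K q)
    (hM : matType ((M : GL (Fin m) K) : Matrix (Fin m) (Fin m) K) = {a}) {z : K} (hz : z ^ (q + 1) = 1) :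
    ∃ d : Cfsg.GU m K q, d * M = M * d ∧ ((d : GL (Fin m) K) : Matrix (Fin m) (Fin m) K).det = z ^ a.2 := by
  obtain ⟨δ, hδ, hδz⟩ := exists_hilbert hK hz
  set A : Matrix (Fin m) (Fin m) K := ((M : GL (Fin m) K) : Matrix (Fin m) (Fin m) K) with hA
  have hA1 : cs q A * A = 1 := (mem_GU_iff_cs hK _).1 M.2
  have hA2 : A * cs q A = 1 := mul_eq_one_comm.1 hA1
  obtain ⟨b, hb1, hb2⟩ := exists_commuting_GL_pow A (a := a) (by rw [hM]; exact Multiset.mem_singleton_self a) hδ
  set B : Matrix (Fin m) (Fin m) K := (b : Matrix (Fin m) (Fin m) K) with hB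
  set Bi : Matrix (Fin m) (Fin m) K := ((b⁻¹ : GL (Fin m) K) : Matrix (Fin m) (Fin m) K) with hBi
  have hB1 : B * Bi = 1 := Units.mul_inv b
  have hB2 : Bi * B = 1 := Units.inv_mul b
  have hc1 : cs q B * cs q Bi = 1 := by rw [← cs_mul hK, hB2, cs_one hK]
  have hc2 : cs q Bi * cs q B = 1 := by rw [← cs_mul hK, hB1, cs_one hK]
  -- `cs B` commutes with `A`
  have hcsB : cs q B * A = A * cs q B := by
    have h1 : cs q A * cs q B = cs q B * cs q A := by
      rw [← cs_mul hK, ← cs_mul hK, hb1]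
    calc cs q B * A = (A * cs q A) * (cs q B * A) := by rw [hA2, Matrix.one_mul]
      _ = A * (cs q A * cs q B) * A := by simp only [Matrix.mul_assoc]
      _ = A * (cs q B * cs q A) * A := by rw [h1]
      _ = A * cs q B * (cs q A * A) := by simp only [Matrix.mul_assoc]
      _ = A * cs q B := by rw [hA1, Matrix.mul_one]
  have hBB : B * cs q B = cs q B * B := commute_of_commute ha hM hb1 hcsB
  have hBiA : Bi * A = A * Bi := by
    calc Bi * A = Bi * A * (B * Bi) := by rw [hB1, Matrix.mul_one]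
      _ = Bi * (A * B) * Bi := by simp only [Matrix.mul_assoc]
      _ = Bi * (B * A) * Bi := by rw [hb1]
      _ = (Bi * B) * A * Bi := by simp only [Matrix.mul_assoc]
      _ = A * Bi := by rw [hB2, Matrix.one_mul]
  have hcsBi : cs q Bi * A = A * cs q Bi := by
    calc cs q Bi * A = cs q Bi * A * (cs q B * cs q Bi) := by rw [hc1, Matrix.mul_one]
      _ = cs q Bi * (A * cs q B) * cs q Bi := by simp only [Matrix.mul_assoc]
      _ = cs q Bi * (cs q B * A) * cs q Bi := by rw [hcsB]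
      _ = (cs q Bi * cs q B) * A * cs q Bi := by simp only [Matrix.mul_assoc]
      _ = A * cs q Bi := by rw [hc2, Matrix.one_mul]
  -- `d = b * (cs b)⁻¹`
  let d₀ : GL (Fin m) K := ⟨B * cs q Bi, cs q B * Bi, by
      calc B * cs q Bi * (cs q B * Bi) = B * (cs q Bi * cs q B) * Bi := by simp only [Matrix.mul_assoc]
        _ = 1 := by rw [hc2, Matrix.mul_one, hB1], by
      calc cs q B * Bi * (B * cs q Bi) = cs q B * (Bi * B) * cs q Bi := by simp only [Matrix.mul_assoc]
        _ = 1 := by rw [hB2, Matrix.mul_one, hc1]⟩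
  have hd₀ : (d₀ : Matrix (Fin m) (Fin m) K) = B * cs q Bi := rfl
  have hmem : d₀ ∈ Cfsg.GU m K q := by
    rw [mem_GU_iff_cs hK, hd₀, cs_mul hK, cs_cs hK]
    have hBiB' : Bi * cs q B = cs q B * Bi := by
      calc Bi * cs q B = Bi * cs q B * (B * Bi) := by rw [hB1, Matrix.mul_one]
        _ = Bi * (cs q B * B) * Bi := by simp only [Matrix.mul_assoc]
        _ = Bi * (B * cs q B) * Bi := by rw [hBB]
        _ = (Bi * B) * cs q B * Bi := by simp only [Matrix.mul_assoc]
        _ = cs q B * Bi := by rw [hB2, Matrix.one_mul]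
    calc Bi * cs q B * (B * cs q Bi) = Bi * (cs q B * B) * cs q Bi := by simp only [Matrix.mul_assoc]
      _ = Bi * (B * cs q B) * cs q Bi := by rw [hBB]
      _ = (Bi * B) * (cs q B * cs q Bi) := by simp only [Matrix.mul_assoc]
      _ = 1 := by rw [hB2, hc1, Matrix.mul_one]
  refine ⟨⟨d₀, hmem⟩, ?_, ?_⟩
  · apply Subtype.ext
    apply Units.ext
    show B * cs q Bi * A = A * (B * cs q Bi)
    rw [Matrix.mul_assoc, hcsBi, ← Matrix.mul_assoc, hb1, Matrix.mul_assoc]
  · show (B * cs q Bi).det = z ^ a.2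
    have h4 : (Bi.map (sigma hK)).det = sigma hK Bi.det := ((sigma hK).map_det Bi).symm
    rw [Matrix.det_mul, hb2, cs_eq hK, Matrix.det_transpose, h4, sigma_apply]
    have h3 : Bi.det = (δ ^ a.2)⁻¹ := by
      have := congrArg Matrix.det hB1
      rw [Matrix.det_mul, hb2, Matrix.det_one] at this
      exact eq_inv_of_mul_eq_one_right this
    rw [h3, ← hδz, mul_pow, inv_pow, inv_pow, inv_pow, pow_right_comm]

/-- The pair blocks, with determinants on the centraliser. -/
theorem exists_pair_det_pow {a : K[X] × ℕ} (ha : Adm a) (hX : a.1 ≠ X) :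
    ∃ (m : ℕ) (g : Cfsg.GU m K q),
      matType ((g : GL (Fin m) K) : Matrix (Fin m) (Fin m) K) = {a} + {(dualP hK a.1, a.2)} ∧
      ∀ z : K, z ^ (q + 1) = 1 → ∃ d : Cfsg.GU m K q, d * g = g * d ∧
        ((d : GL (Fin m) K) : Matrix (Fin m) (Fin m) K).det = z ^ a.2 := by
  obtain ⟨m, g, hg⟩ : ∃ (m : ℕ) (g : GL (Fin m) K), matType (g : Matrix (Fin m) (Fin m) K) = {a} :=
    ⟨_, exists_GL_singleton ha hX⟩
  set A : Matrix (Fin m) (Fin m) K := (g : Matrix (Fin m) (Fin m) K) with hA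
  set A' : Matrix (Fin m) (Fin m) K := ((g⁻¹ : GL (Fin m) K) : Matrix (Fin m) (Fin m) K) with hA'
  have h1 : A * A' = 1 := Units.mul_inv g
  have h2 : A' * A = 1 := Units.inv_mul g
  have hs1 : cs q A * cs q A' = 1 := by rw [← cs_mul hK, h2, cs_one hK]
  have hs2 : cs q A' * cs q A = 1 := by rw [← cs_mul hK, h1, cs_one hK]
  have htype : matType (cs q A') = {(dualP hK a.1, a.2)} := by
    rw [matType_star hK g, hg, dualT, Multiset.map_singleton]
  have hHu : IsUnit (hyp K m) := IsUnit.of_mul_eq_one _ (hyp_mul_hyp m)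
  -- block units
  let blkU : ∀ (P P' R R' : Matrix (Fin m) (Fin m) K), P * P' = 1 → P' * P = 1 → R * R' = 1 → R' * R = 1 →
      GL (Fin (m + m)) K := fun P P' R R' a1 a2 a3 a4 =>
    ⟨blkMat P R, blkMat P' R', by rw [← blkMat_mul, a1, a3, blkMat_one], by rw [← blkMat_mul, a2, a4, blkMat_one]⟩
  have hFix : ∀ (P P' : Matrix (Fin m) (Fin m) K), P' * P = 1 →
      cs q (blkMat P (cs q P')) * hyp K m * blkMat P (cs q P') = hyp K m := by
    intro P P' hP
    have hc : cs q P * cs q P' = 1 := by rw [← cs_mul hK, hP, cs_one hK]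
    rw [cs_blk hK, cs_cs hK, blk_hyp_blk, hc, hP]
    rfl
  obtain ⟨Y, hY⟩ := exists_transport hK (cs_hyp hK m) hHu
  let G₀ : GL (Fin (m + m)) K := blkU A A' (cs q A') (cs q A) h1 h2 hs2 hs1
  have hG₀ : (G₀ : Matrix (Fin (m + m)) (Fin (m + m)) K) = blkMat A (cs q A') := rfl
  let g₁ : Cfsg.GU (m + m) K q := ⟨Y * G₀ * Y⁻¹, hY G₀ (by rw [hG₀]; exact hFix A A' h2)⟩
  refine ⟨m + m, g₁, ?_, ?_⟩
  · have hconj : IsConj G₀ (g₁ : GL (Fin (m + m)) K) := isConj_iff.2 ⟨Y, rfl⟩
    rw [← isConj_iff_matType_eq.1 hconj, hG₀, matType_blk, hg, htype]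
  · intro z hz
    obtain ⟨δ, hδ, hδz⟩ := exists_hilbert hK hz
    obtain ⟨b, hb1, hb2⟩ := exists_commuting_GL_pow A (a := a) (by rw [hg]; exact Multiset.mem_singleton_self a) hδ
    set B : Matrix (Fin m) (Fin m) K := (b : Matrix (Fin m) (Fin m) K) with hB
    set Bi : Matrix (Fin m) (Fin m) K := ((b⁻¹ : GL (Fin m) K) : Matrix (Fin m) (Fin m) K) with hBi
    have hB1 : B * Bi = 1 := Units.mul_inv b
    have hB2 : Bi * B = 1 := Units.inv_mul b
    have hc1 : cs q B * cs q Bi = 1 := by rw [← cs_mul hK, hB2, cs_one hK]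
    have hc2 : cs q Bi * cs q B = 1 := by rw [← cs_mul hK, hB1, cs_one hK]
    let D₀ : GL (Fin (m + m)) K := blkU B Bi (cs q Bi) (cs q B) hB1 hB2 hc2 hc1
    have hD₀ : (D₀ : Matrix (Fin (m + m)) (Fin (m + m)) K) = blkMat B (cs q Bi) := rfl
    let d₁ : Cfsg.GU (m + m) K q := ⟨Y * D₀ * Y⁻¹, hY D₀ (by rw [hD₀]; exact hFix B Bi hB2)⟩
    -- commutation on the blocks
    have hBiA : Bi * A = A * Bi := by
      calc Bi * A = Bi * A * (B * Bi) := by rw [hB1, Matrix.mul_one]
        _ = Bi * (A * B) * Bi := by simp only [Matrix.mul_assoc]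
        _ = Bi * (B * A) * Bi := by rw [hb1]
        _ = (Bi * B) * A * Bi := by simp only [Matrix.mul_assoc]
        _ = A * Bi := by rw [hB2, Matrix.one_mul]
    have hBiA' : Bi * A' = A' * Bi := by
      calc Bi * A' = (A' * A) * (Bi * A') := by rw [h2, Matrix.one_mul]
        _ = A' * (A * Bi) * A' := by simp only [Matrix.mul_assoc]
        _ = A' * (Bi * A) * A' := by rw [hBiA]
        _ = A' * Bi * (A * A') := by simp only [Matrix.mul_assoc]
        _ = A' * Bi := by rw [h1, Matrix.mul_one]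
    have hcsc : cs q Bi * cs q A' = cs q A' * cs q Bi := by
      rw [← cs_mul hK, ← cs_mul hK, hBiA']
    have hDG : D₀ * G₀ = G₀ * D₀ := by
      apply Units.ext
      show blkMat B (cs q Bi) * blkMat A (cs q A') = blkMat A (cs q A') * blkMat B (cs q Bi)
      rw [← blkMat_mul, ← blkMat_mul, hb1, hcsc]
    refine ⟨d₁, ?_, ?_⟩
    · apply Subtype.ext
      show Y * D₀ * Y⁻¹ * (Y * G₀ * Y⁻¹) = Y * G₀ * Y⁻¹ * (Y * D₀ * Y⁻¹)
      calc Y * D₀ * Y⁻¹ * (Y * G₀ * Y⁻¹) = Y * (D₀ * G₀) * Y⁻¹ := by group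
        _ = Y * (G₀ * D₀) * Y⁻¹ := by rw [hDG]
        _ = Y * G₀ * Y⁻¹ * (Y * D₀ * Y⁻¹) := by group
    · show (((Y * D₀ * Y⁻¹ : GL (Fin (m + m)) K)) : Matrix (Fin (m + m)) (Fin (m + m)) K).det = z ^ a.2
      rw [Units.val_mul, Units.val_mul, Matrix.det_units_conj, hD₀, det_blkMat, hb2]
      have h4 : (Bi.map (sigma hK)).det = sigma hK Bi.det := ((sigma hK).map_det Bi).symm
      rw [cs_eq hK, Matrix.det_transpose, h4, sigma_apply]
      have h3 : Bi.det = (δ ^ a.2)⁻¹ := by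
        have := congrArg Matrix.det hB1
        rw [Matrix.det_mul, hb2, Matrix.det_one] at this
        exact eq_inv_of_mul_eq_one_right this
      rw [h3, ← hδz, mul_pow, inv_pow, inv_pow, inv_pow, pow_right_comm]

/-- Centralisers in `GU` contain elements of determinant `z ^ j`, for all elementary divisors `(f, j)`. -/
theorem exists_det_commute_pow {n : ℕ} (s : Cfsg.GU n K q) {a : K[X] × ℕ}
    (ha : a ∈ matType ((s : GL (Fin n) K) : Matrix (Fin n) (Fin n) K)) {z : K} (hz : z ^ (q + 1) = 1) :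
    ∃ d : Cfsg.GU n K q, d * s = s * d ∧ ((d : GL (Fin n) K) : Matrix (Fin n) (Fin n) K).det = z ^ a.2 := by
  set τ := matType ((s : GL (Fin n) K) : Matrix (Fin n) (Fin n) K) with hτ
  have hτX := (isGLType_matType (s : GL (Fin n) K)).1
  have hd : dualT hK τ = τ := dualT_matType_of_mem hK (s : GL (Fin n) K) s.2
  have hsum := sum_matType ((s : GL (Fin n) K) : Matrix (Fin n) (Fin n) K)
  rw [Fintype.card_fin] at hsum
  obtain ⟨hA, hX⟩ := hτX a ha
  have h0 : a.1.coeff 0 ≠ 0 := coeff_zero_ne_of_irreducible hA.1 hA.2.1 hX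
  -- a general lemma: transfer along a block decomposition
  have transfer : ∀ (m₁ m₂ : ℕ) (g₁ : Cfsg.GU m₁ K q) (g₂ : Cfsg.GU m₂ K q),
      matType ((g₁ : GL (Fin m₁) K) : Matrix (Fin m₁) (Fin m₁) K) + matType ((g₂ : GL (Fin m₂) K) : Matrix (Fin m₂) (Fin m₂) K) = τ →
      (∃ d₁ : Cfsg.GU m₁ K q, d₁ * g₁ = g₁ * d₁ ∧ ((d₁ : GL (Fin m₁) K) : Matrix (Fin m₁) (Fin m₁) K).det = z ^ a.2) →
      ∃ d : Cfsg.GU n K q, d * s = s * d ∧ ((d : GL (Fin n) K) : Matrix (Fin n) (Fin n) K).det = z ^ a.2 := by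
    intro m₁ m₂ g₁ g₂ ht ⟨d₁, hd₁, hd₂⟩
    have hty : matType (((blkGU hK (g₁, g₂) : Cfsg.GU (m₁ + m₂) K q) : GL (Fin (m₁ + m₂)) K) : Matrix (Fin (m₁ + m₂)) (Fin (m₁ + m₂)) K) = τ := by
      rw [coe_blkGU, matType_blk]
      exact ht
    have hn' : m₁ + m₂ = n := by
      have h1 := sum_matType (((blkGU hK (g₁, g₂) : Cfsg.GU (m₁ + m₂) K q) : GL (Fin (m₁ + m₂)) K) : Matrix (Fin (m₁ + m₂)) (Fin (m₁ + m₂)) K)
      rw [hty, hsum, Fintype.card_fin] at h1
      exact h1.symm
    subst hn'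
    have hconj : IsConj (blkGU hK (g₁, g₂)) s := by
      apply isConj_of_GL hK
      apply isConj_iff_matType_eq.2
      rw [hty]
    obtain ⟨c, hc⟩ := isConj_iff.1 hconj
    let D := blkGU hK (d₁, (1 : Cfsg.GU m₂ K q))
    have hD : D * blkGU hK (g₁, g₂) = blkGU hK (g₁, g₂) * D := by
      rw [← map_mul, ← map_mul]
      congr 1
      apply Prod.ext
      · exact hd₁
      · show 1 * g₂ = g₂ * 1
        group
    refine ⟨c * D * c⁻¹, ?_, ?_⟩
    · rw [← hc]
      calc c * D * c⁻¹ * (c * blkGU hK (g₁, g₂) * c⁻¹) = c * (D * blkGU hK (g₁, g₂)) * c⁻¹ := by group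
        _ = c * (blkGU hK (g₁, g₂) * D) * c⁻¹ := by rw [hD]
        _ = c * blkGU hK (g₁, g₂) * c⁻¹ * (c * D * c⁻¹) := by group
    · show (((c : GL (Fin (m₁ + m₂)) K) * (D : GL (Fin (m₁ + m₂)) K) * (c : GL (Fin (m₁ + m₂)) K)⁻¹ : GL (Fin (m₁ + m₂)) K) : Matrix (Fin (m₁ + m₂)) (Fin (m₁ + m₂)) K).det = z ^ a.2
      rw [Units.val_mul, Units.val_mul, Matrix.det_units_conj]
      show (blkMat _ _).det = z ^ a.2
      rw [det_blkMat]
      have h1 : (((1 : Cfsg.GU m₂ K q) : GL (Fin m₂) K) : Matrix (Fin m₂) (Fin m₂) K).det = 1 := by simp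
      rw [hd₂]
      simp
  obtain ⟨τ₁, hτ₁⟩ := Multiset.exists_cons_of_mem ha
  have hτall : ∀ b ∈ τ, Adm b ∧ b.1 ≠ X := hτX
  by_cases hself : dualP hK a.1 = a.1
  · have hd1 : dualT hK τ₁ = τ₁ := by
      have e : dualT hK (a ::ₘ τ₁) = a ::ₘ dualT hK τ₁ := by
        rw [dualT, Multiset.map_cons]
        congr 1
        exact Prod.ext hself rfl
      rw [hτ₁, e] at hd
      exact (Multiset.cons_inj_right a).1 hd
    obtain ⟨m₁, g₁, hg₁⟩ := exists_unitary_of_dual hK τ₁ (fun b hb => hτall b (by rw [hτ₁]; exact Multiset.mem_cons_of_mem hb)) hd1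
    obtain ⟨m₀, g₀, hg₀⟩ := exists_selfdual hK hA hX hself
    exact transfer m₀ m₁ g₀ g₁ (by rw [hg₀, hg₁, hτ₁]; rfl) (exists_det_selfdual_pow hK hA g₀ hg₀ hz)
  · set a' : K[X] × ℕ := (dualP hK a.1, a.2) with ha'
    have hne : a' ≠ a := fun h => hself (congrArg Prod.fst h)
    have hmem : a' ∈ a ::ₘ τ₁ := by
      rw [← hτ₁, ← hd]
      exact Multiset.mem_map_of_mem _ ha
    have hmem1 : a' ∈ τ₁ := (Multiset.mem_cons.1 hmem).resolve_left hne
    obtain ⟨τ₂, hτ₂⟩ := Multiset.exists_cons_of_mem hmem1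
    have hda' : (dualP hK a'.1, a'.2) = a := Prod.ext (dualP_dualP hK hA.1 h0) rfl
    have hd2 : dualT hK τ₂ = τ₂ := by
      have e : dualT hK (a ::ₘ a' ::ₘ τ₂) = a ::ₘ a' ::ₘ dualT hK τ₂ := by
        rw [dualT, Multiset.map_cons, Multiset.map_cons, hda', Multiset.cons_swap]
        rfl
      rw [hτ₁, hτ₂, e] at hd
      exact (Multiset.cons_inj_right a').1 ((Multiset.cons_inj_right a).1 hd)
    obtain ⟨m₂, g₂, hg₂⟩ := exists_unitary_of_dual hK τ₂
      (fun b hb => hτall b (by rw [hτ₁, hτ₂]; exact Multiset.mem_cons_of_mem (Multiset.mem_cons_of_mem hb))) hd2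
    obtain ⟨m₀, g₀, hg₀, hdet⟩ := exists_pair_det_pow hK hA hX
    exact transfer m₀ m₂ g₀ g₂ (by
      rw [hg₀, hg₂, hτ₁, hτ₂, Multiset.singleton_add, Multiset.cons_add, Multiset.singleton_add]) (hdet z hz)

omit hK

section Fiber

variable {n : ℕ}

/-- The element of `GU` given by an element of `SU`. -/
noncomputable def toGU : Cfsg.SU n K q →* Cfsg.GU n K q :=
  MonoidHom.codRestrict ((Matrix.SpecialLinearGroup.toGL).comp (Cfsg.SU n K q).subtype) (Cfsg.GU n K q) (fun x => x.2)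

/-- The type of an element of `SU`. -/
noncomputable def matU (x : Cfsg.SU n K q) : Multiset (K[X] × ℕ) :=
  matType ((x.1 : Matrix.SpecialLinearGroup (Fin n) K) : Matrix (Fin n) (Fin n) K)

theorem matU_eq (x : Cfsg.SU n K q) :
    matU x = matType (((toGU x : Cfsg.GU n K q) : GL (Fin n) K) : Matrix (Fin n) (Fin n) K) := rfl

/-- The type of a conjugacy class of `SU`. -/
noncomputable def typU (C : ConjClasses (Cfsg.SU n K q)) : Multiset (K[X] × ℕ) := matU (Quotient.out C)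

theorem matU_eq_of_isConj {x y : Cfsg.SU n K q} (h : IsConj x y) : matU x = matU y := by
  have h1 : IsConj x.1 y.1 := (Cfsg.SU n K q).subtype.map_isConj h
  have h2 : IsConj (Matrix.SpecialLinearGroup.toGL x.1) (Matrix.SpecialLinearGroup.toGL y.1) :=
    Matrix.SpecialLinearGroup.toGL.map_isConj h1
  have h3 := isConj_iff_matType_eq.mp h2
  rw [Matrix.SpecialLinearGroup.coe_GL_coe_matrix, Matrix.SpecialLinearGroup.coe_GL_coe_matrix] at h3
  exact h3

theorem typU_mk (x : Cfsg.SU n K q) : typU (ConjClasses.mk x) = matU x := by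
  apply matU_eq_of_isConj
  exact ConjClasses.mk_eq_mk_iff_isConj.mp (Quotient.out_eq (ConjClasses.mk x))

/-- The determinants of the centraliser of `s`. -/
noncomputable def detCentU (s : Cfsg.GU n K q) : Subgroup Kˣ :=
  (Subgroup.centralizer ({s} : Set (Cfsg.GU n K q))).map (detGU n K q)

theorem mem_detCentU {s : Cfsg.GU n K q} {t : Kˣ} :
    t ∈ detCentU s ↔ ∃ d : Cfsg.GU n K q, d * s = s * d ∧ detGU n K q d = t := by
  unfold detCentU
  rw [Subgroup.mem_map]
  constructor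
  · rintro ⟨d, hd, rfl⟩
    rw [Subgroup.mem_centralizer_iff] at hd
    exact ⟨d, (hd s rfl).symm, rfl⟩
  · rintro ⟨d, hd, rfl⟩
    refine ⟨d, ?_, rfl⟩
    rw [Subgroup.mem_centralizer_iff]
    rintro _ rfl
    exact hd.symm

/-- The subgroup of `U₁` of determinants of the centraliser. -/
noncomputable def detCentN (s : Cfsg.GU n K q) : Subgroup (normOne K q) :=
  (detCentU s).subgroupOf (normOne K q)

theorem index_detCentN_dvd (hK : Fintype.card K = q ^ 2) (s : Cfsg.GU n K q) {a : K[X] × ℕ}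
    (ha : a ∈ matType ((s : GL (Fin n) K) : Matrix (Fin n) (Fin n) K)) :
    (detCentN s).index ∣ a.2 := by
  apply index_dvd_of_pow_mem
  intro t
  rw [detCentN, Subgroup.mem_subgroupOf]
  have ht : ((t : Kˣ) : K) ^ (q + 1) = 1 := by
    have h1 := (mem_normOne (t : Kˣ)).1 t.2
    have := congrArg Units.val h1
    simpa using this
  obtain ⟨d, hd, hdet⟩ := exists_det_commute_pow hK s ha ht
  rw [mem_detCentU]
  refine ⟨d, hd, ?_⟩
  apply Units.ext
  simp only [coe_detGU, Subgroup.coe_pow, Units.val_pow_eq_pow_val]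
  exact hdet

theorem detGU_mem_normOne (hK : Fintype.card K = q ^ 2) (g : Cfsg.GU n K q) : detGU n K q g ∈ normOne K q := by
  rw [mem_normOne]
  apply Units.ext
  simp only [Units.val_pow_eq_pow_val, Units.val_one, coe_detGU]
  exact det_pow_succ hK _ g.2

/-- Classes of `SU` of a given type inject into the quotient by the determinants of the centralizer. -/
theorem card_fiber_le_index (hK : Fintype.card K = q ^ 2) (x : Cfsg.SU n K q) :
    Nat.card {C : ConjClasses (Cfsg.SU n K q) // typU C = matU x} ≤ (detCentN (toGU x)).index := by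
  have hP : ∀ C : {C : ConjClasses (Cfsg.SU n K q) // typU C = matU x},
      ∃ P : Cfsg.GU n K q, P * toGU x * P⁻¹ = toGU (Quotient.out C.1) := by
    intro C
    apply isConj_iff.1
    apply isConj_of_GL hK
    apply isConj_iff_matType_eq.2
    have := C.2
    exact this.symm
  choose P hP using hP
  have hH : (detCentN (toGU x)).index = Nat.card (normOne K q ⧸ detCentN (toGU x)) := rfl
  rw [hH]
  refine Nat.card_le_card_of_injective (fun C =>
    (QuotientGroup.mk (⟨detGU n K q (P C), detGU_mem_normOne hK _⟩ : normOne K q) : normOne K q ⧸ detCentN (toGU x))) ?_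
  intro C D hCD
  rw [QuotientGroup.eq, detCentN, Subgroup.mem_subgroupOf, mem_detCentU] at hCD
  obtain ⟨c, hc, hcd⟩ := hCD
  set y : Cfsg.SU n K q := Quotient.out C.1 with hy
  set z : Cfsg.SU n K q := Quotient.out D.1 with hz
  -- the conjugator
  let Q : Cfsg.GU n K q := P D * c⁻¹ * (P C)⁻¹
  have hQd : detGU n K q Q = 1 := by
    have h1 : detGU n K q Q = detGU n K q (P D) * (detGU n K q c)⁻¹ * (detGU n K q (P C))⁻¹ := by
      simp only [Q, map_mul, map_inv]
    have e : detGU n K q c = (detGU n K q (P C))⁻¹ * detGU n K q (P D) := hcd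
    rw [h1, e, mul_inv_rev, inv_inv, mul_inv_cancel_left, mul_inv_cancel]
  have hQm : (((Q : Cfsg.GU n K q) : GL (Fin n) K) : Matrix (Fin n) (Fin n) K).det = 1 := by
    have := congrArg Units.val hQd
    simpa using this
  have hconj : IsConj y z := by
    refine isConj_iff.2 ⟨mkSU _ hQm Q.2, ?_⟩
    have hgu : Q * toGU y * Q⁻¹ = toGU z := by
      have h2 : c⁻¹ * toGU x * c = toGU x := by
        rw [mul_assoc, ← hc, inv_mul_cancel_left]
      calc Q * toGU y * Q⁻¹ = P D * c⁻¹ * (P C)⁻¹ * (P C * toGU x * (P C)⁻¹) * (P D * c⁻¹ * (P C)⁻¹)⁻¹ := by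
            rw [hP C]
        _ = P D * (c⁻¹ * toGU x * c) * (P D)⁻¹ := by group
        _ = P D * toGU x * (P D)⁻¹ := by rw [h2]
        _ = toGU z := hP D
    have hinj : ∀ u v : Cfsg.SU n K q, toGU u = toGU v → u = v := by
      intro u v h
      apply Subtype.ext
      apply Matrix.SpecialLinearGroup.ext
      intro i j
      have h3 := congrArg (fun w : Cfsg.GU n K q => ((w : GL (Fin n) K) : Matrix (Fin n) (Fin n) K) i j) h
      exact h3
    apply hinj
    rw [← hgu, map_mul, map_mul, map_inv]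
    have e : toGU (mkSU _ hQm Q.2 : Cfsg.SU n K q) = Q := Subtype.ext (Units.ext rfl)
    rw [e]
  apply Subtype.ext
  have h6 : (ConjClasses.mk y) = ConjClasses.mk z := ConjClasses.mk_eq_mk_iff_isConj.mpr hconj
  have h7 : ConjClasses.mk y = C.1 := Quotient.out_eq C.1
  have h8 : ConjClasses.mk z = D.1 := Quotient.out_eq D.1
  rw [← h7, ← h8, h6]

end Fiber

end Cfsg.Agent.Lib.ClassNum.SUFiber
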