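import Mathlib
import Cfsg.Agent.Lib.ClassNum.SUFiber
import Cfsg.Agent.Lib.ClassNum.SLCount
import Cfsg.Agent.Lib.Classical.Herm.SSCount

/-!
# Counting classes of `SU` by types

`k(SU_n(q)) ≤ ∑ e(τ)` over self-dual types `τ` of determinant one, where `e(τ) = gcd (q+1, exponents)`, and
`(q + 1) ∑_{det τ = 1} e(τ) ≤ ∑_τ e(τ)²`, by rescaling self-dual polynomials.
-/

set_option autoImplicit false
set_option linter.unusedSectionVars false
set_option linter.unusedSimpArgs false
set_option linter.unusedVariables false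
set_option linter.style.haveILetI false

open Polynomial Module UniqueFactorizationMonoid
open Cfsg
open Cfsg.Agent.Lib.Linalg.RCF Cfsg.Agent.Lib.Linalg.RCFType Cfsg.Agent.S2478
open Cfsg.Agent.Lib.ClassNum.TypeFam Cfsg.Agent.Lib.ClassNum.SUFiber
open Cfsg.Agent.Lib.Classical.Herm.Wall Cfsg.Agent.Lib.Classical.Herm.SU
open Cfsg.Agent.Lib.Classical.Herm.SSCent Cfsg.Agent.Lib.Classical.Herm.SSCount
open scoped Classical

namespace Cfsg.Agent.Lib.ClassNum.SUCount

universe u

/-- The gcd of `q + 1` and a set of exponents. -/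
def eU (q : ℕ) (J : Finset ℕ) : ℕ := Nat.gcd (q + 1) (J.gcd id)

theorem eU_dvd_left (q : ℕ) (J : Finset ℕ) : eU q J ∣ q + 1 := Nat.gcd_dvd_left _ _

theorem eU_dvd_of_mem {q : ℕ} {J : Finset ℕ} {j : ℕ} (hj : j ∈ J) : eU q J ∣ j :=
  (Nat.gcd_dvd_right _ _).trans (Finset.gcd_dvd hj)

theorem dvd_eU {q : ℕ} {J : Finset ℕ} {r : ℕ} (h1 : r ∣ q + 1) (h2 : ∀ j ∈ J, r ∣ j) : r ∣ eU q J :=
  Nat.dvd_gcd h1 (Finset.dvd_gcd h2)

theorem eU_pos (q : ℕ) (J : Finset ℕ) : 0 < eU q J :=
  Nat.gcd_pos_of_pos_left _ (by omega)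

variable {K : Type u} [Field K] [Fintype K] {q : ℕ}

/-- Self-dual types with all parts at most `J` and total size `n`. -/
def SD (hK : Fintype.card K = q ^ 2) (J n : ℕ) : Type u :=
  {τ : S K J n // dualT hK τ.1 = τ.1}

section Classes

variable (hK : Fintype.card K = q ^ 2) {n : ℕ}
include hK

/-- The number of classes of `SU` of a given type is at most `e(τ)`. -/
theorem card_fiber_le_eU (x : Cfsg.SU n K q) :
    Nat.card {C : ConjClasses (Cfsg.SU n K q) // typU C = matU x} ≤ eU q (expo (matU x)) := by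
  refine (card_fiber_le_index hK x).trans (Nat.le_of_dvd (eU_pos _ _) ?_)
  apply dvd_eU
  · rw [← card_normOne hK]
    exact Subgroup.index_dvd_card _
  · intro j hj
    obtain ⟨a, ha, rfl⟩ := mem_expo.mp hj
    exact index_detCentN_dvd hK (toGU x) ha

theorem mem_SD_matU (x : Cfsg.SU n K q) :
    (∀ a ∈ matU x, (Adm a ∧ a.1 ≠ X) ∧ a.2 ≤ n) ∧ ((matU x).map fun a => a.2 * a.1.natDegree).sum = n :=
  Cfsg.Agent.Lib.ClassNum.SLCount.mem_S_matType x.1

theorem dualT_matU (x : Cfsg.SU n K q) : dualT hK (matU x) = matU x := by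
  have := dualT_matType_of_mem hK (Matrix.SpecialLinearGroup.toGL x.1) x.2
  rw [Matrix.SpecialLinearGroup.coe_GL_coe_matrix] at this
  exact this

theorem constProd_matU (x : Cfsg.SU n K q) : constProd (matU x) = (-1) ^ n :=
  Cfsg.Agent.Lib.ClassNum.SLCount.constProd_matType x.1

/-- The type of a class, as an element of `SD hK n n`. -/
noncomputable def tp (C : ConjClasses (Cfsg.SU n K q)) : SD hK n n :=
  ⟨⟨typU C, mem_SD_matU hK (Quotient.out C)⟩, dualT_matU hK (Quotient.out C)⟩

variable [Fintype (SD hK n n)]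

/-- The number of classes of `SU` is bounded by a sum over self-dual types. -/
theorem card_classes_le :
    Nat.card (ConjClasses (Cfsg.SU n K q)) ≤
      ∑ τ : SD hK n n, if constProd τ.1.1 = (-1) ^ n then eU q (expo τ.1.1) else 0 := by
  rw [Nat.card_congr (Equiv.sigmaFiberEquiv (tp hK (n := n))).symm, Nat.card_sigma]
  apply Finset.sum_le_sum
  intro τ _
  by_cases hne : ∃ C, tp hK (n := n) C = τ
  · obtain ⟨C, rfl⟩ := hne
    set x : Cfsg.SU n K q := Quotient.out C with hx
    have h1 : (tp hK C).1.1 = matU x := rfl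
    rw [h1, if_pos (constProd_matU hK x)]
    refine le_trans ?_ (card_fiber_le_eU hK x)
    apply Nat.card_le_card_of_injective
      (fun D : {D // tp hK D = tp hK C} => (⟨D.1, by
        rw [← h1]
        exact congrArg (fun σ : SD hK n n => σ.1.1) D.2⟩ : {D // typU D = matU x}))
    intro a b hab
    apply Subtype.ext
    exact congrArg (fun z : {D : ConjClasses (Cfsg.SU n K q) // typU D = matU x} => z.1) hab
  · have : IsEmpty {C // tp hK (n := n) C = τ} := ⟨fun C => hne ⟨C.1, C.2⟩⟩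
    rw [Nat.card_of_isEmpty]
    exact Nat.zero_le _

end Classes

section Dual

variable (hK : Fintype.card K = q ^ 2)
include hK

theorem dualP_multiset_prod (s : Multiset K[X]) : dualP hK s.prod = (s.map (dualP hK)).prod := by
  induction s using Multiset.induction_on with
  | empty => simp [dualP_one hK]
  | cons f s ih => rw [Multiset.prod_cons, dualP_mul, ih, Multiset.map_cons, Multiset.prod_cons]

theorem hPart_dualT (j : ℕ) (τ : Multiset (K[X] × ℕ)) : hPart j (dualT hK τ) = dualP hK (hPart j τ) := by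
  unfold hPart dualT
  rw [Multiset.filter_map, Multiset.map_map, dualP_multiset_prod, Multiset.map_map]
  rfl

theorem dualP_hPart {τ : Multiset (K[X] × ℕ)} (hτ : dualT hK τ = τ) (j : ℕ) :
    dualP hK (hPart j τ) = hPart j τ := by
  rw [← hPart_dualT, hτ]

theorem normalizedFactors_dualP {p : K[X]} (hm : p.Monic) (h0 : p.coeff 0 ≠ 0) :
    normalizedFactors (dualP hK p) = (normalizedFactors p).map (dualP hK) := by
  have hp : (normalizedFactors p).prod = p := by
    rw [prod_normalizedFactors_eq hm.ne_zero, hm.normalize_eq_self]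
  have hf : ∀ f ∈ normalizedFactors p, f.Monic ∧ Irreducible f ∧ f.coeff 0 ≠ 0 := by
    intro f hf
    have hi := irreducible_of_normalized_factor f hf
    refine ⟨?_, hi, ?_⟩
    · rw [← normalize_normalized_factor f hf]
      exact monic_normalize hi.ne_zero
    · obtain ⟨g, hg⟩ := dvd_of_mem_normalizedFactors hf
      intro h
      apply h0
      rw [hg, mul_coeff_zero, h, zero_mul]
  conv_lhs => rw [← hp, dualP_multiset_prod]
  rw [normalizedFactors_prod_eq]
  · rw [Multiset.map_map]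
    refine Multiset.map_congr rfl fun f hf' => ?_
    obtain ⟨h1, h2, h3⟩ := hf f hf'
    exact (dualP_monic hK h1 h3).normalize_eq_self
  · intro f hf'
    obtain ⟨g, hg, rfl⟩ := Multiset.mem_map.mp hf'
    obtain ⟨h1, h2, h3⟩ := hf g hg
    exact irreducible_dualP hK h1 h3 h2

theorem dualT_ofFam (J : Finset ℕ) (p : ℕ → K[X]) (h : ∀ j ∈ J, (p j).Monic ∧ (p j).coeff 0 ≠ 0) :
    dualT hK (ofFam J p) = ofFam J fun j => dualP hK (p j) := by
  unfold dualT ofFam
  induction J using Finset.induction_on with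
  | empty => simp
  | insert j J hj ih =>
    rw [Finset.sum_insert hj, Finset.sum_insert hj, Multiset.map_add,
      ih (fun k hk => h k (Finset.mem_insert_of_mem hk))]
    congr 1
    obtain ⟨h1, h2⟩ := h j (Finset.mem_insert_self j J)
    rw [normalizedFactors_dualP hK h1 h2, Multiset.map_map, Multiset.map_map]
    rfl

end Dual

section ScalePoly

/-- Rescaling a self-dual polynomial. -/
noncomputable def sU (w a : K) (h : K[X]) : K[X] :=
  C w * h + C (1 - w) * X ^ h.natDegree + C ((a - w) * h.coeff 0)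

theorem sU_coeff (w a : K) (h : K[X]) (i : ℕ) :
    (sU w a h).coeff i = w * h.coeff i + (1 - w) * (if i = h.natDegree then 1 else 0) +
      (if i = 0 then (a - w) * h.coeff 0 else 0) := by
  unfold sU
  rw [coeff_add, coeff_add, coeff_C_mul, coeff_C_mul, coeff_X_pow, coeff_C]

theorem sU_coeff_zero (w a : K) {h : K[X]} (hd : 0 < h.natDegree) : (sU w a h).coeff 0 = a * h.coeff 0 := by
  rw [sU_coeff, if_neg (by omega), if_pos rfl]
  ring

theorem sU_coeff_natDegree (w a : K) {h : K[X]} (hm : h.Monic) (hd : 0 < h.natDegree) :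
    (sU w a h).coeff h.natDegree = 1 := by
  rw [sU_coeff, if_pos rfl, if_neg (by omega), hm.coeff_natDegree]
  ring

theorem sU_coeff_mid (w a : K) {h : K[X]} {i : ℕ} (hi : 0 < i) (hi' : i ≠ h.natDegree) :
    (sU w a h).coeff i = w * h.coeff i := by
  rw [sU_coeff, if_neg hi', if_neg (by omega)]
  ring

theorem sU_natDegree_le (w a : K) (h : K[X]) : (sU w a h).natDegree ≤ h.natDegree := by
  rw [natDegree_le_iff_coeff_eq_zero]
  intro i hi
  rw [sU_coeff, if_neg (by omega), if_neg (by omega), coeff_eq_zero_of_natDegree_lt hi]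
  ring

theorem sU_monic (w a : K) {h : K[X]} (hm : h.Monic) (hd : 0 < h.natDegree) : (sU w a h).Monic :=
  monic_of_natDegree_le_of_coeff_eq_one _ (sU_natDegree_le w a h) (sU_coeff_natDegree w a hm hd)

theorem sU_natDegree (w a : K) {h : K[X]} (hm : h.Monic) (hd : 0 < h.natDegree) :
    (sU w a h).natDegree = h.natDegree :=
  natDegree_eq_of_le_of_coeff_ne_zero (sU_natDegree_le w a h) (by
    rw [sU_coeff_natDegree w a hm hd]
    exact one_ne_zero)

theorem sU_inj {w a : K} (hw : w ≠ 0) (ha : a ≠ 0) {h h' : K[X]} (hm : h.Monic) (hd : 0 < h.natDegree)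
    (hm' : h'.Monic) (hd' : 0 < h'.natDegree) (heq : sU w a h = sU w a h') : h = h' := by
  have h1 : h.natDegree = h'.natDegree := by
    rw [← sU_natDegree w a hm hd, ← sU_natDegree w a hm' hd', heq]
  have h0 : h.coeff 0 = h'.coeff 0 := by
    have := congrArg (fun f => f.coeff 0) heq
    simp only [sU_coeff_zero w a hd, sU_coeff_zero w a hd'] at this
    exact mul_left_cancel₀ ha this
  unfold sU at heq
  rw [h0, h1] at heq
  have h2 := add_right_cancel (add_right_cancel heq)
  exact mul_left_cancel₀ (C_ne_zero.mpr hw) h2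

variable (hK : Fintype.card K = q ^ 2)
include hK

theorem selfdual_coeff {h : K[X]} (hs : dualP hK h = h) {i : ℕ} (hi : i ≤ h.natDegree) :
    h.coeff i = ((h.coeff 0) ^ q)⁻¹ * (h.coeff (h.natDegree - i)) ^ q := by
  conv_lhs => rw [← hs]
  exact coeff_dualP hK hi

theorem selfdual_const {h : K[X]} (hm : h.Monic) (hs : dualP hK h = h) : h.coeff 0 ^ (q + 1) = 1 := by
  have h1 := selfdual_coeff hK hs (i := 0) (Nat.zero_le _)
  rw [Nat.sub_zero, hm.coeff_natDegree, one_pow, mul_one] at h1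
  have h2 : h.coeff 0 ≠ 0 := by
    intro h3
    have hq := Cfsg.Agent.Lib.Classical.Herm.Basic.two_le_q hK
    rw [h3, zero_pow (by omega), inv_zero] at h1
    -- the identity `0 = 0` says nothing: use the degree
    have h4 := congrArg (fun f : K[X] => f) hs
    have h5 := selfdual_coeff hK hs (i := h.natDegree) le_rfl
    rw [hm.coeff_natDegree, h3, zero_pow (by omega), inv_zero, zero_mul] at h5
    exact one_ne_zero h5
  rw [pow_succ]
  have h6 : h.coeff 0 ^ q ≠ 0 := pow_ne_zero _ h2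
  field_simp at h1
  rw [mul_comm]
  exact h1

theorem dualP_eq_of_coeff {f : K[X]} (h0 : f.coeff 0 ≠ 0)
    (hc : ∀ i ≤ f.natDegree, f.coeff i = ((f.coeff 0) ^ q)⁻¹ * (f.coeff (f.natDegree - i)) ^ q) :
    dualP hK f = f := by
  ext i
  by_cases hi : i ≤ f.natDegree
  · rw [coeff_dualP hK hi, ← hc i hi]
  · have hnd : (dualP hK f).natDegree = f.natDegree := natDegree_dualP hK h0
    rw [coeff_eq_zero_of_natDegree_lt (by omega), coeff_eq_zero_of_natDegree_lt (by omega)]

/-- Rescaling keeps self-duality, if `w = a w^q`. -/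
theorem sU_selfdual {w a : K} (ha : a ^ (q + 1) = 1) (hw : w = a * w ^ q) {h : K[X]} (hm : h.Monic)
    (hd : 0 < h.natDegree) (hs : dualP hK h = h) : dualP hK (sU w a h) = sU w a h := by
  have hq := Cfsg.Agent.Lib.Classical.Herm.Basic.two_le_q hK
  have hc := selfdual_const hK hm hs
  have hc0 : h.coeff 0 ≠ 0 := by
    intro h3
    rw [h3, zero_pow (by omega)] at hc
    exact zero_ne_one hc
  have ha0 : a ≠ 0 := by
    intro h3
    rw [h3, zero_pow (by omega)] at ha
    exact zero_ne_one ha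
  have haq : (a ^ q)⁻¹ = a := by
    rw [pow_succ] at ha
    exact inv_eq_of_mul_eq_one_right ha
  have hcq : (h.coeff 0 ^ q) ≠ 0 := pow_ne_zero _ hc0
  have hnd := sU_natDegree w a hm hd
  have h00 := sU_coeff_zero w a hd
  apply dualP_eq_of_coeff hK
  · rw [h00]
    exact mul_ne_zero ha0 hc0
  · intro i hi
    rw [hnd] at hi
    rw [hnd, h00, mul_pow, mul_inv, haq]
    rcases Nat.eq_zero_or_pos i with rfl | hi0
    · rw [Nat.sub_zero, sU_coeff_natDegree w a hm hd, one_pow, mul_one, h00]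
      congr 1
      rw [pow_succ] at hc
      exact (inv_eq_of_mul_eq_one_right hc).symm
    · rcases Nat.lt_or_ge i h.natDegree with hi1 | hi1
      · rw [sU_coeff_mid w a hi0 hi1.ne, sU_coeff_mid w a (by omega) (by omega), selfdual_coeff hK hs hi,
          mul_pow]
        calc w * ((h.coeff 0 ^ q)⁻¹ * h.coeff (h.natDegree - i) ^ q)
            = (a * w ^ q) * ((h.coeff 0 ^ q)⁻¹ * h.coeff (h.natDegree - i) ^ q) := by rw [← hw]
          _ = _ := by ring
      · have h3 : i = h.natDegree := by omega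
        subst h3
        rw [Nat.sub_self, sU_coeff_natDegree w a hm hd, h00, mul_pow]
        have e1 : a * (a ^ q * h.coeff 0 ^ q) = (a * a ^ q) * h.coeff 0 ^ q := by ring
        have e2 : a * a ^ q = 1 := by rw [pow_succ] at ha; exact (mul_comm _ _).trans ha
        have e3 : a * (h.coeff 0 ^ q)⁻¹ * (a ^ q * h.coeff 0 ^ q) = (a * a ^ q) * ((h.coeff 0 ^ q)⁻¹ * h.coeff 0 ^ q) := by ring
        rw [e3, e2, one_mul, inv_mul_cancel₀ hcq]

end ScalePoly

section ScaleType

/-- Rescaling a type with self-dual parts. -/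
noncomputable def scalS (w a : ℕ → K) (τ : Multiset (K[X] × ℕ)) : Multiset (K[X] × ℕ) :=
  ofFam (expo τ) (fun j => sU (w j) (a j) (hPart j τ))

theorem scalS_family {τ : Multiset (K[X] × ℕ)} (h : ∀ a ∈ τ, Adm a) (w a : ℕ → K) :
    ∀ j ∈ expo τ, (sU (w j) (a j) (hPart j τ)).Monic ∧ 0 < (sU (w j) (a j) (hPart j τ)).natDegree := by
  intro j hj
  have hd := natDegree_hPart_pos h hj
  have hm := hPart_monic j τ h
  exact ⟨sU_monic _ _ hm hd, by rw [sU_natDegree _ _ hm hd]; exact hd⟩

theorem expo_scalS {τ : Multiset (K[X] × ℕ)} (h : ∀ a ∈ τ, Adm a) (w a : ℕ → K) :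
    expo (scalS w a τ) = expo τ := expo_ofFam (scalS_family h w a)

theorem hPart_scalS {τ : Multiset (K[X] × ℕ)} (h : ∀ a ∈ τ, Adm a) (w a : ℕ → K) {j : ℕ} (hj : j ∈ expo τ) :
    hPart j (scalS w a τ) = sU (w j) (a j) (hPart j τ) :=
  hPart_ofFam hj (scalS_family h w a j hj).1

theorem tsize_scalS {τ : Multiset (K[X] × ℕ)} (h : ∀ a ∈ τ, Adm a) (w a : ℕ → K) :
    tsize (scalS w a τ) = tsize τ := by
  unfold scalS
  rw [tsize_ofFam _ _ fun j hj => (scalS_family h w a j hj).1, tsize_eq τ h]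
  exact Finset.sum_congr rfl fun j hj => by
    rw [sU_natDegree _ _ (hPart_monic j τ h) (natDegree_hPart_pos h hj)]

theorem constProd_scalS {τ : Multiset (K[X] × ℕ)} (h : ∀ a ∈ τ, Adm a) (w a : ℕ → K) :
    constProd (scalS w a τ) = (∏ j ∈ expo τ, a j ^ j) * constProd τ := by
  unfold scalS
  rw [constProd_ofFam _ _ fun j hj => (scalS_family h w a j hj).1, constProd_eq τ h,
    ← Finset.prod_mul_distrib]
  exact Finset.prod_congr rfl fun j hj => by
    rw [sU_coeff_zero _ _ (natDegree_hPart_pos h hj), mul_pow]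

theorem adm_scalS {τ : Multiset (K[X] × ℕ)} (h : ∀ a ∈ τ, Adm a ∧ a.1 ≠ X) (w a : ℕ → K)
    (ha : ∀ j, a j ≠ 0) : ∀ b ∈ scalS w a τ, Adm b ∧ b.1 ≠ X := by
  intro b hb
  have h' : ∀ a ∈ τ, Adm a := fun a ha => (h a ha).1
  obtain ⟨hj, hf⟩ := mem_ofFam.mp hb
  obtain ⟨a₀, ha₀, h2⟩ := mem_expo.mp hj
  refine ⟨⟨?_, irreducible_of_normalized_factor _ hf, ?_⟩, ?_⟩
  · rw [← normalize_normalized_factor _ hf]
    exact monic_normalize (irreducible_of_normalized_factor _ hf).ne_zero
  · rw [← h2]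
    exact (h' a₀ ha₀).2.2
  · intro hX
    have hd : (X : K[X]) ∣ sU (w b.2) (a b.2) (hPart b.2 τ) := by
      rw [← hX]
      exact dvd_of_mem_normalizedFactors hf
    rw [X_dvd_iff, sU_coeff_zero _ _ (natDegree_hPart_pos h' hj)] at hd
    exact mul_ne_zero (ha _) (hPart_coeff _ _ h) hd

/-- Equal scaling of types with the same exponents recovers them. -/
theorem scalS_inj {τ τ' : Multiset (K[X] × ℕ)} (h : ∀ a ∈ τ, Adm a) (h' : ∀ a ∈ τ', Adm a)
    (hJ : expo τ = expo τ') (w a : ℕ → K) (hw : ∀ j, w j ≠ 0) (ha : ∀ j, a j ≠ 0)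
    (heq : scalS w a τ = scalS w a τ') : τ = τ' := by
  have h1 : ∀ j ∈ expo τ, hPart j τ = hPart j τ' := by
    intro j hj
    have h2 := hPart_scalS h w a hj
    have h3 := hPart_scalS h' w a (hJ ▸ hj)
    rw [heq] at h2
    rw [h2] at h3
    exact sU_inj (hw j) (ha j) (hPart_monic j τ h) (natDegree_hPart_pos h hj) (hPart_monic j τ' h')
      (natDegree_hPart_pos h' (hJ ▸ hj)) h3
  rw [← ofFam_hPart τ h, ← ofFam_hPart τ' h', ← hJ]
  unfold ofFam
  exact Finset.sum_congr rfl fun j hj => by simp only [h1 j hj]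

theorem dualT_scalS (hK : Fintype.card K = q ^ 2) {τ : Multiset (K[X] × ℕ)} (h : ∀ a ∈ τ, Adm a ∧ a.1 ≠ X)
    (hτ : dualT hK τ = τ) (w a : ℕ → K) (ha : ∀ j, a j ^ (q + 1) = 1) (hw : ∀ j, w j = a j * w j ^ q) :
    dualT hK (scalS w a τ) = scalS w a τ := by
  have h' : ∀ a ∈ τ, Adm a := fun a ha => (h a ha).1
  unfold scalS
  rw [dualT_ofFam hK]
  · unfold ofFam
    refine Finset.sum_congr rfl fun j hj => ?_
    beta_reduce
    rw [sU_selfdual hK (ha j) (hw j) (hPart_monic j τ h') (natDegree_hPart_pos h' hj) (dualP_hPart hK hτ j)]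
  · intro j hj
    have hd := natDegree_hPart_pos h' hj
    refine ⟨sU_monic _ _ (hPart_monic j τ h') hd, ?_⟩
    rw [sU_coeff_zero _ _ hd]
    have hq := Cfsg.Agent.Lib.Classical.Herm.Basic.two_le_q hK
    refine mul_ne_zero ?_ (hPart_coeff _ _ h)
    intro h3
    have := ha j
    rw [h3, zero_pow (by omega)] at this
    exact zero_ne_one this

end ScaleType

section Scale

variable (hK : Fintype.card K = q ^ 2)

/-- The map on scaling functions. -/
def rhoU (J : Finset ℕ) : (ℕ → normOne K q) →* normOne K q where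
  toFun a := ∏ j ∈ J, a j ^ j
  map_one' := by simp
  map_mul' a b := by simp [Finset.prod_mul_distrib, mul_pow]

include hK

theorem index_range_rhoU_dvd (J : Finset ℕ) : (rhoU (K := K) (q := q) J).range.index ∣ eU q J := by
  apply dvd_eU
  · rw [← card_normOne hK]
    exact Subgroup.index_dvd_card _
  · intro j hj
    apply index_dvd_of_pow_mem
    intro t
    refine ⟨Function.update 1 j t, ?_⟩
    change ∏ k ∈ J, (Function.update (1 : ℕ → normOne K q) j t k) ^ k = t ^ j
    rw [Finset.prod_eq_single j]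
    · rw [Function.update_self]
    · intro k _ hk
      rw [Function.update_of_ne hk]
      simp
    · intro hj'
      exact absurd hj hj'

theorem exists_wOf (u : normOne K q) : ∃ w : K, w ≠ 0 ∧ w = ((u : Kˣ) : K) * w ^ q := by
  have h1 : (((u : Kˣ) : K)) ^ (q + 1) = 1 := by
    have h2 := (mem_normOne (u : Kˣ)).1 u.2
    have := congrArg Units.val h2
    simpa using this
  obtain ⟨d, hd, hdz⟩ := exists_hilbert hK h1
  refine ⟨d, hd, ?_⟩
  rw [← hdz, inv_pow]
  field_simp

/-- The chosen solution of `w = u w^q`. -/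
noncomputable def wOf (u : normOne K q) : K := (exists_wOf hK u).choose

theorem wOf_ne (u : normOne K q) : wOf hK u ≠ 0 := (exists_wOf hK u).choose_spec.1

theorem wOf_eq (u : normOne K q) : wOf hK u = ((u : Kˣ) : K) * wOf hK u ^ q := (exists_wOf hK u).choose_spec.2

omit hK in
theorem normOne_pow (u : normOne K q) : (((u : Kˣ) : K)) ^ (q + 1) = 1 := by
  have h2 := (mem_normOne (u : Kˣ)).1 u.2
  have := congrArg Units.val h2
  simpa using this

variable {n : ℕ}

/-- Scaling on `SD hK n n`. -/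
noncomputable def scalD (a : ℕ → normOne K q) (τ : SD hK n n) : SD hK n n :=
  ⟨⟨scalS (fun j => wOf hK (a j)) (fun j => ((a j : Kˣ) : K)) τ.1.1, by
    have hadm : ∀ b ∈ τ.1.1, Adm b := fun b hb => (τ.1.2.1 b hb).1.1
    refine ⟨fun b hb => ⟨adm_scalS (fun c hc => (τ.1.2.1 c hc).1) _ _ (fun j => (a j : Kˣ).ne_zero) b hb, ?_⟩, ?_⟩
    · have h1 : b.2 ∈ expo (scalS (fun j => wOf hK (a j)) (fun j => ((a j : Kˣ) : K)) τ.1.1) := mem_expo.mpr ⟨b, hb, rfl⟩
      rw [expo_scalS hadm] at h1
      obtain ⟨c, hc, h2⟩ := mem_expo.mp h1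
      rw [← h2]
      exact (τ.1.2.1 c hc).2
    · have := tsize_scalS hadm (fun j => wOf hK (a j)) (fun j => ((a j : Kˣ) : K))
      unfold tsize at this
      rw [this]
      exact τ.1.2.2⟩,
    dualT_scalS hK (fun c hc => (τ.1.2.1 c hc).1) τ.2 _ _ (fun j => normOne_pow (a j)) (fun j => wOf_eq hK (a j))⟩

variable [Fintype (SD hK n n)]

/-- The main uniformity count for a fixed set of exponents. -/
theorem key_count (J : Finset ℕ) {c₀ : K} (hc₀ : c₀ ≠ 0) :
    (q + 1) * (Finset.univ.filter fun τ : SD hK n n => constProd τ.1.1 = c₀ ∧ expo τ.1.1 = J).card ≤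
      eU q J * (Finset.univ.filter fun τ : SD hK n n => expo τ.1.1 = J).card := by
  set A := Finset.univ.filter fun τ : SD hK n n => constProd τ.1.1 = c₀ ∧ expo τ.1.1 = J with hA
  set B := Finset.univ.filter fun τ : SD hK n n => expo τ.1.1 = J with hB
  set D := (rhoU (K := K) (q := q) J).range with hD
  have hs : ∀ c : D, ∃ a : ℕ → normOne K q, rhoU J a = c := fun c => c.2
  choose s hs using hs
  have hcard : A.card * Nat.card D ≤ B.card := by
    rw [Nat.card_eq_fintype_card, ← Finset.card_univ, ← Finset.card_product]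
    refine Finset.card_le_card_of_injOn (fun x => scalD hK (s x.2) x.1) ?_ ?_
    · rintro ⟨τ, c⟩ hx
      have h1 : τ ∈ A := (Finset.mem_product.mp hx).1
      have h2 := (Finset.mem_filter.mp h1).2.2
      refine Finset.mem_coe.mpr (Finset.mem_filter.mpr ⟨Finset.mem_univ _, ?_⟩)
      change expo (scalS _ _ τ.1.1) = J
      rw [expo_scalS (fun b hb => (τ.1.2.1 b hb).1.1), h2]
    · rintro ⟨τ, c⟩ hx ⟨τ', c'⟩ hx' heq
      have h1 : τ ∈ A := (Finset.mem_product.mp hx).1
      have h1' : τ' ∈ A := (Finset.mem_product.mp hx').1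
      obtain ⟨h2, h3⟩ := (Finset.mem_filter.mp h1).2
      obtain ⟨h2', h3'⟩ := (Finset.mem_filter.mp h1').2
      have hval : scalS (fun j => wOf hK (s c j)) (fun j => ((s c j : Kˣ) : K)) τ.1.1 =
          scalS (fun j => wOf hK (s c' j)) (fun j => ((s c' j : Kˣ) : K)) τ'.1.1 :=
        congrArg (fun σ : SD hK n n => σ.1.1) heq
      have hadm : ∀ b ∈ τ.1.1, Adm b := fun b hb => (τ.1.2.1 b hb).1.1
      have hadm' : ∀ b ∈ τ'.1.1, Adm b := fun b hb => (τ'.1.2.1 b hb).1.1
      have hp : ∀ (e : D) (σ : SD hK n n), expo σ.1.1 = J → constProd σ.1.1 = c₀ →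
          constProd (scalS (fun j => wOf hK (s e j)) (fun j => ((s e j : Kˣ) : K)) σ.1.1) =
            (((e : normOne K q) : Kˣ) : K) * c₀ := by
        intro e σ h4 h5
        rw [constProd_scalS (fun b hb => (σ.1.2.1 b hb).1.1), h4, h5]
        congr 1
        have := congrArg (fun z : normOne K q => ((z : Kˣ) : K)) (hs e)
        beta_reduce at this
        rw [← this]
        change _ = (((∏ j ∈ J, s e j ^ j : normOne K q) : Kˣ) : K)
        have e1 : (((∏ j ∈ J, s e j ^ j : normOne K q) : Kˣ)) = ∏ j ∈ J, ((s e j : Kˣ)) ^ j := by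
          have := map_prod (normOne K q).subtype (fun j => s e j ^ j) J
          simpa using this
        rw [e1, Units.coe_prod]
        simp
      have h5 : (((c : normOne K q) : Kˣ) : K) * c₀ = (((c' : normOne K q) : Kˣ) : K) * c₀ := by
        rw [← hp c τ h3 h2, ← hp c' τ' h3' h2', hval]
      have h6 : c = c' := by
        apply Subtype.ext
        apply Subtype.ext
        apply Units.ext
        exact mul_right_cancel₀ hc₀ h5
      subst h6
      have h7 : τ.1.1 = τ'.1.1 := scalS_inj hadm hadm' (h3.trans h3'.symm) _ _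
        (fun j => wOf_ne hK _) (fun j => (s c j : Kˣ).ne_zero) hval
      have h8 : τ = τ' := Subtype.ext (Subtype.ext h7)
      rw [h8]
  have h1 : q + 1 = D.index * Nat.card D := by
    rw [← card_normOne hK (F := K), Subgroup.index_mul_card]
  have h2 : D.index ≤ eU q J :=
    Nat.le_of_dvd (eU_pos _ _) (index_range_rhoU_dvd hK J)
  calc (q + 1) * A.card = D.index * (A.card * Nat.card D) := by
        rw [h1]; ring
    _ ≤ eU q J * B.card := Nat.mul_le_mul h2 hcard

/-- Summing over all sets of exponents. -/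
theorem sum_le_sum_sq {c₀ : K} (hc₀ : c₀ ≠ 0) :
    (q + 1) * (∑ τ : SD hK n n, if constProd τ.1.1 = c₀ then eU q (expo τ.1.1) else 0) ≤
      ∑ τ : SD hK n n, eU q (expo τ.1.1) ^ 2 := by
  set Js := Finset.univ.image fun τ : SD hK n n => expo τ.1.1 with hJs
  have hmaps : ∀ τ ∈ (Finset.univ : Finset (SD hK n n)), expo τ.1.1 ∈ Js := fun τ _ =>
    Finset.mem_image_of_mem _ (Finset.mem_univ _)
  rw [← Finset.sum_fiberwise_of_maps_to hmaps, ← Finset.sum_fiberwise_of_maps_to hmaps (fun τ : SD hK n n => eU q (expo τ.1.1) ^ 2),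
    Finset.mul_sum]
  apply Finset.sum_le_sum
  intro J _
  have h1 : (∑ τ ∈ Finset.univ.filter (fun τ : SD hK n n => expo τ.1.1 = J),
      if constProd τ.1.1 = c₀ then eU q (expo τ.1.1) else 0) =
      eU q J * (Finset.univ.filter fun τ : SD hK n n => constProd τ.1.1 = c₀ ∧ expo τ.1.1 = J).card := by
    have h2 : (Finset.univ.filter fun τ : SD hK n n => constProd τ.1.1 = c₀ ∧ expo τ.1.1 = J) =
        (Finset.univ.filter fun τ : SD hK n n => expo τ.1.1 = J).filter fun τ => constProd τ.1.1 = c₀ := by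
      ext τ
      simp [and_comm]
    rw [h2, Finset.sum_ite, Finset.sum_const_zero, add_zero, Finset.sum_congr rfl (g := fun _ => eU q J),
      Finset.sum_const, smul_eq_mul, mul_comm]
    intro τ hτ
    rw [(Finset.mem_filter.mp (Finset.mem_filter.mp hτ).1).2]
  have h3 : (∑ τ ∈ Finset.univ.filter (fun τ : SD hK n n => expo τ.1.1 = J), eU q (expo τ.1.1) ^ 2) =
      eU q J ^ 2 * (Finset.univ.filter fun τ : SD hK n n => expo τ.1.1 = J).card := by
    rw [Finset.sum_congr rfl (g := fun _ => eU q J ^ 2), Finset.sum_const, smul_eq_mul, mul_comm]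
    intro τ hτ
    rw [(Finset.mem_filter.mp hτ).2]
  rw [h1, h3]
  have h4 := key_count hK (n := n) J hc₀
  calc (q + 1) * (eU q J * _) = eU q J * ((q + 1) * _) := by ring
    _ ≤ eU q J * (eU q J * _) := Nat.mul_le_mul_left _ h4
    _ = _ := by ring

end Scale

end Cfsg.Agent.Lib.ClassNum.SUCount
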