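import Mathlib
import Cfsg.Agent.Lib.ClassNum.SUCount
import Cfsg.Agent.Lib.ClassNum.SLBound

/-!
# The number of self-dual types; the main inequality for the class number of `SU`
-/

set_option autoImplicit false
set_option linter.unusedSectionVars false
set_option linter.unusedSimpArgs false
set_option linter.unusedVariables false
set_option linter.style.haveILetI false

open Polynomial Module UniqueFactorizationMonoid
open Cfsg
open Cfsg.Agent.Lib.Linalg.RCF Cfsg.Agent.Lib.Linalg.RCFType Cfsg.Agent.S2478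
open Cfsg.Agent.Lib.ClassNum.TypeFam Cfsg.Agent.Lib.ClassNum.SUFiber Cfsg.Agent.Lib.ClassNum.SUCount
open Cfsg.Agent.Lib.ClassNum.SLBound (hfin divTy)
open Cfsg.Agent.Lib.Classical.Herm.Wall Cfsg.Agent.Lib.Classical.Herm.SU
open Cfsg.Agent.Lib.Classical.Herm.SSCent Cfsg.Agent.Lib.Classical.Herm.SSCount
open scoped Classical

namespace Cfsg.Agent.Lib.ClassNum.SUBound

universe u

variable {K : Type u} [Field K] [Fintype K] {q : ℕ}

section Basic

variable (hK : Fintype.card K = q ^ 2)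

theorem finite_SD (J m : ℕ) : Finite (SD hK J m) := by
  have := hfin (F := K) J m
  unfold SD
  infer_instance

/-- The number of self-dual types of size `m`. -/
noncomputable abbrev kS (m : ℕ) : ℕ := Nat.card (SD hK m m)

/-- Monic self-dual polynomials of degree `d` with nonzero constant term. -/
def MonS (d : ℕ) : Type u := {f : K[X] // f.Monic ∧ f.natDegree = d ∧ f.coeff 0 ≠ 0 ∧ dualP hK f = f}

theorem finite_MonS (d : ℕ) : Finite (MonS hK d) := by
  have : Finite {f : K[X] // f.Monic ∧ f.natDegree = d} :=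
    Finite.of_equiv _ (Cfsg.Agent.Lib.Linalg.SemisimpleClasses.monicEquivFun (F := K) d).symm
  refine Finite.of_injective (β := {f : K[X] // f.Monic ∧ f.natDegree = d})
    (fun f : MonS hK d => ⟨f.1, f.2.1, f.2.2.1⟩) ?_
  intro a b hab
  exact Subtype.ext (congrArg (fun x : {f : K[X] // f.Monic ∧ f.natDegree = d} => x.1) hab)

include hK

theorem dualT_filter {τ : Multiset (K[X] × ℕ)} (hτ : dualT hK τ = τ) (j : ℕ) :
    dualT hK (τ.filter fun a => a.2 ≠ j) = τ.filter fun a => a.2 ≠ j := by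
  conv_rhs => rw [← hτ]
  unfold dualT
  rw [Multiset.filter_map]
  rfl

theorem card_MonS_zero : Nat.card (MonS hK 0) = 1 := by
  rw [Nat.card_eq_one_iff_unique]
  refine ⟨⟨?_⟩, ⟨⟨1, Polynomial.monic_one, by simp, by simp, dualP_one hK⟩⟩⟩
  rintro ⟨f, hf, hd, -⟩ ⟨g, hg, hd', -⟩
  apply Subtype.ext
  change f = g
  rw [hf.natDegree_eq_zero] at hd
  rw [hg.natDegree_eq_zero] at hd'
  rw [hd, hd']

theorem card_MonS_succ_le (d : ℕ) : Nat.card (MonS hK (d + 1)) ≤ (q + 1) * q ^ d := by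
  have hq := Cfsg.Agent.Lib.Classical.Herm.Basic.two_le_q hK
  rw [← card_normOne hK (F := K), ← card_selfdual hK d, ← Nat.card_prod]
  have hfin0 : Finite {f : K[X] // f.Monic ∧ f.natDegree = d + 1 ∧ f.coeff 0 = (-1) ^ (d + 1) ∧ dualP hK f = f} := by
    have : Finite {f : K[X] // f.Monic ∧ f.natDegree = d + 1} :=
      Finite.of_equiv _ (Cfsg.Agent.Lib.Linalg.SemisimpleClasses.monicEquivFun (F := K) (d + 1)).symm
    refine Finite.of_injective (β := {f : K[X] // f.Monic ∧ f.natDegree = d + 1})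
      (fun f => ⟨f.1, f.2.1, f.2.2.1⟩) ?_
    intro a b hab
    exact Subtype.ext (congrArg (fun x : {f : K[X] // f.Monic ∧ f.natDegree = d + 1} => x.1) hab)
  let ε : normOne K q := ⟨(-1 : Kˣ) ^ (d + 1), by
    rw [mem_normOne, ← pow_mul, mul_comm, pow_mul]
    have : (-1 : Kˣ) ^ (q + 1) = 1 := by
      apply Units.ext
      simpa using neg_one_pow_succ hK
    rw [this, one_pow]⟩
  have hε : (((ε : normOne K q) : Kˣ) : K) = (-1) ^ (d + 1) := by
    simp [ε]
  let u : MonS hK (d + 1) → normOne K q := fun f =>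
    ⟨Units.mk0 (f.1.coeff 0) f.2.2.2.1, by
      rw [mem_normOne]
      apply Units.ext
      simpa using selfdual_const hK f.2.1 f.2.2.2.2⟩
  have hu : ∀ f, (((u f : normOne K q) : Kˣ) : K) = f.1.coeff 0 := fun f => rfl
  let b : MonS hK (d + 1) → normOne K q := fun f => ε * (u f)⁻¹
  have hb : ∀ f, (((b f : normOne K q) : Kˣ) : K) * f.1.coeff 0 = (-1) ^ (d + 1) := by
    intro f
    have e : (((b f : normOne K q) : Kˣ) : K) = (-1) ^ (d + 1) * (f.1.coeff 0)⁻¹ := by
      rw [← hε, ← hu f]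
      simp [b]
    rw [e, mul_assoc, inv_mul_cancel₀ f.2.2.2.1, mul_one]
  have hpos : ∀ f : MonS hK (d + 1), 0 < f.1.natDegree := fun f => by
    rw [f.2.2.1]
    omega
  refine Nat.card_le_card_of_injective (fun f => (u f, (⟨sU (wOf hK (b f)) ((b f : Kˣ) : K) f.1,
    sU_monic _ _ f.2.1 (hpos f), by rw [sU_natDegree _ _ f.2.1 (hpos f), f.2.2.1], by
      rw [sU_coeff_zero _ _ (hpos f), hb f], sU_selfdual hK (normOne_pow (b f)) (wOf_eq hK (b f)) f.2.1 (hpos f) f.2.2.2.2⟩ :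
      {f : K[X] // f.Monic ∧ f.natDegree = d + 1 ∧ f.coeff 0 = (-1) ^ (d + 1) ∧ dualP hK f = f}))) ?_
  intro f g hfg
  have h1 : u f = u g := congrArg Prod.fst hfg
  have h2 : b f = b g := by
    show ε * (u f)⁻¹ = ε * (u g)⁻¹
    rw [h1]
  have h3 : sU (wOf hK (b f)) ((b f : Kˣ) : K) f.1 = sU (wOf hK (b g)) ((b g : Kˣ) : K) g.1 :=
    congrArg (fun x : normOne K q × {f : K[X] // f.Monic ∧ f.natDegree = d + 1 ∧ f.coeff 0 = (-1) ^ (d + 1) ∧ dualP hK f = f} => x.2.1) hfg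
  rw [← h2] at h3
  exact Subtype.ext (sU_inj (wOf_ne hK _) (b f : Kˣ).ne_zero f.2.1 (hpos f) g.2.1 (hpos g) h3)

/-- The recursion. -/
theorem step_inj (J n : ℕ) :
    Nat.card (SD hK (J + 1) n) ≤
      ∑ d ∈ Finset.range (n / (J + 1) + 1), Nat.card (MonS hK d) * Nat.card (SD hK J (n - (J + 1) * d)) := by
  have hfm := finite_MonS hK
  have hJ := finite_SD hK J
  let T := Σ d : Fin (n / (J + 1) + 1), MonS hK d.1 × SD hK J (n - (J + 1) * d.1)
  have hfT : Finite T := by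
    have := hfm
    have := hJ
    infer_instance
  have hbd : ∀ τ : SD hK (J + 1) n, (hPart (J + 1) τ.1.1).natDegree < n / (J + 1) + 1 := by
    rintro ⟨⟨τ, hτ, hs⟩, -⟩
    have := sum_split (J + 1) τ (fun a ha => (hτ a ha).1.1)
    rw [hs] at this
    have h2 : (hPart (J + 1) τ).natDegree ≤ n / (J + 1) := by
      rw [Nat.le_div_iff_mul_le (Nat.succ_pos J), mul_comm]
      change (J + 1) * _ ≤ n
      omega
    exact Nat.lt_succ_of_le h2
  let φ : SD hK (J + 1) n → T := fun τ =>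
    ⟨⟨(hPart (J + 1) τ.1.1).natDegree, hbd τ⟩,
      ⟨hPart (J + 1) τ.1.1, hPart_monic _ _ (fun a ha => (τ.1.2.1 a ha).1.1), rfl,
        hPart_coeff _ _ (fun a ha => (τ.1.2.1 a ha).1), dualP_hPart hK τ.2 _⟩,
      ⟨⟨τ.1.1.filter (fun a => a.2 ≠ J + 1), by
        intro a ha
        obtain ⟨ha1, ha2⟩ := Multiset.mem_filter.mp ha
        have := τ.1.2.1 a ha1
        exact ⟨this.1, by have := this.2; omega⟩, by
        have := sum_split (J + 1) τ.1.1 (fun a ha => (τ.1.2.1 a ha).1.1)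
        rw [τ.1.2.2] at this
        exact Nat.eq_sub_of_add_eq' this.symm⟩, dualT_filter hK τ.2 _⟩⟩
  let ψ : T → K[X] × Multiset (K[X] × ℕ) := fun t => (t.2.1.1, t.2.2.1.1)
  have hφ : Function.Injective φ := by
    apply Function.Injective.of_comp (f := ψ)
    rintro ⟨⟨τ, hτ⟩, hd⟩ ⟨⟨τ', hτ'⟩, hd'⟩ heq
    have h1 : hPart (J + 1) τ = hPart (J + 1) τ' := congrArg Prod.fst heq
    have h2 : τ.filter (fun a => a.2 ≠ J + 1) = τ'.filter (fun a => a.2 ≠ J + 1) := congrArg Prod.snd heq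
    apply Subtype.ext
    apply Subtype.ext
    change τ = τ'
    rw [← Multiset.filter_add_not (fun a : K[X] × ℕ => a.2 = J + 1) τ,
      ← Multiset.filter_add_not (fun a : K[X] × ℕ => a.2 = J + 1) τ', h2,
      filter_eq_of_hPart (J + 1) τ (fun a ha => (hτ.1 a ha).1.1),
      filter_eq_of_hPart (J + 1) τ' (fun a ha => (hτ'.1 a ha).1.1), h1]
  have h1 := Nat.card_le_card_of_injective φ hφ
  refine h1.trans (le_of_eq ?_)
  rw [Nat.card_sigma]
  rw [Finset.sum_range (fun d => Nat.card (MonS hK d) * Nat.card (SD hK J (n - (J + 1) * d)))]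
  apply Finset.sum_congr rfl
  intro d _
  rw [Nat.card_prod]

theorem card_SD_zero_zero : Nat.card (SD hK 0 0) ≤ 1 := by
  have := finite_S_zero (F := K) 0
  have h1 : Subsingleton (SD hK 0 0) := by
    unfold SD
    infer_instance
  have := finite_SD hK 0 0
  exact Finite.card_le_one_iff_subsingleton.mpr h1

theorem card_SD_zero_pos {m : ℕ} (hm : 1 ≤ m) : Nat.card (SD hK 0 m) = 0 := by
  have := card_S_zero_pos (F := K) hm
  have h1 : IsEmpty (SD hK 0 m) := by
    unfold SD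
    infer_instance
  exact Nat.card_of_isEmpty

theorem card_SD_one_le (m : ℕ) : Nat.card (SD hK 1 m) ≤ Nat.card (MonS hK m) := by
  have h := step_inj hK 0 m
  refine h.trans ?_
  simp only [zero_add, Nat.div_one, one_mul]
  rw [Finset.sum_eq_single m]
  · rw [Nat.sub_self]
    exact (Nat.mul_le_mul_left _ (card_SD_zero_zero hK)).trans (by simp)
  · intro d hd hne
    have h1 := Finset.mem_range.mp hd
    rw [card_SD_zero_pos hK (by omega), mul_zero]
  · intro hm
    exact absurd (Finset.mem_range.mpr (Nat.lt_succ_self m)) hm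

theorem card_SD_one_zero : Nat.card (SD hK 1 0) ≤ 1 :=
  (card_SD_one_le hK 0).trans (le_of_eq (card_MonS_zero hK))

theorem card_SD_one_succ (m : ℕ) : Nat.card (SD hK 1 (m + 1)) ≤ (q + 1) * q ^ m :=
  (card_SD_one_le hK _).trans (card_MonS_succ_le hK m)

theorem kS_one : kS hK 1 ≤ q + 1 := by
  have := card_SD_one_succ hK 0
  simpa using this

theorem kS_two : kS hK 2 ≤ (q + 1) ^ 2 := by
  have h := step_inj hK 1 2
  rw [show 2 / (1 + 1) + 1 = 2 from rfl, Finset.sum_range_succ, Finset.sum_range_one, card_MonS_zero hK] at h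
  have h1 := card_SD_one_succ hK 1
  have h2 := card_SD_one_zero hK
  have h3 := card_MonS_succ_le hK 0
  have h4 : Nat.card (MonS hK 1) * Nat.card (SD hK 1 0) ≤ ((q + 1) * q ^ 0) * 1 := Nat.mul_le_mul h3 h2
  have e : (1 + 1) * 1 = 2 := rfl
  simp only [mul_zero, Nat.sub_zero, one_mul, Nat.sub_self] at h h4
  simp only [pow_zero, mul_one, pow_one] at h1 h4
  have h5 : kS hK 2 ≤ (q + 1) * q + (q + 1) := h.trans (Nat.add_le_add h1 h4)
  nlinarith

end Basic

section Divide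

variable (hK : Fintype.card K = q ^ 2)

/-- Self-dual types all of whose exponents are divisible by `D` are self-dual types of size `n / D`. -/
theorem card_filter_dvd_le {n D : ℕ} (hD : 0 < D) (hDn : D ∣ n) [Fintype (SD hK n n)] :
    (Finset.univ.filter fun τ : SD hK n n => ∀ a ∈ τ.1.1, D ∣ a.2).card ≤ kS hK (n / D) := by
  have := finite_SD hK (n / D) (n / D)
  have hφ : ∀ τ : {τ : SD hK n n // ∀ a ∈ τ.1.1, D ∣ a.2},
      (∀ a ∈ divTy D τ.1.1.1, (Adm a ∧ a.1 ≠ X) ∧ a.2 ≤ n / D) ∧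
        ((divTy D τ.1.1.1).map fun a => a.2 * a.1.natDegree).sum = n / D := by
    rintro ⟨⟨⟨τ, hτ, hs⟩, -⟩, hd⟩
    constructor
    · intro b hb
      obtain ⟨a, ha, rfl⟩ := Multiset.mem_map.mp hb
      obtain ⟨⟨⟨h1, h2, h3⟩, h4⟩, h5⟩ := hτ a ha
      refine ⟨⟨⟨h1, h2, Nat.div_pos (Nat.le_of_dvd h3 (hd a ha)) hD⟩, h4⟩, Nat.div_le_div_right h5⟩
    · change (Multiset.map _ (divTy D τ)).sum = _
      apply Nat.eq_div_of_mul_eq_right hD.ne'
      unfold divTy
      rw [Multiset.map_map, ← Multiset.sum_map_mul_left, ← hs]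
      congr 1
      refine Multiset.map_congr rfl fun a ha => ?_
      simp only [Function.comp]
      rw [← mul_assoc, Nat.mul_div_cancel' (hd a ha)]
  have hψ : ∀ τ : {τ : SD hK n n // ∀ a ∈ τ.1.1, D ∣ a.2}, dualT hK (divTy D τ.1.1.1) = divTy D τ.1.1.1 := by
    intro τ
    conv_rhs => rw [← τ.1.2]
    unfold dualT divTy
    rw [Multiset.map_map, Multiset.map_map]
    rfl
  rw [← Fintype.card_subtype, ← Nat.card_eq_fintype_card]
  refine Nat.card_le_card_of_injective
    (fun τ => (⟨⟨divTy D τ.1.1.1, hφ τ⟩, hψ τ⟩ : SD hK (n / D) (n / D))) ?_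
  rintro ⟨⟨⟨τ, hτ⟩, hτd⟩, hd⟩ ⟨⟨⟨τ', hτ'⟩, hτd'⟩, hd'⟩ heq
  have h1 : divTy D τ = divTy D τ' := congrArg (fun z : SD hK (n / D) (n / D) => z.1.1) heq
  have h2 : ∀ σ : Multiset (K[X] × ℕ), (∀ a ∈ σ, D ∣ a.2) →
      (divTy D σ).map (fun a => (a.1, a.2 * D)) = σ := by
    intro σ hσ
    unfold divTy
    rw [Multiset.map_map]
    conv_rhs => rw [← Multiset.map_id σ]
    refine Multiset.map_congr rfl fun a ha => ?_
    simp only [Function.comp, id]
    rw [Nat.div_mul_cancel (hσ a ha)]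
  apply Subtype.ext
  apply Subtype.ext
  apply Subtype.ext
  change τ = τ'
  rw [← h2 τ hd, ← h2 τ' hd', h1]

/-- The divisors relevant to the sum. -/
def DsU (n q : ℕ) : Finset ℕ := (Nat.divisors (Nat.gcd n (q + 1))).filter fun D => 2 ≤ D

theorem mem_DsU {n q D : ℕ} : D ∈ DsU n q ↔ D ∣ n ∧ D ∣ q + 1 ∧ 2 ≤ D := by
  unfold DsU
  rw [Finset.mem_filter, Nat.mem_divisors, Nat.dvd_gcd_iff]
  have : Nat.gcd n (q + 1) ≠ 0 := (Nat.gcd_pos_of_pos_right _ (by omega)).ne'
  tauto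

variable {n : ℕ} [Fintype (SD hK n n)]

/-- The sum of squares is bounded by the numbers of types. -/
theorem sum_sq_le (hn : 1 ≤ n) :
    ∑ τ : SD hK n n, eU q (expo τ.1.1) ^ 2 ≤
      kS hK n + ∑ D ∈ DsU n q, (D ^ 2 - 1) * kS hK (n / D) := by
  have hpt : ∀ τ : SD hK n n, eU q (expo τ.1.1) ^ 2 ≤
      1 + ∑ D ∈ DsU n q, (D ^ 2 - 1) * (if ∀ a ∈ τ.1.1, D ∣ a.2 then 1 else 0) := by
    intro τ
    set e := eU q (expo τ.1.1) with he
    have he0 : 0 < e := eU_pos _ _
    by_cases he1 : e = 1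
    · rw [he1]
      simp
    have he2 : 2 ≤ e := by omega
    have hall : ∀ a ∈ τ.1.1, e ∣ a.2 := fun a ha => eU_dvd_of_mem (mem_expo.mpr ⟨a, ha, rfl⟩)
    have hen : e ∣ n := by
      rw [← τ.1.2.2]
      apply Multiset.dvd_sum
      intro x hx
      obtain ⟨a, ha, rfl⟩ := Multiset.mem_map.mp hx
      exact (hall a ha).mul_right _
    have hmem : e ∈ DsU n q := mem_DsU.mpr ⟨hen, eU_dvd_left _ _, he2⟩
    have h1 := Finset.single_le_sum (f := fun D => (D ^ 2 - 1) * (if ∀ a ∈ τ.1.1, D ∣ a.2 then 1 else 0))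
      (fun _ _ => Nat.zero_le _) hmem
    simp only [if_pos hall, mul_one] at h1
    have h2 : 1 ≤ e ^ 2 := Nat.one_le_pow _ _ he0
    omega
  refine (Finset.sum_le_sum fun τ _ => hpt τ).trans ?_
  rw [Finset.sum_add_distrib, Finset.sum_const, Finset.card_univ, smul_eq_mul, mul_one,
    ← Nat.card_eq_fintype_card, Finset.sum_comm]
  apply Nat.add_le_add_left
  apply Finset.sum_le_sum
  intro D hD
  obtain ⟨h1, h2, h3⟩ := mem_DsU.mp hD
  rw [← Finset.mul_sum]
  apply Nat.mul_le_mul_left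
  rw [← Finset.card_filter]
  exact card_filter_dvd_le hK (by omega) h1

end Divide

/-- The main inequality for the class number of `SU`. -/
theorem main_ineq (hK : Fintype.card K = q ^ 2) {n : ℕ} (hn : 1 ≤ n) :
    (q + 1) * Nat.card (ConjClasses (Cfsg.SU n K q)) ≤
      kS hK n + ∑ D ∈ DsU n q, (D ^ 2 - 1) * kS hK (n / D) := by
  have := finite_SD hK n n
  letI : Fintype (SD hK n n) := Fintype.ofFinite _
  have h1 := card_classes_le hK (n := n)
  have h2 := sum_le_sum_sq hK (n := n) (c₀ := (-1) ^ n) (pow_ne_zero _ (by simp))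
  exact (Nat.mul_le_mul_left _ h1).trans (h2.trans (sum_sq_le hK hn))

end Cfsg.Agent.Lib.ClassNum.SUBound
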