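import Mathlib
import Cfsg.Agent.Lib.ClassNum.SUBound

/-!
# The recursion for the number of self-dual types, in numbers
-/

set_option autoImplicit false
set_option linter.unusedSectionVars false
set_option linter.unusedSimpArgs false
set_option linter.unusedVariables false

open Cfsg.Agent.Lib.ClassNum.SUCount Cfsg.Agent.Lib.ClassNum.SUBound

namespace Cfsg.Agent.Lib.ClassNum.SUNum

theorem geom_bound {y : ℚ} (h1 : y < 1) (h0 : 0 ≤ y) (M : ℕ) :
    ∑ d ∈ Finset.range M, y ^ (d + 1) ≤ y / (1 - y) := by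
  have h2 : (1 - y) * ∑ d ∈ Finset.range M, y ^ (d + 1) = y - y ^ (M + 1) := by
    induction M with
    | zero => simp
    | succ M ih =>
      rw [Finset.sum_range_succ, mul_add, ih]
      ring
  rw [le_div_iff₀ (by linarith), mul_comm, h2]
  have : 0 ≤ y ^ (M + 1) := pow_nonneg h0 _
  linarith

/-- One step of the recursion. -/
theorem rec_bound {q J : ℕ} (hq : 2 ≤ q) (hJ : 1 ≤ J) (a a' m : ℕ → ℕ) (hm0 : m 0 ≤ 1)
    (hm : ∀ d, m (d + 1) ≤ (q + 1) * q ^ d)
    (hrec : ∀ n, a' n ≤ ∑ d ∈ Finset.range (n / (J + 1) + 1), m d * a (n - (J + 1) * d))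
    {C : ℚ} (hC : 0 ≤ C) (ha : ∀ n, (a n : ℚ) ≤ C * (q : ℚ) ^ n) (n : ℕ) :
    (a' n : ℚ) ≤ C * (1 + ((q : ℚ) + 1) / ((q : ℚ) * ((q : ℚ) ^ J - 1))) * (q : ℚ) ^ n := by
  have hQ : (2 : ℚ) ≤ (q : ℚ) := by exact_mod_cast hq
  generalize hQdef : (q : ℚ) = Q at *
  have hQ0 : 0 < Q := by linarith
  have hx : 2 ≤ Q ^ J := by
    calc (2 : ℚ) ≤ Q := hQ
      _ = Q ^ 1 := (pow_one Q).symm
      _ ≤ Q ^ J := pow_le_pow_right₀ (by linarith) hJ
  set x := Q ^ J with hxdef
  have hx0 : 0 < x := by linarith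
  have hx1 : 0 < x - 1 := by linarith
  set y : ℚ := 1 / x with hy
  have hy0 : 0 ≤ y := by positivity
  have hy1 : y < 1 := by
    rw [hy, div_lt_one hx0]
    linarith
  have h1 : (a' n : ℚ) ≤ ∑ d ∈ Finset.range (n / (J + 1) + 1), (m d : ℚ) * (a (n - (J + 1) * d) : ℚ) := by
    exact_mod_cast hrec n
  rw [Finset.sum_range_succ'] at h1
  have hPn : 0 ≤ Q ^ n := by positivity
  have h2 : (m 0 : ℚ) * (a (n - (J + 1) * 0) : ℚ) ≤ C * Q ^ n := by
    have h3 : (m 0 : ℚ) ≤ 1 := by exact_mod_cast hm0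
    have h4 := ha n
    have h5 : (0 : ℚ) ≤ (a n : ℚ) := by positivity
    simp only [mul_zero, Nat.sub_zero]
    nlinarith
  have h3 : ∀ d ∈ Finset.range (n / (J + 1)),
      (m (d + 1) : ℚ) * (a (n - (J + 1) * (d + 1)) : ℚ) ≤ ((Q + 1) * C * Q ^ n / Q) * y ^ (d + 1) := by
    intro d hd
    have hd1 : d + 1 ≤ n / (J + 1) := Finset.mem_range.mp hd
    have hd2 : (d + 1) * (J + 1) ≤ n := (Nat.le_div_iff_mul_le (Nat.succ_pos J)).mp hd1
    set e := n - (J + 1) * (d + 1) with he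
    have hexp : d + e + 1 + J * (d + 1) = n := by
      have h6 : (J + 1) * (d + 1) = J * (d + 1) + d + 1 := by ring
      have h7 : (d + 1) * (J + 1) = (J + 1) * (d + 1) := mul_comm _ _
      omega
    have h4 : (m (d + 1) : ℚ) ≤ (Q + 1) * Q ^ d := by
      rw [← hQdef]
      exact_mod_cast hm d
    have h5 := ha e
    have h6 : (0 : ℚ) ≤ (a e : ℚ) := by positivity
    have h7 : 0 ≤ (Q + 1) * Q ^ d := by positivity
    have h8 : (m (d + 1) : ℚ) * (a e : ℚ) ≤ ((Q + 1) * Q ^ d) * (C * Q ^ e) := by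
      apply mul_le_mul h4 h5 h6 h7
    refine h8.trans (le_of_eq ?_)
    have h9 : y ^ (d + 1) = 1 / Q ^ (J * (d + 1)) := by
      rw [hy, one_div_pow, hxdef, ← pow_mul]
    rw [h9, ← hexp, pow_add, pow_add, pow_add]
    have : Q ^ (J * (d + 1)) ≠ 0 := by positivity
    field_simp
  have h4 := Finset.sum_le_sum h3
  rw [← Finset.mul_sum] at h4
  have h5 := geom_bound hy1 hy0 (n / (J + 1))
  have h6 : y / (1 - y) = 1 / (x - 1) := by
    rw [hy]
    field_simp
  rw [h6] at h5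
  have h7 : 0 ≤ (Q + 1) * C * Q ^ n / Q := by positivity
  have h8 := mul_le_mul_of_nonneg_left h5 h7
  have h9 : C * (1 + (Q + 1) / (Q * (x - 1))) * Q ^ n = (Q + 1) * C * Q ^ n / Q * (1 / (x - 1)) + C * Q ^ n := by
    field_simp
    ring
  rw [h9]
  linarith

theorem pot_step {Q x A B : ℚ} (hQ : 2 ≤ Q) (hx : 1 < x) (hA : 0 ≤ A)
    (hB : (x - B) * (Q + 1) ≤ (Q - 1) * B * (x - 1)) :
    A * (1 - B / x) * (1 + (Q + 1) / (Q * (x - 1))) ≤ A * (1 - B / (Q * x)) := by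
  have hQ0 : 0 < Q := by linarith
  have hx0 : 0 < x := by linarith
  have hx1 : 0 < x - 1 := by linarith
  have h1 : (1 - B / (Q * x)) - (1 - B / x) * (1 + (Q + 1) / (Q * (x - 1))) =
      ((Q - 1) * B * (x - 1) - (x - B) * (Q + 1)) / (Q * x * (x - 1)) := by
    field_simp
    ring
  have h2 : 0 ≤ ((Q - 1) * B * (x - 1) - (x - B) * (Q + 1)) / (Q * x * (x - 1)) := by
    apply div_nonneg
    · linarith
    · positivity
  have h3 : (1 - B / x) * (1 + (Q + 1) / (Q * (x - 1))) ≤ 1 - B / (Q * x) := by linarith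
  calc A * (1 - B / x) * (1 + (Q + 1) / (Q * (x - 1))) = A * ((1 - B / x) * (1 + (Q + 1) / (Q * (x - 1)))) := by ring
    _ ≤ _ := mul_le_mul_of_nonneg_left h3 hA

universe u

variable {K : Type u} [Field K] [Fintype K] {q : ℕ} (hK : Fintype.card K = q ^ 2)
include hK

theorem card_one_le (n : ℕ) :
    (Nat.card (SD hK 1 n) : ℚ) ≤ (1 + 1 / (q : ℚ)) * (q : ℚ) ^ n := by
  have hq := Cfsg.Agent.Lib.Classical.Herm.Basic.two_le_q hK
  have hQ : (2 : ℚ) ≤ (q : ℚ) := by exact_mod_cast hq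
  have hQ0 : (0 : ℚ) < (q : ℚ) := by linarith
  cases n with
  | zero =>
    have h1 : (Nat.card (SD hK 1 0) : ℚ) ≤ 1 := by exact_mod_cast card_SD_one_zero hK
    have h2 : 0 < 1 / (q : ℚ) := by positivity
    simp only [pow_zero, mul_one]
    linarith
  | succ n =>
    have h1 : (Nat.card (SD hK 1 (n + 1)) : ℚ) ≤ ((q : ℚ) + 1) * (q : ℚ) ^ n := by
      exact_mod_cast card_SD_one_succ hK n
    refine h1.trans (le_of_eq ?_)
    rw [pow_succ]
    field_simp

/-- A step of the recursion, for self-dual types. -/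
theorem step_bound {J : ℕ} (hJ : 1 ≤ J) {C : ℚ} (hC : 0 ≤ C)
    (ha : ∀ n, (Nat.card (SD hK J n) : ℚ) ≤ C * (q : ℚ) ^ n) (n : ℕ) :
    (Nat.card (SD hK (J + 1) n) : ℚ) ≤ C * (1 + ((q : ℚ) + 1) / ((q : ℚ) * ((q : ℚ) ^ J - 1))) * (q : ℚ) ^ n :=
  rec_bound (Cfsg.Agent.Lib.Classical.Herm.Basic.two_le_q hK) hJ (fun n => Nat.card (SD hK J n))
    (fun n => Nat.card (SD hK (J + 1) n)) (fun d => Nat.card (MonS hK d)) (le_of_eq (card_MonS_zero hK))
    (card_MonS_succ_le hK) (step_inj hK J) hC ha n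

/-- The potential bound for `q ≥ 3`. -/
theorem bound_large (hq : 3 ≤ q) (J : ℕ) (n : ℕ) :
    (Nat.card (SD hK (J + 1) n) : ℚ) ≤ 4 * (1 - 2 / (q : ℚ) ^ (J + 1)) * (q : ℚ) ^ n := by
  have hQ : (3 : ℚ) ≤ (q : ℚ) := by exact_mod_cast hq
  have hQ0 : (0 : ℚ) < (q : ℚ) := by linarith
  induction J generalizing n with
  | zero =>
    refine (card_one_le hK n).trans ?_
    apply mul_le_mul_of_nonneg_right _ (by positivity)
    rw [zero_add, pow_one]
    have h1 : (1 + 1 / (q : ℚ)) = (q + 1) / (q : ℚ) := by field_simp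
    have h2 : 4 * (1 - 2 / (q : ℚ)) = (4 * q - 8) / (q : ℚ) := by
      field_simp
      ring
    rw [h1, h2]
    apply div_le_div_of_nonneg_right _ hQ0.le
    linarith
  | succ J ih =>
    have hx : (3 : ℚ) ≤ (q : ℚ) ^ (J + 1) := by
      calc (3 : ℚ) ≤ (q : ℚ) := hQ
        _ = (q : ℚ) ^ 1 := (pow_one _).symm
        _ ≤ (q : ℚ) ^ (J + 1) := pow_le_pow_right₀ (by linarith) (by omega)
    have hC : (0 : ℚ) ≤ 4 * (1 - 2 / (q : ℚ) ^ (J + 1)) := by
      have h1 : 2 / (q : ℚ) ^ (J + 1) ≤ 1 := by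
        rw [div_le_one (by linarith)]
        linarith
      linarith
    have h1 := step_bound hK (J := J + 1) (by omega) hC ih n
    refine h1.trans ?_
    apply mul_le_mul_of_nonneg_right _ (by positivity)
    have h2 := pot_step (Q := (q : ℚ)) (x := (q : ℚ) ^ (J + 1)) (A := 4) (B := 2) (by linarith) (by linarith) (by norm_num)
      (by nlinarith)
    have h3 : (q : ℚ) ^ (J + 1 + 1) = (q : ℚ) * (q : ℚ) ^ (J + 1) := pow_succ' _ _
    rw [h3]
    exact h2

theorem kS_le_large (hq : 3 ≤ q) (n : ℕ) : kS hK n ≤ 4 * q ^ n := by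
  cases n with
  | zero =>
    have h1 := card_SD_zero_zero hK
    simp only [pow_zero, mul_one]
    unfold kS
    omega
  | succ n =>
    have h1 := bound_large hK hq n (n + 1)
    have h2 : (0 : ℚ) < 2 / (q : ℚ) ^ (n + 1) := by
      have : (0 : ℚ) < (q : ℚ) := by
        have : (3 : ℚ) ≤ (q : ℚ) := by exact_mod_cast hq
        linarith
      positivity
    have h3 : (0 : ℚ) ≤ (q : ℚ) ^ (n + 1) := by positivity
    have h4 : (Nat.card (SD hK (n + 1) (n + 1)) : ℚ) ≤ 4 * (q : ℚ) ^ (n + 1) := by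
      refine h1.trans ?_
      apply mul_le_mul_of_nonneg_right _ h3
      linarith
    exact_mod_cast h4

/-- The potential bound for `q = 2`. -/
theorem bound_two (hq : q = 2) (J : ℕ) (n : ℕ) :
    (Nat.card (SD hK (J + 3) n) : ℚ) ≤ 9 * (1 - 3 / (2 : ℚ) ^ (J + 3)) * (2 : ℚ) ^ n := by
  subst hq
  induction J generalizing n with
  | zero =>
    have h1 : ∀ m, (Nat.card (SD hK 1 m) : ℚ) ≤ (3 / 2) * ((2 : ℕ) : ℚ) ^ m := by
      intro m
      have := card_one_le hK m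
      refine this.trans (le_of_eq ?_)
      norm_num
    have h2 : ∀ m, (Nat.card (SD hK 2 m) : ℚ) ≤ (15 / 4) * ((2 : ℕ) : ℚ) ^ m := by
      intro m
      have := step_bound hK (J := 1) le_rfl (by norm_num) h1 m
      refine this.trans (le_of_eq ?_)
      norm_num
    have h3 := step_bound hK (J := 2) (by omega) (by norm_num) h2 n
    refine h3.trans (le_of_eq ?_)
    norm_num
  | succ J ih =>
    have hx : (8 : ℚ) ≤ (2 : ℚ) ^ (J + 3) := by
      calc (8 : ℚ) = (2 : ℚ) ^ 3 := by norm_num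
        _ ≤ (2 : ℚ) ^ (J + 3) := pow_le_pow_right₀ (by norm_num) (by omega)
    have hC : (0 : ℚ) ≤ 9 * (1 - 3 / (2 : ℚ) ^ (J + 3)) := by
      have h1 : 3 / (2 : ℚ) ^ (J + 3) ≤ 1 := by
        rw [div_le_one (by linarith)]
        linarith
      linarith
    have h1 := step_bound hK (J := J + 3) (by omega) hC (fun m => by
      have := ih m
      push_cast
      exact this) n
    push_cast at h1
    refine h1.trans ?_
    apply mul_le_mul_of_nonneg_right _ (by positivity)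
    have h2 := pot_step (Q := (2 : ℚ)) (x := (2 : ℚ) ^ (J + 3)) (A := 9) (B := 3) (by norm_num) (by linarith) (by norm_num)
      (by nlinarith)
    have h3 : (2 : ℚ) ^ (J + 1 + 3) = 2 * (2 : ℚ) ^ (J + 3) := by
      rw [show J + 1 + 3 = (J + 3) + 1 by omega, pow_succ']
    rw [h3]
    exact h2

theorem kS_le_two (hq : q = 2) (n : ℕ) : kS hK n ≤ 9 * 2 ^ n := by
  by_cases hn : 3 ≤ n
  · obtain ⟨J, rfl⟩ : ∃ J, n = J + 3 := ⟨n - 3, by omega⟩
    have h1 := bound_two hK hq J (J + 3)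
    have h2 : (0 : ℚ) < 3 / (2 : ℚ) ^ (J + 3) := by positivity
    have h3 : (0 : ℚ) ≤ (2 : ℚ) ^ (J + 3) := by positivity
    have h4 : (Nat.card (SD hK (J + 3) (J + 3)) : ℚ) ≤ 9 * (2 : ℚ) ^ (J + 3) := by
      refine h1.trans ?_
      apply mul_le_mul_of_nonneg_right _ h3
      linarith
    exact_mod_cast h4
  · have h0 := card_SD_zero_zero hK
    have h1 := kS_one hK
    have h2 := kS_two hK
    subst hq
    have : n = 0 ∨ n = 1 ∨ n = 2 := by omega
    rcases this with rfl | rfl | rfl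
    · unfold kS
      omega
    · omega
    · omega

end Cfsg.Agent.Lib.ClassNum.SUNum
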